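import Mathlib
import Cfsg.Agent.Helper5.Dickson2
import Cfsg.Agent.Helper5.OmegaCrit

/-!
Characteristic-free consequences of generation by reflections for the isometry group of a
quadratic form with non-degenerate polar form over a finite field (dimension four over the field
with two elements excluded): squares lie in the commutator subgroup, the commutator subgroup
lies in every index-two subgroup of the special isometry group, and an abstract uniqueness
criterion for index-two subgroups.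
-/

set_option autoImplicit false

namespace Cfsg.Agent.Helper5

theorem unique_index_two {G : Type*} [Group G] (S Ω : Subgroup G) (ψ : G →* ℤˣ)
    (hΩ : ∀ g ∈ S, g ∈ Ω ↔ ψ g = 1) (s : G) (hs : s ∈ S) (hψs : ψ s = -1)
    (hsq : ∀ H : Subgroup ↥S, H.index = 2 → Ω.subgroupOf S ≤ H) :
    ∃! H : Subgroup ↥S, H.index = 2 := by
  have hK : (Ω.subgroupOf S).index = 2 := by
    rw [Subgroup.index_eq_two_iff_exists_notMem_and']
    refine ⟨⟨s, hs⟩, ?_, fun b => ?_⟩
    · rw [Subgroup.mem_subgroupOf, hΩ s hs, hψs]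
      decide
    · rw [Subgroup.mem_subgroupOf, Subgroup.mem_subgroupOf]
      rcases Int.units_eq_one_or (ψ (b : G)) with h5 | h5
      · right
        exact (hΩ _ b.2).2 h5
      · left
        have e : ((⟨s, hs⟩ * b : ↥S) : G) = s * (b : G) := rfl
        rw [e, hΩ _ (S.mul_mem hs b.2), map_mul, hψs, h5]
        rfl
  refine ⟨Ω.subgroupOf S, hK, fun H hH => ?_⟩
  have hle := hsq H hH
  have h1 := Subgroup.relIndex_mul_index hle
  rw [hH, hK] at h1
  have h3 : (Ω.subgroupOf S).relIndex H = 1 := by omega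
  exact le_antisymm (Subgroup.relIndex_eq_one.1 h3) hle

section

variable {F : Type*} [Field F] {κ : Type} [Fintype κ] [DecidableEq κ]

theorem mem_SO_iff (Qf : (κ → F) → F) (g : ↥(Cfsg.isometryGroup F Qf)) :
    g ∈ Cfsg.specialIsometryGroup F Qf ↔
      ((g : Matrix.GeneralLinearGroup κ F) : Matrix κ κ F).det = 1 := by
  change Matrix.GeneralLinearGroup.det (g : Matrix.GeneralLinearGroup κ F) = 1 ↔ _
  constructor
  · intro h
    have h4 := congrArg (fun u : Fˣ => (u : F)) h
    simpa using h4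
  · intro h
    apply Units.ext
    rw [Matrix.GeneralLinearGroup.val_det_apply]
    exact h

theorem actsRefl_det (Q : QuadraticForm F (κ → F)) (r : ↥(Cfsg.isometryGroup F ⇑Q))
    (w : κ → F) (hw : Q w ≠ 0) (hr : ActsRefl Q r w) :
    ((r : Matrix.GeneralLinearGroup κ F) : Matrix κ κ F).det = -1 := by
  have her : r = reflEl Q w hw := actsRefl_unique Q r _ w hr (actsRefl_reflEl Q w hw)
  rw [her]
  exact Cfsg.Agent.Helper6.reflectionMatrix_det Q w hw

omit [Fintype κ] [DecidableEq κ] in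
theorem exists_nonsing (Q : QuadraticForm F (κ → F))
    (hQ : (QuadraticMap.polarBilin Q).Nondegenerate) (i₀ : κ) : ∃ w, Q w ≠ 0 := by
  by_contra hcon
  push Not at hcon
  have h0 : ∀ v : κ → F, v = 0 := by
    intro v
    apply hQ.1 v
    intro y
    change QuadraticMap.polar (⇑Q) v y = 0
    rw [kit_polar_def, hcon, hcon, hcon]
    ring
  have h1 := h0 (fun _ => 1)
  have h3 := congrFun h1 i₀
  exact one_ne_zero h3

variable [Fintype F]

/-- Induction over products of reflections, in any characteristic. -/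
theorem refl_induction_all (Q : QuadraticForm F (κ → F))
    (hQ : (QuadraticMap.polarBilin Q).Nondegenerate)
    (h : Fintype.card F ≠ 2 ∨ Fintype.card κ ≠ 4)
    (P : ↥(Cfsg.isometryGroup F ⇑Q) → Prop) (h1 : P 1) (hmul : ∀ a b, P a → P b → P (a * b))
    (hrefl : ∀ g w, Q w ≠ 0 → ActsRefl Q g w → P g) (g : ↥(Cfsg.isometryGroup F ⇑Q)) : P g := by
  by_cases h2 : (2 : F) = 0
  · exact refl_induction2 h2 Q hQ h P h1 hmul hrefl g
  · exact refl_induction h2 Q hQ P h1 hmul hrefl g

open scoped commutatorElement in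
theorem comm_le_of_refl (Q : QuadraticForm F (κ → F))
    (hQ : (QuadraticMap.polarBilin Q).Nondegenerate)
    (h : Fintype.card F ≠ 2 ∨ Fintype.card κ ≠ 4)
    (T : Subgroup ↥(Cfsg.isometryGroup F ⇑Q)) (hT : T.Normal)
    (hrr : ∀ r r' w w', Q w ≠ 0 → Q w' ≠ 0 → ActsRefl Q r w → ActsRefl Q r' w' →
      (r * r') * (r * r') ∈ T) :
    commutator ↥(Cfsg.isometryGroup F ⇑Q) ≤ T := by
  have key : ∀ a b : ↥(Cfsg.isometryGroup F ⇑Q), ⁅a, b⁆ ∈ T := by
    intro a
    refine refl_induction_all Q hQ h (fun a => ∀ b, ⁅a, b⁆ ∈ T) ?_ ?_ ?_ a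
    · intro b
      rw [commutatorElement_one_left]
      exact T.one_mem
    · intro a₁ a₂ h1 h3 b
      have e : ⁅a₁ * a₂, b⁆ = (a₁ * ⁅a₂, b⁆ * a₁⁻¹) * ⁅a₁, b⁆ := by
        simp only [commutatorElement_def]
        group
      rw [e]
      exact T.mul_mem (hT.conj_mem _ (h3 b) a₁) (h1 b)
    · intro r w hw hr b
      refine refl_induction_all Q hQ h (fun b => ⁅r, b⁆ ∈ T) ?_ ?_ ?_ b
      · rw [commutatorElement_one_right]
        exact T.one_mem
      · intro b₁ b₂ h1 h3
        have e : ⁅r, b₁ * b₂⁆ = ⁅r, b₁⁆ * (b₁ * ⁅r, b₂⁆ * b₁⁻¹) := by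
          simp only [commutatorElement_def]
          group
        rw [e]
        exact T.mul_mem h1 (hT.conj_mem _ h3 b₁)
      · intro r' w' hw' hr'
        have e : ⁅r, r'⁆ = (r * r') * (r * r') := by
          rw [commutatorElement_def, inv_eq_of_mul_eq_one_left (actsRefl_sq Q r w hw hr),
            inv_eq_of_mul_eq_one_left (actsRefl_sq Q r' w' hw' hr')]
          group
        rw [e]
        exact hrr r r' w w' hw hw' hr hr'
  rw [commutator_def, Subgroup.commutator_le]
  intro a _ b _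
  exact key a b

theorem omega_le_index_two (Q : QuadraticForm F (κ → F))
    (hQ : (QuadraticMap.polarBilin Q).Nondegenerate)
    (h : Fintype.card F ≠ 2 ∨ Fintype.card κ ≠ 4)
    (H : Subgroup ↥(Cfsg.specialIsometryGroup F ⇑Q)) (hH : H.index = 2) :
    (commutator ↥(Cfsg.isometryGroup F ⇑Q)).subgroupOf (Cfsg.specialIsometryGroup F ⇑Q) ≤ H := by
  classical
  obtain ⟨T, hT⟩ : ∃ T : Subgroup ↥(Cfsg.isometryGroup F ⇑Q), T = Subgroup.normalClosure
      {x | ∃ g ∈ Cfsg.specialIsometryGroup F ⇑Q, x = g * g} := ⟨_, rfl⟩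
  have hTn : T.Normal := by
    rw [hT]
    exact Subgroup.normalClosure_normal
  have hSOn : (Cfsg.specialIsometryGroup F ⇑Q).Normal := by
    unfold Cfsg.specialIsometryGroup
    exact MonoidHom.normal_ker _
  have hTH : T ≤ H.map (Cfsg.specialIsometryGroup F ⇑Q).subtype := by
    rw [hT]
    change Subgroup.closure (Group.conjugatesOfSet _) ≤ _
    rw [Subgroup.closure_le]
    intro x hx
    rw [Group.mem_conjugatesOfSet_iff] at hx
    obtain ⟨y, ⟨g, hg, rfl⟩, hyx⟩ := hx
    obtain ⟨c, hc⟩ := isConj_iff.1 hyx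
    have hcg : c * g * c⁻¹ ∈ Cfsg.specialIsometryGroup F ⇑Q := hSOn.conj_mem g hg c
    refine Subgroup.mem_map.2 ⟨⟨c * g * c⁻¹, hcg⟩ * ⟨c * g * c⁻¹, hcg⟩,
      Subgroup.mul_self_mem_of_index_two hH _, ?_⟩
    rw [← hc]
    change (c * g * c⁻¹) * (c * g * c⁻¹) = c * (g * g) * c⁻¹
    group
  have hΩT : commutator ↥(Cfsg.isometryGroup F ⇑Q) ≤ T := by
    apply comm_le_of_refl Q hQ h T hTn
    intro r r' w w' hw hw' hr hr'
    rw [hT]
    apply Subgroup.subset_normalClosure
    refine ⟨r * r', ?_, rfl⟩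
    rw [mem_SO_iff, Subgroup.coe_mul, Units.val_mul, Matrix.det_mul, actsRefl_det Q r w hw hr,
      actsRefl_det Q r' w' hw' hr']
    ring
  intro x hx
  rw [Subgroup.mem_subgroupOf] at hx
  obtain ⟨z, hz, hzx⟩ := Subgroup.mem_map.1 (hTH (hΩT hx))
  have hzx' : z = x := Subtype.ext hzx
  rw [← hzx']
  exact hz

theorem sq_mem_omega (Q : QuadraticForm F (κ → F))
    (hQ : (QuadraticMap.polarBilin Q).Nondegenerate)
    (h : Fintype.card F ≠ 2 ∨ Fintype.card κ ≠ 4) (i₀ i₁ : κ) (hi : i₀ ≠ i₁)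
    (a : ↥(Cfsg.isometryGroup F ⇑Q)) : a * a ∈ commutator ↥(Cfsg.isometryGroup F ⇑Q) := by
  by_cases h2 : (2 : F) = 0
  · rw [omega2_iff h2 Q hQ h, map_mul]
    exact Int.units_mul_self _
  · rw [omega_mem_iff h2 i₀ i₁ hi Q hQ, map_mul, Subgroup.coe_mul, Units.val_mul, Matrix.det_mul]
    refine ⟨Int.units_mul_self _, ?_⟩
    rcases Cfsg.Agent.Helper6.isometry_det_sq Q hQ a.1 a.2 with h5 | h5
    · rw [h5, mul_one]
    · rw [h5]
      ring

end

end Cfsg.Agent.Helper5
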