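import Mathlib
import Cfsg.Agent.Helper5.OmegaCrit

/-!
For a quadratic form with non-degenerate polar form on a coordinate space over any finite index
type with two distinct indices, over a finite field of odd characteristic: a surjective
homomorphism from the isometry group onto a Klein four-group whose kernel is the commutator
subgroup.
-/

set_option autoImplicit false

namespace Cfsg.Agent.Helper5

theorem omega_charK {F : Type*} [Field F] [Fintype F] {κ : Type} [Fintype κ] [DecidableEq κ]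
    (h2 : (2 : F) ≠ 0) (i₀ i₁ : κ) (hi : i₀ ≠ i₁)
    (Q : QuadraticForm F (κ → F)) (hQ : (QuadraticMap.polarBilin Q).Nondegenerate) :
    ∃ Ψ : ↥(Cfsg.isometryGroup F ⇑Q) →* ℤˣ × ℤˣ, Function.Surjective Ψ ∧
      Ψ.ker = commutator ↥(Cfsg.isometryGroup F ⇑Q) := by
  have hchar : ringChar F ≠ 2 := by
    intro h
    apply h2
    have h3 := CharP.cast_eq_zero F (ringChar F)
    rw [h] at h3
    exact_mod_cast h3
  obtain ⟨ε, hε⟩ := FiniteField.exists_nonsquare hchar
  have hε0 : ε ≠ 0 := by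
    rintro rfl
    exact hε IsSquare.zero
  obtain ⟨u, hu⟩ := exists_norm_valK h2 i₀ i₁ hi Q hQ 1
  obtain ⟨v, hv⟩ := exists_norm_valK h2 i₀ i₁ hi Q hQ ε
  have hu0 : Q u ≠ 0 := by
    rw [hu]
    exact one_ne_zero
  have hv0 : Q v ≠ 0 := by
    rw [hv]
    exact hε0
  obtain ⟨π, hπ⟩ : ∃ π : ↥(Cfsg.isometryGroup F ⇑Q) →*
      Abelianization ↥(Cfsg.isometryGroup F ⇑Q), π = Abelianization.of := ⟨_, rfl⟩
  obtain ⟨χ₁, hχ₁⟩ : ∃ χ₁ : ↥(Cfsg.isometryGroup F ⇑Q) →* ℤˣ, χ₁ = chi Q 1 := ⟨_, rfl⟩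
  obtain ⟨χ₂, hχ₂⟩ : ∃ χ₂ : ↥(Cfsg.isometryGroup F ⇑Q) →* ℤˣ, χ₂ = chi Q ε := ⟨_, rfl⟩
  have key : ∀ g w, Q w ≠ 0 → ActsRefl Q g w →
      (IsSquare (Q w) → χ₁ g = -1 ∧ χ₂ g = 1 ∧ π g = π (reflEl Q u hu0)) ∧
      (¬ IsSquare (Q w) → χ₁ g = 1 ∧ χ₂ g = -1 ∧ π g = π (reflEl Q v hv0)) := by
    intro g w hw hg
    have hc1 := chi_refl h2 Q 1 one_ne_zero w hw g hg
    have hc2 := chi_refl h2 Q ε hε0 w hw g hg
    constructor
    · rintro ⟨r, hr⟩
      have hr0 : r ≠ 0 := by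
        rintro rfl
        apply hw
        rw [hr, mul_zero]
      have hrr : r⁻¹ * r = 1 := inv_mul_cancel₀ hr0
      refine ⟨?_, ?_, ?_⟩
      · rw [hχ₁]
        apply hc1.1
        refine ⟨r⁻¹, ?_⟩
        rw [hr]
        linear_combination (r⁻¹ * r + 1) * hrr
      · rw [hχ₂]
        apply hc2.2
        rintro ⟨t, ht⟩
        apply hε
        refine ⟨t * r, ?_⟩
        rw [← ht, hr]
        ring
      · apply refl_class h2 Q π (reflEl Q u hu0) g u w (actsRefl_reflEl Q u hu0) hg r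
          (by rw [hu, mul_one]; exact hr) hw
    · intro hns
      obtain ⟨r, hr⟩ := Cfsg.Agent.Helper6.isSquare_div_of_not_isSquare hns hε
      have hr' : Q w = r * r * ε := by
        rw [← hr, div_mul_cancel₀ _ hε0]
      have hr0 : r ≠ 0 := by
        rintro rfl
        apply hw
        rw [hr', mul_zero, zero_mul]
      have hrr : r⁻¹ * r = 1 := inv_mul_cancel₀ hr0
      refine ⟨?_, ?_, ?_⟩
      · rw [hχ₁]
        apply hc1.2
        rintro ⟨t, ht⟩
        have ht0 : t ≠ 0 := by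
          rintro rfl
          rw [mul_zero, zero_mul] at ht
          exact zero_ne_one ht
        apply hns
        refine ⟨t⁻¹, ?_⟩
        have htt : t⁻¹ * t = 1 := inv_mul_cancel₀ ht0
        linear_combination (t⁻¹ * t⁻¹) * ht - (Q w * (t⁻¹ * t + 1)) * htt
      · rw [hχ₂]
        apply hc2.1
        refine ⟨r⁻¹, ?_⟩
        rw [hr']
        linear_combination (ε * (r⁻¹ * r + 1)) * hrr
      · apply refl_class h2 Q π (reflEl Q v hv0) g v w (actsRefl_reflEl Q v hv0) hg r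
          (by rw [hv]; exact hr') hw
  have hP : ∀ g, ∃ i j : ℕ, π g = π (reflEl Q u hu0) ^ i * π (reflEl Q v hv0) ^ j ∧
      χ₁ g = (-1) ^ i ∧ χ₂ g = (-1) ^ j := by
    apply refl_induction h2 Q hQ
    · exact ⟨0, 0, by simp, by simp, by simp⟩
    · rintro a b ⟨i, j, h1, h3, h4⟩ ⟨i', j', h1', h3', h4'⟩
      refine ⟨i + i', j + j', ?_, ?_, ?_⟩
      · rw [map_mul, h1, h1', pow_add, pow_add]
        exact mul_mul_mul_comm _ _ _ _
      · rw [map_mul, h3, h3', pow_add]
      · rw [map_mul, h4, h4', pow_add]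
    · intro g w hw hg
      by_cases hsq : IsSquare (Q w)
      · obtain ⟨h3, h4, h5⟩ := (key g w hw hg).1 hsq
        exact ⟨1, 0, by rw [h5, pow_one, pow_zero, mul_one], by rw [h3, pow_one],
          by rw [h4, pow_zero]⟩
      · obtain ⟨h3, h4, h5⟩ := (key g w hw hg).2 hsq
        exact ⟨0, 1, by rw [h5, pow_one, pow_zero, one_mul], by rw [h3, pow_zero],
          by rw [h4, pow_one]⟩
  have hsqu : IsSquare (Q u) := ⟨1, by rw [hu, mul_one]⟩
  have hnsv : ¬ IsSquare (Q v) := by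
    rw [hv]
    exact hε
  obtain ⟨hu1, hu2, -⟩ := (key (reflEl Q u hu0) u hu0 (actsRefl_reflEl Q u hu0)).1 hsqu
  obtain ⟨hv1, hv2, -⟩ := (key (reflEl Q v hv0) v hv0 (actsRefl_reflEl Q v hv0)).2 hnsv
  have hsq : ∀ w (hw : Q w ≠ 0), reflEl Q w hw * reflEl Q w hw = 1 := by
    intro w hw
    apply isoActF_injective ⇑Q
    apply LinearEquiv.ext
    intro x
    rw [map_mul, LinearEquiv.mul_apply, map_one, actsRefl_reflEl Q w hw,
      actsRefl_reflEl Q w hw]
    exact (reflEquiv Q w hw).left_inv x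
  refine ⟨χ₁.prod χ₂, ?_, ?_⟩
  · rintro ⟨x, y⟩
    rcases Int.units_eq_one_or x with rfl | rfl
    · rcases Int.units_eq_one_or y with rfl | rfl
      · exact ⟨1, map_one _⟩
      · refine ⟨reflEl Q v hv0, ?_⟩
        rw [MonoidHom.prod_apply, hv1, hv2]
    · rcases Int.units_eq_one_or y with rfl | rfl
      · refine ⟨reflEl Q u hu0, ?_⟩
        rw [MonoidHom.prod_apply, hu1, hu2]
      · refine ⟨reflEl Q u hu0 * reflEl Q v hv0, ?_⟩
        rw [map_mul, MonoidHom.prod_apply, MonoidHom.prod_apply, hu1, hu2, hv1, hv2,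
          Prod.mk_mul_mk, mul_one, one_mul]
  · apply le_antisymm
    · intro g hg
      rw [MonoidHom.mem_ker, MonoidHom.prod_apply] at hg
      have hg1 : χ₁ g = 1 := congrArg Prod.fst hg
      have hg2 : χ₂ g = 1 := congrArg Prod.snd hg
      obtain ⟨i, j, h1, h3, h4⟩ := hP g
      rw [hg1] at h3
      rw [hg2] at h4
      have hne : (-1 : ℤˣ) ≠ 1 := by decide
      obtain ⟨k, hk⟩ := (neg_one_pow_eq_one_iff_even hne).1 h3.symm
      obtain ⟨l, hl⟩ := (neg_one_pow_eq_one_iff_even hne).1 h4.symm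
      have hπg : π g = 1 := by
        rw [h1, hk, hl, pow_add, pow_add, ← mul_pow, ← mul_pow, ← map_mul, ← map_mul,
          hsq u hu0, hsq v hv0, map_one, one_pow, one_mul, one_pow]
      rw [← Abelianization.ker_of, MonoidHom.mem_ker, ← hπ]
      exact hπg
    · exact Abelianization.commutator_subset_ker _

end Cfsg.Agent.Helper5
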