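import Mathlib
import Cfsg.Agent.Helper5.OddCenter
import Cfsg.Agent.Helper5.OmegaAll
import Cfsg.Agent.Helper5.OmegaCharK
import Cfsg.Agent.Helper5.StabProd

/-!
The centre of the commutator subgroup `Ω` of the isometry group of a quadratic form with two
orthogonal hyperbolic pairs among the coordinate vectors consists of scalars `±1`: central
elements commute with the Siegel transformations, which lie in `Ω` in every characteristic.
-/

set_option autoImplicit false

namespace Cfsg.Agent.Helper5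

section Abs

variable {F : Type*} [Field F] {V : Type*} [AddCommGroup V] [Module F V]

theorem eig_d' {Q : QuadraticForm F V} {e₁ f₁ e₂ f₂ : V} (H : HypPairs Q e₁ f₁ e₂ f₂)
    {A : V ≃ₗ[F] V} (hA : PlaneProp Q A)
    (hpol : ∀ x y, QuadraticMap.polar (⇑Q) (A x) (A y) = QuadraticMap.polar (⇑Q) x y)
    (d : V) (hde₁ : QuadraticMap.polar (⇑Q) d e₁ = 0)
    (hdf₁ : QuadraticMap.polar (⇑Q) d f₁ = 0) (hde₂ : QuadraticMap.polar (⇑Q) d e₂ = 0)
    (hdf₂ : QuadraticMap.polar (⇑Q) d f₂ = 0) (a : F) (ha0 : a ≠ 0) (h1 : A e₁ = a • e₁)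
    (h1' : A f₁ = a • f₁) (h2' : A f₂ = a • f₂) : A d = a • d := by
  obtain ⟨c11, c22, cee, cef, cfe, cff, s1, s2, s3, s4⟩ := hyp_polars H
  obtain ⟨c, hc⟩ : ∃ c, c = Q d := ⟨_, rfl⟩
  have hu : Q (d + e₁ - c • f₁) = 0 := by
    rw [kit_sub, kit_add, QuadraticMap.map_smul, QuadraticMap.polar_add_left,
      QuadraticMap.polar_smul_right, QuadraticMap.polar_smul_right, H.qe₁, H.qf₁, hde₁, hdf₁,
      H.p11, ← hc]
    simp only [smul_eq_mul]
    ring
  have huv : QuadraticMap.polar (⇑Q) (d + e₁ - c • f₁) e₂ = 0 := by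
    simp only [QuadraticMap.polar_add_left, QuadraticMap.polar_sub_left,
      QuadraticMap.polar_smul_left, hde₂, H.pee, H.pfe, smul_eq_mul]
    ring
  have hy2 : QuadraticMap.polar (⇑Q) (d + e₁ - c • f₁) f₂ = 0 := by
    simp only [QuadraticMap.polar_add_left, QuadraticMap.polar_sub_left,
      QuadraticMap.polar_smul_left, hdf₂, H.pef, H.pff, smul_eq_mul]
    ring
  obtain ⟨α, β, hab⟩ := hA (d + e₁ - c • f₁) e₂ f₂ hu H.qe₂ huv H.p22 hy2
  rw [map_sub, map_add, map_smul, h1, h1'] at hab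
  have hAd : A d = α • (d + e₁ - c • f₁) + β • e₂ - a • e₁ + c • a • f₁ := by
    rw [← hab]
    abel
  have k1 := hpol d f₁
  rw [h1', QuadraticMap.polar_smul_right, hdf₁, hAd] at k1
  simp only [QuadraticMap.polar_add_left, QuadraticMap.polar_sub_left,
    QuadraticMap.polar_smul_left, smul_eq_mul, hdf₁, H.p11, s2, cfe] at k1
  have k2 := hpol d f₂
  rw [h2', QuadraticMap.polar_smul_right, hdf₂, hAd] at k2
  simp only [QuadraticMap.polar_add_left, QuadraticMap.polar_sub_left,
    QuadraticMap.polar_smul_left, smul_eq_mul, hdf₂, H.pef, H.pff, H.p22] at k2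
  have hα : α = a := by
    have h3 : a * (α - a) = 0 := by linear_combination k1
    rcases mul_eq_zero.1 h3 with h4 | h4
    · exact absurd h4 ha0
    · linear_combination h4
  have hβ : β = 0 := by
    have h3 : a * β = 0 := by linear_combination k2
    rcases mul_eq_zero.1 h3 with h4 | h4
    · exact absurd h4 ha0
    · exact h4
  rw [hAd, hα, hβ]
  module

end Abs

section Mat

open Matrix

variable {F : Type*} [Field F] {κ : Type} [Fintype κ] [DecidableEq κ]

omit [Fintype κ] in
theorem hyp_of_single (Q : QuadraticForm F (κ → F)) (a b c d : κ)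
    (hac : a ≠ c) (had : a ≠ d) (hbc : b ≠ c) (hbd : b ≠ d)
    (qa : Q (Pi.single a 1) = 0) (qb : Q (Pi.single b 1) = 0)
    (qc : Q (Pi.single c 1) = 0) (qd : Q (Pi.single d 1) = 0)
    (pa : ∀ x, QuadraticMap.polar (⇑Q) (Pi.single a 1) x = x b)
    (pb : ∀ x, QuadraticMap.polar (⇑Q) (Pi.single b 1) x = x a)
    (pc : ∀ x, QuadraticMap.polar (⇑Q) (Pi.single c 1) x = x d) :
    HypPairs Q (Pi.single a 1) (Pi.single b 1) (Pi.single c 1) (Pi.single d 1) := by
  refine ⟨qa, qb, qc, qd, ?_, ?_, ?_, ?_, ?_, ?_⟩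
  · rw [pa, Pi.single_eq_same]
  · rw [pc, Pi.single_eq_same]
  · rw [pa, Pi.single_eq_of_ne hbc]
  · rw [pa, Pi.single_eq_of_ne hbd]
  · rw [pb, Pi.single_eq_of_ne hac]
  · rw [pb, Pi.single_eq_of_ne had]

variable [Fintype F]

theorem siegel_omega2 (h2 : (2 : F) = 0) (Q : QuadraticForm F (κ → F))
    (hQ : (QuadraticMap.polarBilin Q).Nondegenerate)
    (h : Fintype.card F ≠ 2 ∨ Fintype.card κ ≠ 4)
    (u v : κ → F) (c : F) (g : ↥(Cfsg.isometryGroup F ⇑Q))
    (hg : ((g : Matrix.GeneralLinearGroup κ F) : Matrix κ κ F) = Cfsg.siegelMatrix ⇑Q u v c) :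
    g ∈ commutator ↥(Cfsg.isometryGroup F ⇑Q) := by
  classical
  have hact : ∀ x, ((g : Matrix.GeneralLinearGroup κ F) : Matrix κ κ F) *ᵥ x
      = x + c • (QuadraticMap.polar (⇑Q) u x • v - QuadraticMap.polar (⇑Q) v x • u) := by
    intro x
    rw [hg, Cfsg.Agent.Helper6.siegelMatrix_mulVec]
  by_cases hT : ∀ x, c • (QuadraticMap.polar (⇑Q) u x • v - QuadraticMap.polar (⇑Q) v x • u) = 0
  · have hg1 : g = 1 := by
      apply Subtype.ext
      apply Units.ext
      apply mat_ext
      intro x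
      rw [hact, hT, add_zero]
      change x = (1 : Matrix κ κ F) *ᵥ x
      rw [Matrix.one_mulVec]
    rw [hg1]
    exact Subgroup.one_mem _
  · push Not at hT
    obtain ⟨x₀, hx₀⟩ := hT
    have hc : c ≠ 0 := by
      rintro rfl
      exact hx₀ (zero_smul _ _)
    have hu0 : u ≠ 0 := by
      rintro rfl
      apply hx₀
      rw [QuadraticMap.polar_zero_left, zero_smul, smul_zero, sub_zero, smul_zero]
    have hvu : ∀ a : F, v ≠ a • u := by
      intro a hva
      apply hx₀
      rw [hva, QuadraticMap.polar_smul_left, smul_eq_mul, smul_smul, mul_comm, sub_self,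
        smul_zero]
    obtain ⟨P, hP⟩ : ∃ P : Submodule F (κ → F),
        P = Submodule.span F {u} ⊔ Submodule.span F {v} := ⟨_, rfl⟩
    have huP : u ∈ P := by
      rw [hP]
      exact Submodule.mem_sup_left (Submodule.mem_span_singleton_self u)
    have hvP : v ∈ P := by
      rw [hP]
      exact Submodule.mem_sup_right (Submodule.mem_span_singleton_self v)
    have hker : LinearMap.ker (Matrix.mulVecLin
        ((g : Matrix.GeneralLinearGroup κ F) : Matrix κ κ F) - LinearMap.id)
        = LinearMap.BilinForm.orthogonal (QuadraticMap.polarBilin Q) P := by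
      ext x
      rw [LinearMap.mem_ker, LinearMap.sub_apply, LinearMap.id_apply, Matrix.mulVecLin_apply,
        hact, add_sub_cancel_left, LinearMap.BilinForm.mem_orthogonal_iff]
      constructor
      · intro hx
        have h5 : QuadraticMap.polar (⇑Q) u x • v - QuadraticMap.polar (⇑Q) v x • u = 0 :=
          (smul_eq_zero.1 hx).resolve_left hc
        have h6 : QuadraticMap.polar (⇑Q) u x = 0 := by
          by_contra hne
          apply hvu ((QuadraticMap.polar (⇑Q) u x)⁻¹ * QuadraticMap.polar (⇑Q) v x)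
          have h7 : QuadraticMap.polar (⇑Q) u x • v = QuadraticMap.polar (⇑Q) v x • u :=
            sub_eq_zero.1 h5
          rw [← smul_smul, ← h7, smul_smul, inv_mul_cancel₀ hne, one_smul]
        have h7 : QuadraticMap.polar (⇑Q) v x = 0 := by
          rw [h6, zero_smul, zero_sub, neg_eq_zero] at h5
          exact (smul_eq_zero.1 h5).resolve_right hu0
        intro n hn
        rw [hP] at hn
        obtain ⟨s, hs, t, ht, rfl⟩ := Submodule.mem_sup.1 hn
        obtain ⟨a, rfl⟩ := Submodule.mem_span_singleton.1 hs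
        obtain ⟨b, rfl⟩ := Submodule.mem_span_singleton.1 ht
        change QuadraticMap.polar (⇑Q) (a • u + b • v) x = 0
        rw [QuadraticMap.polar_add_left, QuadraticMap.polar_smul_left,
          QuadraticMap.polar_smul_left, h6, h7, smul_zero, smul_zero, add_zero]
      · intro hx
        have h6 : QuadraticMap.polar (⇑Q) u x = 0 := hx u huP
        have h7 : QuadraticMap.polar (⇑Q) v x = 0 := hx v hvP
        rw [h6, h7, zero_smul, zero_smul, sub_zero, smul_zero]
    have hfr := LinearMap.BilinForm.finrank_orthogonal hQ P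
    have hle := Submodule.finrank_le P
    rw [Module.finrank_fintype_fun_eq_card] at hfr hle
    have h1 : Module.finrank F ↥(Submodule.span F ({u} : Set (κ → F))) = 1 :=
      finrank_span_singleton hu0
    have hle2 := finrank_sup_span_le (Submodule.span F ({u} : Set (κ → F))) v
    rw [← hP] at hle2
    have hlt : Submodule.span F ({u} : Set (κ → F)) < P := by
      refine lt_of_le_of_ne (by rw [hP]; exact le_sup_left) (fun heq => ?_)
      rw [← heq] at hvP
      obtain ⟨a, ha⟩ := Submodule.mem_span_singleton.1 hvP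
      exact hvu a ha.symm
    have hlt2 := Submodule.finrank_lt_finrank_of_lt hlt
    rw [omega2_iff h2 Q hQ h, dick2_apply, hker, hfr]
    have h5 : Fintype.card κ - (Fintype.card κ - Module.finrank F ↥P) = 2 := by omega
    rw [h5]
    rfl

theorem siegel_mem_omega (Q : QuadraticForm F (κ → F))
    (hQ : (QuadraticMap.polarBilin Q).Nondegenerate)
    (h : Fintype.card F ≠ 2 ∨ Fintype.card κ ≠ 4)
    (u v : κ → F) (hu : Q u = 0) (hv : Q v = 0) (huv : QuadraticMap.polar (⇑Q) u v = 0) (c : F)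
    (g : ↥(Cfsg.isometryGroup F ⇑Q))
    (hg : ((g : Matrix.GeneralLinearGroup κ F) : Matrix κ κ F) = Cfsg.siegelMatrix ⇑Q u v c) :
    g ∈ commutator ↥(Cfsg.isometryGroup F ⇑Q) := by
  by_cases h2 : (2 : F) = 0
  · exact siegel_omega2 h2 Q hQ h u v c g hg
  · rw [commutator_eq_closure]
    exact Subgroup.subset_closure (siegel_comm h2 Q hQ u v hu hv huv c g hg)

theorem center_scalar (Q : QuadraticForm F (κ → F))
    (hQ : (QuadraticMap.polarBilin Q).Nondegenerate)
    (h : Fintype.card F ≠ 2 ∨ Fintype.card κ ≠ 4) {ι : Type} (pe pf : ι → κ)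
    (hH : ∀ i j, i ≠ j → HypPairs Q (Pi.single (pe i) 1) (Pi.single (pf i) 1)
      (Pi.single (pe j) 1) (Pi.single (pf j) 1))
    (i₀ i₁ : ι) (hi : i₀ ≠ i₁)
    (hcov : ∀ k : κ, (∃ i, k = pe i ∨ k = pf i) ∨
      (QuadraticMap.polar (⇑Q) (Pi.single k 1) (Pi.single (pe i₀) 1) = 0 ∧
        QuadraticMap.polar (⇑Q) (Pi.single k 1) (Pi.single (pf i₀) 1) = 0 ∧
        QuadraticMap.polar (⇑Q) (Pi.single k 1) (Pi.single (pe i₁) 1) = 0 ∧
        QuadraticMap.polar (⇑Q) (Pi.single k 1) (Pi.single (pf i₁) 1) = 0))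
    (z : ↥(commutator ↥(Cfsg.isometryGroup F ⇑Q)))
    (hz : z ∈ Subgroup.center (commutator ↥(Cfsg.isometryGroup F ⇑Q))) :
    ∃ a : F, a * a = 1 ∧
      ((z.1 : Matrix.GeneralLinearGroup κ F) : Matrix κ κ F) = a • (1 : Matrix κ κ F) := by
  classical
  obtain ⟨A, hA⟩ : ∃ A : (κ → F) ≃ₗ[F] (κ → F), A = isoActF ⇑Q z.1 := ⟨_, rfl⟩
  have hpol : ∀ x y, QuadraticMap.polar (⇑Q) (A x) (A y) = QuadraticMap.polar (⇑Q) x y := by
    intro x y
    rw [hA]
    exact isoActF_polar Q z.1 x y
  have hplane : PlaneProp Q A := by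
    intro u v y hu hv huv hy1 hy2
    obtain ⟨g, hg⟩ := siegelEl_existsK Q u v hu hv huv 1
    have hgc : g ∈ commutator ↥(Cfsg.isometryGroup F ⇑Q) :=
      siegel_mem_omega Q hQ h u v hu hv huv 1 g hg
    have hcomm := Subgroup.mem_center_iff.1 hz ⟨g, hgc⟩
    have hcomm' : g * z.1 = z.1 * g := congrArg Subtype.val hcomm
    rw [hA]
    exact central_plane Q z.1 g u v y hg hcomm'.symm hy1 hy2
  obtain ⟨a, ha1, ha2, ha3, ha4⟩ := hyp_scalar (hH i₀ i₁ hi) hplane
  have haa : a * a = 1 := by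
    have h5 := hpol (Pi.single (pe i₀) 1) (Pi.single (pf i₀) 1)
    rw [ha1, ha2, QuadraticMap.polar_smul_left, QuadraticMap.polar_smul_right,
      (hH i₀ i₁ hi).p11, smul_eq_mul, smul_eq_mul, mul_one] at h5
    exact h5
  have ha0 : a ≠ 0 := by
    rintro rfl
    rw [mul_zero] at haa
    exact zero_ne_one haa
  have hE : ∀ i : ι, A (Pi.single (pe i) 1) = a • (Pi.single (pe i) 1 : κ → F)
      ∧ A (Pi.single (pf i) 1) = a • (Pi.single (pf i) 1 : κ → F) := by
    intro i
    by_cases hi0 : i₀ = i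
    · subst hi0
      exact ⟨ha1, ha2⟩
    · obtain ⟨a', h1, -, h3, h4⟩ := hyp_scalar (hH i₀ i hi0) hplane
      have haa' : a' = a := by
        have h5 : a' • (Pi.single (pe i₀) 1 : κ → F) = a • (Pi.single (pe i₀) 1 : κ → F) := by
          rw [← h1, ← ha1]
        have h6 := congrArg (fun x => QuadraticMap.polar (⇑Q) x (Pi.single (pf i₀) 1)) h5
        simp only [QuadraticMap.polar_smul_left, (hH i₀ i₁ hi).p11, smul_eq_mul, mul_one] at h6
        exact h6
      rw [haa'] at h3 h4
      exact ⟨h3, h4⟩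
  have hsingle : ∀ k : κ, A (Pi.single k 1) = a • (Pi.single k 1 : κ → F) := by
    intro k
    rcases hcov k with ⟨i, rfl | rfl⟩ | ⟨h1, h3, h4, h5⟩
    · exact (hE i).1
    · exact (hE i).2
    · exact eig_d' (hH i₀ i₁ hi) hplane hpol _ h1 h3 h4 h5 a ha0 ha1 ha2 ha4
  have hlin : (A : (κ → F) →ₗ[F] (κ → F)) = a • LinearMap.id := by
    apply (Pi.basisFun F κ).ext
    intro k
    rw [Pi.basisFun_apply, LinearMap.smul_apply, LinearMap.id_apply, LinearEquiv.coe_coe]
    exact hsingle k
  have hall : ∀ x, A x = a • x := by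
    intro x
    have h5 := congrArg (fun f : (κ → F) →ₗ[F] (κ → F) => f x) hlin
    simpa using h5
  refine ⟨a, haa, ?_⟩
  apply mat_ext
  intro x
  rw [← isoActF_apply, ← hA, hall, Matrix.smul_mulVec, Matrix.one_mulVec]

theorem omega2_index (h2 : (2 : F) = 0) (Q : QuadraticForm F (κ → F))
    (hQ : (QuadraticMap.polarBilin Q).Nondegenerate)
    (h : Fintype.card F ≠ 2 ∨ Fintype.card κ ≠ 4) (i₀ : κ) :
    (commutator ↥(Cfsg.isometryGroup F ⇑Q)).index = 2 := by
  obtain ⟨w, hw⟩ := exists_nonsing Q hQ i₀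
  rw [Subgroup.index_eq_two_iff_exists_notMem_and']
  refine ⟨reflEl Q w hw, ?_, fun b => ?_⟩
  · rw [omega2_iff h2 Q hQ h, dick2_refl h2 Q hQ _ w hw (actsRefl_reflEl Q w hw)]
    decide
  · rw [omega2_iff h2 Q hQ h, omega2_iff h2 Q hQ h, map_mul,
      dick2_refl h2 Q hQ _ w hw (actsRefl_reflEl Q w hw)]
    rcases Int.units_eq_one_or (dick2 h2 Q hQ b) with h5 | h5
    · right
      exact h5
    · left
      rw [h5]
      rfl

omit [Fintype F] in
theorem center_card_of_scalar (Qf : (κ → F) → F) (k₀ : κ)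
    (hsc : ∀ z : ↥(commutator ↥(Cfsg.isometryGroup F Qf)),
      z ∈ Subgroup.center (commutator ↥(Cfsg.isometryGroup F Qf)) →
      ∃ a : F, a * a = 1 ∧
        ((z.1 : Matrix.GeneralLinearGroup κ F) : Matrix κ κ F) = a • (1 : Matrix κ κ F)) :
    (((2 : F) = 0 ∨ ¬ ∃ g : ↥(Cfsg.isometryGroup F Qf),
        g ∈ commutator ↥(Cfsg.isometryGroup F Qf) ∧
        ((g : Matrix.GeneralLinearGroup κ F) : Matrix κ κ F) = -1) →
      Nat.card ↥(Subgroup.center (commutator ↥(Cfsg.isometryGroup F Qf))) = 1) ∧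
    ((2 : F) ≠ 0 → (∃ g : ↥(Cfsg.isometryGroup F Qf),
        g ∈ commutator ↥(Cfsg.isometryGroup F Qf) ∧
        ((g : Matrix.GeneralLinearGroup κ F) : Matrix κ κ F) = -1) →
      Nat.card ↥(Subgroup.center (commutator ↥(Cfsg.isometryGroup F Qf))) = 2) := by
  have hcases : ∀ z : ↥(commutator ↥(Cfsg.isometryGroup F Qf)),
      z ∈ Subgroup.center (commutator ↥(Cfsg.isometryGroup F Qf)) →
      ((z.1 : Matrix.GeneralLinearGroup κ F) : Matrix κ κ F) = 1 ∨
      ((z.1 : Matrix.GeneralLinearGroup κ F) : Matrix κ κ F) = -1 := by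
    intro z hz
    obtain ⟨a, haa, hza⟩ := hsc z hz
    have h5 : (a - 1) * (a + 1) = 0 := by linear_combination haa
    rcases mul_eq_zero.1 h5 with h6 | h6
    · left
      rw [hza, sub_eq_zero.1 h6, one_smul]
    · right
      rw [hza, eq_neg_of_add_eq_zero_left h6, neg_smul, one_smul]
  have hone : ∀ z : ↥(commutator ↥(Cfsg.isometryGroup F Qf)),
      ((z.1 : Matrix.GeneralLinearGroup κ F) : Matrix κ κ F) = 1 → z = 1 := by
    intro z hz1
    apply Subtype.ext
    apply Subtype.ext
    apply Units.ext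
    exact hz1
  constructor
  · intro hcase
    have hbot : Subgroup.center (commutator ↥(Cfsg.isometryGroup F Qf)) = ⊥ := by
      rw [Subgroup.eq_bot_iff_forall]
      intro z hz
      rcases hcases z hz with h5 | h5
      · exact hone z h5
      · rcases hcase with h2 | hno
        · apply hone z
          rw [h5]
          have h6 : (-1 : F) = 1 := by linear_combination -h2
          rw [← neg_one_smul F (1 : Matrix κ κ F), h6, one_smul]
        · exact absurd ⟨z.1, z.2, h5⟩ hno
    rw [hbot]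
    exact Subgroup.card_bot
  · rintro h2 ⟨g, hgΩ, hg⟩
    have hζc : (⟨g, hgΩ⟩ : ↥(commutator ↥(Cfsg.isometryGroup F Qf)))
        ∈ Subgroup.center (commutator ↥(Cfsg.isometryGroup F Qf)) := by
      rw [Subgroup.mem_center_iff]
      intro y
      apply Subtype.ext
      apply Subtype.ext
      apply Units.ext
      change ((y.1 : Matrix.GeneralLinearGroup κ F) : Matrix κ κ F)
          * ((g : Matrix.GeneralLinearGroup κ F) : Matrix κ κ F)
        = ((g : Matrix.GeneralLinearGroup κ F) : Matrix κ κ F)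
          * ((y.1 : Matrix.GeneralLinearGroup κ F) : Matrix κ κ F)
      rw [hg, mul_neg, mul_one, neg_mul, one_mul]
    rw [Nat.card_eq_two_iff]
    refine ⟨1, ⟨⟨g, hgΩ⟩, hζc⟩, ?_, ?_⟩
    · intro h5
      have h6 : (1 : ↥(Cfsg.isometryGroup F Qf)) = g := by
        have h7 := congrArg (fun t : ↥(Subgroup.center
          (commutator ↥(Cfsg.isometryGroup F Qf))) => (t.1.1 : ↥(Cfsg.isometryGroup F Qf))) h5
        exact h7
      have h8 : (1 : Matrix κ κ F) = -1 := by
        rw [← hg, ← h6]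
        rfl
      have h9 := congrFun (congrFun h8 k₀) k₀
      rw [Matrix.neg_apply, Matrix.one_apply_eq] at h9
      apply h2
      linear_combination h9
    · apply Set.eq_univ_of_forall
      intro z
      rcases hcases z.1 z.2 with h5 | h5
      · left
        apply Subtype.ext
        exact hone z.1 h5
      · right
        apply Subtype.ext
        apply Subtype.ext
        apply Subtype.ext
        apply Units.ext
        rw [h5]
        exact hg.symm

end Mat

end Cfsg.Agent.Helper5
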