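import Mathlib
import Cfsg.Agent.Helper5.TwoRank
import Cfsg.Agent.Helper27.S4Pres

/-!
The special isometry group of the three-dimensional quadratic form over the field with three
elements is the symmetric group of degree four: the negatives of three suitable reflections
satisfy the Coxeter relations of the symmetric group, and the orders agree.
-/

set_option autoImplicit false

namespace Cfsg.Agent.Helper5

section CZ

variable {G : Type*} [Group G]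

theorem cz_mul (z : G) (hz : ∀ x, z * x = x * z) (hzz : z * z = 1) (x y : G) :
    (z * x) * (z * y) = x * y := by
  rw [mul_assoc, ← mul_assoc x z y, ← hz x, mul_assoc z x y, ← mul_assoc, hzz, one_mul]

theorem cz_braid (z : G) (hz : ∀ x, z * x = x * z) (hzz : z * z = 1) (x y : G) :
    (z * y) * ((z * x) * (z * y)) = z * (y * (x * y)) := by
  rw [cz_mul z hz hzz x y, mul_assoc]

end CZ

section Refl

variable {F : Type*} [Field F] {κ : Type} [Fintype κ] [DecidableEq κ]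

theorem so3_mem_iff (Qf : (κ → F) → F) (g : ↥(Cfsg.isometryGroup F Qf)) :
    g ∈ Cfsg.specialIsometryGroup F Qf ↔
      ((g : Matrix.GeneralLinearGroup κ F) : Matrix κ κ F).det = 1 := by
  change Matrix.GeneralLinearGroup.det (g : Matrix.GeneralLinearGroup κ F) = 1 ↔ _
  constructor
  · intro h
    have h4 := congrArg (fun u : Fˣ => (u : F)) h
    simpa using h4
  · intro h
    apply Units.ext
    rw [Matrix.GeneralLinearGroup.val_det_apply]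
    exact h

theorem reflEl_inv (Q : QuadraticForm F (κ → F)) (w : κ → F) (hw : Q w ≠ 0) :
    (reflEl Q w hw)⁻¹ = reflEl Q w hw :=
  inv_eq_of_mul_eq_one_right (reflEl_sq Q w hw)

theorem reflEl_det (Q : QuadraticForm F (κ → F)) (w : κ → F) (hw : Q w ≠ 0) :
    (((reflEl Q w hw : ↥(Cfsg.isometryGroup F ⇑Q)) : Matrix.GeneralLinearGroup κ F) :
      Matrix κ κ F).det = -1 :=
  Cfsg.Agent.Helper6.reflectionMatrix_det Q w hw

theorem reflEl_self (Q : QuadraticForm F (κ → F)) (w : κ → F) (hw : Q w ≠ 0) :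
    isoActF ⇑Q (reflEl Q w hw) w = -w :=
  (isoActF_apply _ _ _).trans (Cfsg.Agent.Helper6.reflectionMatrix_mulVec_self Q w hw)

theorem reflEl_braid (Q : QuadraticForm F (κ → F)) (w₁ w₂ : κ → F) (hw₁ : Q w₁ ≠ 0)
    (hw₂ : Q w₂ ≠ 0) (hQ : Q w₂ = Q w₁) (hp : QuadraticMap.polar (⇑Q) w₁ w₂ = -Q w₁) :
    reflEl Q w₂ hw₂ * (reflEl Q w₁ hw₁ * reflEl Q w₂ hw₂)
      = reflEl Q w₁ hw₁ * (reflEl Q w₂ hw₂ * reflEl Q w₁ hw₁) := by
  have hc : (Q w₁)⁻¹ * -Q w₁ = -1 := by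
    rw [mul_neg, inv_mul_cancel₀ hw₁]
  have e1 : isoActF ⇑Q (reflEl Q w₂ hw₂) w₁ = w₁ + w₂ := by
    rw [actsRefl_reflEl Q w₂ hw₂ w₁, QuadraticMap.polar_comm, hp, hQ, hc, neg_one_smul,
      sub_neg_eq_add]
  have e2 : isoActF ⇑Q (reflEl Q w₁ hw₁) w₂ = w₁ + w₂ := by
    rw [actsRefl_reflEl Q w₁ hw₁ w₂, hp, hc, neg_one_smul, sub_neg_eq_add, add_comm]
  have k1 := actsRefl_conj Q (reflEl Q w₁ hw₁) (reflEl Q w₂ hw₂) w₁ (actsRefl_reflEl Q w₁ hw₁)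
  have k2 := actsRefl_conj Q (reflEl Q w₂ hw₂) (reflEl Q w₁ hw₁) w₂ (actsRefl_reflEl Q w₂ hw₂)
  rw [e1] at k1
  rw [e2] at k2
  have h := actsRefl_unique Q _ _ _ k1 k2
  rw [reflEl_inv, reflEl_inv] at h
  exact (mul_assoc _ _ _).symm.trans (h.trans (mul_assoc _ _ _))

theorem reflEl_comm (Q : QuadraticForm F (κ → F)) (w₁ w₃ : κ → F) (hw₁ : Q w₁ ≠ 0)
    (hw₃ : Q w₃ ≠ 0) (hp : QuadraticMap.polar (⇑Q) w₁ w₃ = 0) :
    reflEl Q w₃ hw₃ * reflEl Q w₁ hw₁ = reflEl Q w₁ hw₁ * reflEl Q w₃ hw₃ := by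
  have e1 : isoActF ⇑Q (reflEl Q w₃ hw₃) w₁ = w₁ := by
    rw [actsRefl_reflEl Q w₃ hw₃ w₁, QuadraticMap.polar_comm, hp, mul_zero, zero_smul, sub_zero]
  have k1 := actsRefl_conj Q (reflEl Q w₁ hw₁) (reflEl Q w₃ hw₃) w₁ (actsRefl_reflEl Q w₁ hw₁)
  rw [e1] at k1
  have h := actsRefl_unique Q _ _ _ k1 (actsRefl_reflEl Q w₁ hw₁)
  exact mul_inv_eq_iff_eq_mul.1 h

theorem neg_el (Q : QuadraticForm F (κ → F)) :
    ∃ z : ↥(Cfsg.isometryGroup F ⇑Q), (∀ x, isoActF ⇑Q z x = -x) ∧ (∀ g, z * g = g * z) ∧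
      z * z = 1 ∧
      ((z : Matrix.GeneralLinearGroup κ F) : Matrix κ κ F).det = (-1) ^ Fintype.card κ := by
  obtain ⟨z, hz⟩ := isoActF_surj ⇑Q (LinearEquiv.neg F) (fun x => by
    rw [LinearEquiv.neg_apply]
    exact QuadraticMap.map_neg Q x)
  have hz' : ∀ x, isoActF ⇑Q z x = -x := fun x => by rw [hz, LinearEquiv.neg_apply]
  refine ⟨z, hz', fun g => ?_, ?_, ?_⟩
  · apply isoActF_injective ⇑Q
    apply LinearEquiv.ext
    intro x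
    rw [map_mul, map_mul, LinearEquiv.mul_apply, LinearEquiv.mul_apply, hz', hz', map_neg]
  · apply isoActF_injective ⇑Q
    apply LinearEquiv.ext
    intro x
    rw [map_mul, LinearEquiv.mul_apply, hz', hz', neg_neg, map_one]
    rfl
  · have hm : ((z : Matrix.GeneralLinearGroup κ F) : Matrix κ κ F) = -1 := by
      apply mat_ext
      intro x
      rw [← isoActF_apply ⇑Q z x, hz' x, Matrix.neg_mulVec, Matrix.one_mulVec]
    rw [hm, Matrix.det_neg, Matrix.det_one, mul_one]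

end Refl

theorem so33_equiv {F : Type*} [Field F] [Fintype F] (hF : Fintype.card F = 3) :
    Nonempty (↥(Cfsg.specialIsometryGroup F (Cfsg.quadFormOdd 1 F)) ≃* Equiv.Perm (Fin 4)) := by
  have hodd : Odd (Fintype.card F) := by
    rw [hF]
    exact ⟨1, rfl⟩
  have h2 : (2 : F) ≠ 0 := Cfsg.Agent.S0286.two_ne_zero_of_odd F hodd
  have h3 : (3 : F) = 0 := by
    have h := FiniteField.cast_card_eq_zero F
    rw [hF] at h
    exact_mod_cast h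
  have h48 : Nat.card ↥(Cfsg.isometryGroup F (Cfsg.quadFormOdd 1 F)) = 48 := by
    rw [Cfsg.Agent.S0286.result hF ⟨1, rfl⟩ 1]
    simp [Finset.prod_range_one]
  obtain ⟨Q, hQ, -⟩ := Cfsg.Agent.S0286.odd_model F h2 1
  have hQeq : Cfsg.quadFormOdd 1 F = ⇑Q := funext (fun v => (hQ v).symm)
  rw [hQeq] at h48 ⊢
  obtain ⟨u₁, hu₁⟩ : ∃ u : Unit ⊕ (Fin 1 ⊕ Fin 1) → F, u = Pi.single (Sum.inl ()) 1 :=
    ⟨_, rfl⟩
  obtain ⟨u₂, hu₂⟩ : ∃ u : Unit ⊕ (Fin 1 ⊕ Fin 1) → F,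
      u = Pi.single (Sum.inl ()) 1 - Pi.single (Sum.inr (Sum.inl 0)) 1 := ⟨_, rfl⟩
  obtain ⟨u₃, hu₃⟩ : ∃ u : Unit ⊕ (Fin 1 ⊕ Fin 1) → F,
      u = Pi.single (Sum.inr (Sum.inl 0)) 1 + Pi.single (Sum.inr (Sum.inr 0)) 1 := ⟨_, rfl⟩
  have q1 : Q u₁ = 1 := by
    rw [hu₁, hQ]
    simp [Cfsg.quadFormOdd, Pi.single_apply]
  have q2 : Q u₂ = 1 := by
    rw [hu₂, hQ]
    simp [Cfsg.quadFormOdd, Pi.single_apply]
  have q3 : Q u₃ = 1 := by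
    rw [hu₃, hQ]
    simp [Cfsg.quadFormOdd, Pi.single_apply]
  have p12' : QuadraticMap.polar (⇑Q) u₁ u₂ = 2 := by
    rw [hu₁, hu₂, odd_polar Q hQ]
    simp [Pi.single_apply]
  have p12 : QuadraticMap.polar (⇑Q) u₁ u₂ = -Q u₁ := by
    rw [p12', q1]
    linear_combination h3
  have p23' : QuadraticMap.polar (⇑Q) u₂ u₃ = -1 := by
    rw [hu₂, hu₃, odd_polar Q hQ]
    simp [Pi.single_apply]
  have p23 : QuadraticMap.polar (⇑Q) u₂ u₃ = -Q u₂ := by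
    rw [p23', q2]
  have p13 : QuadraticMap.polar (⇑Q) u₁ u₃ = 0 := by
    rw [hu₁, hu₃, odd_polar Q hQ]
    simp [Pi.single_apply]
  have hn1 : Q u₁ ≠ 0 := by
    rw [q1]
    exact one_ne_zero
  have hn2 : Q u₂ ≠ 0 := by
    rw [q2]
    exact one_ne_zero
  have hn3 : Q u₃ ≠ 0 := by
    rw [q3]
    exact one_ne_zero
  obtain ⟨R₁, hR₁⟩ : ∃ R, R = reflEl Q u₁ hn1 := ⟨_, rfl⟩
  obtain ⟨R₂, hR₂⟩ : ∃ R, R = reflEl Q u₂ hn2 := ⟨_, rfl⟩
  obtain ⟨R₃, hR₃⟩ : ∃ R, R = reflEl Q u₃ hn3 := ⟨_, rfl⟩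
  have b12 : R₂ * (R₁ * R₂) = R₁ * (R₂ * R₁) := by
    rw [hR₁, hR₂]
    exact reflEl_braid Q u₁ u₂ hn1 hn2 (by rw [q1, q2]) p12
  have b23 : R₃ * (R₂ * R₃) = R₂ * (R₃ * R₂) := by
    rw [hR₂, hR₃]
    exact reflEl_braid Q u₂ u₃ hn2 hn3 (by rw [q2, q3]) p23
  have c13 : R₃ * R₁ = R₁ * R₃ := by
    rw [hR₁, hR₃]
    exact reflEl_comm Q u₁ u₃ hn1 hn3 p13
  have s1 : R₁ * R₁ = 1 := by
    rw [hR₁]
    exact reflEl_sq Q u₁ hn1
  have s2 : R₂ * R₂ = 1 := by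
    rw [hR₂]
    exact reflEl_sq Q u₂ hn2
  have s3 : R₃ * R₃ = 1 := by
    rw [hR₃]
    exact reflEl_sq Q u₃ hn3
  have d1 : ((R₁ : Matrix.GeneralLinearGroup (Unit ⊕ (Fin 1 ⊕ Fin 1)) F) :
      Matrix (Unit ⊕ (Fin 1 ⊕ Fin 1)) (Unit ⊕ (Fin 1 ⊕ Fin 1)) F).det = -1 := by
    rw [hR₁]
    exact reflEl_det Q u₁ hn1
  have d2 : ((R₂ : Matrix.GeneralLinearGroup (Unit ⊕ (Fin 1 ⊕ Fin 1)) F) :
      Matrix (Unit ⊕ (Fin 1 ⊕ Fin 1)) (Unit ⊕ (Fin 1 ⊕ Fin 1)) F).det = -1 := by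
    rw [hR₂]
    exact reflEl_det Q u₂ hn2
  have d3 : ((R₃ : Matrix.GeneralLinearGroup (Unit ⊕ (Fin 1 ⊕ Fin 1)) F) :
      Matrix (Unit ⊕ (Fin 1 ⊕ Fin 1)) (Unit ⊕ (Fin 1 ⊕ Fin 1)) F).det = -1 := by
    rw [hR₃]
    exact reflEl_det Q u₃ hn3
  obtain ⟨z, hzx, hzc, hzz, hzd⟩ := neg_el Q
  have hzd' : ((z : Matrix.GeneralLinearGroup (Unit ⊕ (Fin 1 ⊕ Fin 1)) F) :
      Matrix (Unit ⊕ (Fin 1 ⊕ Fin 1)) (Unit ⊕ (Fin 1 ⊕ Fin 1)) F).det = -1 := by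
    have hk : Fintype.card (Unit ⊕ (Fin 1 ⊕ Fin 1)) = 3 := by
      simp [Fintype.card_sum]
    rw [hzd, hk]
    norm_num
  have mem : ∀ R : ↥(Cfsg.isometryGroup F ⇑Q),
      ((R : Matrix.GeneralLinearGroup (Unit ⊕ (Fin 1 ⊕ Fin 1)) F) :
        Matrix (Unit ⊕ (Fin 1 ⊕ Fin 1)) (Unit ⊕ (Fin 1 ⊕ Fin 1)) F).det = -1 →
      z * R ∈ Cfsg.specialIsometryGroup F ⇑Q := by
    intro R hR
    rw [so3_mem_iff]
    change (((z : Matrix.GeneralLinearGroup (Unit ⊕ (Fin 1 ⊕ Fin 1)) F) :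
        Matrix (Unit ⊕ (Fin 1 ⊕ Fin 1)) (Unit ⊕ (Fin 1 ⊕ Fin 1)) F)
      * ((R : Matrix.GeneralLinearGroup (Unit ⊕ (Fin 1 ⊕ Fin 1)) F) :
        Matrix (Unit ⊕ (Fin 1 ⊕ Fin 1)) (Unit ⊕ (Fin 1 ⊕ Fin 1)) F)).det = 1
    rw [Matrix.det_mul, hzd', hR, neg_mul_neg, one_mul]
  obtain ⟨a, ha⟩ : ∃ a : ↥(Cfsg.specialIsometryGroup F ⇑Q),
      (a : ↥(Cfsg.isometryGroup F ⇑Q)) = z * R₁ := ⟨⟨z * R₁, mem R₁ d1⟩, rfl⟩
  obtain ⟨b, hb⟩ : ∃ b : ↥(Cfsg.specialIsometryGroup F ⇑Q),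
      (b : ↥(Cfsg.isometryGroup F ⇑Q)) = z * R₂ := ⟨⟨z * R₂, mem R₂ d2⟩, rfl⟩
  obtain ⟨c, hc⟩ : ∃ c : ↥(Cfsg.specialIsometryGroup F ⇑Q),
      (c : ↥(Cfsg.isometryGroup F ⇑Q)) = z * R₃ := ⟨⟨z * R₃, mem R₃ d3⟩, rfl⟩
  have haa : a * a = 1 := by
    apply Subtype.ext
    rw [Subgroup.coe_mul, Subgroup.coe_one, ha, cz_mul z hzc hzz, s1]
  have hbb : b * b = 1 := by
    apply Subtype.ext
    rw [Subgroup.coe_mul, Subgroup.coe_one, hb, cz_mul z hzc hzz, s2]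
  have hcc : c * c = 1 := by
    apply Subtype.ext
    rw [Subgroup.coe_mul, Subgroup.coe_one, hc, cz_mul z hzc hzz, s3]
  have hab : b * (a * b) = a * (b * a) := by
    apply Subtype.ext
    rw [Subgroup.coe_mul, Subgroup.coe_mul, Subgroup.coe_mul, Subgroup.coe_mul, ha, hb,
      cz_braid z hzc hzz, cz_braid z hzc hzz, b12]
  have hbc : c * (b * c) = b * (c * b) := by
    apply Subtype.ext
    rw [Subgroup.coe_mul, Subgroup.coe_mul, Subgroup.coe_mul, Subgroup.coe_mul, hb, hc,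
      cz_braid z hzc hzz, cz_braid z hzc hzz, b23]
  have hac : c * a = a * c := by
    apply Subtype.ext
    rw [Subgroup.coe_mul, Subgroup.coe_mul, ha, hc, cz_mul z hzc hzz, cz_mul z hzc hzz, c13]
  obtain ⟨φ, hφa, hφb, hφc⟩ :=
    Cfsg.Agent.Helper27.exists_hom_S4 a b c haa hbb hcc hab hbc hac
  have hinj : Function.Injective φ := by
    apply Cfsg.Agent.Helper27.s4_hom_injective
    rw [hφa, hφc]
    intro hac'
    have e1 : z * R₁ = z * R₃ := by rw [← ha, ← hc, hac']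
    have e2 : R₁ = R₃ := mul_left_cancel e1
    have e3 : isoActF ⇑Q R₁ u₁ = isoActF ⇑Q R₃ u₁ := by rw [e2]
    rw [hR₁, reflEl_self, hR₃, actsRefl_reflEl Q u₃ hn3 u₁, QuadraticMap.polar_comm, p13,
      mul_zero, zero_smul, sub_zero] at e3
    have e4 : (-u₁) (Sum.inl ()) = u₁ (Sum.inl ()) := congrFun e3 (Sum.inl ())
    rw [Pi.neg_apply, hu₁, Pi.single_eq_same] at e4
    apply h2
    linear_combination -e4
  have hidx : (Cfsg.specialIsometryGroup F ⇑Q).index = 2 := by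
    rw [Subgroup.index_eq_two_iff_exists_notMem_and']
    refine ⟨R₁, ?_, fun g => ?_⟩
    · rw [so3_mem_iff, d1]
      intro h
      apply h2
      linear_combination -h
    · have hne : ((g : Matrix.GeneralLinearGroup (Unit ⊕ (Fin 1 ⊕ Fin 1)) F) :
          Matrix (Unit ⊕ (Fin 1 ⊕ Fin 1)) (Unit ⊕ (Fin 1 ⊕ Fin 1)) F).det ≠ 0 :=
        (Matrix.GeneralLinearGroup.det
          (g : Matrix.GeneralLinearGroup (Unit ⊕ (Fin 1 ⊕ Fin 1)) F)).ne_zero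
      have hsq := FiniteField.pow_card_sub_one_eq_one _ hne
      rw [hF] at hsq
      have hsq' : ((g : Matrix.GeneralLinearGroup (Unit ⊕ (Fin 1 ⊕ Fin 1)) F) :
          Matrix (Unit ⊕ (Fin 1 ⊕ Fin 1)) (Unit ⊕ (Fin 1 ⊕ Fin 1)) F).det ^ 2 = 1 := hsq
      have hfac : (((g : Matrix.GeneralLinearGroup (Unit ⊕ (Fin 1 ⊕ Fin 1)) F) :
          Matrix (Unit ⊕ (Fin 1 ⊕ Fin 1)) (Unit ⊕ (Fin 1 ⊕ Fin 1)) F).det - 1)
          * (((g : Matrix.GeneralLinearGroup (Unit ⊕ (Fin 1 ⊕ Fin 1)) F) :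
          Matrix (Unit ⊕ (Fin 1 ⊕ Fin 1)) (Unit ⊕ (Fin 1 ⊕ Fin 1)) F).det + 1) = 0 := by
        linear_combination hsq'
      rcases mul_eq_zero.1 hfac with h | h
      · right
        rw [so3_mem_iff]
        linear_combination h
      · left
        rw [so3_mem_iff]
        change (((R₁ : Matrix.GeneralLinearGroup (Unit ⊕ (Fin 1 ⊕ Fin 1)) F) :
            Matrix (Unit ⊕ (Fin 1 ⊕ Fin 1)) (Unit ⊕ (Fin 1 ⊕ Fin 1)) F)
          * ((g : Matrix.GeneralLinearGroup (Unit ⊕ (Fin 1 ⊕ Fin 1)) F) :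
            Matrix (Unit ⊕ (Fin 1 ⊕ Fin 1)) (Unit ⊕ (Fin 1 ⊕ Fin 1)) F)).det = 1
        rw [Matrix.det_mul, d1]
        linear_combination -h
  have hcard : Nat.card ↥(Cfsg.specialIsometryGroup F ⇑Q) = 24 := by
    have h := Subgroup.card_mul_index (Cfsg.specialIsometryGroup F ⇑Q)
    rw [hidx, h48] at h
    omega
  have hp : Nat.card (Equiv.Perm (Fin 4)) = 24 := by
    rw [Nat.card_eq_fintype_card, Fintype.card_perm, Fintype.card_fin] <;> rfl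
  have hbij : Function.Bijective φ := by
    apply hinj.bijective_of_nat_card_le
    rw [hcard, hp]
  exact ⟨(MulEquiv.ofBijective φ hbij).symm⟩

end Cfsg.Agent.Helper5
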