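import Mathlib
import Cfsg.Agent.Helper5.OmegaCrit
import Cfsg.Agent.Helper5.SO33
import Cfsg.Agent.Helper6.SymmForm
import Cfsg.Prelude.Def_GeometricClasses

/-!
# Frames in three-dimensional blocks over the field with three elements

A nondegenerate three-dimensional quadratic space over the field with three elements has
exactly six vectors of one of the two nonzero norms, forming a frame.  The set of all
these vectors over the blocks of an isometric decomposition is preserved by a subgroup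
strictly between the stabiliser of the decomposition and the commutator subgroup.
-/

set_option autoImplicit false

namespace Cfsg.Agent.Helper5

open scoped Matrix

section Frame3

variable {F : Type*} [Field F] {κ : Type} [Fintype κ] [DecidableEq κ]

theorem fr3_tri [Fintype F] (hq : Fintype.card F = 3) (x : F) : x = 0 ∨ x = 1 ∨ x = -1 := by
  have h := FiniteField.pow_card x
  rw [hq] at h
  have h3 : x * (x - 1) * (x + 1) = 0 := by linear_combination h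
  rcases mul_eq_zero.1 h3 with h4 | h4
  · rcases mul_eq_zero.1 h4 with h5 | h5
    · exact Or.inl h5
    · exact Or.inr (Or.inl (sub_eq_zero.1 h5))
  · exact Or.inr (Or.inr (eq_neg_of_add_eq_zero_left h4))

theorem fr3_three [Fintype F] (hq : Fintype.card F = 3) : (3 : F) = 0 := by
  have h := Nat.cast_card_eq_zero F
  rw [hq] at h
  exact_mod_cast h

theorem fr3_two [Fintype F] (hq : Fintype.card F = 3) : (2 : F) ≠ 0 := by
  intro h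
  have h3 := fr3_three hq
  exact (one_ne_zero : (1 : F) ≠ 0) (by linear_combination h3 - h)

theorem fr3_nonsq [Fintype F] (hq : Fintype.card F = 3) : ¬ IsSquare (-1 : F) := by
  rintro ⟨r, hr⟩
  rcases fr3_tri hq r with rfl | rfl | rfl
  · exact (one_ne_zero : (1 : F) ≠ 0) (by linear_combination -hr)
  · exact fr3_two hq (by linear_combination -hr)
  · exact fr3_two hq (by linear_combination -hr)

/-- The matrices preserving a set of vectors. -/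
def fr3_stabSet (N : Set (κ → F)) : Subgroup (Matrix.GeneralLinearGroup κ F) where
  carrier := {g | ∀ v, (g : Matrix κ κ F) *ᵥ v ∈ N ↔ v ∈ N}
  mul_mem' := by
    intro a b ha hb v
    rw [Units.val_mul, ← Matrix.mulVec_mulVec]
    exact (ha _).trans (hb v)
  one_mem' := by
    intro v
    rw [Units.val_one, Matrix.one_mulVec]
  inv_mem' := by
    intro a ha v
    have h := ha (((a⁻¹ : Matrix.GeneralLinearGroup κ F) : Matrix κ κ F) *ᵥ v)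
    rw [Matrix.mulVec_mulVec, ← Units.val_mul, mul_inv_cancel, Units.val_one,
      Matrix.one_mulVec] at h
    exact h.symm

theorem fr3_stabSet_mem (N : Set (κ → F)) (g : Matrix.GeneralLinearGroup κ F) :
    g ∈ fr3_stabSet N ↔ ∀ v, (g : Matrix κ κ F) *ᵥ v ∈ N ↔ v ∈ N := Iff.rfl

theorem fr3_stabSet_of_maps [Finite F] (N : Set (κ → F)) (g : Matrix.GeneralLinearGroup κ F)
    (h : ∀ v ∈ N, (g : Matrix κ κ F) *ᵥ v ∈ N) : g ∈ fr3_stabSet N := by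
  rw [fr3_stabSet_mem]
  have hcancel : ∀ x y : κ → F,
      (g : Matrix κ κ F) *ᵥ x = (g : Matrix κ κ F) *ᵥ y → x = y := by
    intro x y hxy
    have h2 := congrArg
      (fun z => ((g⁻¹ : Matrix.GeneralLinearGroup κ F) : Matrix κ κ F) *ᵥ z) hxy
    simp only [Matrix.mulVec_mulVec] at h2
    rw [← Units.val_mul, inv_mul_cancel, Units.val_one, Matrix.one_mulVec,
      Matrix.one_mulVec] at h2
    exact h2
  have hinj : Function.Injective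
      (fun x : N => (⟨(g : Matrix κ κ F) *ᵥ x.1, h x.1 x.2⟩ : N)) := by
    intro x y hxy
    exact Subtype.ext (hcancel _ _ (congrArg Subtype.val hxy))
  intro v
  refine ⟨fun hv => ?_, h v⟩
  obtain ⟨y, hy⟩ := Finite.surjective_of_injective hinj ⟨_, hv⟩
  have h1 := hcancel _ _ (congrArg Subtype.val hy)
  rw [← h1]
  exact y.2

theorem fr3_refl_fix (Q : QuadraticForm F (κ → F)) (w : κ → F) (hw : Q w ≠ 0) (x : κ → F)
    (h : QuadraticMap.polar (⇑Q) w x = 0) : isoActF ⇑Q (reflEl Q w hw) x = x := by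
  rw [actsRefl_reflEl Q w hw x, h, mul_zero, zero_smul, sub_zero]

theorem fr3_swap_norm (Q : QuadraticForm F (κ → F)) (a b : κ → F) (ε : F)
    (ha : Q a = ε) (hb : Q b = ε) (hab : QuadraticMap.polar (⇑Q) a b = 0) :
    Q (a - b) = 2 * ε := by
  rw [kit_sub, ha, hb, hab, sub_zero, two_mul]

theorem fr3_swap_fix (Q : QuadraticForm F (κ → F)) (a b x : κ → F) (hw : Q (a - b) ≠ 0)
    (hax : QuadraticMap.polar (⇑Q) a x = 0) (hbx : QuadraticMap.polar (⇑Q) b x = 0) :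
    isoActF ⇑Q (reflEl Q (a - b) hw) x = x := by
  apply fr3_refl_fix
  rw [QuadraticMap.polar_sub_left, hax, hbx, sub_zero]

theorem fr3_swap_left (h2 : (2 : F) ≠ 0) (Q : QuadraticForm F (κ → F)) (a b : κ → F) (ε : F)
    (hε : ε ≠ 0) (ha : Q a = ε) (hb : Q b = ε) (hab : QuadraticMap.polar (⇑Q) a b = 0)
    (hw : Q (a - b) ≠ 0) : isoActF ⇑Q (reflEl Q (a - b) hw) a = b := by
  have hn := fr3_swap_norm Q a b ε ha hb hab
  have hp : QuadraticMap.polar (⇑Q) (a - b) a = 2 * ε := by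
    rw [QuadraticMap.polar_sub_left, kit_polar_self, ha, QuadraticMap.polar_comm (⇑Q) b a, hab,
      sub_zero]
  rw [actsRefl_reflEl Q (a - b) hw a, hp, hn, inv_mul_cancel₀ (mul_ne_zero h2 hε), one_smul]
  exact sub_sub_cancel a b

theorem fr3_swap_right (h2 : (2 : F) ≠ 0) (Q : QuadraticForm F (κ → F)) (a b : κ → F) (ε : F)
    (hε : ε ≠ 0) (ha : Q a = ε) (hb : Q b = ε) (hab : QuadraticMap.polar (⇑Q) a b = 0)
    (hw : Q (a - b) ≠ 0) : isoActF ⇑Q (reflEl Q (a - b) hw) b = a := by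
  have hn := fr3_swap_norm Q a b ε ha hb hab
  have hp : QuadraticMap.polar (⇑Q) (a - b) b = -(2 * ε) := by
    rw [QuadraticMap.polar_sub_left, hab, kit_polar_self, hb, zero_sub]
  rw [actsRefl_reflEl Q (a - b) hw b, hp, hn, mul_neg, inv_mul_cancel₀ (mul_ne_zero h2 hε),
    neg_smul, one_smul, sub_neg_eq_add]
  exact add_sub_cancel b a

theorem fr3_pair_omega [Fintype F] (h2 : (2 : F) ≠ 0) (i₀ i₁ : κ) (hi : i₀ ≠ i₁)
    (Q : QuadraticForm F (κ → F)) (hQ : (QuadraticMap.polarBilin Q).Nondegenerate)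
    (w₁ w₂ : κ → F) (hw₁ : Q w₁ ≠ 0) (hw₂ : Q w₂ ≠ 0) (h12 : Q w₁ = Q w₂) :
    reflEl Q w₁ hw₁ * reflEl Q w₂ hw₂ ∈ commutator ↥(Cfsg.isometryGroup F ⇑Q) := by
  rw [omega_mem_iff h2 i₀ i₁ hi Q hQ]
  constructor
  · rw [map_mul]
    have c1 := chi_refl h2 Q 1 one_ne_zero w₁ hw₁ _ (actsRefl_reflEl Q w₁ hw₁)
    have c2 := chi_refl h2 Q 1 one_ne_zero w₂ hw₂ _ (actsRefl_reflEl Q w₂ hw₂)
    by_cases hs : ∃ t, t * t * Q w₁ = 1
    · have hs' : ∃ t, t * t * Q w₂ = 1 := by rw [← h12]; exact hs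
      rw [c1.1 hs, c2.1 hs', neg_mul_neg, one_mul]
    · have hs' : ¬ ∃ t, t * t * Q w₂ = 1 := by rw [← h12]; exact hs
      rw [c1.2 hs, c2.2 hs', one_mul]
  · rw [Subgroup.coe_mul, Units.val_mul, Matrix.det_mul, reflEl_det, reflEl_det, neg_mul_neg,
      one_mul]

theorem fr3_of_diag [Fintype F] (hq : Fintype.card F = 3) (Q : QuadraticForm F (κ → F))
    (W : Submodule F (κ → F)) (u0 u1 u2 : κ → F) (hu0 : u0 ∈ W) (hu1 : u1 ∈ W) (hu2 : u2 ∈ W)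
    (h01 : QuadraticMap.polar (⇑Q) u0 u1 = 0) (h02 : QuadraticMap.polar (⇑Q) u0 u2 = 0)
    (h12 : QuadraticMap.polar (⇑Q) u1 u2 = 0) (h00 : QuadraticMap.polar (⇑Q) u0 u0 = 1)
    (h11 : QuadraticMap.polar (⇑Q) u1 u1 = 1)
    (h22 : QuadraticMap.polar (⇑Q) u2 u2 = 1 ∨ QuadraticMap.polar (⇑Q) u2 u2 = -1) :
    ∃ (ε : F) (e₁ e₂ e₃ : κ → F), ε ≠ 0 ∧ e₁ ∈ W ∧ e₂ ∈ W ∧ e₃ ∈ W ∧
      Q e₁ = ε ∧ Q e₂ = ε ∧ Q e₃ = ε ∧
      QuadraticMap.polar (⇑Q) e₁ e₂ = 0 ∧ QuadraticMap.polar (⇑Q) e₁ e₃ = 0 ∧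
      QuadraticMap.polar (⇑Q) e₂ e₃ = 0 := by
  have h3 := fr3_three hq
  have hQv : ∀ (x : κ → F) (c : F), QuadraticMap.polar (⇑Q) x x = c → Q x = -c := by
    intro x c h
    rw [kit_polar_self] at h
    linear_combination 2 * h - Q x * h3 + c * h3
  have hQ0 := hQv u0 1 h00
  have hQ1 := hQv u1 1 h11
  rcases h22 with h22 | h22
  · exact ⟨-1, u0, u1, u2, neg_ne_zero.2 one_ne_zero, hu0, hu1, hu2, hQ0, hQ1, hQv u2 1 h22,
      h01, h02, h12⟩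
  · have hQ2 : Q u2 = 1 := by rw [hQv u2 (-1) h22, neg_neg]
    have h10 : QuadraticMap.polar (⇑Q) u1 u0 = 0 := by
      rw [QuadraticMap.polar_comm]; exact h01
    refine ⟨1, u0 + u1, u0 - u1, u2, one_ne_zero, W.add_mem hu0 hu1, W.sub_mem hu0 hu1, hu2,
      ?_, ?_, hQ2, ?_, ?_, ?_⟩
    · rw [kit_add, hQ0, hQ1, h01]; linear_combination (-1 : F) * h3
    · rw [kit_sub, hQ0, hQ1, h01]; linear_combination (-1 : F) * h3
    · rw [QuadraticMap.polar_add_left, QuadraticMap.polar_sub_right,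
        QuadraticMap.polar_sub_right, h00, h11, h01, h10]
      ring
    · rw [QuadraticMap.polar_add_left, h02, h12, add_zero]
    · rw [QuadraticMap.polar_sub_left, h02, h12, sub_zero]

theorem fr3_exists [Fintype F] (hq : Fintype.card F = 3) (Q : QuadraticForm F (κ → F))
    (W : Submodule F (κ → F)) (hdim : Module.finrank F W = 3)
    (hW : Cfsg.Geo.IsNondegenerateOn (QuadraticMap.polar (⇑Q)) W) :
    ∃ (ε : F) (e₁ e₂ e₃ : κ → F), ε ≠ 0 ∧ e₁ ∈ W ∧ e₂ ∈ W ∧ e₃ ∈ W ∧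
      Q e₁ = ε ∧ Q e₂ = ε ∧ Q e₃ = ε ∧
      QuadraticMap.polar (⇑Q) e₁ e₂ = 0 ∧ QuadraticMap.polar (⇑Q) e₁ e₃ = 0 ∧
      QuadraticMap.polar (⇑Q) e₂ e₃ = 0 := by
  have hS : ((QuadraticMap.polarBilin Q).domRestrict₁₂ W W).IsSymm :=
    ⟨fun x y => by
      simp only [LinearMap.domRestrict₁₂_apply, QuadraticMap.polarBilin_apply_apply,
        RingHom.id_apply]
      exact QuadraticMap.polar_comm _ _ _⟩
  have hB : ((QuadraticMap.polarBilin Q).domRestrict₁₂ W W).Nondegenerate := by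
    constructor
    · intro x hx
      by_contra hne
      have hne' : (x : κ → F) ≠ 0 := fun h => hne (Subtype.ext h)
      obtain ⟨-, y, hy, hyne⟩ := hW x x.2 hne'
      apply hyne
      have h := hx ⟨y, hy⟩
      rw [LinearMap.domRestrict₁₂_apply, QuadraticMap.polarBilin_apply_apply] at h
      exact h
    · intro y hy
      by_contra hne
      have hne' : (y : κ → F) ≠ 0 := fun h => hne (Subtype.ext h)
      obtain ⟨⟨x, hx, hxne⟩, -⟩ := hW y y.2 hne'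
      apply hxne
      have h := hy ⟨x, hx⟩
      rw [LinearMap.domRestrict₁₂_apply, QuadraticMap.polarBilin_apply_apply] at h
      exact h
  obtain ⟨b, hb1, hb2, hb3⟩ := Cfsg.Agent.Helper6.symm_exists_orthogonal_family (fr3_two hq)
    (-1) (fr3_nonsq hq) 2 W _ hS hB hdim
  simp only [LinearMap.domRestrict₁₂_apply, QuadraticMap.polarBilin_apply_apply]
    at hb1 hb2 hb3
  exact fr3_of_diag hq Q W _ _ _ (b 0).2 (b 1).2 (b (Fin.last 2)).2 (hb1 0 1 (by decide))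
    (hb1 0 (Fin.last 2) (by decide)) (hb1 1 (Fin.last 2) (by decide)) (hb2 0 (by decide))
    (hb2 1 (by decide)) hb3

theorem fr3_norm [Fintype F] (hq : Fintype.card F = 3) (Q : QuadraticForm F (κ → F))
    (W : Submodule F (κ → F)) (hdim : Module.finrank F W = 3) (ε : F) (hε : ε ≠ 0)
    (e₁ e₂ e₃ : κ → F) (h₁ : e₁ ∈ W) (h₂ : e₂ ∈ W) (h₃ : e₃ ∈ W)
    (q₁ : Q e₁ = ε) (q₂ : Q e₂ = ε) (q₃ : Q e₃ = ε)
    (p₁₂ : QuadraticMap.polar (⇑Q) e₁ e₂ = 0) (p₁₃ : QuadraticMap.polar (⇑Q) e₁ e₃ = 0)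
    (p₂₃ : QuadraticMap.polar (⇑Q) e₂ e₃ = 0) (v : κ → F) (hv : v ∈ W) (hQv : Q v = ε) :
    v = e₁ ∨ v = -e₁ ∨ v = e₂ ∨ v = -e₂ ∨ v = e₃ ∨ v = -e₃ := by
  have h2 : (2 : F) ≠ 0 := fr3_two hq
  have h3 : (3 : F) = 0 := fr3_three hq
  have p₂₁ : QuadraticMap.polar (⇑Q) e₂ e₁ = 0 := by rw [QuadraticMap.polar_comm]; exact p₁₂
  have p₃₁ : QuadraticMap.polar (⇑Q) e₃ e₁ = 0 := by rw [QuadraticMap.polar_comm]; exact p₁₃
  have p₃₂ : QuadraticMap.polar (⇑Q) e₃ e₂ = 0 := by rw [QuadraticMap.polar_comm]; exact p₂₃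
  have hform : ∀ x y z : F, Q (x • e₁ + y • e₂ + z • e₃) = ε * (x * x + y * y + z * z) := by
    intro x y z
    rw [kit_add, kit_add, QuadraticMap.polar_add_left]
    simp only [QuadraticMap.map_smul, QuadraticMap.polar_smul_left,
      QuadraticMap.polar_smul_right, smul_eq_mul, q₁, q₂, q₃, p₁₂, p₁₃, p₂₃]
    ring
  have hcoef : ∀ x y z : F, x • e₁ + y • e₂ + z • e₃ = 0 → x = 0 ∧ y = 0 ∧ z = 0 := by
    intro x y z h
    have k1 : QuadraticMap.polar (⇑Q) e₁ (x • e₁ + y • e₂ + z • e₃) = 2 * ε * x := by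
      rw [QuadraticMap.polar_add_right, QuadraticMap.polar_add_right]
      simp only [QuadraticMap.polar_smul_right, smul_eq_mul, kit_polar_self, q₁, p₁₂, p₁₃]
      ring
    have k2 : QuadraticMap.polar (⇑Q) e₂ (x • e₁ + y • e₂ + z • e₃) = 2 * ε * y := by
      rw [QuadraticMap.polar_add_right, QuadraticMap.polar_add_right]
      simp only [QuadraticMap.polar_smul_right, smul_eq_mul, kit_polar_self, q₂, p₂₁, p₂₃]
      ring
    have k3 : QuadraticMap.polar (⇑Q) e₃ (x • e₁ + y • e₂ + z • e₃) = 2 * ε * z := by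
      rw [QuadraticMap.polar_add_right, QuadraticMap.polar_add_right]
      simp only [QuadraticMap.polar_smul_right, smul_eq_mul, kit_polar_self, q₃, p₃₁, p₃₂]
      ring
    rw [h, QuadraticMap.polar_zero_right] at k1 k2 k3
    have hne : 2 * ε ≠ 0 := mul_ne_zero h2 hε
    refine ⟨?_, ?_, ?_⟩
    · rcases mul_eq_zero.1 k1.symm with h' | h'
      · exact absurd h' hne
      · exact h'
    · rcases mul_eq_zero.1 k2.symm with h' | h'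
      · exact absurd h' hne
      · exact h'
    · rcases mul_eq_zero.1 k3.symm with h' | h'
      · exact absurd h' hne
      · exact h'
  have hind : LinearIndependent F ![e₁, e₂, e₃] := by
    rw [Fintype.linearIndependent_iff]
    intro g hg i
    rw [Fin.sum_univ_three] at hg
    obtain ⟨h0, h1, h2'⟩ := hcoef (g 0) (g 1) (g 2) hg
    fin_cases i
    · exact h0
    · exact h1
    · exact h2'
  have hspan : Submodule.span F (Set.range ![e₁, e₂, e₃]) = W := by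
    apply Submodule.eq_of_le_of_finrank_eq
    · rw [Submodule.span_le]
      rintro _ ⟨i, rfl⟩
      fin_cases i
      · exact h₁
      · exact h₂
      · exact h₃
    · rw [finrank_span_eq_card hind, hdim, Fintype.card_fin]
  rw [← hspan, Submodule.mem_span_range_iff_exists_fun] at hv
  obtain ⟨c, hc⟩ := hv
  rw [Fin.sum_univ_three] at hc
  have hc' : c 0 • e₁ + c 1 • e₂ + c 2 • e₃ = v := hc
  have hs : c 0 * c 0 + c 1 * c 1 + c 2 * c 2 = 1 :=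
    mul_left_cancel₀ hε (by rw [← hform, hc', hQv, mul_one])
  have main : ∀ x y z : F, x * x + y * y + z * z = 1 → x • e₁ + y • e₂ + z • e₃ = v →
      v = e₁ ∨ v = -e₁ ∨ v = e₂ ∨ v = -e₂ ∨ v = e₃ ∨ v = -e₃ := by
    intro x y z hs hv'
    rw [← hv']
    rcases fr3_tri hq x with rfl | rfl | rfl <;> rcases fr3_tri hq y with rfl | rfl | rfl <;>
      rcases fr3_tri hq z with rfl | rfl | rfl <;>
      first
        | (exfalso; exact (one_ne_zero : (1 : F) ≠ 0) (by linear_combination -hs))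
        | (exfalso; exact (one_ne_zero : (1 : F) ≠ 0) (by linear_combination hs))
        | (exfalso; exact (one_ne_zero : (1 : F) ≠ 0) (by linear_combination h3 - hs))
        | simp
  exact main (c 0) (c 1) (c 2) hs hc'

set_option maxHeartbeats 2000000 in
theorem fr3_not_max [Fintype F] (hq : Fintype.card F = 3) (Q : QuadraticForm F (κ → F))
    (hQ : (QuadraticMap.polarBilin Q).Nondegenerate) (i₀ i₁ : κ) (hi : i₀ ≠ i₁)
    {t : ℕ} (D : Fin t → Submodule F (κ → F))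
    (hD : Cfsg.Geo.IsOrthogonalMDecomposition (⇑Q) 3 D) :
    ∃ K : Subgroup (Matrix.GeneralLinearGroup κ F),
      Cfsg.Geo.decompositionStabilizer D ⊓ Cfsg.Geo.omegaGL (⇑Q) < K ∧
        K < Cfsg.Geo.omegaGL (⇑Q) := by
  have h2 : (2 : F) ≠ 0 := fr3_two hq
  have h3 : (3 : F) = 0 := fr3_three hq
  have ht : 2 ≤ t := hD.decomp.decomp.two_le
  obtain ⟨j₀, hj₀⟩ : ∃ j : Fin t, j.1 = 0 := ⟨⟨0, by omega⟩, rfl⟩
  obtain ⟨j₁, hj₁⟩ : ∃ j : Fin t, j.1 = 1 := ⟨⟨1, by omega⟩, rfl⟩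
  have hj : j₀ ≠ j₁ := by
    intro h
    rw [h, hj₁] at hj₀
    exact one_ne_zero hj₀
  have horth : ∀ i j, i ≠ j → ∀ u ∈ D i, ∀ v ∈ D j, QuadraticMap.polar (⇑Q) u v = 0 :=
    fun i j hij => hD.decomp.orthogonal i j hij
  have hdim : ∀ i, Module.finrank F (D i) = 3 := hD.decomp.decomp.finrank_eq
  obtain ⟨ε, e₁, e₂, e₃, hε, he₁, he₂, he₃, qe₁, qe₂, qe₃, pe₁₂, pe₁₃, pe₂₃⟩ :=
    fr3_exists hq Q (D j₀) (hdim j₀) (hD.decomp.nondegenerate j₀)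
  have h2ε : 2 * ε ≠ 0 := mul_ne_zero h2 hε
  obtain ⟨φ, hφ⟩ := hD.isometric j₀ j₁
  have hφpol : ∀ x y : ↥(D j₀),
      QuadraticMap.polar (⇑Q) ((φ x : ↥(D j₁)) : κ → F) ((φ y : ↥(D j₁)) : κ → F)
        = QuadraticMap.polar (⇑Q) (x : κ → F) (y : κ → F) := by
    intro x y
    rw [kit_polar_def, kit_polar_def, hφ x, hφ y, ← Submodule.coe_add, ← map_add φ x y,
      hφ (x + y), Submodule.coe_add]
  obtain ⟨f₁, hf₁, qf₁, hf₁d⟩ : ∃ f : κ → F, f ∈ D j₁ ∧ Q f = ε ∧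
      f = ((φ ⟨e₁, he₁⟩ : ↥(D j₁)) : κ → F) :=
    ⟨_, (φ ⟨e₁, he₁⟩).2, (hφ ⟨e₁, he₁⟩).trans qe₁, rfl⟩
  obtain ⟨f₂, hf₂, qf₂, hf₂d⟩ : ∃ f : κ → F, f ∈ D j₁ ∧ Q f = ε ∧
      f = ((φ ⟨e₂, he₂⟩ : ↥(D j₁)) : κ → F) :=
    ⟨_, (φ ⟨e₂, he₂⟩).2, (hφ ⟨e₂, he₂⟩).trans qe₂, rfl⟩
  obtain ⟨f₃, hf₃, qf₃, hf₃d⟩ : ∃ f : κ → F, f ∈ D j₁ ∧ Q f = ε ∧
      f = ((φ ⟨e₃, he₃⟩ : ↥(D j₁)) : κ → F) :=
    ⟨_, (φ ⟨e₃, he₃⟩).2, (hφ ⟨e₃, he₃⟩).trans qe₃, rfl⟩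
  have pf₁₂ : QuadraticMap.polar (⇑Q) f₁ f₂ = 0 := by
    rw [hf₁d, hf₂d, hφpol]; exact pe₁₂
  have pf₁₃ : QuadraticMap.polar (⇑Q) f₁ f₃ = 0 := by
    rw [hf₁d, hf₃d, hφpol]; exact pe₁₃
  have pf₂₃ : QuadraticMap.polar (⇑Q) f₂ f₃ = 0 := by
    rw [hf₂d, hf₃d, hφpol]; exact pe₂₃
  have pe₂₁ : QuadraticMap.polar (⇑Q) e₂ e₁ = 0 := by rw [QuadraticMap.polar_comm]; exact pe₁₂
  have pe₃₁ : QuadraticMap.polar (⇑Q) e₃ e₁ = 0 := by rw [QuadraticMap.polar_comm]; exact pe₁₃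
  have pf₂₁ : QuadraticMap.polar (⇑Q) f₂ f₁ = 0 := by rw [QuadraticMap.polar_comm]; exact pf₁₂
  have ce : ∀ x ∈ D j₀, ∀ y ∈ D j₁, QuadraticMap.polar (⇑Q) x y = 0 := horth j₀ j₁ hj
  have ce' : ∀ y ∈ D j₁, ∀ x ∈ D j₀, QuadraticMap.polar (⇑Q) y x = 0 := horth j₁ j₀ hj.symm
  have nw₁ : Q (e₁ - f₁) = 2 * ε := fr3_swap_norm Q e₁ f₁ ε qe₁ qf₁ (ce e₁ he₁ f₁ hf₁)
  have nw₂ : Q (e₂ - f₂) = 2 * ε := fr3_swap_norm Q e₂ f₂ ε qe₂ qf₂ (ce e₂ he₂ f₂ hf₂)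
  have hw₁ : Q (e₁ - f₁) ≠ 0 := by rw [nw₁]; exact h2ε
  have hw₂ : Q (e₂ - f₂) ≠ 0 := by rw [nw₂]; exact h2ε
  obtain ⟨r₁, hr₁⟩ : ∃ r : ↥(Cfsg.isometryGroup F ⇑Q), r = reflEl Q (e₁ - f₁) hw₁ := ⟨_, rfl⟩
  obtain ⟨r₂, hr₂⟩ : ∃ r : ↥(Cfsg.isometryGroup F ⇑Q), r = reflEl Q (e₂ - f₂) hw₂ := ⟨_, rfl⟩
  have a₁e : isoActF ⇑Q r₁ e₁ = f₁ := by
    rw [hr₁]; exact fr3_swap_left h2 Q e₁ f₁ ε hε qe₁ qf₁ (ce e₁ he₁ f₁ hf₁) hw₁
  have a₁f : isoActF ⇑Q r₁ f₁ = e₁ := by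
    rw [hr₁]; exact fr3_swap_right h2 Q e₁ f₁ ε hε qe₁ qf₁ (ce e₁ he₁ f₁ hf₁) hw₁
  have a₁x : ∀ x, QuadraticMap.polar (⇑Q) e₁ x = 0 → QuadraticMap.polar (⇑Q) f₁ x = 0 →
      isoActF ⇑Q r₁ x = x := by
    intro x h h'
    rw [hr₁]; exact fr3_swap_fix Q e₁ f₁ x hw₁ h h'
  have a₂e : isoActF ⇑Q r₂ e₂ = f₂ := by
    rw [hr₂]; exact fr3_swap_left h2 Q e₂ f₂ ε hε qe₂ qf₂ (ce e₂ he₂ f₂ hf₂) hw₂
  have a₂f : isoActF ⇑Q r₂ f₂ = e₂ := by
    rw [hr₂]; exact fr3_swap_right h2 Q e₂ f₂ ε hε qe₂ qf₂ (ce e₂ he₂ f₂ hf₂) hw₂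
  have a₂x : ∀ x, QuadraticMap.polar (⇑Q) e₂ x = 0 → QuadraticMap.polar (⇑Q) f₂ x = 0 →
      isoActF ⇑Q r₂ x = x := by
    intro x h h'
    rw [hr₂]; exact fr3_swap_fix Q e₂ f₂ x hw₂ h h'
  have hkΩ : r₁ * r₂ ∈ commutator ↥(Cfsg.isometryGroup F ⇑Q) := by
    rw [hr₁, hr₂]
    exact fr3_pair_omega h2 i₀ i₁ hi Q hQ _ _ hw₁ hw₂ (nw₁.trans nw₂.symm)
  have hk : ∀ x, isoActF ⇑Q (r₁ * r₂) x = isoActF ⇑Q r₁ (isoActF ⇑Q r₂ x) := by
    intro x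
    first | rw [map_mul, LinearEquiv.mul_apply] | (rw [map_mul]; rfl)
  have ke₁ : isoActF ⇑Q (r₁ * r₂) e₁ = f₁ := by
    rw [hk, a₂x e₁ pe₂₁ (ce' f₂ hf₂ e₁ he₁), a₁e]
  have kf₁ : isoActF ⇑Q (r₁ * r₂) f₁ = e₁ := by
    rw [hk, a₂x f₁ (ce e₂ he₂ f₁ hf₁) pf₂₁, a₁f]
  have ke₂ : isoActF ⇑Q (r₁ * r₂) e₂ = f₂ := by
    rw [hk, a₂e, a₁x f₂ (ce e₁ he₁ f₂ hf₂) pf₁₂]
  have kf₂ : isoActF ⇑Q (r₁ * r₂) f₂ = e₂ := by
    rw [hk, a₂f, a₁x e₂ pe₁₂ (ce' f₁ hf₁ e₂ he₂)]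
  have kx : ∀ x, QuadraticMap.polar (⇑Q) e₁ x = 0 → QuadraticMap.polar (⇑Q) f₁ x = 0 →
      QuadraticMap.polar (⇑Q) e₂ x = 0 → QuadraticMap.polar (⇑Q) f₂ x = 0 →
      isoActF ⇑Q (r₁ * r₂) x = x := by
    intro x g1 g2 g3 g4
    rw [hk, a₂x x g3 g4, a₁x x g1 g2]
  have ke₃ : isoActF ⇑Q (r₁ * r₂) e₃ = e₃ :=
    kx e₃ pe₁₃ (ce' f₁ hf₁ e₃ he₃) pe₂₃ (ce' f₂ hf₂ e₃ he₃)
  have kf₃ : isoActF ⇑Q (r₁ * r₂) f₃ = f₃ :=
    kx f₃ (ce e₁ he₁ f₃ hf₃) pf₁₃ (ce e₂ he₂ f₃ hf₃) pf₂₃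
  obtain ⟨N, hN⟩ : ∃ N : Set (κ → F), N = {v | ∃ i, v ∈ D i ∧ Q v = ε} := ⟨_, rfl⟩
  have hNmem : ∀ v, v ∈ N ↔ ∃ i, v ∈ D i ∧ Q v = ε := by
    intro v
    rw [hN]
    exact Iff.rfl
  have hNe : ∀ x ∈ D j₀, Q x = ε → x ∈ N := fun x hx hq' => (hNmem x).2 ⟨j₀, hx, hq'⟩
  have hNf : ∀ x ∈ D j₁, Q x = ε → x ∈ N := fun x hx hq' => (hNmem x).2 ⟨j₁, hx, hq'⟩
  have hNe' : ∀ x ∈ D j₀, Q x = ε → -x ∈ N := fun x hx hq' =>
    hNe (-x) ((D j₀).neg_mem hx) (by rw [QuadraticMap.map_neg]; exact hq')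
  have hNf' : ∀ x ∈ D j₁, Q x = ε → -x ∈ N := fun x hx hq' =>
    hNf (-x) ((D j₁).neg_mem hx) (by rw [QuadraticMap.map_neg]; exact hq')
  have hkΩ' : ((r₁ * r₂ : ↥(Cfsg.isometryGroup F ⇑Q)) : Matrix.GeneralLinearGroup κ F)
      ∈ Cfsg.Geo.omegaGL (⇑Q) :=
    Subgroup.mem_map_of_mem (Cfsg.isometryGroup F ⇑Q).subtype hkΩ
  have hkN : ((r₁ * r₂ : ↥(Cfsg.isometryGroup F ⇑Q)) : Matrix.GeneralLinearGroup κ F)
      ∈ fr3_stabSet N := by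
    apply fr3_stabSet_of_maps
    intro v hv
    rw [← isoActF_apply]
    obtain ⟨i, hvi, hvq⟩ := (hNmem v).1 hv
    by_cases hi0 : i = j₀
    · rw [hi0] at hvi
      rcases fr3_norm hq Q (D j₀) (hdim j₀) ε hε e₁ e₂ e₃ he₁ he₂ he₃ qe₁ qe₂ qe₃ pe₁₂ pe₁₃
        pe₂₃ v hvi hvq with h | h | h | h | h | h
      · rw [h, ke₁]; exact hNf f₁ hf₁ qf₁
      · rw [h, map_neg, ke₁]; exact hNf' f₁ hf₁ qf₁
      · rw [h, ke₂]; exact hNf f₂ hf₂ qf₂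
      · rw [h, map_neg, ke₂]; exact hNf' f₂ hf₂ qf₂
      · rw [h, ke₃]; exact hNe e₃ he₃ qe₃
      · rw [h, map_neg, ke₃]; exact hNe' e₃ he₃ qe₃
    · by_cases hi1 : i = j₁
      · rw [hi1] at hvi
        rcases fr3_norm hq Q (D j₁) (hdim j₁) ε hε f₁ f₂ f₃ hf₁ hf₂ hf₃ qf₁ qf₂ qf₃ pf₁₂ pf₁₃
          pf₂₃ v hvi hvq with h | h | h | h | h | h
        · rw [h, kf₁]; exact hNe e₁ he₁ qe₁
        · rw [h, map_neg, kf₁]; exact hNe' e₁ he₁ qe₁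
        · rw [h, kf₂]; exact hNe e₂ he₂ qe₂
        · rw [h, map_neg, kf₂]; exact hNe' e₂ he₂ qe₂
        · rw [h, kf₃]; exact hNf f₃ hf₃ qf₃
        · rw [h, map_neg, kf₃]; exact hNf' f₃ hf₃ qf₃
      · rw [kx v (horth j₀ i (Ne.symm hi0) e₁ he₁ v hvi) (horth j₁ i (Ne.symm hi1) f₁ hf₁ v hvi)
          (horth j₀ i (Ne.symm hi0) e₂ he₂ v hvi) (horth j₁ i (Ne.symm hi1) f₂ hf₂ v hvi)]
        exact hv
  have hkS : ((r₁ * r₂ : ↥(Cfsg.isometryGroup F ⇑Q)) : Matrix.GeneralLinearGroup κ F)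
      ∉ Cfsg.Geo.decompositionStabilizer D := by
    intro hmem
    obtain ⟨σ, hσ⟩ : ∃ σ : Equiv.Perm (Fin t), ∀ i, (D i).map (Matrix.toLin'
        (((r₁ * r₂ : ↥(Cfsg.isometryGroup F ⇑Q)) : Matrix.GeneralLinearGroup κ F) :
          Matrix κ κ F)) = D (σ i) := hmem
    have hmap : ∀ x ∈ D j₀, isoActF ⇑Q (r₁ * r₂) x ∈ D (σ j₀) := by
      intro x hx
      rw [← hσ j₀]
      exact Submodule.mem_map.2 ⟨x, hx, by rw [isoActF_apply]; exact Matrix.toLin'_apply _ _⟩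
    have m3 : e₃ ∈ D (σ j₀) := by
      have h := hmap e₃ he₃
      rw [ke₃] at h
      exact h
    have m1 : f₁ ∈ D (σ j₀) := by
      have h := hmap e₁ he₁
      rw [ke₁] at h
      exact h
    have hσ0 : σ j₀ = j₀ := by
      by_contra hne
      have h0 := horth j₀ (σ j₀) (Ne.symm hne) e₃ he₃ e₃ m3
      rw [kit_polar_self, qe₃] at h0
      exact h2ε h0
    rw [hσ0] at m1
    have h0 := horth j₀ j₁ hj f₁ m1 f₁ hf₁
    rw [kit_polar_self, qf₁] at h0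
    exact h2ε h0
  refine ⟨Cfsg.Geo.omegaGL (⇑Q) ⊓ fr3_stabSet N, ?_, ?_⟩
  · rw [SetLike.lt_iff_le_and_exists]
    refine ⟨?_, _, Subgroup.mem_inf.2 ⟨hkΩ', hkN⟩, fun h => hkS (Subgroup.mem_inf.1 h).1⟩
    intro g hg
    obtain ⟨hgS, hgΩ⟩ := Subgroup.mem_inf.1 hg
    refine Subgroup.mem_inf.2 ⟨hgΩ, ?_⟩
    obtain ⟨g', -, hg'⟩ := Subgroup.mem_map.1 hgΩ
    have hg'' : (g' : Matrix.GeneralLinearGroup κ F) = g := hg'
    obtain ⟨σ, hσ⟩ : ∃ σ : Equiv.Perm (Fin t), ∀ i,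
        (D i).map (Matrix.toLin' (g : Matrix κ κ F)) = D (σ i) := hgS
    apply fr3_stabSet_of_maps
    intro v hv
    obtain ⟨i, hvi, hvq⟩ := (hNmem v).1 hv
    refine (hNmem _).2 ⟨σ i, ?_, ?_⟩
    · rw [← hσ i]
      exact Submodule.mem_map.2 ⟨v, hvi, Matrix.toLin'_apply _ _⟩
    · rw [← hg'', ← isoActF_apply, isoActF_isom (⇑Q) g' v]
      exact hvq
  · rw [SetLike.lt_iff_le_and_exists]
    refine ⟨inf_le_left, ?_⟩
    have qa : Q (e₁ + e₂ + f₁ + f₂) = ε := by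
      rw [kit_add, kit_add, kit_add, QuadraticMap.polar_add_left, QuadraticMap.polar_add_left,
        QuadraticMap.polar_add_left, qe₁, qe₂, qf₁, qf₂, pe₁₂, ce e₁ he₁ f₁ hf₁,
        ce e₂ he₂ f₁ hf₁, ce e₁ he₁ f₂ hf₂, ce e₂ he₂ f₂ hf₂, pf₁₂]
      linear_combination ε * h3
    have ha : Q (e₁ + e₂ + f₁ + f₂) ≠ 0 := by rw [qa]; exact hε
    have he₃' : Q e₃ ≠ 0 := by rw [qe₃]; exact hε
    have hωΩ : reflEl Q (e₁ + e₂ + f₁ + f₂) ha * reflEl Q e₃ he₃'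
        ∈ commutator ↥(Cfsg.isometryGroup F ⇑Q) :=
      fr3_pair_omega h2 i₀ i₁ hi Q hQ _ _ ha he₃' (qa.trans qe₃.symm)
    have hpa : QuadraticMap.polar (⇑Q) (e₁ + e₂ + f₁ + f₂) e₁ = 2 * ε := by
      rw [QuadraticMap.polar_add_left, QuadraticMap.polar_add_left,
        QuadraticMap.polar_add_left, kit_polar_self, qe₁, pe₂₁, ce' f₁ hf₁ e₁ he₁,
        ce' f₂ hf₂ e₁ he₁, add_zero, add_zero, add_zero]
    have hpaf : QuadraticMap.polar (⇑Q) (e₁ + e₂ + f₁ + f₂) f₁ = 2 * ε := by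
      rw [QuadraticMap.polar_add_left, QuadraticMap.polar_add_left,
        QuadraticMap.polar_add_left, kit_polar_self, qf₁, ce e₁ he₁ f₁ hf₁, ce e₂ he₂ f₁ hf₁,
        pf₂₁, zero_add, zero_add, add_zero]
    have hc : ε⁻¹ * (2 * ε) = 2 := by
      rw [mul_comm 2 ε, ← mul_assoc, inv_mul_cancel₀ hε, one_mul]
    have hωe : isoActF ⇑Q (reflEl Q (e₁ + e₂ + f₁ + f₂) ha * reflEl Q e₃ he₃') e₁
        = e₁ - (2 : F) • (e₁ + e₂ + f₁ + f₂) := by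
      have hm : isoActF ⇑Q (reflEl Q (e₁ + e₂ + f₁ + f₂) ha * reflEl Q e₃ he₃') e₁
          = isoActF ⇑Q (reflEl Q (e₁ + e₂ + f₁ + f₂) ha)
            (isoActF ⇑Q (reflEl Q e₃ he₃') e₁) := by
        first | rw [map_mul, LinearEquiv.mul_apply] | (rw [map_mul]; rfl)
      rw [hm, fr3_refl_fix Q e₃ he₃' e₁ pe₃₁, actsRefl_reflEl Q _ ha e₁, qa, hpa, hc]
    have hu1 : QuadraticMap.polar (⇑Q) (e₁ - (2 : F) • (e₁ + e₂ + f₁ + f₂)) e₁
        = -(2 * ε) := by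
      rw [QuadraticMap.polar_sub_left, QuadraticMap.polar_smul_left, hpa, kit_polar_self, qe₁,
        smul_eq_mul]
      ring
    have hu2 : QuadraticMap.polar (⇑Q) (e₁ - (2 : F) • (e₁ + e₂ + f₁ + f₂)) f₁
        = -(4 * ε) := by
      rw [QuadraticMap.polar_sub_left, QuadraticMap.polar_smul_left, hpaf, ce e₁ he₁ f₁ hf₁,
        smul_eq_mul]
      ring
    refine ⟨((reflEl Q (e₁ + e₂ + f₁ + f₂) ha * reflEl Q e₃ he₃' :
        ↥(Cfsg.isometryGroup F ⇑Q)) : Matrix.GeneralLinearGroup κ F),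
      Subgroup.mem_map_of_mem (Cfsg.isometryGroup F ⇑Q).subtype hωΩ, ?_⟩
    intro hmem
    have hst := (Subgroup.mem_inf.1 hmem).2
    have h1 := ((fr3_stabSet_mem N _).1 hst e₁).2 (hNe e₁ he₁ qe₁)
    rw [← isoActF_apply, hωe] at h1
    obtain ⟨i, hui, -⟩ := (hNmem _).1 h1
    by_cases hi0 : i = j₀
    · rw [hi0] at hui
      have h0 := horth j₀ j₁ hj _ hui f₁ hf₁
      rw [hu2] at h0
      exact hε (by linear_combination -h0 - ε * h3)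
    · have h0 := horth i j₀ hi0 _ hui e₁ he₁
      rw [hu1] at h0
      exact h2ε (neg_eq_zero.1 h0)

end Frame3

end Cfsg.Agent.Helper5
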