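import Mathlib
import Cfsg.Agent.Helper5.OmegaAll
import Cfsg.Agent.S0750

/-!
Tools for transitivity statements about the commutator subgroup of a finite orthogonal group:
Witt's lemma in matrix form, a covering lemma (a subset closed under products which contains a
reflection and, in odd characteristic, an element of determinant one and non-trivial spinor
sign, meets every coset of the commutator subgroup), and the elements needed to apply it to
totally singular and to non-degenerate subspaces.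
-/

set_option autoImplicit false

namespace Cfsg.Agent.Helper5

section Abs

variable {F V : Type*} [Field F] [AddCommGroup V] [Module F V]

/-- The product of the reflections in `w - w'` and `w - lam • w'`, for a hyperbolic pair
`w, w'`, on a vector orthogonal to `w`. -/
theorem ts_rot_calc (Q : QuadraticForm F V) (w w' x : V) (lam : F) (hlam : lam ≠ 0)
    (hw : Q w = 0) (hw' : Q w' = 0) (hww' : QuadraticMap.polar (⇑Q) w w' = 1)
    (hwx : QuadraticMap.polar (⇑Q) w x = 0) :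
    Q (w - w') = -1 ∧ Q (w - lam • w') = -lam ∧
    (x - ((Q (w - lam • w'))⁻¹ * QuadraticMap.polar (⇑Q) (w - lam • w') x) • (w - lam • w'))
      - ((Q (w - w'))⁻¹ * QuadraticMap.polar (⇑Q) (w - w')
          (x - ((Q (w - lam • w'))⁻¹ * QuadraticMap.polar (⇑Q) (w - lam • w') x)
            • (w - lam • w'))) • (w - w')
      = x + (QuadraticMap.polar (⇑Q) w' x * (lam - 1)) • w := by
  have hsub : ∀ x y : V, Q (x - y) = Q x + Q y - QuadraticMap.polar (⇑Q) x y := fun x y => by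
    rw [sub_eq_add_neg, kit_add, QuadraticMap.map_neg, QuadraticMap.polar_neg_right]
    ring
  have hww : QuadraticMap.polar (⇑Q) w w = 0 := by
    rw [QuadraticMap.polar_self, hw, smul_zero]
  have hw'w' : QuadraticMap.polar (⇑Q) w' w' = 0 := by
    rw [QuadraticMap.polar_self, hw', smul_zero]
  have hw'w : QuadraticMap.polar (⇑Q) w' w = 1 := by
    rw [QuadraticMap.polar_comm]
    exact hww'
  have hQa : Q (w - w') = -1 := by
    rw [hsub, hw, hw', hww']
    ring
  have hQb : Q (w - lam • w') = -lam := by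
    rw [hsub, QuadraticMap.map_smul, QuadraticMap.polar_smul_right, hw, hw', hww']
    simp
  have hbx : QuadraticMap.polar (⇑Q) (w - lam • w') x
      = -(lam * QuadraticMap.polar (⇑Q) w' x) := by
    rw [QuadraticMap.polar_sub_left, QuadraticMap.polar_smul_left, hwx, smul_eq_mul, zero_sub]
  have hc : (Q (w - lam • w'))⁻¹ * QuadraticMap.polar (⇑Q) (w - lam • w') x
      = QuadraticMap.polar (⇑Q) w' x := by
    rw [hQb, hbx, ← neg_mul, inv_mul_cancel_left₀ (neg_ne_zero.2 hlam)]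
  have hay : QuadraticMap.polar (⇑Q) (w - w')
      (x - QuadraticMap.polar (⇑Q) w' x • (w - lam • w'))
      = QuadraticMap.polar (⇑Q) w' x * lam := by
    simp only [QuadraticMap.polar_sub_left, QuadraticMap.polar_sub_right,
      QuadraticMap.polar_smul_right, hwx, hww, hw'w, hww', hw'w', smul_eq_mul]
    ring
  refine ⟨hQa, hQb, ?_⟩
  rw [hc, hay, hQa, inv_neg_one]
  module

/-- A non-zero subspace on which the polar form is non-degenerate has a non-singular vector. -/
theorem nd_nonsing (Q : QuadraticForm F V) (X : Submodule F V)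
    (hX : X ⊓ LinearMap.BilinForm.orthogonal (QuadraticMap.polarBilin Q) X = ⊥)
    (hXb : X ≠ ⊥) : ∃ u ∈ X, Q u ≠ 0 := by
  by_contra hcon
  push Not at hcon
  apply hXb
  have hle : X ≤ LinearMap.BilinForm.orthogonal (QuadraticMap.polarBilin Q) X := by
    intro x hx
    rw [mem_perp_iff]
    intro n hn
    exact ts_polar Q X hcon n x hn hx
  rw [← hX]
  exact (inf_eq_left.2 hle).symm

theorem nonsq_no_inv {ε : F} (hε : ¬ IsSquare ε) : ¬ ∃ t : F, t * t * ε = 1 := by
  rintro ⟨t, ht⟩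
  have ht0 : t ≠ 0 := by
    rintro rfl
    simp at ht
  have h4 : t * t⁻¹ = 1 := mul_inv_cancel₀ ht0
  exact hε ⟨t⁻¹, by linear_combination (t⁻¹ * t⁻¹) * ht - ε * (t * t⁻¹ + 1) * h4⟩

/-- A subspace of dimension at least two on which the polar form is non-degenerate represents
every element of a finite field of odd characteristic. -/
theorem univ_sub [Finite F] [FiniteDimensional F V] (h2 : (2 : F) ≠ 0) (Q : QuadraticForm F V)
    (X : Submodule F V)
    (hX : X ⊓ LinearMap.BilinForm.orthogonal (QuadraticMap.polarBilin Q) X = ⊥)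
    (hd : 2 ≤ Module.finrank F X) (a : F) : ∃ v ∈ X, Q v = a := by
  have hXb : X ≠ ⊥ := by
    intro hb
    rw [hb, finrank_bot] at hd
    omega
  obtain ⟨u, huX, hu⟩ := nd_nonsing Q X hX hXb
  obtain ⟨u', hu'X, hu'0, huu'⟩ : ∃ u' ∈ X, u' ≠ 0 ∧ QuadraticMap.polar (⇑Q) u u' = 0 := by
    obtain ⟨f, hf⟩ : ∃ f : ↥X →ₗ[F] F, ∀ x : ↥X, f x = QuadraticMap.polar (⇑Q) u (x : V) :=
      ⟨(QuadraticMap.polarBilin Q u).domRestrict X, fun x => rfl⟩
    have hr := LinearMap.finrank_range_add_finrank_ker f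
    have h1 : Module.finrank F ↥(LinearMap.range f) ≤ 1 := by
      have h3 := Submodule.finrank_le (LinearMap.range f)
      rwa [Module.finrank_self] at h3
    have hk : LinearMap.ker f ≠ ⊥ := by
      intro hb
      rw [hb, finrank_bot] at hr
      omega
    obtain ⟨x, hx, hx0⟩ := Submodule.exists_mem_ne_zero_of_ne_bot hk
    refine ⟨(x : V), x.2, fun h0 => hx0 (Submodule.coe_eq_zero.1 h0), ?_⟩
    rw [← hf]
    exact LinearMap.mem_ker.1 hx
  by_cases hu' : Q u' = 0
  · obtain ⟨z, hzX, hz⟩ : ∃ z ∈ X, QuadraticMap.polar (⇑Q) u' z ≠ 0 := by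
      by_contra hcon
      push Not at hcon
      apply hu'0
      have hmem : u' ∈ X ⊓ LinearMap.BilinForm.orthogonal (QuadraticMap.polarBilin Q) X := by
        refine Submodule.mem_inf.2 ⟨hu'X, (mem_perp_iff Q X u').2 ?_⟩
        intro n hn
        rw [QuadraticMap.polar_comm]
        exact hcon n hn
      rw [hX] at hmem
      exact (Submodule.mem_bot F).1 hmem
    refine ⟨z + ((a - Q z) * (QuadraticMap.polar (⇑Q) u' z)⁻¹) • u',
      X.add_mem hzX (X.smul_mem _ hu'X), ?_⟩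
    rw [kit_add, QuadraticMap.map_smul, hu', QuadraticMap.polar_smul_right,
      QuadraticMap.polar_comm _ z u', smul_zero, add_zero, smul_eq_mul, mul_assoc,
      inv_mul_cancel₀ hz, mul_one]
    ring
  · obtain ⟨s, t, hst⟩ := Cfsg.Agent.Helper6.exists_sq_add_sq h2 hu hu' a
    refine ⟨s • u + t • u', X.add_mem (X.smul_mem _ huX) (X.smul_mem _ hu'X), ?_⟩
    rw [kit_add, QuadraticMap.map_smul, QuadraticMap.map_smul, QuadraticMap.polar_smul_left,
      QuadraticMap.polar_smul_right, huu', smul_eq_mul, smul_eq_mul, smul_zero, smul_zero,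
      add_zero]
    linear_combination hst

end Abs

section Mat

open Matrix

variable {F : Type*} [Field F] {κ : Type} [Fintype κ] [DecidableEq κ]

theorem coe_mul_mat (Qf : (κ → F) → F) (a b : ↥(Cfsg.isometryGroup F Qf)) :
    (((a * b : ↥(Cfsg.isometryGroup F Qf)) : Matrix.GeneralLinearGroup κ F) : Matrix κ κ F)
      = ((a : Matrix.GeneralLinearGroup κ F) : Matrix κ κ F)
        * ((b : Matrix.GeneralLinearGroup κ F) : Matrix κ κ F) := rfl

theorem map_stab_one (Qf : (κ → F) → F) (W : Submodule F (κ → F)) :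
    W.map (Matrix.mulVecLin (((1 : ↥(Cfsg.isometryGroup F Qf)) :
      Matrix.GeneralLinearGroup κ F) : Matrix κ κ F)) = W := by
  have h3 : (((1 : ↥(Cfsg.isometryGroup F Qf)) : Matrix.GeneralLinearGroup κ F) :
      Matrix κ κ F) = 1 := rfl
  rw [h3, Matrix.mulVecLin_one, Submodule.map_id]

theorem map_stab_mul (Qf : (κ → F) → F) (U W X : Submodule F (κ → F))
    (a b : ↥(Cfsg.isometryGroup F Qf))
    (hb : U.map (Matrix.mulVecLin ((b : Matrix.GeneralLinearGroup κ F) : Matrix κ κ F)) = W)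
    (ha : W.map (Matrix.mulVecLin ((a : Matrix.GeneralLinearGroup κ F) : Matrix κ κ F)) = X) :
    U.map (Matrix.mulVecLin (((a * b : ↥(Cfsg.isometryGroup F Qf)) :
      Matrix.GeneralLinearGroup κ F) : Matrix κ κ F)) = X := by
  rw [coe_mul_mat, Matrix.mulVecLin_mul, Submodule.map_comp, hb, ha]

theorem map_eq_of_le (g : Matrix.GeneralLinearGroup κ F) (W : Submodule F (κ → F))
    (hle : W.map (Matrix.mulVecLin (g : Matrix κ κ F)) ≤ W) :
    W.map (Matrix.mulVecLin (g : Matrix κ κ F)) = W := by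
  apply Submodule.eq_of_le_of_finrank_eq hle
  exact (Submodule.equivMapOfInjective _ (mulVecLin_inj g) W).finrank_eq.symm

/-- Witt's lemma in matrix form: a form-preserving linear equivalence between two subspaces is
induced by an element of the isometry group. -/
theorem witt_move [Finite F] (Q : QuadraticForm F (κ → F))
    (hQ : (QuadraticMap.polarBilin Q).Nondegenerate) (U W : Submodule F (κ → F))
    (φ : U ≃ₗ[F] W) (hφ : ∀ u : U, Q (φ u : κ → F) = Q (u : κ → F)) :
    ∃ A : ↥(Cfsg.isometryGroup F ⇑Q),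
      U.map (Matrix.mulVecLin ((A : Matrix.GeneralLinearGroup κ F) : Matrix κ κ F)) = W := by
  obtain ⟨g, hg1, hg2⟩ := Cfsg.Agent.S0750.result Q hQ U W φ hφ
  obtain ⟨A, hA⟩ := isoActF_surj ⇑Q g hg1
  have hAx : ∀ x, Matrix.mulVecLin ((A : Matrix.GeneralLinearGroup κ F) : Matrix κ κ F) x
      = g x := by
    intro x
    rw [Matrix.mulVecLin_apply, ← isoActF_apply, hA]
  refine ⟨A, le_antisymm ?_ ?_⟩
  · rintro _ ⟨u, hu, rfl⟩
    have e := hg2 ⟨u, hu⟩
    change g u = _ at e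
    rw [hAx, e]
    exact (φ ⟨u, hu⟩).2
  · intro w hw
    refine ⟨((φ.symm ⟨w, hw⟩ : U) : κ → F), (φ.symm ⟨w, hw⟩).2, ?_⟩
    rw [hAx, hg2, LinearEquiv.apply_symm_apply]

/-- A reflection in a vector lying in a subspace, or orthogonal to it, stabilises it. -/
theorem refl_stab (Q : QuadraticForm F (κ → F)) (W : Submodule F (κ → F)) (v : κ → F)
    (hv : Q v ≠ 0) (hvW : v ∈ W ∨ ∀ w ∈ W, QuadraticMap.polar (⇑Q) w v = 0) :
    W.map (Matrix.mulVecLin (((reflEl Q v hv : ↥(Cfsg.isometryGroup F ⇑Q)) :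
      Matrix.GeneralLinearGroup κ F) : Matrix κ κ F)) = W := by
  apply map_eq_of_le
  rintro _ ⟨x, hx, rfl⟩
  have e := actsRefl_reflEl Q v hv x
  rw [Matrix.mulVecLin_apply, ← isoActF_apply, e]
  rcases hvW with hvW | hvW
  · exact W.sub_mem hx (W.smul_mem _ hvW)
  · rw [QuadraticMap.polar_comm, hvW x hx, mul_zero, zero_smul, sub_zero]
    exact hx

/-- A subspace of less than half the dimension has a non-singular vector in its orthogonal
complement. -/
theorem ts_perp_nonsing (Q : QuadraticForm F (κ → F))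
    (hQ : (QuadraticMap.polarBilin Q).Nondegenerate) (W : Submodule F (κ → F))
    (hk : 2 * Module.finrank F W < Fintype.card κ) :
    ∃ v, Q v ≠ 0 ∧ ∀ w ∈ W, QuadraticMap.polar (⇑Q) w v = 0 := by
  by_contra hcon
  push Not at hcon
  have hX0 : ∀ v ∈ LinearMap.BilinForm.orthogonal (QuadraticMap.polarBilin Q) W, Q v = 0 := by
    intro v hv
    by_contra hne
    obtain ⟨w, hw, hwv⟩ := hcon v hne
    exact hwv ((mem_perp_iff Q W v).1 hv w hw)
  have hle : LinearMap.BilinForm.orthogonal (QuadraticMap.polarBilin Q) W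
      ≤ LinearMap.BilinForm.orthogonal (QuadraticMap.polarBilin Q)
        (LinearMap.BilinForm.orthogonal (QuadraticMap.polarBilin Q) W) := by
    intro x hx
    rw [mem_perp_iff]
    intro n hn
    exact ts_polar Q _ hX0 n x hn hx
  have h1 := LinearMap.BilinForm.finrank_orthogonal hQ W
  have h2 := LinearMap.BilinForm.finrank_orthogonal hQ
    (LinearMap.BilinForm.orthogonal (QuadraticMap.polarBilin Q) W)
  have h3 := Submodule.finrank_mono hle
  have h4 := Submodule.finrank_le W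
  rw [Module.finrank_fintype_fun_eq_card] at h1 h2 h4
  omega

variable [Fintype F]

/-- The covering lemma. -/
theorem omega_cover (Q : QuadraticForm F (κ → F))
    (hQ : (QuadraticMap.polarBilin Q).Nondegenerate)
    (h : Fintype.card F ≠ 2 ∨ Fintype.card κ ≠ 4) (i₀ i₁ : κ) (hi : i₀ ≠ i₁)
    (P : ↥(Cfsg.isometryGroup F ⇑Q) → Prop) (h1 : P 1) (hmul : ∀ a b, P a → P b → P (a * b))
    (hrefl : ∃ r v, P r ∧ Q v ≠ 0 ∧ ActsRefl Q r v)
    (hchi : (2 : F) ≠ 0 → ∃ s, P s ∧ chi Q 1 s = -1 ∧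
      ((s : Matrix.GeneralLinearGroup κ F) : Matrix κ κ F).det = 1)
    (x : ↥(Cfsg.isometryGroup F ⇑Q)) :
    ∃ s, P s ∧ s * x ∈ commutator ↥(Cfsg.isometryGroup F ⇑Q) := by
  obtain ⟨r, v, hPr, hv, hr⟩ := hrefl
  by_cases h2 : (2 : F) = 0
  · rcases Int.units_eq_one_or (dick2 h2 Q hQ x) with hx | hx
    · refine ⟨1, h1, ?_⟩
      rw [one_mul, omega2_iff h2 Q hQ h]
      exact hx
    · refine ⟨r, hPr, ?_⟩
      rw [omega2_iff h2 Q hQ h, map_mul, hx, dick2_refl h2 Q hQ r v hv hr]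
      decide
  · have hdr := actsRefl_det Q r v hv hr
    obtain ⟨s₁, hP1, hd1⟩ : ∃ s₁, P s₁ ∧
        (((s₁ * x : ↥(Cfsg.isometryGroup F ⇑Q)) : Matrix.GeneralLinearGroup κ F) :
          Matrix κ κ F).det = 1 := by
      rcases Cfsg.Agent.Helper6.isometry_det_sq Q hQ x.1 x.2 with hd | hd
      · refine ⟨1, h1, ?_⟩
        rw [one_mul]
        exact hd
      · refine ⟨r, hPr, ?_⟩
        rw [coe_mul_mat, Matrix.det_mul, hdr]
        change -1 * ((x.1 : Matrix κ κ F)).det = 1
        rw [hd]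
        ring
    obtain ⟨s₀, hP0, hc0, hd0⟩ := hchi h2
    rcases Int.units_eq_one_or (chi Q 1 (s₁ * x)) with hx | hx
    · exact ⟨s₁, hP1, (omega_mem_iff h2 i₀ i₁ hi Q hQ _).2 ⟨hx, hd1⟩⟩
    · refine ⟨s₀ * s₁, hmul _ _ hP0 hP1, ?_⟩
      rw [mul_assoc, omega_mem_iff h2 i₀ i₁ hi Q hQ]
      refine ⟨?_, ?_⟩
      · rw [map_mul, hc0, hx]
        decide
      · rw [coe_mul_mat, Matrix.det_mul, hd0, hd1, one_mul]

/-- The product of the reflections in a vector of norm one and in a vector of non-square norm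
has determinant one and non-trivial spinor sign. -/
theorem refl_pair_chi (h2 : (2 : F) ≠ 0) (Q : QuadraticForm F (κ → F)) (v₁ v₂ : κ → F) (ε : F)
    (hε : ¬ IsSquare ε) (hv₁ : Q v₁ = 1) (hv₂ : Q v₂ = ε) (h1 : Q v₁ ≠ 0) (h2' : Q v₂ ≠ 0) :
    chi Q 1 (reflEl Q v₁ h1 * reflEl Q v₂ h2') = -1 ∧
    (((reflEl Q v₁ h1 * reflEl Q v₂ h2' : ↥(Cfsg.isometryGroup F ⇑Q)) :
      Matrix.GeneralLinearGroup κ F) : Matrix κ κ F).det = 1 := by
  refine ⟨?_, ?_⟩
  · rw [map_mul, (chi_refl h2 Q 1 one_ne_zero v₁ h1 _ (actsRefl_reflEl Q v₁ h1)).1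
        ⟨1, by rw [hv₁]; ring⟩,
      (chi_refl h2 Q 1 one_ne_zero v₂ h2' _ (actsRefl_reflEl Q v₂ h2')).2
        (by rw [hv₂]; exact nonsq_no_inv hε)]
    decide
  · rw [coe_mul_mat, Matrix.det_mul, actsRefl_det Q _ v₁ h1 (actsRefl_reflEl Q v₁ h1),
      actsRefl_det Q _ v₂ h2' (actsRefl_reflEl Q v₂ h2')]
    ring

/-- A non-zero totally singular subspace is stabilised by an isometry of determinant one and
non-trivial spinor sign. -/
theorem ts_rot_exists (h2 : (2 : F) ≠ 0) (Q : QuadraticForm F (κ → F))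
    (hQ : (QuadraticMap.polarBilin Q).Nondegenerate) (W : Submodule F (κ → F))
    (hW0 : ∀ w ∈ W, Q w = 0) (hWb : W ≠ ⊥) :
    ∃ s : ↥(Cfsg.isometryGroup F ⇑Q),
      W.map (Matrix.mulVecLin ((s : Matrix.GeneralLinearGroup κ F) : Matrix κ κ F)) = W ∧
      chi Q 1 s = -1 ∧ ((s : Matrix.GeneralLinearGroup κ F) : Matrix κ κ F).det = 1 := by
  have hchar : ringChar F ≠ 2 := by
    intro h
    apply h2
    have h3 := CharP.cast_eq_zero F (ringChar F)
    rw [h] at h3
    exact_mod_cast h3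
  obtain ⟨w, hwW, hw0⟩ := Submodule.exists_mem_ne_zero_of_ne_bot hWb
  have hQw : Q w = 0 := hW0 w hwW
  obtain ⟨y, hy⟩ : ∃ y, QuadraticMap.polar (⇑Q) w y ≠ 0 := by
    by_contra hcon
    push Not at hcon
    exact hw0 (hQ.1 w (fun y => hcon y))
  have hww : QuadraticMap.polar (⇑Q) w w = 0 := by
    rw [QuadraticMap.polar_self, hQw, smul_zero]
  obtain ⟨w', hw', hww'⟩ : ∃ w', Q w' = 0 ∧ QuadraticMap.polar (⇑Q) w w' = 1 := by
    have hyw : QuadraticMap.polar (⇑Q) y w = QuadraticMap.polar (⇑Q) w y :=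
      QuadraticMap.polar_comm _ y w
    have hdw : ∀ d : F, Q (d • w) = 0 := fun d => by
      rw [QuadraticMap.map_smul, hQw, smul_zero]
    have hdd : ∀ d : F, QuadraticMap.polar (⇑Q) (d • w) (d • w) = 0 := fun d => by
      rw [QuadraticMap.polar_self, hdw, smul_zero]
    have hQ1 : ∀ d : F, Q (y - d • w) = Q y - d * QuadraticMap.polar (⇑Q) w y := by
      intro d
      have e := kit_polar_def Q (y - d • w) (d • w)
      rw [QuadraticMap.polar_sub_left, QuadraticMap.polar_smul_right, hdd, sub_add_cancel, hdw,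
        hyw, smul_eq_mul] at e
      linear_combination e
    refine ⟨(QuadraticMap.polar (⇑Q) w y)⁻¹ • (y - (Q y * (QuadraticMap.polar (⇑Q) w y)⁻¹) • w),
      ?_, ?_⟩
    · rw [QuadraticMap.map_smul, hQ1, mul_assoc, inv_mul_cancel₀ hy, mul_one, sub_self,
        smul_zero]
    · rw [QuadraticMap.polar_smul_right, QuadraticMap.polar_sub_right,
        QuadraticMap.polar_smul_right, hww, smul_zero, sub_zero, smul_eq_mul,
        inv_mul_cancel₀ hy]
  obtain ⟨lam, hlam0, hlam⟩ : ∃ lam : F, lam ≠ 0 ∧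
      (((∃ t : F, t * t * (-1) = 1) ∧ ¬ (∃ t : F, t * t * (-lam) = 1)) ∨
       (¬ (∃ t : F, t * t * (-1) = 1) ∧ (∃ t : F, t * t * (-lam) = 1))) := by
    by_cases hm : ∃ t : F, t * t * (-1) = 1
    · obtain ⟨t₀, ht₀⟩ := hm
      obtain ⟨ε, hε⟩ := FiniteField.exists_nonsquare hchar
      refine ⟨ε, ?_, Or.inl ⟨⟨t₀, ht₀⟩, ?_⟩⟩
      · rintro rfl
        exact hε IsSquare.zero
      · rintro ⟨t, ht⟩
        have ht0 : t ≠ 0 := by
          rintro rfl
          simp at ht
        have h4 : t * t⁻¹ = 1 := mul_inv_cancel₀ ht0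
        have h3 : ε * (t * t) = t₀ * t₀ := by linear_combination (-1) * ht + ht₀
        exact hε ⟨t₀ * t⁻¹, by
          linear_combination (t⁻¹ * t⁻¹) * h3 - ε * (1 + t * t⁻¹) * h4⟩
    · exact ⟨-1, neg_ne_zero.2 one_ne_zero, Or.inr ⟨hm, ⟨1, by simp⟩⟩⟩
  have hwx : ∀ x ∈ W, QuadraticMap.polar (⇑Q) w x = 0 := fun x hx =>
    ts_polar Q W hW0 w x hwW hx
  obtain ⟨hQa, hQb, -⟩ := ts_rot_calc Q w w' 0 lam hlam0 hQw hw' hww'
    (QuadraticMap.polar_zero_right _ w)
  have ha : Q (w - w') ≠ 0 := by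
    rw [hQa]
    exact neg_ne_zero.2 one_ne_zero
  have hb : Q (w - lam • w') ≠ 0 := by
    rw [hQb]
    exact neg_ne_zero.2 hlam0
  refine ⟨reflEl Q (w - w') ha * reflEl Q (w - lam • w') hb, ?_, ?_, ?_⟩
  · apply map_eq_of_le
    rintro _ ⟨x, hx, rfl⟩
    have e1 := actsRefl_reflEl Q (w - lam • w') hb x
    have e2 := actsRefl_reflEl Q (w - w') ha
      (x - ((Q (w - lam • w'))⁻¹ * QuadraticMap.polar (⇑Q) (w - lam • w') x) • (w - lam • w'))
    rw [Matrix.mulVecLin_apply, ← isoActF_apply, map_mul, LinearEquiv.mul_apply, e1, e2,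
      (ts_rot_calc Q w w' x lam hlam0 hQw hw' hww' (hwx x hx)).2.2]
    exact W.add_mem hx (W.smul_mem _ hwW)
  · rw [map_mul]
    rcases hlam with ⟨h5, h6⟩ | ⟨h5, h6⟩
    · rw [(chi_refl h2 Q 1 one_ne_zero _ ha _ (actsRefl_reflEl Q _ ha)).1 (by rw [hQa]; exact h5),
        (chi_refl h2 Q 1 one_ne_zero _ hb _ (actsRefl_reflEl Q _ hb)).2 (by rw [hQb]; exact h6)]
      decide
    · rw [(chi_refl h2 Q 1 one_ne_zero _ ha _ (actsRefl_reflEl Q _ ha)).2 (by rw [hQa]; exact h5),
        (chi_refl h2 Q 1 one_ne_zero _ hb _ (actsRefl_reflEl Q _ hb)).1 (by rw [hQb]; exact h6)]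
      decide
  · rw [coe_mul_mat, Matrix.det_mul, actsRefl_det Q _ _ ha (actsRefl_reflEl Q _ ha),
      actsRefl_det Q _ _ hb (actsRefl_reflEl Q _ hb)]
    ring

end Mat

end Cfsg.Agent.Helper5
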