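import Mathlib
import Cfsg.Agent.Helper5.OmegaTrans
import Cfsg.Agent.Helper5.EvenCenter

/-!
Witt's lemma for pairs of vectors, its refinement to the commutator subgroup of the isometry
group, and basic facts on Siegel transformations for an arbitrary index type.
-/

set_option autoImplicit false

namespace Cfsg.Agent.Helper5

section Abs

variable {F V : Type*} [Field F] [AddCommGroup V] [Module F V]

/-- A linearly dependent pair: the first vector vanishes or the second is a multiple of it. -/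
theorem dep_cases (p p' : V) (h : ¬ LinearIndependent F ![p, p']) :
    p = 0 ∨ ∃ a : F, p' = a • p := by
  rw [LinearIndependent.pair_iff] at h
  push Not at h
  obtain ⟨s, t, hst, hne⟩ := h
  by_cases ht : t = 0
  · left
    have hs : s ≠ 0 := fun hs => hne hs ht
    rw [ht, zero_smul, add_zero] at hst
    exact (smul_eq_zero.1 hst).resolve_left hs
  · right
    refine ⟨-(t⁻¹ * s), ?_⟩
    have h3 : t • p' = -(s • p) := eq_neg_of_add_eq_zero_right hst
    calc p' = t⁻¹ • (t • p') := by rw [smul_smul, inv_mul_cancel₀ ht, one_smul]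
      _ = -(t⁻¹ * s) • p := by rw [h3, smul_neg, smul_smul, neg_smul]

/-- Independence of a pair from a triangular pairing with two test vectors. -/
theorem indep_of_dual (Q : QuadraticForm F V) (p p' d d' : V)
    (h1 : QuadraticMap.polar (⇑Q) p d ≠ 0) (h2 : QuadraticMap.polar (⇑Q) p' d = 0)
    (h3 : QuadraticMap.polar (⇑Q) p' d' ≠ 0) : LinearIndependent F ![p, p'] := by
  rw [LinearIndependent.pair_iff]
  intro s t hst
  have hs : s = 0 := by
    have e := congrArg (fun x => QuadraticMap.polar (⇑Q) x d) hst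
    simp only [QuadraticMap.polar_add_left, QuadraticMap.polar_smul_left, smul_eq_mul, h2,
      mul_zero, add_zero, QuadraticMap.polar_zero_left] at e
    exact (mul_eq_zero.1 e).resolve_right h1
  refine ⟨hs, ?_⟩
  rw [hs, zero_smul, zero_add] at hst
  have e := congrArg (fun x => QuadraticMap.polar (⇑Q) x d') hst
  simp only [QuadraticMap.polar_smul_left, smul_eq_mul, QuadraticMap.polar_zero_left] at e
  exact (mul_eq_zero.1 e).resolve_right h3

/-- A non-singular vector and a non-zero singular vector are independent. -/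
theorem indep_nonsing_sing (Q : QuadraticForm F V) (x v : V) (hx : Q x ≠ 0) (hv : Q v = 0)
    (hv0 : v ≠ 0) : LinearIndependent F ![x, v] := by
  rw [LinearIndependent.pair_iff]
  intro s t hst
  have h3 : s • x = (-t) • v := by
    rw [neg_smul]
    exact eq_neg_of_add_eq_zero_left hst
  have h4 := congrArg (⇑Q) h3
  rw [QuadraticMap.map_smul, QuadraticMap.map_smul, hv, smul_zero, smul_eq_mul] at h4
  have hs : s = 0 := by
    rcases mul_eq_zero.1 h4 with h5 | h5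
    · exact mul_self_eq_zero.1 h5
    · exact absurd h5 hx
  refine ⟨hs, ?_⟩
  rw [hs, zero_smul, zero_add] at hst
  exact (smul_eq_zero.1 hst).resolve_right hv0

end Abs

section Mat

open Matrix

variable {F : Type*} [Field F] {κ : Type} [Fintype κ] [DecidableEq κ]

theorem siegel_actK (Q : QuadraticForm F (κ → F)) (s : ↥(Cfsg.isometryGroup F ⇑Q))
    (u v : κ → F) (c : F)
    (hs : ((s : Matrix.GeneralLinearGroup κ F) : Matrix κ κ F) = Cfsg.siegelMatrix ⇑Q u v c)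
    (x : κ → F) :
    isoActF ⇑Q s x = x + c • (QuadraticMap.polar (⇑Q) u x • v
      - QuadraticMap.polar (⇑Q) v x • u) := by
  rw [isoActF_apply, hs, Cfsg.Agent.Helper6.siegelMatrix_mulVec]

/-- Conjugating a Siegel transformation. -/
theorem siegel_conjK (Q : QuadraticForm F (κ → F)) (g h s' : ↥(Cfsg.isometryGroup F ⇑Q))
    (u v : κ → F) (c : F)
    (hg : ((g : Matrix.GeneralLinearGroup κ F) : Matrix κ κ F) = Cfsg.siegelMatrix ⇑Q u v c)
    (hs' : ((s' : Matrix.GeneralLinearGroup κ F) : Matrix κ κ F)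
      = Cfsg.siegelMatrix ⇑Q (isoActF ⇑Q h u) (isoActF ⇑Q h v) c) :
    h * g * h⁻¹ = s' := by
  apply isoActF_injective ⇑Q
  apply LinearEquiv.ext
  intro x
  have h1 : isoActF ⇑Q h (isoActF ⇑Q h⁻¹ x) = x := by
    rw [← LinearEquiv.mul_apply, ← map_mul, mul_inv_cancel, map_one]
    rfl
  have hpu := isoActF_polar Q h u (isoActF ⇑Q h⁻¹ x)
  have hpv := isoActF_polar Q h v (isoActF ⇑Q h⁻¹ x)
  rw [h1] at hpu hpv
  rw [map_mul, map_mul, LinearEquiv.mul_apply, LinearEquiv.mul_apply,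
    siegel_actK Q g u v c hg, siegel_actK Q s' _ _ c hs', map_add, map_smul, map_sub,
    map_smul, map_smul, h1, hpu, hpv]

/-- A Siegel transformation on a dependent pair is trivial. -/
theorem siegel_dep_one (Q : QuadraticForm F (κ → F)) (g : ↥(Cfsg.isometryGroup F ⇑Q))
    (u v : κ → F) (c : F)
    (hg : ((g : Matrix.GeneralLinearGroup κ F) : Matrix κ κ F) = Cfsg.siegelMatrix ⇑Q u v c)
    (hdep : ¬ LinearIndependent F ![u, v]) : g = 1 := by
  apply isoActF_injective ⇑Q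
  apply LinearEquiv.ext
  intro x
  rw [siegel_actK Q g u v c hg, map_one]
  change _ = x
  rcases dep_cases u v hdep with h0 | ⟨a, ha⟩
  · rw [h0]
    simp
  · rw [ha, QuadraticMap.polar_smul_left, smul_eq_mul]
    module

/-- Witt's lemma for pairs. -/
theorem witt_pair [Finite F] (Q : QuadraticForm F (κ → F))
    (hQ : (QuadraticMap.polarBilin Q).Nondegenerate) (p₁ p₂ q₁ q₂ : κ → F)
    (hp : LinearIndependent F ![p₁, p₂]) (hq : LinearIndependent F ![q₁, q₂])
    (h1 : Q p₁ = Q q₁) (h2 : Q p₂ = Q q₂)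
    (h12 : QuadraticMap.polar (⇑Q) p₁ p₂ = QuadraticMap.polar (⇑Q) q₁ q₂) :
    ∃ g : ↥(Cfsg.isometryGroup F ⇑Q), isoActF ⇑Q g p₁ = q₁ ∧ isoActF ⇑Q g p₂ = q₂ := by
  obtain ⟨bU, hbU⟩ : ∃ b : Module.Basis (Fin 2) F (Submodule.span F (Set.range ![p₁, p₂])),
      ∀ i, (b i : κ → F) = ![p₁, p₂] i :=
    ⟨Module.Basis.span hp, fun i => by rw [Module.Basis.span_apply]⟩
  obtain ⟨bW, hbW⟩ : ∃ b : Module.Basis (Fin 2) F (Submodule.span F (Set.range ![q₁, q₂])),
      ∀ i, (b i : κ → F) = ![q₁, q₂] i :=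
    ⟨Module.Basis.span hq, fun i => by rw [Module.Basis.span_apply]⟩
  have key : ∀ (r₁ r₂ : κ → F) (c : Fin 2 → F), Q (∑ i, c i • ![r₁, r₂] i)
      = c 0 * c 0 * Q r₁ + c 1 * c 1 * Q r₂ + c 0 * c 1 * QuadraticMap.polar (⇑Q) r₁ r₂ := by
    intro r₁ r₂ c
    rw [Fin.sum_univ_two]
    change Q (c 0 • r₁ + c 1 • r₂) = _
    rw [kit_add, QuadraticMap.map_smul, QuadraticMap.map_smul, QuadraticMap.polar_smul_left,
      QuadraticMap.polar_smul_right]
    simp only [smul_eq_mul]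
    ring
  have hφ : ∀ u : ↥(Submodule.span F (Set.range ![p₁, p₂])),
      Q (((bU.equiv bW (Equiv.refl (Fin 2))) u : ↥(Submodule.span F (Set.range ![q₁, q₂])))
        : κ → F) = Q (u : κ → F) := by
    intro u
    have hu : ∑ i, bU.repr u i • bU i = u := bU.sum_repr u
    have e1 : (u : κ → F) = ∑ i, bU.repr u i • ![p₁, p₂] i := by
      have h3 := congrArg (fun z : ↥(Submodule.span F (Set.range ![p₁, p₂])) => (z : κ → F)) hu
      simp only [Submodule.coe_sum, Submodule.coe_smul, hbU] at h3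
      exact h3.symm
    have e2 : (((bU.equiv bW (Equiv.refl (Fin 2))) u
        : ↥(Submodule.span F (Set.range ![q₁, q₂]))) : κ → F)
        = ∑ i, bU.repr u i • ![q₁, q₂] i := by
      have h3 := congrArg (fun z : ↥(Submodule.span F (Set.range ![p₁, p₂])) =>
        (((bU.equiv bW (Equiv.refl (Fin 2))) z
          : ↥(Submodule.span F (Set.range ![q₁, q₂]))) : κ → F)) hu
      simp only [map_sum, map_smul, Module.Basis.equiv_apply, Equiv.refl_apply,
        Submodule.coe_sum, Submodule.coe_smul, hbW] at h3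
      exact h3.symm
    rw [e1, e2, key, key, h1, h2, h12]
  obtain ⟨g, hg1, hg2⟩ := Cfsg.Agent.S0750.result Q hQ _ _
    (bU.equiv bW (Equiv.refl (Fin 2))) hφ
  obtain ⟨A, hA⟩ := isoActF_surj ⇑Q g hg1
  have e0 := hg2 (bU 0)
  have e1 := hg2 (bU 1)
  rw [Module.Basis.equiv_apply, Equiv.refl_apply, hbU, hbW] at e0 e1
  refine ⟨A, ?_, ?_⟩
  · rw [hA]
    exact e0
  · rw [hA]
    exact e1

variable [Fintype F]

/-- Two pairs with the same invariants as a standard pair orthogonal to a hyperbolic pair are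
conjugate under the commutator subgroup of the isometry group. -/
theorem omega_pair (Q : QuadraticForm F (κ → F))
    (hQ : (QuadraticMap.polarBilin Q).Nondegenerate)
    (h : Fintype.card F ≠ 2 ∨ Fintype.card κ ≠ 4) (i₀ i₁ : κ) (hi : i₀ ≠ i₁)
    (q₁ q₂ e f : κ → F) (he : Q e = 0) (hf : Q f = 0)
    (hef : QuadraticMap.polar (⇑Q) e f = 1)
    (h1e : QuadraticMap.polar (⇑Q) e q₁ = 0) (h1f : QuadraticMap.polar (⇑Q) f q₁ = 0)
    (h2e : QuadraticMap.polar (⇑Q) e q₂ = 0) (h2f : QuadraticMap.polar (⇑Q) f q₂ = 0)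
    (hq : LinearIndependent F ![q₁, q₂])
    (p₁ p₂ p₁' p₂' : κ → F) (hp : LinearIndependent F ![p₁, p₂])
    (hp' : LinearIndependent F ![p₁', p₂'])
    (a1 : Q p₁ = Q q₁) (a2 : Q p₂ = Q q₂)
    (a12 : QuadraticMap.polar (⇑Q) p₁ p₂ = QuadraticMap.polar (⇑Q) q₁ q₂)
    (b1 : Q p₁' = Q q₁) (b2 : Q p₂' = Q q₂)
    (b12 : QuadraticMap.polar (⇑Q) p₁' p₂' = QuadraticMap.polar (⇑Q) q₁ q₂) :
    ∃ g ∈ commutator ↥(Cfsg.isometryGroup F ⇑Q),
      isoActF ⇑Q g p₁ = p₁' ∧ isoActF ⇑Q g p₂ = p₂' := by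
  obtain ⟨g₁, hg₁a, hg₁b⟩ := witt_pair Q hQ q₁ q₂ p₁ p₂ hq hp a1.symm a2.symm a12.symm
  obtain ⟨g₂, hg₂a, hg₂b⟩ := witt_pair Q hQ q₁ q₂ p₁' p₂' hq hp' b1.symm b2.symm b12.symm
  have hinv : ∀ y, isoActF ⇑Q g₁⁻¹ (isoActF ⇑Q g₁ y) = y := by
    intro y
    rw [← LinearEquiv.mul_apply, ← map_mul, inv_mul_cancel, map_one]
    rfl
  have hx1 : isoActF ⇑Q (g₂ * g₁⁻¹) p₁ = p₁' := by
    rw [map_mul, LinearEquiv.mul_apply, ← hg₁a, hinv, hg₂a]
  have hx2 : isoActF ⇑Q (g₂ * g₁⁻¹) p₂ = p₂' := by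
    rw [map_mul, LinearEquiv.mul_apply, ← hg₁b, hinv, hg₂b]
  have hw : ∀ c : F, Q (isoActF ⇑Q g₂ (e + c • f)) = c ∧
      QuadraticMap.polar (⇑Q) (isoActF ⇑Q g₂ (e + c • f)) p₁' = 0 ∧
      QuadraticMap.polar (⇑Q) (isoActF ⇑Q g₂ (e + c • f)) p₂' = 0 := by
    intro c
    refine ⟨?_, ?_, ?_⟩
    · rw [isoActF_isom ⇑Q, kit_add, QuadraticMap.map_smul, QuadraticMap.polar_smul_right, he,
        hf, hef]
      simp only [smul_eq_mul]
      ring
    · rw [← hg₂a, isoActF_polar, QuadraticMap.polar_add_left, QuadraticMap.polar_smul_left,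
        h1e, h1f, smul_zero, add_zero]
    · rw [← hg₂b, isoActF_polar, QuadraticMap.polar_add_left, QuadraticMap.polar_smul_left,
        h2e, h2f, smul_zero, add_zero]
  obtain ⟨hw1, hw1a, hw1b⟩ := hw 1
  have hw1ne : Q (isoActF ⇑Q g₂ (e + (1 : F) • f)) ≠ 0 := by
    rw [hw1]
    exact one_ne_zero
  have hfix : ∀ (w : κ → F) (hwne : Q w ≠ 0), QuadraticMap.polar (⇑Q) w p₁' = 0 →
      QuadraticMap.polar (⇑Q) w p₂' = 0 →
      isoActF ⇑Q (reflEl Q w hwne) p₁' = p₁' ∧ isoActF ⇑Q (reflEl Q w hwne) p₂' = p₂' := by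
    intro w hwne h1 h2
    refine ⟨?_, ?_⟩
    · rw [actsRefl_reflEl Q w hwne p₁', h1, mul_zero, zero_smul, sub_zero]
    · rw [actsRefl_reflEl Q w hwne p₂', h2, mul_zero, zero_smul, sub_zero]
  obtain ⟨P, hP⟩ : ∃ P : ↥(Cfsg.isometryGroup F ⇑Q) → Prop,
      ∀ s, P s ↔ (isoActF ⇑Q s p₁' = p₁' ∧ isoActF ⇑Q s p₂' = p₂') :=
    ⟨fun s => isoActF ⇑Q s p₁' = p₁' ∧ isoActF ⇑Q s p₂' = p₂', fun s => Iff.rfl⟩
  have hPmul : ∀ a b, P a → P b → P (a * b) := by
    intro a b ha hb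
    rw [hP] at ha hb ⊢
    exact ⟨by rw [map_mul, LinearEquiv.mul_apply, hb.1, ha.1],
      by rw [map_mul, LinearEquiv.mul_apply, hb.2, ha.2]⟩
  have hP1 : P 1 := by
    rw [hP, map_one]
    exact ⟨rfl, rfl⟩
  obtain ⟨s, hs, hmem⟩ := omega_cover Q hQ h i₀ i₁ hi P hP1 hPmul
    ⟨reflEl Q _ hw1ne, _, (hP _).2 (hfix _ hw1ne hw1a hw1b), hw1ne, actsRefl_reflEl Q _ hw1ne⟩
    (fun h2 => by
      have hchar : ringChar F ≠ 2 := by
        intro hc
        apply h2
        have h3 := CharP.cast_eq_zero F (ringChar F)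
        rw [hc] at h3
        exact_mod_cast h3
      obtain ⟨ε, hε⟩ := FiniteField.exists_nonsquare hchar
      have hε0 : ε ≠ 0 := by
        rintro rfl
        exact hε IsSquare.zero
      obtain ⟨hw2, hw2a, hw2b⟩ := hw ε
      have hw2ne : Q (isoActF ⇑Q g₂ (e + ε • f)) ≠ 0 := by
        rw [hw2]
        exact hε0
      obtain ⟨hc, hd⟩ := refl_pair_chi h2 Q _ _ ε hε hw1 hw2 hw1ne hw2ne
      exact ⟨_, hPmul _ _ ((hP _).2 (hfix _ hw1ne hw1a hw1b))
        ((hP _).2 (hfix _ hw2ne hw2a hw2b)), hc, hd⟩)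
    (g₂ * g₁⁻¹)
  rw [hP] at hs
  refine ⟨s * (g₂ * g₁⁻¹), hmem, ?_, ?_⟩
  · rw [map_mul, LinearEquiv.mul_apply, hx1, hs.1]
  · rw [map_mul, LinearEquiv.mul_apply, hx2, hs.2]

end Mat

end Cfsg.Agent.Helper5
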