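import Mathlib
import Cfsg.Agent.Helper5.WittPair

/-!
In any characteristic and for any index type: if the space contains two orthogonal hyperbolic
pairs, the commutator subgroup of the isometry group is generated by the Siegel
transformations.
-/

set_option autoImplicit false
set_option linter.unusedSimpArgs false

namespace Cfsg.Agent.Helper5

section Mat

open Matrix

variable {F : Type*} [Field F] [Fintype F] {κ : Type} [Fintype κ] [DecidableEq κ]

/-- The Siegel transformations move a non-singular `x` to `x + v` for every singular `v`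
orthogonal to `x`. -/
theorem siegel_moveK (Q : QuadraticForm F (κ → F))
    (hQ : (QuadraticMap.polarBilin Q).Nondegenerate) (e₁ f₁ e₂ f₂ : κ → F)
    (H : HypPairs Q e₁ f₁ e₂ f₂)
    (N : Subgroup ↥(Cfsg.isometryGroup F ⇑Q))
    (hN : ∀ (s : ↥(Cfsg.isometryGroup F ⇑Q)) (u v : κ → F) (c : F), Q u = 0 → Q v = 0 →
      QuadraticMap.polar (⇑Q) u v = 0 →
      ((s : Matrix.GeneralLinearGroup κ F) : Matrix κ κ F)
        = Cfsg.siegelMatrix ⇑Q u v c → s ∈ N)
    (x v : κ → F) (hx : Q x ≠ 0) (hv : Q v = 0) (hxv : QuadraticMap.polar (⇑Q) x v = 0) :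
    ∃ h ∈ N, isoActF ⇑Q h x = x + v := by
  by_cases hv0 : v = 0
  · refine ⟨1, Subgroup.one_mem _, ?_⟩
    rw [hv0, add_zero, map_one]
    rfl
  · obtain ⟨hf₁e₁, hf₂e₂, he₂e₁, hf₂e₁, he₂f₁, hf₂f₁, he₁e₁, hf₁f₁, he₂e₂, hf₂f₂⟩ :=
      hyp_polars H
    have hind : LinearIndependent F ![x, v] := indep_nonsing_sing Q x v hx hv hv0
    have hQ0 : Q (e₁ + Q x • f₁) = Q x := by
      rw [kit_add, QuadraticMap.map_smul, QuadraticMap.polar_smul_right, H.qe₁, H.qf₁, H.p11]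
      simp only [smul_eq_mul]
      ring
    have hd1 : QuadraticMap.polar (⇑Q) (e₁ + Q x • f₁) f₁ = 1 := by
      rw [QuadraticMap.polar_add_left, QuadraticMap.polar_smul_left, H.p11, hf₁f₁, smul_zero,
        add_zero]
    have hind0 : LinearIndependent F ![e₁ + Q x • f₁, e₂] :=
      indep_of_dual Q _ _ f₁ f₂ (by rw [hd1]; exact one_ne_zero) he₂f₁
        (by rw [H.p22]; exact one_ne_zero)
    have hp0 : QuadraticMap.polar (⇑Q) (e₁ + Q x • f₁) e₂ = 0 := by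
      rw [QuadraticMap.polar_add_left, QuadraticMap.polar_smul_left, H.pee, H.pfe, smul_zero,
        add_zero]
    obtain ⟨g, hg1, hg2⟩ := witt_pair Q hQ _ _ x v hind0 hind hQ0 (by rw [H.qe₂, hv])
      (by rw [hp0, hxv])
    have hu0 : Q (isoActF ⇑Q g f₁) = 0 := by
      rw [isoActF_isom ⇑Q]
      exact H.qf₁
    have huv : QuadraticMap.polar (⇑Q) (isoActF ⇑Q g f₁) v = 0 := by
      rw [← hg2, isoActF_polar]
      exact H.pfe
    have hux : QuadraticMap.polar (⇑Q) (isoActF ⇑Q g f₁) x = 1 := by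
      have h5 := isoActF_polar Q g f₁ (e₁ + Q x • f₁)
      rw [hg1] at h5
      rw [h5, QuadraticMap.polar_add_right, QuadraticMap.polar_smul_right, hf₁e₁, hf₁f₁,
        smul_zero, add_zero]
    obtain ⟨s, hs⟩ := siegelEl_existsK Q _ v hu0 hv huv 1
    refine ⟨s, hN s _ v _ hu0 hv huv hs, ?_⟩
    rw [siegel_actK Q s _ v _ hs, QuadraticMap.polar_comm (⇑Q) v x, hxv, hux, zero_smul,
      sub_zero, one_smul, one_smul]

/-- Transitivity up to sign of the group generated by the Siegel transformations on the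
vectors of a fixed non-zero norm. -/
theorem siegel_transK (Q : QuadraticForm F (κ → F))
    (hQ : (QuadraticMap.polarBilin Q).Nondegenerate) (e₁ f₁ e₂ f₂ : κ → F)
    (H : HypPairs Q e₁ f₁ e₂ f₂)
    (N : Subgroup ↥(Cfsg.isometryGroup F ⇑Q))
    (hN : ∀ (s : ↥(Cfsg.isometryGroup F ⇑Q)) (u v : κ → F) (c : F), Q u = 0 → Q v = 0 →
      QuadraticMap.polar (⇑Q) u v = 0 →
      ((s : Matrix.GeneralLinearGroup κ F) : Matrix κ κ F)
        = Cfsg.siegelMatrix ⇑Q u v c → s ∈ N)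
    (x y : κ → F) (hx : Q x ≠ 0) (hxy : Q y = Q x) :
    ∃ h ∈ N, isoActF ⇑Q h x = y ∨ isoActF ⇑Q h x = -y := by
  have e1 : (1 : (κ → F) ≃ₗ[F] (κ → F)) x = x := rfl
  by_cases hind : LinearIndependent F ![x, y]
  · obtain ⟨hf₁e₁, hf₂e₂, he₂e₁, hf₂e₁, he₂f₁, hf₂f₁, he₁e₁, hf₁f₁, he₂e₂, hf₂f₂⟩ :=
      hyp_polars H
    obtain ⟨β, hβ⟩ : ∃ β, QuadraticMap.polar (⇑Q) x y = β := ⟨_, rfl⟩
    obtain ⟨a, ha⟩ : ∃ a, Q x = a := ⟨_, rfl⟩
    obtain ⟨x₀, hx₀⟩ : ∃ x₀, x₀ = e₁ + a • f₁ := ⟨_, rfl⟩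
    obtain ⟨y₀, hy₀⟩ : ∃ y₀, y₀ = β • f₁ + (e₂ + a • f₂) := ⟨_, rfl⟩
    have hQx₀ : Q x₀ = a := by
      rw [hx₀]
      simp only [kit_add, QuadraticMap.map_smul, QuadraticMap.polar_add_left,
        QuadraticMap.polar_add_right, QuadraticMap.polar_smul_left,
        QuadraticMap.polar_smul_right, smul_eq_mul, H.qe₁, H.qf₁, H.qe₂, H.qf₂, H.p11, H.p22,
        H.pee, H.pef, H.pfe, H.pff, hf₁e₁, hf₂e₂, he₂e₁, hf₂e₁, he₂f₁, hf₂f₁, he₁e₁, hf₁f₁,
        he₂e₂, hf₂f₂] <;> ring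
    have hQy₀ : Q y₀ = a := by
      rw [hy₀]
      simp only [kit_add, QuadraticMap.map_smul, QuadraticMap.polar_add_left,
        QuadraticMap.polar_add_right, QuadraticMap.polar_smul_left,
        QuadraticMap.polar_smul_right, smul_eq_mul, H.qe₁, H.qf₁, H.qe₂, H.qf₂, H.p11, H.p22,
        H.pee, H.pef, H.pfe, H.pff, hf₁e₁, hf₂e₂, he₂e₁, hf₂e₁, he₂f₁, hf₂f₁, he₁e₁, hf₁f₁,
        he₂e₂, hf₂f₂] <;> ring
    have hx₀y₀ : QuadraticMap.polar (⇑Q) x₀ y₀ = β := by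
      rw [hx₀, hy₀]
      simp only [kit_add, QuadraticMap.map_smul, QuadraticMap.polar_add_left,
        QuadraticMap.polar_add_right, QuadraticMap.polar_smul_left,
        QuadraticMap.polar_smul_right, smul_eq_mul, H.qe₁, H.qf₁, H.qe₂, H.qf₂, H.p11, H.p22,
        H.pee, H.pef, H.pfe, H.pff, hf₁e₁, hf₂e₂, he₂e₁, hf₂e₁, he₂f₁, hf₂f₁, he₁e₁, hf₁f₁,
        he₂e₂, hf₂f₂] <;> ring
    have hd1 : QuadraticMap.polar (⇑Q) x₀ f₁ = 1 := by
      rw [hx₀]
      simp only [kit_add, QuadraticMap.map_smul, QuadraticMap.polar_add_left,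
        QuadraticMap.polar_add_right, QuadraticMap.polar_smul_left,
        QuadraticMap.polar_smul_right, smul_eq_mul, H.qe₁, H.qf₁, H.qe₂, H.qf₂, H.p11, H.p22,
        H.pee, H.pef, H.pfe, H.pff, hf₁e₁, hf₂e₂, he₂e₁, hf₂e₁, he₂f₁, hf₂f₁, he₁e₁, hf₁f₁,
        he₂e₂, hf₂f₂] <;> ring
    have hd2 : QuadraticMap.polar (⇑Q) y₀ f₁ = 0 := by
      rw [hy₀]
      simp only [kit_add, QuadraticMap.map_smul, QuadraticMap.polar_add_left,
        QuadraticMap.polar_add_right, QuadraticMap.polar_smul_left,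
        QuadraticMap.polar_smul_right, smul_eq_mul, H.qe₁, H.qf₁, H.qe₂, H.qf₂, H.p11, H.p22,
        H.pee, H.pef, H.pfe, H.pff, hf₁e₁, hf₂e₂, he₂e₁, hf₂e₁, he₂f₁, hf₂f₁, he₁e₁, hf₁f₁,
        he₂e₂, hf₂f₂] <;> ring
    have hd3 : QuadraticMap.polar (⇑Q) y₀ f₂ = 1 := by
      rw [hy₀]
      simp only [kit_add, QuadraticMap.map_smul, QuadraticMap.polar_add_left,
        QuadraticMap.polar_add_right, QuadraticMap.polar_smul_left,
        QuadraticMap.polar_smul_right, smul_eq_mul, H.qe₁, H.qf₁, H.qe₂, H.qf₂, H.p11, H.p22,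
        H.pee, H.pef, H.pfe, H.pff, hf₁e₁, hf₂e₂, he₂e₁, hf₂e₁, he₂f₁, hf₂f₁, he₁e₁, hf₁f₁,
        he₂e₂, hf₂f₂] <;> ring
    have hd4 : QuadraticMap.polar (⇑Q) f₂ x₀ = 0 := by
      rw [hx₀]
      simp only [kit_add, QuadraticMap.map_smul, QuadraticMap.polar_add_left,
        QuadraticMap.polar_add_right, QuadraticMap.polar_smul_left,
        QuadraticMap.polar_smul_right, smul_eq_mul, H.qe₁, H.qf₁, H.qe₂, H.qf₂, H.p11, H.p22,
        H.pee, H.pef, H.pfe, H.pff, hf₁e₁, hf₂e₂, he₂e₁, hf₂e₁, he₂f₁, hf₂f₁, he₁e₁, hf₁f₁,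
        he₂e₂, hf₂f₂] <;> ring
    have hd5 : QuadraticMap.polar (⇑Q) f₂ y₀ = 1 := by
      rw [hy₀]
      simp only [kit_add, QuadraticMap.map_smul, QuadraticMap.polar_add_left,
        QuadraticMap.polar_add_right, QuadraticMap.polar_smul_left,
        QuadraticMap.polar_smul_right, smul_eq_mul, H.qe₁, H.qf₁, H.qe₂, H.qf₂, H.p11, H.p22,
        H.pee, H.pef, H.pfe, H.pff, hf₁e₁, hf₂e₂, he₂e₁, hf₂e₁, he₂f₁, hf₂f₁, he₁e₁, hf₁f₁,
        he₂e₂, hf₂f₂] <;> ring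
    have hind0 : LinearIndependent F ![x₀, y₀] :=
      indep_of_dual Q x₀ y₀ f₁ f₂ (by rw [hd1]; exact one_ne_zero) hd2
        (by rw [hd3]; exact one_ne_zero)
    obtain ⟨g, hg1, hg2⟩ := witt_pair Q hQ x₀ y₀ x y hind0 hind (by rw [hQx₀, ha])
      (by rw [hQy₀, hxy, ha]) (by rw [hx₀y₀, hβ])
    obtain ⟨s₀, hs₀⟩ : ∃ s₀, s₀ = isoActF ⇑Q g f₂ := ⟨_, rfl⟩
    have hQs₀ : Q s₀ = 0 := by
      rw [hs₀, isoActF_isom ⇑Q]
      exact H.qf₂
    have hs₀x : QuadraticMap.polar (⇑Q) s₀ x = 0 := by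
      have h5 := isoActF_polar Q g f₂ x₀
      rw [hg1, hd4] at h5
      rw [hs₀]
      exact h5
    have hs₀y : QuadraticMap.polar (⇑Q) s₀ y = 1 := by
      have h5 := isoActF_polar Q g f₂ y₀
      rw [hg2, hd5] at h5
      rw [hs₀]
      exact h5
    obtain ⟨δ, hδ⟩ : ∃ δ, δ = 2 * a - β := ⟨_, rfl⟩
    obtain ⟨s, hs⟩ : ∃ s, s = δ • s₀ := ⟨_, rfl⟩
    have hQs : Q s = 0 := by
      rw [hs, QuadraticMap.map_smul, hQs₀, smul_zero]
    have hxs : QuadraticMap.polar (⇑Q) x s = 0 := by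
      rw [hs, QuadraticMap.polar_smul_right, QuadraticMap.polar_comm (⇑Q) x s₀, hs₀x, smul_zero]
    have hsy : QuadraticMap.polar (⇑Q) s y = δ := by
      rw [hs, QuadraticMap.polar_smul_left, hs₀y, smul_eq_mul, mul_one]
    obtain ⟨h₁, hh₁, em1⟩ := siegel_moveK Q hQ e₁ f₁ e₂ f₂ H N hN x s hx hQs hxs
    have hQw : Q (x + s) = a := by
      rw [kit_add, hQs, hxs, add_zero, add_zero, ha]
    have hQd : Q (y - (x + s)) = 0 := by
      rw [kit_sub, hQw, hxy, ha, QuadraticMap.polar_add_right, QuadraticMap.polar_comm (⇑Q) y x,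
        QuadraticMap.polar_comm (⇑Q) y s, hsy, hβ, hδ]
      ring
    have hwd : QuadraticMap.polar (⇑Q) (x + s) (y - (x + s)) = 0 := by
      rw [QuadraticMap.polar_sub_right, kit_polar_self, hQw, QuadraticMap.polar_add_left, hsy,
        hβ, hδ]
      ring
    obtain ⟨h₂, hh₂, em2⟩ := siegel_moveK Q hQ e₁ f₁ e₂ f₂ H N hN (x + s) (y - (x + s))
      (by rw [hQw, ← ha]; exact hx) hQd hwd
    refine ⟨h₂ * h₁, Subgroup.mul_mem _ hh₂ hh₁, Or.inl ?_⟩
    rw [map_mul, LinearEquiv.mul_apply, em1, em2, add_sub_cancel]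
  · rcases dep_cases x y hind with h0 | ⟨lam, hlam⟩
    · exfalso
      apply hx
      rw [h0]
      exact QuadraticMap.map_zero Q
    · have h3 : Q y = lam * lam * Q x := by
        rw [hlam, QuadraticMap.map_smul, smul_eq_mul]
      have h4 : ((lam - 1) * (lam + 1)) * Q x = 0 := by linear_combination hxy - h3
      have ha2 : (lam - 1) * (lam + 1) = 0 := by
        rcases mul_eq_zero.1 h4 with h5 | h5
        · exact h5
        · exact absurd h5 hx
      refine ⟨1, Subgroup.one_mem _, ?_⟩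
      rw [map_one, e1]
      rcases mul_eq_zero.1 ha2 with h5 | h5
      · left
        rw [hlam, sub_eq_zero.1 h5, one_smul]
      · right
        rw [hlam, eq_neg_of_add_eq_zero_left h5, neg_smul, one_smul, neg_neg]

/-- The commutator subgroup of the isometry group is generated by the Siegel
transformations. -/
theorem siegel_genK (Q : QuadraticForm F (κ → F))
    (hQ : (QuadraticMap.polarBilin Q).Nondegenerate)
    (h : Fintype.card F ≠ 2 ∨ Fintype.card κ ≠ 4) (e₁ f₁ e₂ f₂ : κ → F)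
    (H : HypPairs Q e₁ f₁ e₂ f₂) :
    commutator ↥(Cfsg.isometryGroup F ⇑Q)
      = Subgroup.closure {g : ↥(Cfsg.isometryGroup F ⇑Q) | ∃ (u v : κ → F) (c : F),
          Q u = 0 ∧ Q v = 0 ∧ QuadraticMap.polar ⇑Q u v = 0 ∧
          ((g : Matrix.GeneralLinearGroup κ F) : Matrix κ κ F)
            = Cfsg.siegelMatrix ⇑Q u v c} := by
  obtain ⟨S, hSdef⟩ : ∃ S : Set ↥(Cfsg.isometryGroup F ⇑Q),
      S = {g : ↥(Cfsg.isometryGroup F ⇑Q) | ∃ (u v : κ → F) (c : F),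
          Q u = 0 ∧ Q v = 0 ∧ QuadraticMap.polar ⇑Q u v = 0 ∧
          ((g : Matrix.GeneralLinearGroup κ F) : Matrix κ κ F)
            = Cfsg.siegelMatrix ⇑Q u v c} := ⟨_, rfl⟩
  rw [← hSdef]
  obtain ⟨N, hNdef⟩ : ∃ N : Subgroup ↥(Cfsg.isometryGroup F ⇑Q), N = Subgroup.closure S :=
    ⟨_, rfl⟩
  rw [← hNdef]
  have hSmem : ∀ (s : ↥(Cfsg.isometryGroup F ⇑Q)) (u v : κ → F) (c : F), Q u = 0 →
      Q v = 0 → QuadraticMap.polar (⇑Q) u v = 0 →
      ((s : Matrix.GeneralLinearGroup κ F) : Matrix κ κ F)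
        = Cfsg.siegelMatrix ⇑Q u v c → s ∈ S := by
    intro s u v c hu hv huv hs
    rw [hSdef]
    exact ⟨u, v, c, hu, hv, huv, hs⟩
  have hN : ∀ (s : ↥(Cfsg.isometryGroup F ⇑Q)) (u v : κ → F) (c : F), Q u = 0 →
      Q v = 0 → QuadraticMap.polar (⇑Q) u v = 0 →
      ((s : Matrix.GeneralLinearGroup κ F) : Matrix κ κ F)
        = Cfsg.siegelMatrix ⇑Q u v c → s ∈ N := by
    intro s u v c hu hv huv hs
    rw [hNdef]
    exact Subgroup.subset_closure (hSmem s u v c hu hv huv hs)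
  apply le_antisymm
  · have hconj : ∀ g ∈ S, ∀ k : ↥(Cfsg.isometryGroup F ⇑Q), k * g * k⁻¹ ∈ N := by
      intro g hgS k
      rw [hSdef] at hgS
      obtain ⟨u, v, c, hu, hv, huv, hg⟩ := hgS
      have hu' : Q (isoActF ⇑Q k u) = 0 := by
        rw [isoActF_isom ⇑Q]
        exact hu
      have hv' : Q (isoActF ⇑Q k v) = 0 := by
        rw [isoActF_isom ⇑Q]
        exact hv
      have huv' : QuadraticMap.polar (⇑Q) (isoActF ⇑Q k u) (isoActF ⇑Q k v) = 0 := by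
        rw [isoActF_polar]
        exact huv
      obtain ⟨s', hs'⟩ := siegelEl_existsK Q _ _ hu' hv' huv' c
      rw [siegel_conjK Q g k s' u v c hg hs']
      exact hN s' _ _ c hu' hv' huv' hs'
    have hNn : N.Normal := by
      constructor
      intro x hx g
      rw [hNdef] at hx
      refine Subgroup.closure_induction (p := fun x _ => g * x * g⁻¹ ∈ N) ?_ ?_ ?_ ?_ hx
      · intro y hy
        exact hconj y hy g
      · rw [mul_one, mul_inv_cancel]
        exact Subgroup.one_mem _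
      · intro a b _ _ iha ihb
        have h3 : g * (a * b) * g⁻¹ = (g * a * g⁻¹) * (g * b * g⁻¹) := by group
        rw [h3]
        exact Subgroup.mul_mem _ iha ihb
      · intro a _ iha
        have h3 : g * a⁻¹ * g⁻¹ = (g * a * g⁻¹)⁻¹ := by group
        rw [h3]
        exact Subgroup.inv_mem _ iha
    apply comm_le_of_refl Q hQ h N hNn
    intro r r' w w' hw hw' hr hr'
    have hr'inv : r'⁻¹ = r' := inv_eq_of_mul_eq_one_left (actsRefl_sq Q r' w' hw' hr')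
    have hrinv : r⁻¹ = r := inv_eq_of_mul_eq_one_left (actsRefl_sq Q r w hw hr)
    have hc := actsRefl_conj Q r r' w hr
    have hQw'' : Q (isoActF ⇑Q r' w) = Q w := isoActF_isom ⇑Q r' w
    obtain ⟨k, hk, ek⟩ := siegel_transK Q hQ e₁ f₁ e₂ f₂ H N hN w (isoActF ⇑Q r' w) hw hQw''
    have hc2 := actsRefl_conj Q r k w hr
    have hc3 : ActsRefl Q (k * r * k⁻¹) (isoActF ⇑Q r' w) := by
      rcases ek with ek | ek
      · rw [ek] at hc2
        exact hc2
      · rw [ek] at hc2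
        have h5 := actsRefl_smul Q _ (-(isoActF ⇑Q r' w)) (-1) (neg_ne_zero.2 one_ne_zero) hc2
        rw [neg_one_smul, neg_neg] at h5
        exact h5
    have heq : k * r * k⁻¹ = r' * r * r'⁻¹ := actsRefl_unique Q _ _ _ hc3 hc
    have e : (r * r') * (r * r') = (r * k * r⁻¹) * k⁻¹ := by
      have e2 : (r * r') * (r * r') = r * (r' * r * r'⁻¹) := by
        rw [hr'inv]
        group
      rw [e2, ← heq, hrinv]
      group
    rw [e]
    exact N.mul_mem (hNn.conj_mem k hk r) (N.inv_mem hk)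
  · rw [hNdef, Subgroup.closure_le]
    intro g hgS
    rw [hSdef] at hgS
    obtain ⟨u, v, c, hu, hv, huv, hg⟩ := hgS
    exact siegel_mem_omega Q hQ h u v hu hv huv c g hg

end Mat

end Cfsg.Agent.Helper5
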