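import Mathlib
import Cfsg.Agent.Helper5.SiegelGenK

/-!
Simplicity of `PΩ(Q)` by Iwasawa's method, for a quadratic form with non-degenerate polar form
whose space contains three mutually orthogonal hyperbolic pairs.
-/

set_option autoImplicit false
set_option linter.unusedSimpArgs false
set_option linter.unnecessarySeqFocus false

namespace Cfsg.Agent.Helper5

section Abs

variable {F V : Type*} [Field F] [AddCommGroup V] [Module F V]

/-- A linear automorphism fixing every singular line is a scalar. -/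
theorem scalar_of_fix {Q : QuadraticForm F V} {e₁ f₁ e₂ f₂ : V} (H : HypPairs Q e₁ f₁ e₂ f₂)
    (A : V ≃ₗ[F] V) (hA : ∀ u, Q u = 0 → ∃ a : F, A u = a • u) :
    ∃ a : F, ∀ x, A x = a • x := by
  have hplane : PlaneProp Q A := by
    intro u v y hu hv huv hy1 hy2
    obtain ⟨a, ha⟩ := hA u hu
    exact ⟨a, 0, by rw [ha, zero_smul, add_zero]⟩
  obtain ⟨a, ha1, ha2, ha3, ha4⟩ := hyp_scalar H hplane
  obtain ⟨hf₁e₁, hf₂e₂, he₂e₁, hf₂e₁, he₂f₁, hf₂f₁, he₁e₁, hf₁f₁, he₂e₂, hf₂f₂⟩ :=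
    hyp_polars H
  have step : ∀ z u : V, z ≠ 0 → Q z = 0 → Q u = 0 → QuadraticMap.polar (⇑Q) z u = 0 →
      A z = a • z → A u = a • u := by
    intro z u hz0 hz hu hzu hAz
    obtain ⟨c, hc⟩ := hA u hu
    have hzu0 : Q (z + u) = 0 := by
      rw [kit_add, hz, hu, hzu]
      ring
    obtain ⟨c', hc'⟩ := hA (z + u) hzu0
    rw [map_add, hAz, hc] at hc'
    have h3 : (a - c') • z + (c - c') • u = 0 := by
      have h4 : (a - c') • z + (c - c') • u = (a • z + c • u) - c' • (z + u) := by module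
      rw [h4, hc', sub_self]
    by_cases hcc : c = c'
    · rw [hcc, sub_self, zero_smul, add_zero] at h3
      have h4 : a - c' = 0 := (smul_eq_zero.1 h3).resolve_right hz0
      rw [hc, hcc, ← sub_eq_zero.1 h4]
    · have hne : c - c' ≠ 0 := sub_ne_zero.2 hcc
      have h5 : u = (-((c - c')⁻¹ * (a - c'))) • z := by
        have h6 : (c - c') • u = -((a - c') • z) := eq_neg_of_add_eq_zero_right h3
        calc u = (c - c')⁻¹ • ((c - c') • u) := by
              rw [smul_smul, inv_mul_cancel₀ hne, one_smul]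
          _ = (-((c - c')⁻¹ * (a - c'))) • z := by rw [h6, smul_neg, smul_smul, neg_smul]
      rw [h5, map_smul, hAz, smul_comm]
  have he₁0 : e₁ ≠ 0 := by
    intro h0
    have h3 := H.p11
    rw [h0, QuadraticMap.polar_zero_left] at h3
    exact zero_ne_one h3
  have hsing : ∀ u : V, Q u = 0 → A u = a • u := by
    intro u hu
    by_cases h1 : QuadraticMap.polar (⇑Q) e₁ u = 0
    · exact step e₁ u he₁0 H.qe₁ hu h1 ha1
    · obtain ⟨z, hz⟩ : ∃ z, z = QuadraticMap.polar (⇑Q) e₁ u • e₂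
          - QuadraticMap.polar (⇑Q) e₂ u • e₁ := ⟨_, rfl⟩
      have hz0 : z ≠ 0 := by
        intro h0
        have h3 := congrArg (fun t => QuadraticMap.polar (⇑Q) t f₂) h0
        simp only [hz, QuadraticMap.polar_sub_left, QuadraticMap.polar_smul_left, H.p22, H.pef,
          smul_eq_mul, mul_one, mul_zero, sub_zero, QuadraticMap.polar_zero_left] at h3
        exact h1 h3
      have hQz : Q z = 0 := by
        rw [hz]
        simp only [kit_sub, QuadraticMap.map_smul, QuadraticMap.polar_smul_left,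
          QuadraticMap.polar_smul_right, H.qe₁, H.qe₂, he₂e₁, smul_eq_mul] <;> ring
      have hzu : QuadraticMap.polar (⇑Q) z u = 0 := by
        rw [hz, QuadraticMap.polar_sub_left, QuadraticMap.polar_smul_left,
          QuadraticMap.polar_smul_left]
        simp only [smul_eq_mul]
        ring
      have hAz : A z = a • z := by
        rw [hz, map_sub, map_smul, map_smul, ha1, ha3]
        module
      exact step z u hz0 hQz hu hzu hAz
  refine ⟨a, fun x => ?_⟩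
  obtain ⟨x₀, hx₀⟩ : ∃ x₀, x₀ = x - QuadraticMap.polar (⇑Q) x f₁ • e₁
      - QuadraticMap.polar (⇑Q) x e₁ • f₁ := ⟨_, rfl⟩
  have hx₀e : QuadraticMap.polar (⇑Q) x₀ e₁ = 0 := by
    rw [hx₀]
    simp only [QuadraticMap.polar_sub_left, QuadraticMap.polar_smul_left, he₁e₁, hf₁e₁,
      smul_eq_mul] <;> ring
  have hx₀f : QuadraticMap.polar (⇑Q) x₀ f₁ = 0 := by
    rw [hx₀]
    simp only [QuadraticMap.polar_sub_left, QuadraticMap.polar_smul_left, H.p11, hf₁f₁,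
      smul_eq_mul] <;> ring
  have hs : Q (x₀ + (e₁ - Q x₀ • f₁)) = 0 := by
    simp only [kit_add, kit_sub, QuadraticMap.map_smul, QuadraticMap.polar_sub_right,
      QuadraticMap.polar_smul_right, H.qe₁, H.qf₁, hx₀e, hx₀f, H.p11, smul_eq_mul] <;> ring
  have h5 := hsing _ hs
  rw [map_add, map_sub, map_smul, ha1, ha2] at h5
  have h6 : A x₀ = a • x₀ := by
    have h7 : A x₀ = (A x₀ + (a • e₁ - Q x₀ • a • f₁)) - (a • e₁ - Q x₀ • a • f₁) := by abel
    rw [h7, h5]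
    module
  have h7 : x = x₀ + QuadraticMap.polar (⇑Q) x f₁ • e₁ + QuadraticMap.polar (⇑Q) x e₁ • f₁ := by
    rw [hx₀]
    abel
  rw [h7, map_add, map_add, map_smul, map_smul, h6, ha1, ha2]
  module

end Abs

section Mat

open Matrix

variable {F : Type*} [Field F] {κ : Type} [Fintype κ] [DecidableEq κ]

/-- An isometry acting as a scalar commutes with every isometry. -/
theorem scalar_commute (Qf : (κ → F) → F) (z g : ↥(Cfsg.isometryGroup F Qf)) (a : F)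
    (hz : ∀ x, isoActF Qf z x = a • x) : z * g = g * z := by
  apply isoActF_injective Qf
  apply LinearEquiv.ext
  intro x
  rw [map_mul, map_mul, LinearEquiv.mul_apply, LinearEquiv.mul_apply, hz, hz, map_smul]

/-- Siegel transformations with a common first vector commute. -/
theorem siegel_commute (Q : QuadraticForm F (κ → F)) (e v v' : κ → F) (he : Q e = 0)
    (hev : QuadraticMap.polar (⇑Q) e v = 0) (hev' : QuadraticMap.polar (⇑Q) e v' = 0)
    (c c' : F) (x y : ↥(Cfsg.isometryGroup F ⇑Q))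
    (hx : ((x : Matrix.GeneralLinearGroup κ F) : Matrix κ κ F) = Cfsg.siegelMatrix ⇑Q e v c)
    (hy : ((y : Matrix.GeneralLinearGroup κ F) : Matrix κ κ F) = Cfsg.siegelMatrix ⇑Q e v' c') :
    x * y = y * x := by
  have hve : QuadraticMap.polar (⇑Q) v e = 0 := by
    rw [QuadraticMap.polar_comm]
    exact hev
  have hv'e : QuadraticMap.polar (⇑Q) v' e = 0 := by
    rw [QuadraticMap.polar_comm]
    exact hev'
  have hee : QuadraticMap.polar (⇑Q) e e = 0 := by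
    rw [kit_polar_self, he, mul_zero]
  apply isoActF_injective ⇑Q
  apply LinearEquiv.ext
  intro z
  simp only [map_mul, LinearEquiv.mul_apply, siegel_actK Q x e v c hx,
    siegel_actK Q y e v' c' hy, QuadraticMap.polar_add_right, QuadraticMap.polar_sub_right,
    QuadraticMap.polar_smul_right, smul_eq_mul, hev, hev', hve, hv'e, hee]
  rw [QuadraticMap.polar_comm (⇑Q) v' v]
  module

open scoped commutatorElement in
/-- The commutator formula for Siegel transformations. -/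
theorem siegel_bracket (Q : QuadraticForm F (κ → F)) (u v w w' : κ → F)
    (hu : Q u = 0) (hv : Q v = 0) (hw : Q w = 0) (hw' : Q w' = 0)
    (huv : QuadraticMap.polar (⇑Q) u v = 0) (huw : QuadraticMap.polar (⇑Q) u w = 0)
    (huw' : QuadraticMap.polar (⇑Q) u w' = 0) (hvw : QuadraticMap.polar (⇑Q) v w = 0)
    (hvw' : QuadraticMap.polar (⇑Q) v w' = 0) (hww' : QuadraticMap.polar (⇑Q) w w' = 1)
    (a b : F) (A B T : ↥(Cfsg.isometryGroup F ⇑Q))
    (hA : ((A : Matrix.GeneralLinearGroup κ F) : Matrix κ κ F) = Cfsg.siegelMatrix ⇑Q u w a)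
    (hB : ((B : Matrix.GeneralLinearGroup κ F) : Matrix κ κ F) = Cfsg.siegelMatrix ⇑Q w' v b)
    (hT : ((T : Matrix.GeneralLinearGroup κ F) : Matrix κ κ F)
      = Cfsg.siegelMatrix ⇑Q u v (-(a * b))) :
    ⁅A, B⁆ = T := by
  have hvu : QuadraticMap.polar (⇑Q) v u = 0 := by
    rw [QuadraticMap.polar_comm]
    exact huv
  have hwu : QuadraticMap.polar (⇑Q) w u = 0 := by
    rw [QuadraticMap.polar_comm]
    exact huw
  have hw'u : QuadraticMap.polar (⇑Q) w' u = 0 := by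
    rw [QuadraticMap.polar_comm]
    exact huw'
  have hwv : QuadraticMap.polar (⇑Q) w v = 0 := by
    rw [QuadraticMap.polar_comm]
    exact hvw
  have hw'v : QuadraticMap.polar (⇑Q) w' v = 0 := by
    rw [QuadraticMap.polar_comm]
    exact hvw'
  have hw'w : QuadraticMap.polar (⇑Q) w' w = 1 := by
    rw [QuadraticMap.polar_comm]
    exact hww'
  have huu : QuadraticMap.polar (⇑Q) u u = 0 := by
    rw [kit_polar_self, hu, mul_zero]
  have hvv : QuadraticMap.polar (⇑Q) v v = 0 := by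
    rw [kit_polar_self, hv, mul_zero]
  have hww : QuadraticMap.polar (⇑Q) w w = 0 := by
    rw [kit_polar_self, hw, mul_zero]
  have hw'w'' : QuadraticMap.polar (⇑Q) w' w' = 0 := by
    rw [kit_polar_self, hw', mul_zero]
  have key : A * B = T * (B * A) := by
    apply isoActF_injective ⇑Q
    apply LinearEquiv.ext
    intro x
    simp only [map_mul, LinearEquiv.mul_apply, siegel_actK Q A u w a hA,
      siegel_actK Q B w' v b hB, siegel_actK Q T u v _ hT, QuadraticMap.polar_add_right,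
      QuadraticMap.polar_sub_right, QuadraticMap.polar_smul_right, smul_eq_mul, huv, huw, huw',
      hvw, hvw', hww', hvu, hwu, hw'u, hwv, hw'v, hw'w, huu, hvv, hww, hw'w'']
    module
  rw [commutatorElement_def, key]
  group

variable [Fintype F]

/-- The commutator subgroup of the isometry group is perfect. -/
theorem omega_perfect (Q : QuadraticForm F (κ → F))
    (hQ : (QuadraticMap.polarBilin Q).Nondegenerate)
    (h : Fintype.card F ≠ 2 ∨ Fintype.card κ ≠ 4) (e₁ f₁ e₂ f₂ e₃ f₃ : κ → F)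
    (H12 : HypPairs Q e₁ f₁ e₂ f₂) (H13 : HypPairs Q e₁ f₁ e₃ f₃)
    (H23 : HypPairs Q e₂ f₂ e₃ f₃) :
    commutator ↥(Cfsg.isometryGroup F ⇑Q)
      ≤ ⁅commutator ↥(Cfsg.isometryGroup F ⇑Q), commutator ↥(Cfsg.isometryGroup F ⇑Q)⁆ := by
  intro g hg
  rw [siegel_genK Q hQ h e₁ f₁ e₂ f₂ H12] at hg
  have hnorm : (⁅commutator ↥(Cfsg.isometryGroup F ⇑Q),
      commutator ↥(Cfsg.isometryGroup F ⇑Q)⁆).Normal := inferInstance
  refine Subgroup.closure_induction (p := fun x _ => x ∈ ⁅commutator ↥(Cfsg.isometryGroup F ⇑Q),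
    commutator ↥(Cfsg.isometryGroup F ⇑Q)⁆) ?_ ?_ ?_ ?_ hg
  · rintro s ⟨u, v, c, hu, hv, huv, hs⟩
    by_cases hind : LinearIndependent F ![u, v]
    · have hind0 : LinearIndependent F ![e₁, e₂] :=
        indep_of_dual Q e₁ e₂ f₁ f₂ (by rw [H12.p11]; exact one_ne_zero)
          (hyp_polars H12).2.2.2.2.1 (by rw [H12.p22]; exact one_ne_zero)
      obtain ⟨g₀, hg1, hg2⟩ := witt_pair Q hQ e₁ e₂ u v hind0 hind (by rw [H12.qe₁, hu])
        (by rw [H12.qe₂, hv]) (by rw [H12.pee, huv])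
      have hf₃e₂ : QuadraticMap.polar (⇑Q) f₃ e₂ = 0 := by
        rw [QuadraticMap.polar_comm]
        exact H23.pef
      have hcc : -(-c * 1) = c := by ring
      obtain ⟨T, hT⟩ := siegelEl_existsK Q e₁ e₂ H12.qe₁ H12.qe₂ H12.pee (-(-c * 1))
      obtain ⟨A, hA⟩ := siegelEl_existsK Q e₁ e₃ H13.qe₁ H13.qe₂ H13.pee (-c)
      obtain ⟨B, hB⟩ := siegelEl_existsK Q f₃ e₂ H13.qf₂ H12.qe₂ hf₃e₂ 1
      have hTm : T ∈ ⁅commutator ↥(Cfsg.isometryGroup F ⇑Q),
          commutator ↥(Cfsg.isometryGroup F ⇑Q)⁆ := by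
        rw [← siegel_bracket Q e₁ e₂ e₃ f₃ H12.qe₁ H12.qe₂ H13.qe₂ H13.qf₂ H12.pee H13.pee
          H13.pef H23.pee H23.pef H13.p22 (-c) 1 A B T hA hB hT]
        exact Subgroup.commutator_mem_commutator
          (siegel_mem_omega Q hQ h _ _ H13.qe₁ H13.qe₂ H13.pee _ A hA)
          (siegel_mem_omega Q hQ h _ _ H13.qf₂ H12.qe₂ hf₃e₂ _ B hB)
      rw [← siegel_conjK Q T g₀ s e₁ e₂ _ hT (by rw [hg1, hg2, hcc]; exact hs)]
      exact hnorm.conj_mem T hTm g₀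
    · rw [siegel_dep_one Q s u v c hs hind]
      exact Subgroup.one_mem _
  · exact Subgroup.one_mem _
  · intro a b _ _ ha hb
    exact Subgroup.mul_mem _ ha hb
  · intro a _ ha
    exact Subgroup.inv_mem _ ha

/-- A subgroup normalised by `Ω` and moving some singular point is transitive on singular
points. -/
theorem pts_trans (Q : QuadraticForm F (κ → F))
    (hQ : (QuadraticMap.polarBilin Q).Nondegenerate)
    (h : Fintype.card F ≠ 2 ∨ Fintype.card κ ≠ 4) (i₀ i₁ : κ) (hi : i₀ ≠ i₁)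
    (e₁ f₁ e₂ f₂ e₃ f₃ : κ → F)
    (H12 : HypPairs Q e₁ f₁ e₂ f₂) (H13 : HypPairs Q e₁ f₁ e₃ f₃)
    (H23 : HypPairs Q e₂ f₂ e₃ f₃)
    (M : Subgroup ↥(Cfsg.isometryGroup F ⇑Q))
    (hM : ∀ g ∈ commutator ↥(Cfsg.isometryGroup F ⇑Q), ∀ n ∈ M, g * n * g⁻¹ ∈ M)
    (n₀ : ↥(Cfsg.isometryGroup F ⇑Q)) (hn₀ : n₀ ∈ M) (u₀ : κ → F) (hu₀ : Q u₀ = 0)
    (hmove : ¬ ∃ a : F, isoActF ⇑Q n₀ u₀ = a • u₀)
    (p p' : κ → F) (hp : Q p = 0) (hp' : Q p' = 0) (hp0 : p ≠ 0) (hp'0 : p' ≠ 0) :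
    ∃ n ∈ M, ∃ a : F, isoActF ⇑Q n p = a • p' := by
  obtain ⟨u₁, hu₁⟩ : ∃ u₁, u₁ = isoActF ⇑Q n₀ u₀ := ⟨_, rfl⟩
  have hQu₁ : Q u₁ = 0 := by
    rw [hu₁, isoActF_isom ⇑Q]
    exact hu₀
  have hind₀ : LinearIndependent F ![u₀, u₁] := by
    by_contra hdep
    rcases dep_cases u₀ u₁ hdep with h0 | ⟨a, ha⟩
    · apply hmove
      refine ⟨0, ?_⟩
      rw [h0, map_zero, smul_zero]
    · exact hmove ⟨a, by rw [← hu₁]; exact ha⟩
  have hconj : ∀ g ∈ commutator ↥(Cfsg.isometryGroup F ⇑Q), ∀ q q' : κ → F,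
      isoActF ⇑Q g u₀ = q → isoActF ⇑Q g u₁ = q' → ∃ n ∈ M, isoActF ⇑Q n q = q' := by
    intro g hg q q' h1 h2
    refine ⟨g * n₀ * g⁻¹, hM g hg n₀ hn₀, ?_⟩
    have hinv : isoActF ⇑Q g⁻¹ q = u₀ := by
      rw [← h1, ← LinearEquiv.mul_apply, ← map_mul, inv_mul_cancel, map_one]
      rfl
    rw [map_mul, map_mul, LinearEquiv.mul_apply, LinearEquiv.mul_apply, hinv, ← hu₁, h2]
  obtain ⟨hf₁e₁, hf₂e₂, he₂e₁, hf₂e₁, he₂f₁, hf₂f₁, he₁e₁, hf₁f₁, he₂e₂, hf₂f₂⟩ :=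
    hyp_polars H12
  obtain ⟨-, hf₃e₃, he₃e₁, hf₃e₁, he₃f₁, hf₃f₁, -, -, he₃e₃, hf₃f₃⟩ := hyp_polars H13
  obtain ⟨-, -, he₃e₂, hf₃e₂, he₃f₂, hf₃f₂, -, -, -, -⟩ := hyp_polars H23
  have hindE : LinearIndependent F ![e₁, e₂] :=
    indep_of_dual Q e₁ e₂ f₁ f₂ (by rw [H12.p11]; exact one_ne_zero) he₂f₁
      (by rw [H12.p22]; exact one_ne_zero)
  have hindS : ∀ β : F, β ≠ 0 → LinearIndependent F ![e₁, β • f₁] := by
    intro β hβ
    exact indep_of_dual Q _ _ f₁ e₁ (by rw [H12.p11]; exact one_ne_zero)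
      (by rw [QuadraticMap.polar_smul_left, hf₁f₁, smul_zero])
      (by rw [QuadraticMap.polar_smul_left, hf₁e₁, smul_eq_mul, mul_one]; exact hβ)
  have hstd : ∀ β : F, QuadraticMap.polar (⇑Q) e₁ (β • f₁) = β := by
    intro β
    rw [QuadraticMap.polar_smul_right, H12.p11, smul_eq_mul, mul_one]
  have hQstd : ∀ β : F, Q (β • f₁) = 0 := by
    intro β
    rw [QuadraticMap.map_smul, H12.qf₁, smul_zero]
  -- spreading a moved orthogonal pair
  have sp0 : QuadraticMap.polar (⇑Q) u₀ u₁ = 0 → ∀ q q' : κ → F, Q q = 0 → Q q' = 0 →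
      LinearIndependent F ![q, q'] → QuadraticMap.polar (⇑Q) q q' = 0 →
      ∃ n ∈ M, ∃ a : F, isoActF ⇑Q n q = a • q' := by
    intro hβ q q' hq hq' hqi hqq
    obtain ⟨g, hg, h1, h2⟩ := omega_pair Q hQ h i₀ i₁ hi e₁ e₂ e₃ f₃ H13.qe₂ H13.qf₂ H13.p22
      he₃e₁ hf₃e₁ he₃e₂ hf₃e₂ hindE u₀ u₁ q q' hind₀ hqi (by rw [hu₀, H12.qe₁])
      (by rw [hQu₁, H12.qe₂]) (by rw [hβ, H12.pee]) (by rw [hq, H12.qe₁])
      (by rw [hq', H12.qe₂]) (by rw [hqq, H12.pee])
    obtain ⟨n, hn, e⟩ := hconj g hg q q' h1 h2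
    exact ⟨n, hn, 1, by rw [e, one_smul]⟩
  -- spreading a moved non-orthogonal pair
  have sp1 : QuadraticMap.polar (⇑Q) u₀ u₁ ≠ 0 → ∀ q q' : κ → F, Q q = 0 → Q q' = 0 →
      QuadraticMap.polar (⇑Q) q q' ≠ 0 → ∃ n ∈ M, ∃ a : F, isoActF ⇑Q n q = a • q' := by
    intro hβ q q' hq hq' hqq
    obtain ⟨β₀, hβ₀⟩ : ∃ β₀, QuadraticMap.polar (⇑Q) u₀ u₁ = β₀ := ⟨_, rfl⟩
    rw [hβ₀] at hβ
    obtain ⟨β, hβ'⟩ : ∃ β, QuadraticMap.polar (⇑Q) q q' = β := ⟨_, rfl⟩
    rw [hβ'] at hqq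
    have hind1 : LinearIndependent F ![q, (β₀ * β⁻¹) • q'] :=
      indep_of_dual Q _ _ q' q (by rw [hβ']; exact hqq)
        (by rw [QuadraticMap.polar_smul_left, kit_polar_self, hq', mul_zero, smul_zero])
        (by
          rw [QuadraticMap.polar_smul_left, QuadraticMap.polar_comm (⇑Q) q' q, hβ', smul_eq_mul]
          exact mul_ne_zero (mul_ne_zero hβ (inv_ne_zero hqq)) hqq)
    obtain ⟨g, hg, h1, h2⟩ := omega_pair Q hQ h i₀ i₁ hi e₁ (β₀ • f₁) e₂ f₂ H12.qe₂ H12.qf₂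
      H12.p22 he₂e₁ hf₂e₁ (by rw [QuadraticMap.polar_smul_right, he₂f₁, smul_zero])
      (by rw [QuadraticMap.polar_smul_right, hf₂f₁, smul_zero]) (hindS β₀ hβ)
      u₀ u₁ q ((β₀ * β⁻¹) • q') hind₀ hind1 (by rw [hu₀, H12.qe₁]) (by rw [hQu₁, hQstd])
      (by rw [hβ₀, hstd]) (by rw [hq, H12.qe₁])
      (by rw [QuadraticMap.map_smul, hq', smul_zero, hQstd])
      (by
        rw [QuadraticMap.polar_smul_right, hβ', hstd, smul_eq_mul, mul_assoc,
          inv_mul_cancel₀ hqq, mul_one])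
    obtain ⟨n, hn, e⟩ := hconj g hg q _ h1 h2
    exact ⟨n, hn, _, e⟩
  by_cases hind : LinearIndependent F ![p, p']
  · by_cases hβ : QuadraticMap.polar (⇑Q) u₀ u₁ = 0
    · by_cases hpp : QuadraticMap.polar (⇑Q) p p' = 0
      · exact sp0 hβ p p' hp hp' hind hpp
      · obtain ⟨β, hβ'⟩ : ∃ β, QuadraticMap.polar (⇑Q) p p' = β := ⟨_, rfl⟩
        rw [hβ'] at hpp
        obtain ⟨g, hg1, hg2⟩ := witt_pair Q hQ e₁ (β • f₁) p p' (hindS β hpp) hind
          (by rw [H12.qe₁, hp]) (by rw [hQstd, hp']) (by rw [hstd, hβ'])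
        obtain ⟨z, hz⟩ : ∃ z, z = isoActF ⇑Q g e₂ := ⟨_, rfl⟩
        obtain ⟨d, hd⟩ : ∃ d, d = isoActF ⇑Q g f₂ := ⟨_, rfl⟩
        have hQz : Q z = 0 := by
          rw [hz, isoActF_isom ⇑Q]
          exact H12.qe₂
        have hpz : QuadraticMap.polar (⇑Q) p z = 0 := by
          rw [hz, ← hg1, isoActF_polar]
          exact H12.pee
        have hzp' : QuadraticMap.polar (⇑Q) z p' = 0 := by
          rw [hz, ← hg2, isoActF_polar, QuadraticMap.polar_smul_right, he₂f₁, smul_zero]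
        have hzd : QuadraticMap.polar (⇑Q) z d = 1 := by
          rw [hz, hd, isoActF_polar]
          exact H12.p22
        have hp'd : QuadraticMap.polar (⇑Q) p' d = 0 := by
          rw [hd, ← hg2, isoActF_polar, QuadraticMap.polar_smul_left, H12.pff, smul_zero]
        have hi1 : LinearIndependent F ![p, z] :=
          indep_of_dual Q p z p' d (by rw [hβ']; exact hpp) hzp'
            (by rw [hzd]; exact one_ne_zero)
        have hi2 : LinearIndependent F ![z, p'] :=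
          indep_of_dual Q z p' d p (by rw [hzd]; exact one_ne_zero) hp'd
            (by rw [QuadraticMap.polar_comm, hβ']; exact hpp)
        obtain ⟨n₁, hn₁, a₁, em1⟩ := sp0 hβ p z hp hQz hi1 hpz
        obtain ⟨n₂, hn₂, a₂, em2⟩ := sp0 hβ z p' hQz hp' hi2 hzp'
        refine ⟨n₂ * n₁, M.mul_mem hn₂ hn₁, a₁ * a₂, ?_⟩
        rw [map_mul, LinearEquiv.mul_apply, em1, map_smul, em2, smul_smul]
    · by_cases hpp : QuadraticMap.polar (⇑Q) p p' = 0
      · obtain ⟨g, hg1, hg2⟩ := witt_pair Q hQ e₁ e₂ p p' hindE hind (by rw [H12.qe₁, hp])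
          (by rw [H12.qe₂, hp']) (by rw [H12.pee, hpp])
        obtain ⟨z, hz⟩ : ∃ z, z = isoActF ⇑Q g (f₁ + f₂) := ⟨_, rfl⟩
        have hQz : Q z = 0 := by
          rw [hz, isoActF_isom ⇑Q, kit_add, H12.qf₁, H12.qf₂, H12.pff]
          ring
        have hpz : QuadraticMap.polar (⇑Q) p z = 1 := by
          rw [hz, ← hg1, isoActF_polar, QuadraticMap.polar_add_right, H12.p11, H12.pef, add_zero]
        have hzp' : QuadraticMap.polar (⇑Q) z p' = 1 := by
          rw [hz, ← hg2, isoActF_polar, QuadraticMap.polar_add_left, H12.pfe, hf₂e₂, zero_add]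
        obtain ⟨n₁, hn₁, a₁, em1⟩ := sp1 hβ p z hp hQz (by rw [hpz]; exact one_ne_zero)
        obtain ⟨n₂, hn₂, a₂, em2⟩ := sp1 hβ z p' hQz hp' (by rw [hzp']; exact one_ne_zero)
        refine ⟨n₂ * n₁, M.mul_mem hn₂ hn₁, a₁ * a₂, ?_⟩
        rw [map_mul, LinearEquiv.mul_apply, em1, map_smul, em2, smul_smul]
      · exact sp1 hβ p p' hp hp' hpp
  · rcases dep_cases p p' hind with h0 | ⟨a, ha⟩
    · exact absurd h0 hp0
    · have ha0 : a ≠ 0 := by
        rintro rfl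
        rw [zero_smul] at ha
        exact hp'0 ha
      refine ⟨1, M.one_mem, a⁻¹, ?_⟩
      rw [map_one, ha, smul_smul, inv_mul_cancel₀ ha0, one_smul]
      rfl

/-- The commutator subgroup of `Ω`, as a subgroup of the group `Ω`, is everything. -/
theorem omega_perfect_top (Q : QuadraticForm F (κ → F))
    (hQ : (QuadraticMap.polarBilin Q).Nondegenerate)
    (h : Fintype.card F ≠ 2 ∨ Fintype.card κ ≠ 4) (e₁ f₁ e₂ f₂ e₃ f₃ : κ → F)
    (H12 : HypPairs Q e₁ f₁ e₂ f₂) (H13 : HypPairs Q e₁ f₁ e₃ f₃)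
    (H23 : HypPairs Q e₂ f₂ e₃ f₃) :
    commutator ↥(commutator ↥(Cfsg.isometryGroup F ⇑Q)) = ⊤ := by
  rw [eq_top_iff]
  intro x _
  have hx := omega_perfect Q hQ h e₁ f₁ e₂ f₂ e₃ f₃ H12 H13 H23 x.2
  have hmap : Subgroup.map (commutator ↥(Cfsg.isometryGroup F ⇑Q)).subtype
      (commutator ↥(commutator ↥(Cfsg.isometryGroup F ⇑Q)))
      = ⁅commutator ↥(Cfsg.isometryGroup F ⇑Q), commutator ↥(Cfsg.isometryGroup F ⇑Q)⁆ := by
    change Subgroup.map (commutator ↥(Cfsg.isometryGroup F ⇑Q)).subtype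
      ⁅(⊤ : Subgroup ↥(commutator ↥(Cfsg.isometryGroup F ⇑Q))),
        (⊤ : Subgroup ↥(commutator ↥(Cfsg.isometryGroup F ⇑Q)))⁆ = _
    rw [Subgroup.map_commutator, ← MonoidHom.range_eq_map, Subgroup.range_subtype]
  rw [← hmap] at hx
  obtain ⟨y, hy, hyx⟩ := Subgroup.mem_map.1 hx
  have hyx' : y = x := Subtype.ext hyx
  rw [← hyx']
  exact hy

/-- Iwasawa's criterion: a normal subgroup of `Ω` moving a singular point is everything. -/
theorem omega_normal_top (Q : QuadraticForm F (κ → F))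
    (hQ : (QuadraticMap.polarBilin Q).Nondegenerate)
    (h : Fintype.card F ≠ 2 ∨ Fintype.card κ ≠ 4) (i₀ i₁ : κ) (hi : i₀ ≠ i₁)
    (e₁ f₁ e₂ f₂ e₃ f₃ : κ → F)
    (H12 : HypPairs Q e₁ f₁ e₂ f₂) (H13 : HypPairs Q e₁ f₁ e₃ f₃)
    (H23 : HypPairs Q e₂ f₂ e₃ f₃)
    (N : Subgroup ↥(commutator ↥(Cfsg.isometryGroup F ⇑Q))) (hN : N.Normal)
    (n₀ : ↥(commutator ↥(Cfsg.isometryGroup F ⇑Q))) (hn₀ : n₀ ∈ N) (u₀ : κ → F)
    (hu₀ : Q u₀ = 0) (hmove : ¬ ∃ a : F, isoActF ⇑Q n₀.1 u₀ = a • u₀) : N = ⊤ := by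
  obtain ⟨M, hMdef⟩ : ∃ M : Subgroup ↥(Cfsg.isometryGroup F ⇑Q),
      M = N.map (commutator ↥(Cfsg.isometryGroup F ⇑Q)).subtype := ⟨_, rfl⟩
  have hMmem : ∀ x : ↥(commutator ↥(Cfsg.isometryGroup F ⇑Q)), x ∈ N → x.1 ∈ M := by
    intro x hx
    rw [hMdef]
    exact Subgroup.mem_map.2 ⟨x, hx, rfl⟩
  have hMinv : ∀ y ∈ M, ∃ x : ↥(commutator ↥(Cfsg.isometryGroup F ⇑Q)), x ∈ N ∧ x.1 = y := by
    intro y hy
    rw [hMdef] at hy
    obtain ⟨x, hx, hxy⟩ := Subgroup.mem_map.1 hy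
    exact ⟨x, hx, hxy⟩
  have hM : ∀ g ∈ commutator ↥(Cfsg.isometryGroup F ⇑Q), ∀ n ∈ M, g * n * g⁻¹ ∈ M := by
    intro g hg n hn
    obtain ⟨x, hx, rfl⟩ := hMinv n hn
    have h5 := hMmem _ (hN.conj_mem x hx ⟨g, hg⟩)
    rw [Subgroup.coe_mul, Subgroup.coe_mul, Subgroup.coe_inv] at h5
    exact h5
  have he₁0 : e₁ ≠ 0 := by
    intro h0
    have h3 := H12.p11
    rw [h0, QuadraticMap.polar_zero_left] at h3
    exact zero_ne_one h3
  obtain ⟨A, hAdef⟩ : ∃ A : Subgroup ↥(commutator ↥(Cfsg.isometryGroup F ⇑Q)),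
      A = Subgroup.closure {t : ↥(commutator ↥(Cfsg.isometryGroup F ⇑Q)) |
        ∃ (v : κ → F) (c : F), Q v = 0 ∧ QuadraticMap.polar (⇑Q) e₁ v = 0 ∧
          ((t.1 : Matrix.GeneralLinearGroup κ F) : Matrix κ κ F)
            = Cfsg.siegelMatrix ⇑Q e₁ v c} := ⟨_, rfl⟩
  have hAcomm : IsMulCommutative A := by
    rw [hAdef]
    apply Subgroup.isMulCommutative_closure
    rintro x ⟨v, c, hv, hev, hx⟩ y ⟨v', c', hv', hev', hy⟩
    apply Subtype.ext
    exact siegel_commute Q e₁ v v' H12.qe₁ hev hev' c c' x.1 y.1 hx hy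
  have hK : commutator ↥(Cfsg.isometryGroup F ⇑Q)
      ≤ (N ⊔ A).map (commutator ↥(Cfsg.isometryGroup F ⇑Q)).subtype := by
    conv_lhs => rw [siegel_genK Q hQ h e₁ f₁ e₂ f₂ H12]
    rw [Subgroup.closure_le]
    rintro s ⟨u, v, c, hu, hv, huv, hs⟩
    by_cases hu0 : u = 0
    · have hs1 : s = 1 := siegel_dep_one Q s u v c hs (by
        intro hli
        exact hli.ne_zero 0 hu0)
      rw [hs1]
      exact Subgroup.one_mem _
    · obtain ⟨n, hn, a, ha⟩ := pts_trans Q hQ h i₀ i₁ hi e₁ f₁ e₂ f₂ e₃ f₃ H12 H13 H23 M hM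
        n₀.1 (hMmem n₀ hn₀) u₀ hu₀ hmove e₁ u H12.qe₁ hu he₁0 hu0
      have ha0 : a ≠ 0 := by
        rintro rfl
        rw [zero_smul] at ha
        apply he₁0
        apply (isoActF ⇑Q n).injective
        rw [ha, map_zero]
      obtain ⟨n', hn', rfl⟩ := hMinv n hn
      obtain ⟨v', hv'⟩ : ∃ v', v' = isoActF ⇑Q n'.1⁻¹ v := ⟨_, rfl⟩
      have hnv' : isoActF ⇑Q n'.1 v' = v := by
        rw [hv', ← LinearEquiv.mul_apply, ← map_mul, mul_inv_cancel, map_one]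
        rfl
      have hQv' : Q v' = 0 := by
        rw [hv', isoActF_isom ⇑Q]
        exact hv
      have hev' : QuadraticMap.polar (⇑Q) e₁ v' = 0 := by
        have h5 := isoActF_polar Q n'.1 e₁ v'
        rw [ha, hnv', QuadraticMap.polar_smul_left, huv, smul_zero] at h5
        exact h5.symm
      obtain ⟨c', hc'⟩ : ∃ c', c = a * c' :=
        ⟨a⁻¹ * c, by rw [← mul_assoc, mul_inv_cancel₀ ha0, one_mul]⟩
      rw [hc'] at hs
      obtain ⟨t, ht⟩ := siegelEl_existsK Q e₁ v' H12.qe₁ hQv' hev' c'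
      have htΩ : t ∈ commutator ↥(Cfsg.isometryGroup F ⇑Q) :=
        siegel_mem_omega Q hQ h e₁ v' H12.qe₁ hQv' hev' c' t ht
      have hconj : n'.1 * t * n'.1⁻¹ = s := by
        apply isoActF_injective ⇑Q
        apply LinearEquiv.ext
        intro x
        have h1 : isoActF ⇑Q n'.1 (isoActF ⇑Q n'.1⁻¹ x) = x := by
          rw [← LinearEquiv.mul_apply, ← map_mul, mul_inv_cancel, map_one]
          rfl
        have hpu := isoActF_polar Q n'.1 e₁ (isoActF ⇑Q n'.1⁻¹ x)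
        have hpv := isoActF_polar Q n'.1 v' (isoActF ⇑Q n'.1⁻¹ x)
        rw [h1, ha, QuadraticMap.polar_smul_left, smul_eq_mul] at hpu
        rw [h1, hnv'] at hpv
        rw [map_mul, map_mul, LinearEquiv.mul_apply, LinearEquiv.mul_apply,
          siegel_actK Q t e₁ v' c' ht, siegel_actK Q s u v _ hs, map_add, map_smul, map_sub,
          map_smul, map_smul, h1, ← hpu, ← hpv, ha, hnv']
        module
      rw [← hconj]
      refine Subgroup.mem_map.2 ⟨n' * ⟨t, htΩ⟩ * n'⁻¹, ?_, ?_⟩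
      · refine Subgroup.mul_mem _ (Subgroup.mul_mem _ (Subgroup.mem_sup_left hn')
          (Subgroup.mem_sup_right ?_)) (Subgroup.inv_mem _ (Subgroup.mem_sup_left hn'))
        rw [hAdef]
        exact Subgroup.subset_closure ⟨v', c', hQv', hev', ht⟩
      · rw [Subgroup.coe_subtype, Subgroup.coe_mul, Subgroup.coe_mul, Subgroup.coe_inv]
  have hsup : N ⊔ A = ⊤ := by
    rw [eq_top_iff]
    intro x _
    obtain ⟨y, hy, hyx⟩ := Subgroup.mem_map.1 (hK x.2)
    have hyx' : y = x := Subtype.ext hyx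
    rw [← hyx']
    exact hy
  have hcomm : commutator ↥(commutator ↥(Cfsg.isometryGroup F ⇑Q)) ≤ N :=
    Subgroup.Normal.commutator_le_of_self_sup_commutative_eq_top hsup hAcomm
  rw [omega_perfect_top Q hQ h e₁ f₁ e₂ f₂ e₃ f₃ H12 H13 H23] at hcomm
  exact top_le_iff.1 hcomm

/-- Simplicity of `PΩ(Q)`. -/
theorem pomega_simple (Q : QuadraticForm F (κ → F))
    (hQ : (QuadraticMap.polarBilin Q).Nondegenerate)
    (h : Fintype.card F ≠ 2 ∨ Fintype.card κ ≠ 4) (i₀ i₁ : κ) (hi : i₀ ≠ i₁)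
    (e₁ f₁ e₂ f₂ e₃ f₃ : κ → F)
    (H12 : HypPairs Q e₁ f₁ e₂ f₂) (H13 : HypPairs Q e₁ f₁ e₃ f₃)
    (H23 : HypPairs Q e₂ f₂ e₃ f₃) :
    IsSimpleGroup (Cfsg.POmega F ⇑Q) := by
  obtain ⟨hf₁e₁, hf₂e₂, he₂e₁, hf₂e₁, he₂f₁, hf₂f₁, he₁e₁, hf₁f₁, he₂e₂, hf₂f₂⟩ :=
    hyp_polars H12
  -- an element of `Ω` moving a singular point
  obtain ⟨n₁, hn₁⟩ : ∃ n₁ : ↥(commutator ↥(Cfsg.isometryGroup F ⇑Q)),
      ¬ ∃ a : F, isoActF ⇑Q n₁.1 f₁ = a • f₁ := by
    obtain ⟨s, hs⟩ := siegelEl_existsK Q e₁ e₂ H12.qe₁ H12.qe₂ H12.pee 1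
    refine ⟨⟨s, siegel_mem_omega Q hQ h e₁ e₂ H12.qe₁ H12.qe₂ H12.pee 1 s hs⟩, ?_⟩
    rintro ⟨a, ha⟩
    change isoActF ⇑Q s f₁ = a • f₁ at ha
    rw [siegel_actK Q s e₁ e₂ 1 hs, H12.p11, he₂f₁, one_smul, zero_smul, sub_zero,
      one_smul] at ha
    have h3 := congrArg (fun t => QuadraticMap.polar (⇑Q) t f₂) ha
    simp only [QuadraticMap.polar_add_left, QuadraticMap.polar_smul_left, H12.pff, H12.p22,
      smul_eq_mul, mul_zero, zero_add] at h3
    exact one_ne_zero h3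
  have key : ∀ N : Subgroup ↥(commutator ↥(Cfsg.isometryGroup F ⇑Q)), N.Normal →
      N ≤ Subgroup.center ↥(commutator ↥(Cfsg.isometryGroup F ⇑Q)) ∨ N = ⊤ := by
    intro N hN
    by_cases hfix : ∀ n ∈ N, ∀ u : κ → F, Q u = 0 → ∃ a : F, isoActF ⇑Q n.1 u = a • u
    · left
      intro n hn
      obtain ⟨a, ha⟩ := scalar_of_fix H12 (isoActF ⇑Q n.1) (hfix n hn)
      rw [Subgroup.mem_center_iff]
      intro g
      apply Subtype.ext
      exact (scalar_commute ⇑Q n.1 g.1 a ha).symm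
    · right
      push Not at hfix
      obtain ⟨n, hn, u, hu, hmove⟩ := hfix
      exact omega_normal_top Q hQ h i₀ i₁ hi e₁ f₁ e₂ f₂ e₃ f₃ H12 H13 H23 N hN n hn u hu
        (fun ⟨a, ha⟩ => hmove a ha)
  have hnt : Nontrivial (↥(commutator ↥(Cfsg.isometryGroup F ⇑Q))
      ⧸ Subgroup.center ↥(commutator ↥(Cfsg.isometryGroup F ⇑Q))) := by
    by_contra hcon
    rw [not_nontrivial_iff_subsingleton] at hcon
    have hall : ∀ x : ↥(commutator ↥(Cfsg.isometryGroup F ⇑Q)),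
        x ∈ Subgroup.center ↥(commutator ↥(Cfsg.isometryGroup F ⇑Q)) := by
      intro x
      rw [← QuotientGroup.eq_one_iff]
      exact Subsingleton.elim _ _
    have hctop : Subgroup.center ↥(commutator ↥(Cfsg.isometryGroup F ⇑Q)) = ⊤ := by
      rw [eq_top_iff]
      intro x _
      exact hall x
    have hbot := (commutator_eq_bot_iff_center_eq_top _).2 hctop
    rw [omega_perfect_top Q hQ h e₁ f₁ e₂ f₂ e₃ f₃ H12 H13 H23] at hbot
    have h1 : n₁ ∈ (⊤ : Subgroup ↥(commutator ↥(Cfsg.isometryGroup F ⇑Q))) :=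
      Subgroup.mem_top n₁
    rw [hbot, Subgroup.mem_bot] at h1
    apply hn₁
    refine ⟨1, ?_⟩
    rw [h1, one_smul]
    change isoActF ⇑Q 1 f₁ = f₁
    rw [map_one]
    rfl
  change IsSimpleGroup (↥(commutator ↥(Cfsg.isometryGroup F ⇑Q))
      ⧸ Subgroup.center ↥(commutator ↥(Cfsg.isometryGroup F ⇑Q)))
  refine { toNontrivial := hnt, eq_bot_or_eq_top_of_normal := fun H hH => ?_ }
  have hcomap : (H.comap (QuotientGroup.mk'
      (Subgroup.center ↥(commutator ↥(Cfsg.isometryGroup F ⇑Q))))).Normal := hH.comap _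
  rcases key _ hcomap with hle | htop
  · left
    rw [eq_bot_iff]
    intro x hx
    obtain ⟨g, rfl⟩ := QuotientGroup.mk'_surjective
      (Subgroup.center ↥(commutator ↥(Cfsg.isometryGroup F ⇑Q))) x
    have hg : g ∈ H.comap (QuotientGroup.mk'
        (Subgroup.center ↥(commutator ↥(Cfsg.isometryGroup F ⇑Q)))) := hx
    rw [Subgroup.mem_bot]
    exact (QuotientGroup.eq_one_iff g).2 (hle hg)
  · right
    rw [eq_top_iff]
    intro x _
    obtain ⟨g, rfl⟩ := QuotientGroup.mk'_surjective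
      (Subgroup.center ↥(commutator ↥(Cfsg.isometryGroup F ⇑Q))) x
    have hg : g ∈ H.comap (QuotientGroup.mk'
        (Subgroup.center ↥(commutator ↥(Cfsg.isometryGroup F ⇑Q)))) := by
      rw [htop]
      exact Subgroup.mem_top g
    exact hg

end Mat

end Cfsg.Agent.Helper5
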