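import Mathlib
import Cfsg.Agent.Helper5.OmegaSimple
import Cfsg.Prelude.Def_GeometricClasses

/-!
Over a field with at most three elements, the stabiliser in `Ω` of a hyperbolic plane is
properly contained in the stabiliser of the unique point of norm one of that plane, so it is not
maximal in `Ω`.
-/

set_option autoImplicit false

namespace Cfsg.Agent.Helper5

section Mat

open Matrix

variable {F : Type*} [Field F] [Fintype F] {κ : Type} [Fintype κ] [DecidableEq κ]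

omit [DecidableEq κ] [Fintype κ] in
theorem sq_one_of_card_le_three (hq : Fintype.card F ≤ 3) (a : F) (ha : a ≠ 0) : a * a = 1 := by
  have h1 := FiniteField.pow_card_sub_one_eq_one a ha
  have h2 : 1 < Fintype.card F := Fintype.one_lt_card
  have h3 : Fintype.card F = 2 ∨ Fintype.card F = 3 := by omega
  rcases h3 with h3 | h3
  · rw [h3] at h1
    have h4 : a ^ 1 = 1 := h1
    rw [pow_one] at h4
    rw [h4, mul_one]
  · rw [h3] at h1
    have h4 : a ^ 2 = 1 := h1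
    rw [← pow_two]
    exact h4

omit [Fintype F] in
/-- An isometry with a given eigenvector stabilises the line it spans. -/
theorem stab_span_of_eig (Qf : (κ → F) → F) (s : ↥(Cfsg.isometryGroup F Qf)) (v : κ → F)
    (α : F) (hα : α ≠ 0) (hv : isoActF Qf s v = α • v) :
    (s : Matrix.GeneralLinearGroup κ F)
      ∈ Cfsg.Geo.subspaceStabilizer (Submodule.span F {v}) := by
  change ∀ x : κ → F, x ∈ Submodule.span F {v} ↔
    ((s : Matrix.GeneralLinearGroup κ F) : Matrix κ κ F) *ᵥ x ∈ Submodule.span F {v}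
  intro x
  rw [← isoActF_apply, Submodule.mem_span_singleton, Submodule.mem_span_singleton]
  constructor
  · rintro ⟨c, rfl⟩
    exact ⟨c * α, by rw [map_smul, hv, smul_smul]⟩
  · rintro ⟨c, hc⟩
    refine ⟨c * α⁻¹, ?_⟩
    apply (isoActF Qf s).injective
    rw [map_smul, hv, smul_smul, mul_assoc, inv_mul_cancel₀ hα, mul_one, hc]

/-- The stabiliser in `Ω` of a hyperbolic plane over a field with at most three elements is
not maximal. -/
theorem plus_plane_not_max (𝒬 : QuadraticForm F (κ → F))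
    (hnd : (QuadraticMap.polarBilin 𝒬).Nondegenerate)
    (h : Fintype.card F ≠ 2 ∨ Fintype.card κ ≠ 4) (hq : Fintype.card F ≤ 3)
    (W : Submodule F (κ → F)) (e f u₁ t : κ → F) (heW : e ∈ W) (hfW : f ∈ W)
    (hWspan : ∀ x ∈ W, ∃ a b : F, x = a • e + b • f)
    (he : 𝒬 e = 0) (hf : 𝒬 f = 0) (hef : QuadraticMap.polar (⇑𝒬) e f = 1)
    (hu : 𝒬 u₁ = 0) (hu0 : u₁ ≠ 0) (ht : 𝒬 t = 1)
    (hue : QuadraticMap.polar (⇑𝒬) u₁ e = 0) (huf : QuadraticMap.polar (⇑𝒬) u₁ f = 0)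
    (hte : QuadraticMap.polar (⇑𝒬) t e = 0) (htf : QuadraticMap.polar (⇑𝒬) t f = 0)
    (hut : QuadraticMap.polar (⇑𝒬) u₁ t = 0) :
    ∃ K : Subgroup (Matrix.GeneralLinearGroup κ F),
      Cfsg.Geo.subspaceStabilizer W ⊓ Cfsg.Geo.omegaGL ⇑𝒬 < K ∧ K < Cfsg.Geo.omegaGL ⇑𝒬 := by
  have hfe : QuadraticMap.polar (⇑𝒬) f e = 1 := by
    rw [QuadraticMap.polar_comm]
    exact hef
  have hee : QuadraticMap.polar (⇑𝒬) e e = 0 := by
    rw [kit_polar_self, he, mul_zero]
  have hff : QuadraticMap.polar (⇑𝒬) f f = 0 := by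
    rw [kit_polar_self, hf, mul_zero]
  have heu : QuadraticMap.polar (⇑𝒬) e u₁ = 0 := by
    rw [QuadraticMap.polar_comm]
    exact hue
  obtain ⟨v, hv⟩ : ∃ v, v = e + f := ⟨_, rfl⟩
  have hvW : v ∈ W := by
    rw [hv]
    exact W.add_mem heW hfW
  have hQv : 𝒬 v = 1 := by
    rw [hv, kit_add, he, hf, hef]
    ring
  have huv : QuadraticMap.polar (⇑𝒬) u₁ v = 0 := by
    rw [hv, QuadraticMap.polar_add_right, hue, huf, add_zero]
  have hmemΩ : ∀ s : ↥(Cfsg.isometryGroup F ⇑𝒬), s ∈ commutator ↥(Cfsg.isometryGroup F ⇑𝒬) →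
      (s : Matrix.GeneralLinearGroup κ F) ∈ Cfsg.Geo.omegaGL ⇑𝒬 := by
    intro s hs
    exact Subgroup.mem_map.2 ⟨s, hs, rfl⟩
  have hu₁W : u₁ ∉ W := by
    intro hmem
    obtain ⟨a, b, hab⟩ := hWspan u₁ hmem
    have h1 : QuadraticMap.polar (⇑𝒬) u₁ f = a := by
      rw [hab, QuadraticMap.polar_add_left, QuadraticMap.polar_smul_left,
        QuadraticMap.polar_smul_left, hef, hff, smul_eq_mul, smul_eq_mul, mul_one, mul_zero,
        add_zero]
    have h2 : QuadraticMap.polar (⇑𝒬) u₁ e = b := by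
      rw [hab, QuadraticMap.polar_add_left, QuadraticMap.polar_smul_left,
        QuadraticMap.polar_smul_left, hee, hfe, smul_eq_mul, smul_eq_mul, mul_one, mul_zero,
        zero_add]
    rw [huf] at h1
    rw [hue] at h2
    apply hu0
    rw [hab, ← h1, ← h2, zero_smul, zero_smul, add_zero]
  refine ⟨Cfsg.Geo.subspaceStabilizer (Submodule.span F {v}) ⊓ Cfsg.Geo.omegaGL ⇑𝒬, ?_, ?_⟩
  · rw [SetLike.lt_iff_le_and_exists]
    refine ⟨?_, ?_⟩
    · rintro g ⟨hgW, hgΩ⟩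
      refine ⟨?_, hgΩ⟩
      obtain ⟨s, hs, rfl⟩ := Subgroup.mem_map.1 hgΩ
      have h1 : isoActF ⇑𝒬 s v ∈ W := by
        rw [isoActF_apply]
        exact (hgW v).1 hvW
      obtain ⟨a, b, hab⟩ := hWspan _ h1
      have h3 : a * b = 1 := by
        have h4 := isoActF_isom ⇑𝒬 s v
        rw [hab, hQv, kit_add, QuadraticMap.map_smul, QuadraticMap.map_smul,
          QuadraticMap.polar_smul_left, QuadraticMap.polar_smul_right, he, hf, hef] at h4
        simp only [smul_eq_mul, mul_zero, add_zero, zero_add, mul_one] at h4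
        exact h4
      have ha0 : a ≠ 0 := by
        rintro rfl
        rw [zero_mul] at h3
        exact zero_ne_one h3
      have hab' : b = a :=
        mul_left_cancel₀ ha0 (h3.trans (sq_one_of_card_le_three hq a ha0).symm)
      apply stab_span_of_eig ⇑𝒬 s v a ha0
      rw [hab, hab', hv, smul_add]
    · obtain ⟨z, hz⟩ : ∃ z, z = (e - f) + t := ⟨_, rfl⟩
      have hQz : 𝒬 z = 0 := by
        rw [hz, kit_add, kit_sub, he, hf, hef, ht, QuadraticMap.polar_sub_left,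
          QuadraticMap.polar_comm (⇑𝒬) e t, QuadraticMap.polar_comm (⇑𝒬) f t, hte, htf]
        ring
      have huz : QuadraticMap.polar (⇑𝒬) u₁ z = 0 := by
        rw [hz, QuadraticMap.polar_add_right, QuadraticMap.polar_sub_right, hue, huf, hut]
        ring
      have hzv : QuadraticMap.polar (⇑𝒬) z v = 0 := by
        rw [hz, hv, QuadraticMap.polar_add_left, QuadraticMap.polar_sub_left,
          QuadraticMap.polar_add_right, QuadraticMap.polar_add_right,
          QuadraticMap.polar_add_right, hee, hef, hfe, hff, hte, htf]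
        ring
      have hze : QuadraticMap.polar (⇑𝒬) z e = -1 := by
        rw [hz, QuadraticMap.polar_add_left, QuadraticMap.polar_sub_left, hee, hfe, hte]
        ring
      obtain ⟨s, hs⟩ := siegelEl_existsK 𝒬 u₁ z hu hQz huz 1
      have hsΩ := siegel_mem_omega 𝒬 hnd h u₁ z hu hQz huz 1 s hs
      have hsv : isoActF ⇑𝒬 s v = (1 : F) • v := by
        rw [siegel_actK 𝒬 s u₁ z 1 hs, huv, hzv]
        module
      have hse : isoActF ⇑𝒬 s e = e + u₁ := by
        rw [siegel_actK 𝒬 s u₁ z 1 hs, hue, hze]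
        module
      refine ⟨(s : Matrix.GeneralLinearGroup κ F),
        ⟨stab_span_of_eig ⇑𝒬 s v 1 one_ne_zero hsv, hmemΩ s hsΩ⟩, ?_⟩
      rintro ⟨hsW, -⟩
      have h1 : isoActF ⇑𝒬 s e ∈ W := by
        rw [isoActF_apply]
        exact (hsW e).1 heW
      rw [hse] at h1
      apply hu₁W
      have h2 := W.sub_mem h1 heW
      rw [add_sub_cancel_left] at h2
      exact h2
  · rw [SetLike.lt_iff_le_and_exists]
    refine ⟨inf_le_right, ?_⟩
    obtain ⟨s, hs⟩ := siegelEl_existsK 𝒬 e u₁ he hu heu 1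
    have hsΩ := siegel_mem_omega 𝒬 hnd h e u₁ he hu heu 1 s hs
    have hev : QuadraticMap.polar (⇑𝒬) e v = 1 := by
      rw [hv, QuadraticMap.polar_add_right, hee, hef, zero_add]
    have hsv : isoActF ⇑𝒬 s v = v + u₁ := by
      rw [siegel_actK 𝒬 s e u₁ 1 hs, hev, huv]
      module
    refine ⟨(s : Matrix.GeneralLinearGroup κ F), hmemΩ s hsΩ, ?_⟩
    rintro ⟨hsK, -⟩
    have h1 : isoActF ⇑𝒬 s v ∈ Submodule.span F {v} := by
      rw [isoActF_apply]
      exact (hsK v).1 (Submodule.mem_span_singleton_self v)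
    rw [hsv, Submodule.mem_span_singleton] at h1
    obtain ⟨c, hc⟩ := h1
    apply hu₁W
    have h2 : u₁ = (c - 1) • v := by
      rw [sub_smul, one_smul, hc]
      abel
    rw [h2]
    exact W.smul_mem _ hvW

/-- The auxiliary vectors for `plus_plane_not_max`, from three orthogonal hyperbolic pairs. -/
theorem plus_plane_aux (𝒬 : QuadraticForm F (κ → F))
    (hnd : (QuadraticMap.polarBilin 𝒬).Nondegenerate) (e₁ f₁ e₂ f₂ e₃ f₃ : κ → F)
    (H12 : HypPairs 𝒬 e₁ f₁ e₂ f₂) (H13 : HypPairs 𝒬 e₁ f₁ e₃ f₃)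
    (H23 : HypPairs 𝒬 e₂ f₂ e₃ f₃) (e f : κ → F)
    (he : 𝒬 e = 0) (hf : 𝒬 f = 0) (hef : QuadraticMap.polar (⇑𝒬) e f = 1) :
    ∃ u₁ t : κ → F, 𝒬 u₁ = 0 ∧ u₁ ≠ 0 ∧ 𝒬 t = 1 ∧ QuadraticMap.polar (⇑𝒬) u₁ e = 0 ∧
      QuadraticMap.polar (⇑𝒬) u₁ f = 0 ∧ QuadraticMap.polar (⇑𝒬) t e = 0 ∧
      QuadraticMap.polar (⇑𝒬) t f = 0 ∧ QuadraticMap.polar (⇑𝒬) u₁ t = 0 := by
  obtain ⟨hf₁e₁, hf₂e₂, he₂e₁, hf₂e₁, he₂f₁, hf₂f₁, he₁e₁, hf₁f₁, he₂e₂, hf₂f₂⟩ :=
    hyp_polars H12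
  obtain ⟨-, hf₃e₃, he₃e₁, hf₃e₁, he₃f₁, hf₃f₁, -, -, he₃e₃, hf₃f₃⟩ := hyp_polars H13
  have hind0 : LinearIndependent F ![e₁, f₁] :=
    indep_of_dual 𝒬 e₁ f₁ f₁ e₁ (by rw [H12.p11]; exact one_ne_zero) hf₁f₁
      (by rw [hf₁e₁]; exact one_ne_zero)
  have hind : LinearIndependent F ![e, f] :=
    indep_of_dual 𝒬 e f f e (by rw [hef]; exact one_ne_zero)
      (by rw [kit_polar_self, hf, mul_zero])
      (by rw [QuadraticMap.polar_comm, hef]; exact one_ne_zero)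
  obtain ⟨g, hg1, hg2⟩ := witt_pair 𝒬 hnd e₁ f₁ e f hind0 hind (by rw [H12.qe₁, he])
    (by rw [H12.qf₁, hf]) (by rw [H12.p11, hef])
  refine ⟨isoActF ⇑𝒬 g e₂, isoActF ⇑𝒬 g (e₃ + f₃), ?_, ?_, ?_, ?_, ?_, ?_, ?_, ?_⟩
  · rw [isoActF_isom ⇑𝒬]
    exact H12.qe₂
  · intro h0
    have h1 := isoActF_polar 𝒬 g e₂ f₂
    rw [h0, QuadraticMap.polar_zero_left, H12.p22] at h1
    exact zero_ne_one h1
  · rw [isoActF_isom ⇑𝒬, kit_add, H13.qe₂, H13.qf₂, H13.p22]
    ring
  · rw [← hg1, isoActF_polar]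
    exact he₂e₁
  · rw [← hg2, isoActF_polar]
    exact he₂f₁
  · rw [← hg1, isoActF_polar, QuadraticMap.polar_add_left, he₃e₁, hf₃e₁, add_zero]
  · rw [← hg2, isoActF_polar, QuadraticMap.polar_add_left, he₃f₁, hf₃f₁, add_zero]
  · rw [isoActF_polar, QuadraticMap.polar_add_right, H23.pee, H23.pef, add_zero]

end Mat

end Cfsg.Agent.Helper5
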