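import Mathlib
import Cfsg.Agent.Helper5.PlanePlus
import Cfsg.Agent.Helper5.PlusDickson
import Cfsg.Agent.Helper15.HypPair
import Cfsg.Agent.S0750
import Cfsg.Prelude.Def_GeometricClasses

/-!
General non-degenerate quadratic forms given as functions: the bundled model, three orthogonal
hyperbolic pairs in large dimension, the Dickson-type parity on maximal totally singular
subspaces, and three "stabiliser is not maximal in `Ω`" results.
-/

set_option autoImplicit false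

namespace Cfsg.Agent.Helper5

section GQ

open Matrix

variable {F : Type*} [Field F] {κ : Type} [Fintype κ] [DecidableEq κ]

/-- A non-degenerate quadratic form given as a function is the value function of a bundled
quadratic form with non-degenerate polar form. -/
theorem genquad_model (Q : (κ → F) → F) (hQ : Cfsg.Geo.IsNondegenerateQuadraticForm Q) :
    ∃ 𝒬 : QuadraticForm F (κ → F), (∀ v, 𝒬 v = Q v) ∧
      (QuadraticMap.polarBilin 𝒬).Nondegenerate := by
  refine ⟨QuadraticMap.ofPolar Q ?_ ?_ ?_, fun v => rfl, ?_, ?_⟩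
  · intro a x
    rw [hQ.smul, pow_two, smul_eq_mul]
  · intro x x' y
    exact hQ.polar_bilinear.add_left x x' y
  · intro a x y
    rw [hQ.polar_bilinear.smul_left, smul_eq_mul]
  · intro x hx
    by_contra hx0
    obtain ⟨-, y, hy⟩ := hQ.nondegenerate x hx0
    exact hy (hx y)
  · intro y hy
    by_contra hy0
    obtain ⟨⟨x, hx⟩, -⟩ := hQ.nondegenerate y hy0
    exact hx (hy x)

/-- A hyperbolic basis of a non-degenerate plane of plus type. -/
theorem plus_plane_basis (𝒬 : QuadraticForm F (κ → F)) (W : Submodule F (κ → F))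
    (hdim : Module.finrank F W = 2)
    (hW : Cfsg.Geo.IsNondegenerateOn (QuadraticMap.polar ⇑𝒬) W)
    (hplus : Cfsg.Geo.IsPlusTypeOn ⇑𝒬 W) :
    ∃ e f : κ → F, e ∈ W ∧ f ∈ W ∧ (∀ x ∈ W, ∃ a b : F, x = a • e + b • f) ∧ 𝒬 e = 0 ∧
      𝒬 f = 0 ∧ QuadraticMap.polar ⇑𝒬 e f = 1 := by
  obtain ⟨U, hUW, hUts, hUdim⟩ := hplus
  have hU1 : Module.finrank F U = 1 := by omega
  have hUbot : U ≠ ⊥ := by
    intro h0
    rw [h0, finrank_bot] at hU1
    exact zero_ne_one hU1
  obtain ⟨e, heU, he0⟩ := Submodule.exists_mem_ne_zero_of_ne_bot hUbot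
  have heW : e ∈ W := hUW heU
  have he : 𝒬 e = 0 := hUts e heU
  obtain ⟨-, x, hxW, hβ⟩ := hW e heW he0
  obtain ⟨β, hβdef⟩ : ∃ β, β = QuadraticMap.polar (⇑𝒬) e x := ⟨_, rfl⟩
  rw [← hβdef] at hβ
  obtain ⟨f, hfdef⟩ : ∃ f, f = β⁻¹ • (x - (𝒬 x * β⁻¹) • e) := ⟨_, rfl⟩
  have hfW : f ∈ W := by
    rw [hfdef]
    exact W.smul_mem _ (W.sub_mem hxW (W.smul_mem _ heW))
  have hee : QuadraticMap.polar (⇑𝒬) e e = 0 := by
    rw [kit_polar_self, he, mul_zero]
  have hef : QuadraticMap.polar (⇑𝒬) e f = 1 := by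
    rw [hfdef, QuadraticMap.polar_smul_right, QuadraticMap.polar_sub_right,
      QuadraticMap.polar_smul_right, hee, ← hβdef]
    simp only [smul_eq_mul, mul_zero, sub_zero]
    exact inv_mul_cancel₀ hβ
  have key : ∀ c : F, c * β = 𝒬 x → 𝒬 (x - c • e) = 0 := by
    intro c hc
    rw [kit_sub, QuadraticMap.map_smul, QuadraticMap.polar_smul_right, he,
      QuadraticMap.polar_comm (⇑𝒬) x e, ← hβdef]
    simp only [smul_eq_mul, mul_zero, add_zero]
    rw [hc, sub_self]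
  have hf : 𝒬 f = 0 := by
    rw [hfdef, QuadraticMap.map_smul,
      key _ (by rw [mul_assoc, inv_mul_cancel₀ hβ, mul_one]), smul_zero]
  have hff : QuadraticMap.polar (⇑𝒬) f f = 0 := by
    rw [kit_polar_self, hf, mul_zero]
  have hfe : QuadraticMap.polar (⇑𝒬) f e = 1 := by
    rw [QuadraticMap.polar_comm]
    exact hef
  have hind : LinearIndependent F ![e, f] :=
    indep_of_dual 𝒬 e f f e (by rw [hef]; exact one_ne_zero) hff
      (by rw [hfe]; exact one_ne_zero)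
  have hspan : Submodule.span F (Set.range ![e, f]) = W := by
    apply Submodule.eq_of_le_of_finrank_eq
    · rw [Submodule.span_le]
      rintro _ ⟨i, rfl⟩
      fin_cases i
      · exact heW
      · exact hfW
    · rw [finrank_span_eq_card hind, hdim, Fintype.card_fin]
  have hWspan : ∀ x ∈ W, ∃ a b : F, x = a • e + b • f := by
    intro y hy
    rw [← hspan, Submodule.mem_span_range_iff_exists_fun] at hy
    obtain ⟨c, hc⟩ := hy
    rw [Fin.sum_univ_two] at hc
    exact ⟨c 0, c 1, hc.symm⟩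
  exact ⟨e, f, heW, hfW, hWspan, he, hf, hef⟩

/-- Three pairwise orthogonal hyperbolic pairs in a non-degenerate quadratic space of even
dimension at least eight over a finite field. -/
theorem genquad_hyp3 [Finite F] (𝒬 : QuadraticForm F (κ → F))
    (hnd : (QuadraticMap.polarBilin 𝒬).Nondegenerate) (k : ℕ) (hk : 3 ≤ k)
    (hfin : Module.finrank F (κ → F) = 2 * k + 2) :
    ∃ e₁ f₁ e₂ f₂ e₃ f₃ : κ → F, HypPairs 𝒬 e₁ f₁ e₂ f₂ ∧ HypPairs 𝒬 e₁ f₁ e₃ f₃ ∧
      HypPairs 𝒬 e₂ f₂ e₃ f₃ := by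
  have hfam : ∃ e' f' : Fin 3 → (κ → F), (∀ i, 𝒬 (e' i) = 0 ∧ 𝒬 (f' i) = 0) ∧
      (∀ i j, QuadraticMap.polar ⇑𝒬 (e' i) (f' j) = if i = j then 1 else 0) ∧
      (∀ i j, QuadraticMap.polar ⇑𝒬 (e' i) (e' j) = 0 ∧
        QuadraticMap.polar ⇑𝒬 (f' i) (f' j) = 0) := by
    rcases Cfsg.Agent.Helper15.exists_hyp_family k 𝒬 hnd hfin with
      ⟨e', f', h1, h2, h3⟩ | ⟨e', f', x, y, ζ, -, h1, h2, h3, -⟩
    · refine ⟨fun i => e' ⟨i.1, lt_of_lt_of_le i.2 (by omega)⟩,
        fun i => f' ⟨i.1, lt_of_lt_of_le i.2 (by omega)⟩, fun i => h1 _,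
        fun i j => ?_, fun i j => h3 _ _⟩
      rw [h2]
      simp [Fin.ext_iff]
    · refine ⟨fun i => e' ⟨i.1, lt_of_lt_of_le i.2 (by omega)⟩,
        fun i => f' ⟨i.1, lt_of_lt_of_le i.2 (by omega)⟩, fun i => h1 _,
        fun i j => ?_, fun i j => h3 _ _⟩
      rw [h2]
      simp [Fin.ext_iff]
  obtain ⟨e', f', h1, h2, h3⟩ := hfam
  have mkH : ∀ i j : Fin 3, i ≠ j → HypPairs 𝒬 (e' i) (f' i) (e' j) (f' j) := by
    intro i j hij
    refine ⟨(h1 i).1, (h1 i).2, (h1 j).1, (h1 j).2, ?_, ?_, (h3 i j).1, ?_, ?_, (h3 i j).2⟩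
    · rw [h2, if_pos rfl]
    · rw [h2, if_pos rfl]
    · rw [h2, if_neg hij]
    · rw [QuadraticMap.polar_comm, h2, if_neg (Ne.symm hij)]
  exact ⟨_, _, _, _, _, _, mkH 0 1 (by decide), mkH 0 2 (by decide), mkH 1 2 (by decide)⟩

/-- The Dickson-type character attached to a maximal totally singular subspace. -/
noncomputable def genD {m : ℕ} (𝒬 : QuadraticForm F (κ → F))
    (hV : Module.finrank F (κ → F) = 2 * m)
    (hnd : (QuadraticMap.polarBilin 𝒬).Nondegenerate) (E : Submodule F (κ → F))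
    (hE : IsMTS 𝒬 m E) : ↥(Cfsg.isometryGroup F ⇑𝒬) →* ℤˣ where
  toFun g := (-1) ^ (m - Module.finrank F ↥(E ⊓ E.map (Matrix.mulVecLin
    ((g : Matrix.GeneralLinearGroup κ F) : Matrix κ κ F))))
  map_one' := by
    have h1 : E.map (Matrix.mulVecLin
        (((1 : ↥(Cfsg.isometryGroup F ⇑𝒬)) : Matrix.GeneralLinearGroup κ F) :
          Matrix κ κ F)) = E := by
      have h2 : (((1 : ↥(Cfsg.isometryGroup F ⇑𝒬)) : Matrix.GeneralLinearGroup κ F) :
          Matrix κ κ F) = 1 := rfl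
      rw [h2, Matrix.mulVecLin_one, Submodule.map_id]
    rw [h1, inf_idem, hE.1, Nat.sub_self, pow_zero]
  map_mul' g h := by
    have hc := mts_cocycle 𝒬 hV hnd E hE
      (Matrix.mulVecLin ((g : Matrix.GeneralLinearGroup κ F) : Matrix κ κ F))
      (Matrix.mulVecLin ((h : Matrix.GeneralLinearGroup κ F) : Matrix κ κ F))
      (mulVecLin_inj _) (mulVecLin_isom ⇑𝒬 g) (mulVecLin_inj _) (mulVecLin_isom ⇑𝒬 h)
    have e : Matrix.mulVecLin (((g * h : ↥(Cfsg.isometryGroup F ⇑𝒬)) :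
        Matrix.GeneralLinearGroup κ F) : Matrix κ κ F)
        = Matrix.mulVecLin ((g : Matrix.GeneralLinearGroup κ F) : Matrix κ κ F)
          ∘ₗ Matrix.mulVecLin ((h : Matrix.GeneralLinearGroup κ F) : Matrix κ κ F) := by
      rw [Subgroup.coe_mul, Units.val_mul, Matrix.mulVecLin_mul]
    rw [e]
    have b1 := Submodule.finrank_mono (inf_le_left : E ⊓ E.map
      (Matrix.mulVecLin ((g : Matrix.GeneralLinearGroup κ F) : Matrix κ κ F)) ≤ E)
    have b2 := Submodule.finrank_mono (inf_le_left : E ⊓ E.map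
      (Matrix.mulVecLin ((h : Matrix.GeneralLinearGroup κ F) : Matrix κ κ F)) ≤ E)
    have b3 := Submodule.finrank_mono (inf_le_left : E ⊓ E.map
      (Matrix.mulVecLin ((g : Matrix.GeneralLinearGroup κ F) : Matrix κ κ F)
        ∘ₗ Matrix.mulVecLin ((h : Matrix.GeneralLinearGroup κ F) : Matrix κ κ F)) ≤ E)
    rw [hE.1] at b1 b2 b3
    rw [← pow_add]
    apply neg_one_units_pow_congr
    omega

/-- Elements of `Ω` preserve the parity class of a maximal totally singular subspace. -/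
theorem genD_parity {m : ℕ} (𝒬 : QuadraticForm F (κ → F))
    (hV : Module.finrank F (κ → F) = 2 * m)
    (hnd : (QuadraticMap.polarBilin 𝒬).Nondegenerate) (E : Submodule F (κ → F))
    (hE : IsMTS 𝒬 m E) (g : ↥(Cfsg.isometryGroup F ⇑𝒬))
    (hg : g ∈ commutator ↥(Cfsg.isometryGroup F ⇑𝒬)) :
    Module.finrank F ↥(E ⊓ E.map (Matrix.mulVecLin
      ((g : Matrix.GeneralLinearGroup κ F) : Matrix κ κ F))) % 2 = m % 2 := by
  have h1 : genD 𝒬 hV hnd E hE g = 1 :=
    MonoidHom.mem_ker.1 (Abelianization.commutator_subset_ker (genD 𝒬 hV hnd E hE) hg)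
  have h3 : genD 𝒬 hV hnd E hE g = (-1) ^ (m - Module.finrank F ↥(E ⊓ E.map
      (Matrix.mulVecLin ((g : Matrix.GeneralLinearGroup κ F) : Matrix κ κ F)))) := rfl
  rw [h3] at h1
  have b1 := Submodule.finrank_mono (inf_le_left : E ⊓ E.map
    (Matrix.mulVecLin ((g : Matrix.GeneralLinearGroup κ F) : Matrix κ κ F)) ≤ E)
  rw [hE.1] at b1
  have h4 : Even (m - Module.finrank F ↥(E ⊓ E.map (Matrix.mulVecLin
      ((g : Matrix.GeneralLinearGroup κ F) : Matrix κ κ F)))) := by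
    by_contra hodd
    rw [Nat.not_even_iff_odd] at hodd
    rw [hodd.neg_one_pow] at h1
    exact absurd h1 (by decide)
  rw [Nat.even_iff] at h4
  omega

/-- A matrix mapping a subspace onto itself lies in its stabiliser. -/
theorem stab_of_map_eq (W : Submodule F (κ → F)) (g : Matrix.GeneralLinearGroup κ F)
    (h : W.map (Matrix.mulVecLin (g : Matrix κ κ F)) = W) :
    g ∈ Cfsg.Geo.subspaceStabilizer W := by
  change ∀ x : κ → F, x ∈ W ↔ (g : Matrix κ κ F) *ᵥ x ∈ W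
  intro x
  constructor
  · intro hx
    rw [← h]
    exact ⟨x, hx, rfl⟩
  · intro hx
    rw [← h] at hx
    obtain ⟨y, hy, hyx⟩ := hx
    have h1 : y = x := mulVecLin_inj g hyx
    rw [← h1]
    exact hy

/-- A Siegel transformation of `Ω` fixing a totally singular subspace `A` pointwise and moving a
complement `B`. -/
theorem ts_siegel_witness [Fintype F] (𝒬 : QuadraticForm F (κ → F))
    (hnd : (QuadraticMap.polarBilin 𝒬).Nondegenerate)
    (h : Fintype.card F ≠ 2 ∨ Fintype.card κ ≠ 4) (A B : Submodule F (κ → F))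
    (hA : ∀ x ∈ A, 𝒬 x = 0) (hdisj : Disjoint A B) (hsup : A ⊔ B = ⊤)
    (hdim : 2 ≤ Module.finrank F A) :
    ∃ s : ↥(Cfsg.isometryGroup F ⇑𝒬), s ∈ commutator ↥(Cfsg.isometryGroup F ⇑𝒬) ∧
      (∀ x ∈ A, isoActF ⇑𝒬 s x = x) ∧ ∃ x ∈ B, isoActF ⇑𝒬 s x ∉ B := by
  have hAbot : A ≠ ⊥ := by
    intro h0
    rw [h0, finrank_bot] at hdim
    omega
  obtain ⟨u, huA, hu0⟩ := Submodule.exists_mem_ne_zero_of_ne_bot hAbot
  have hnle : ¬ A ≤ Submodule.span F {u} := by
    intro hle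
    have h1 := Submodule.finrank_mono hle
    rw [finrank_span_singleton hu0] at h1
    omega
  obtain ⟨v, hvA, hvu⟩ := SetLike.not_le_iff_exists.1 hnle
  have hu : 𝒬 u = 0 := hA u huA
  have hv : 𝒬 v = 0 := hA v hvA
  have huv : QuadraticMap.polar (⇑𝒬) u v = 0 := ts_polar 𝒬 A hA u v huA hvA
  obtain ⟨s, hs⟩ := siegelEl_existsK 𝒬 u v hu hv huv 1
  refine ⟨s, siegel_mem_omega 𝒬 hnd h u v hu hv huv 1 s hs, ?_, ?_⟩
  · intro x hx
    rw [siegel_actK 𝒬 s u v 1 hs, ts_polar 𝒬 A hA u x huA hx, ts_polar 𝒬 A hA v x hvA hx]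
    module
  · have h1 : ∃ y, QuadraticMap.polar (⇑𝒬) u y ≠ 0 := by
      by_contra hcon
      apply hu0
      apply hnd.1 u
      intro y
      by_contra hy
      exact hcon ⟨y, hy⟩
    obtain ⟨y, hy⟩ := h1
    have hyt : y ∈ A ⊔ B := by
      rw [hsup]
      exact Submodule.mem_top
    obtain ⟨a, ha, b, hb, hab⟩ := Submodule.mem_sup.1 hyt
    have hub : QuadraticMap.polar (⇑𝒬) u b ≠ 0 := by
      rw [← hab, QuadraticMap.polar_add_right, ts_polar 𝒬 A hA u a huA ha, zero_add] at hy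
      exact hy
    refine ⟨b, hb, ?_⟩
    intro hsb
    rw [siegel_actK 𝒬 s u v 1 hs] at hsb
    have h2 : (1 : F) • (QuadraticMap.polar (⇑𝒬) u b • v - QuadraticMap.polar (⇑𝒬) v b • u)
        ∈ B := by
      have h3 := B.sub_mem hsb hb
      rw [add_sub_cancel_left] at h3
      exact h3
    have h4 : (1 : F) • (QuadraticMap.polar (⇑𝒬) u b • v - QuadraticMap.polar (⇑𝒬) v b • u)
        ∈ A :=
      A.smul_mem _ (A.sub_mem (A.smul_mem _ hvA) (A.smul_mem _ huA))
    have h5 := (Submodule.disjoint_def.1 hdisj) _ h4 h2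
    apply hvu
    rw [Submodule.mem_span_singleton]
    refine ⟨(QuadraticMap.polar (⇑𝒬) u b)⁻¹ * QuadraticMap.polar (⇑𝒬) v b, ?_⟩
    rw [one_smul, sub_eq_zero] at h5
    rw [mul_smul, ← h5, smul_smul, inv_mul_cancel₀ hub, one_smul]

/-- The stabiliser in `Ω` of a pair of complementary totally singular subspaces of odd dimension
is not maximal. -/
theorem ts_pair_not_max [Fintype F] (𝒬 : QuadraticForm F (κ → F))
    (hnd : (QuadraticMap.polarBilin 𝒬).Nondegenerate)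
    (h : Fintype.card F ≠ 2 ∨ Fintype.card κ ≠ 4) (k : ℕ) (hk : 2 ≤ k) (hko : Odd k)
    (hV : Module.finrank F (κ → F) = 2 * k)
    (D : Fin 2 → Submodule F (κ → F)) (hD : Cfsg.Geo.IsMDecomposition k D)
    (hts : ∀ i, ∀ w ∈ D i, 𝒬 w = 0) :
    ∃ K : Subgroup (Matrix.GeneralLinearGroup κ F),
      Cfsg.Geo.decompositionStabilizer D ⊓ Cfsg.Geo.omegaGL ⇑𝒬 < K ∧
        K < Cfsg.Geo.omegaGL ⇑𝒬 := by
  have hdisj : Disjoint (D 0) (D 1) := hD.indep.pairwiseDisjoint (by decide : (0 : Fin 2) ≠ 1)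
  have hsup : D 0 ⊔ D 1 = ⊤ := by
    rw [← hD.iSup_eq_top]
    apply le_antisymm
    · apply sup_le
      · exact le_iSup D 0
      · exact le_iSup D 1
    · apply iSup_le
      intro i
      rcases fin2_cases i with rfl | rfl
      · exact le_sup_left
      · exact le_sup_right
  have hne : D 0 ≠ D 1 := by
    intro heq
    rw [← heq, disjoint_self] at hdisj
    have h1 := hD.finrank_eq 0
    rw [hdisj, finrank_bot] at h1
    omega
  have hmts0 : IsMTS 𝒬 k (D 0) := ⟨hD.finrank_eq 0, hts 0⟩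
  have hmemΩ : ∀ s : ↥(Cfsg.isometryGroup F ⇑𝒬), s ∈ commutator ↥(Cfsg.isometryGroup F ⇑𝒬) →
      (s : Matrix.GeneralLinearGroup κ F) ∈ Cfsg.Geo.omegaGL ⇑𝒬 := by
    intro s hs
    exact Subgroup.mem_map.2 ⟨s, hs, rfl⟩
  refine ⟨Cfsg.Geo.subspaceStabilizer (D 0) ⊓ Cfsg.Geo.omegaGL ⇑𝒬, ?_, ?_⟩
  · rw [SetLike.lt_iff_le_and_exists]
    refine ⟨?_, ?_⟩
    · rintro g' ⟨hgD, hgΩ⟩
      refine ⟨?_, hgΩ⟩
      obtain ⟨s, hs, rfl⟩ := Subgroup.mem_map.1 hgΩ
      have hgD' : ∃ σ : Equiv.Perm (Fin 2), ∀ i, (D i).map (Matrix.toLin'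
          ((s : Matrix.GeneralLinearGroup κ F) : Matrix κ κ F)) = D (σ i) := hgD
      obtain ⟨σ, hσ⟩ := hgD'
      have h0 := hσ 0
      rw [Matrix.toLin'_apply'] at h0
      rcases fin2_cases (σ 0) with h1 | h1
      · rw [h1] at h0
        exact stab_of_map_eq (D 0) (s : Matrix.GeneralLinearGroup κ F) h0
      · exfalso
        rw [h1] at h0
        have hpar := genD_parity 𝒬 hV hnd (D 0) hmts0 s hs
        rw [h0, disjoint_iff.1 hdisj, finrank_bot] at hpar
        rcases hko with ⟨r, hr⟩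
        omega
    · obtain ⟨s, hsΩ, hsA, x, hxB, hsx⟩ := ts_siegel_witness 𝒬 hnd h (D 0) (D 1) (hts 0) hdisj
        hsup (by rw [hD.finrank_eq 0]; exact hk)
      have hmap0 : (D 0).map (Matrix.mulVecLin
          ((s : Matrix.GeneralLinearGroup κ F) : Matrix κ κ F)) = D 0 := by
        ext y
        constructor
        · rintro ⟨z, hz, rfl⟩
          have h1 := hsA z hz
          rw [isoActF_apply] at h1
          rw [Matrix.mulVecLin_apply, h1]
          exact hz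
        · intro hy
          refine ⟨y, hy, ?_⟩
          have h1 := hsA y hy
          rw [isoActF_apply] at h1
          rw [Matrix.mulVecLin_apply, h1]
      refine ⟨(s : Matrix.GeneralLinearGroup κ F),
        ⟨stab_of_map_eq (D 0) _ hmap0, hmemΩ s hsΩ⟩, ?_⟩
      rintro ⟨hsD, -⟩
      have hsD' : ∃ σ : Equiv.Perm (Fin 2), ∀ i, (D i).map (Matrix.toLin'
          ((s : Matrix.GeneralLinearGroup κ F) : Matrix κ κ F)) = D (σ i) := hsD
      obtain ⟨σ, hσ⟩ := hsD'
      have h0 := hσ 0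
      rw [Matrix.toLin'_apply', hmap0] at h0
      have hσ0 : σ 0 = 0 := by
        rcases fin2_cases (σ 0) with h1 | h1
        · exact h1
        · rw [h1] at h0
          exact absurd h0 hne
      have hσ1 : σ 1 = 1 := by
        rcases fin2_cases (σ 1) with h1 | h1
        · exfalso
          have h2 : σ 1 = σ 0 := by rw [h1, hσ0]
          exact absurd (σ.injective h2) (by decide)
        · exact h1
      have h1 := hσ 1
      rw [Matrix.toLin'_apply', hσ1] at h1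
      apply hsx
      rw [← h1]
      exact ⟨x, hxB, (isoActF_apply ⇑𝒬 s x).symm⟩
  · rw [SetLike.lt_iff_le_and_exists]
    refine ⟨inf_le_right, ?_⟩
    have hsup' : D 1 ⊔ D 0 = ⊤ := by
      rw [sup_comm]
      exact hsup
    obtain ⟨s, hsΩ, -, x, hxB, hsx⟩ := ts_siegel_witness 𝒬 hnd h (D 1) (D 0) (hts 1) hdisj.symm
      hsup' (by rw [hD.finrank_eq 1]; exact hk)
    refine ⟨(s : Matrix.GeneralLinearGroup κ F), hmemΩ s hsΩ, ?_⟩
    rintro ⟨hsD, -⟩
    apply hsx
    rw [isoActF_apply]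
    exact (hsD x).1 hxB

/-- A subspace of prescribed smaller dimension. -/
theorem exists_sub_finrank {V : Type*} [AddCommGroup V] [Module F V] [FiniteDimensional F V]
    (U : Submodule F V) (d : ℕ) (hd : d ≤ Module.finrank F U) :
    ∃ Y : Submodule F V, Y ≤ U ∧ Module.finrank F Y = d := by
  obtain ⟨b⟩ : Nonempty (Module.Basis (Fin (Module.finrank F U)) F U) :=
    ⟨Module.finBasis F U⟩
  have h1 : LinearIndependent F (fun i => ((b i : U) : V)) :=
    b.linearIndependent.map' U.subtype (Submodule.ker_subtype U)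
  have hli : LinearIndependent F (fun i : Fin d => ((b (Fin.castLE hd i) : U) : V)) :=
    h1.comp (Fin.castLE hd) (Fin.castLE_injective hd)
  refine ⟨Submodule.span F (Set.range (fun i : Fin d => ((b (Fin.castLE hd i) : U) : V))),
    ?_, ?_⟩
  · rw [Submodule.span_le]
    rintro _ ⟨i, rfl⟩
    exact (b (Fin.castLE hd i)).2
  · rw [finrank_span_eq_card hli, Fintype.card_fin]

/-- A singular vector orthogonal to `u` and pairing to one with `w`. -/
theorem exists_sing_dual (𝒬 : QuadraticForm F (κ → F))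
    (hnd : (QuadraticMap.polarBilin 𝒬).Nondegenerate) (u w : κ → F) (hw : 𝒬 w = 0)
    (huw : QuadraticMap.polar (⇑𝒬) u w = 0) (hind : ∀ a : F, u - a • w ≠ 0) (hw0 : w ≠ 0) :
    ∃ v : κ → F, 𝒬 v = 0 ∧ QuadraticMap.polar (⇑𝒬) u v = 0 ∧
      QuadraticMap.polar (⇑𝒬) w v = 1 := by
  obtain ⟨y, hy⟩ := Cfsg.Agent.Helper15.exists_polar_eq_one 𝒬 hnd w hw0
  obtain ⟨a, ha⟩ : ∃ a, a = QuadraticMap.polar (⇑𝒬) u y := ⟨_, rfl⟩
  obtain ⟨z, hz⟩ := Cfsg.Agent.Helper15.exists_polar_eq_one 𝒬 hnd (u - a • w) (hind a)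
  obtain ⟨b, hb⟩ : ∃ b, b = QuadraticMap.polar (⇑𝒬) w z := ⟨_, rfl⟩
  have hz' : QuadraticMap.polar (⇑𝒬) u z = 1 + a * b := by
    rw [QuadraticMap.polar_sub_left, QuadraticMap.polar_smul_left, ← hb, smul_eq_mul] at hz
    linear_combination hz
  obtain ⟨v₀, hv₀⟩ : ∃ v₀, v₀ = y - a • (z - b • y) := ⟨_, rfl⟩
  have h1 : QuadraticMap.polar (⇑𝒬) u v₀ = 0 := by
    rw [hv₀, QuadraticMap.polar_sub_right, QuadraticMap.polar_smul_right,
      QuadraticMap.polar_sub_right, QuadraticMap.polar_smul_right, ← ha, hz']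
    simp only [smul_eq_mul]
    ring
  have h2 : QuadraticMap.polar (⇑𝒬) w v₀ = 1 := by
    rw [hv₀, QuadraticMap.polar_sub_right, QuadraticMap.polar_smul_right,
      QuadraticMap.polar_sub_right, QuadraticMap.polar_smul_right, hy, ← hb]
    simp only [smul_eq_mul]
    ring
  have hww : QuadraticMap.polar (⇑𝒬) w w = 0 := by
    rw [kit_polar_self, hw, mul_zero]
  refine ⟨v₀ - 𝒬 v₀ • w, ?_, ?_, ?_⟩
  · rw [kit_sub, QuadraticMap.map_smul, QuadraticMap.polar_smul_right, hw,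
      QuadraticMap.polar_comm (⇑𝒬) v₀ w, h2]
    simp only [smul_eq_mul]
    ring
  · rw [QuadraticMap.polar_sub_right, QuadraticMap.polar_smul_right, h1, huw, smul_zero,
      sub_zero]
  · rw [QuadraticMap.polar_sub_right, QuadraticMap.polar_smul_right, h2, hww, smul_zero,
      sub_zero]

/-- The stabiliser in `Ω` of a totally singular subspace of dimension `m - 1` in a space of plus
type of dimension `2m` is not maximal: it fixes a maximal totally singular subspace. -/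
theorem ts_hyperplane_not_max [Fintype F] (𝒬 : QuadraticForm F (κ → F))
    (hnd : (QuadraticMap.polarBilin 𝒬).Nondegenerate)
    (h : Fintype.card F ≠ 2 ∨ Fintype.card κ ≠ 4) (m : ℕ) (hm : 2 ≤ m)
    (hV : Module.finrank F (κ → F) = 2 * m)
    (U : Submodule F (κ → F)) (hU : IsMTS 𝒬 m U)
    (W : Submodule F (κ → F)) (hW : ∀ w ∈ W, 𝒬 w = 0)
    (hWdim : Module.finrank F W + 1 = m) :
    ∃ K : Subgroup (Matrix.GeneralLinearGroup κ F),
      Cfsg.Geo.subspaceStabilizer W ⊓ Cfsg.Geo.omegaGL ⇑𝒬 < K ∧ K < Cfsg.Geo.omegaGL ⇑𝒬 := by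
  obtain ⟨Y, hYU, hYdim⟩ := exists_sub_finrank U (Module.finrank F W) (by rw [hU.1]; omega)
  obtain ⟨φ⟩ : Nonempty (↥W ≃ₗ[F] ↥Y) :=
    FiniteDimensional.nonempty_linearEquiv_of_finrank_eq hYdim.symm
  obtain ⟨g, hgQ, hgφ⟩ := Cfsg.Agent.S0750.result 𝒬 hnd W Y φ (fun x => by
    rw [hW _ x.2, hU.2 _ (hYU (φ x).2)])
  obtain ⟨M, hM⟩ : ∃ M, M = U.map (g.symm : (κ → F) →ₗ[F] (κ → F)) := ⟨_, rfl⟩
  have hMmts : IsMTS 𝒬 m M := by
    refine ⟨?_, ?_⟩
    · rw [hM, LinearEquiv.finrank_map_eq, hU.1]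
    · rw [hM]
      rintro _ ⟨x, hx, rfl⟩
      have h1 := hgQ (g.symm x)
      rw [LinearEquiv.apply_symm_apply] at h1
      exact h1.symm.trans (hU.2 x hx)
  have hWM : W ≤ M := by
    intro x hx
    rw [hM]
    refine ⟨g x, ?_, g.symm_apply_apply x⟩
    have h1 : g x = (φ ⟨x, hx⟩ : κ → F) := hgφ ⟨x, hx⟩
    rw [h1]
    exact hYU (φ ⟨x, hx⟩).2
  have hWbot : W ≠ ⊥ := by
    intro h0
    rw [h0, finrank_bot] at hWdim
    omega
  obtain ⟨w, hwW, hw0⟩ := Submodule.exists_mem_ne_zero_of_ne_bot hWbot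
  have hnle : ¬ M ≤ W := by
    intro hle
    have h1 := Submodule.finrank_mono hle
    rw [hMmts.1] at h1
    omega
  obtain ⟨u, huM, huW⟩ := SetLike.not_le_iff_exists.1 hnle
  have hwM : w ∈ M := hWM hwW
  have hu : 𝒬 u = 0 := hMmts.2 u huM
  have hw : 𝒬 w = 0 := hW w hwW
  have huw : QuadraticMap.polar (⇑𝒬) u w = 0 := ts_polar 𝒬 M hMmts.2 u w huM hwM
  have hind : ∀ a : F, u - a • w ≠ 0 := by
    intro a h0
    apply huW
    rw [sub_eq_zero] at h0
    rw [h0]
    exact W.smul_mem _ hwW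
  obtain ⟨v, hv, huv, hwv⟩ := exists_sing_dual 𝒬 hnd u w hw huw hind hw0
  have hvM : v ∉ M := by
    intro hvM
    rw [ts_polar 𝒬 M hMmts.2 w v hwM hvM] at hwv
    exact zero_ne_one hwv
  have hvw : QuadraticMap.polar (⇑𝒬) v w = 1 := by
    rw [QuadraticMap.polar_comm]
    exact hwv
  have hvu : QuadraticMap.polar (⇑𝒬) v u = 0 := by
    rw [QuadraticMap.polar_comm]
    exact huv
  have hmemΩ : ∀ s : ↥(Cfsg.isometryGroup F ⇑𝒬), s ∈ commutator ↥(Cfsg.isometryGroup F ⇑𝒬) →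
      (s : Matrix.GeneralLinearGroup κ F) ∈ Cfsg.Geo.omegaGL ⇑𝒬 := by
    intro s hs
    exact Subgroup.mem_map.2 ⟨s, hs, rfl⟩
  refine ⟨Cfsg.Geo.subspaceStabilizer M ⊓ Cfsg.Geo.omegaGL ⇑𝒬, ?_, ?_⟩
  · rw [SetLike.lt_iff_le_and_exists]
    refine ⟨?_, ?_⟩
    · rintro g' ⟨hgW, hgΩ⟩
      refine ⟨?_, hgΩ⟩
      obtain ⟨s, hs, rfl⟩ := Subgroup.mem_map.1 hgΩ
      have hle : W ≤ M ⊓ M.map (Matrix.mulVecLin
          ((s : Matrix.GeneralLinearGroup κ F) : Matrix κ κ F)) := by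
        intro x hx
        refine ⟨hWM hx, ?_⟩
        refine ⟨(isoActF ⇑𝒬 s).symm x, ?_, ?_⟩
        · apply hWM
          have h1 : ((s : Matrix.GeneralLinearGroup κ F) : Matrix κ κ F) *ᵥ
              ((isoActF ⇑𝒬 s).symm x) ∈ W := by
            rw [← isoActF_apply, LinearEquiv.apply_symm_apply]
            exact hx
          exact (hgW _).2 h1
        · rw [Matrix.mulVecLin_apply, ← isoActF_apply, LinearEquiv.apply_symm_apply]
      have hpar := genD_parity 𝒬 hV hnd M hMmts s hs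
      have b1 := Submodule.finrank_mono hle
      have b2 := Submodule.finrank_mono (inf_le_left : M ⊓ M.map (Matrix.mulVecLin
        ((s : Matrix.GeneralLinearGroup κ F) : Matrix κ κ F)) ≤ M)
      rw [hMmts.1] at b2
      have hfin : Module.finrank F ↥(M ⊓ M.map (Matrix.mulVecLin
          ((s : Matrix.GeneralLinearGroup κ F) : Matrix κ κ F))) = m := by omega
      have h3 : M ⊓ M.map (Matrix.mulVecLin
          ((s : Matrix.GeneralLinearGroup κ F) : Matrix κ κ F)) = M :=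
        Submodule.eq_of_le_of_finrank_eq inf_le_left (by rw [hfin, hMmts.1])
      have h4 : M ≤ M.map (Matrix.mulVecLin
          ((s : Matrix.GeneralLinearGroup κ F) : Matrix κ κ F)) := inf_eq_left.1 h3
      have h5 : Module.finrank F ↥(M.map (Matrix.mulVecLin
          ((s : Matrix.GeneralLinearGroup κ F) : Matrix κ κ F))) = m :=
        (mts_map 𝒬 _ (mulVecLin_inj _) (mulVecLin_isom ⇑𝒬 s) M hMmts).1
      have h6 : M.map (Matrix.mulVecLin
          ((s : Matrix.GeneralLinearGroup κ F) : Matrix κ κ F)) = M :=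
        (Submodule.eq_of_le_of_finrank_eq h4 (by rw [h5, hMmts.1])).symm
      exact stab_of_map_eq M (s : Matrix.GeneralLinearGroup κ F) h6
    · obtain ⟨s, hs⟩ := siegelEl_existsK 𝒬 u v hu hv huv 1
      have hsΩ := siegel_mem_omega 𝒬 hnd h u v hu hv huv 1 s hs
      have hsM : ∀ x ∈ M, isoActF ⇑𝒬 s x ∈ M := by
        intro x hx
        rw [siegel_actK 𝒬 s u v 1 hs, ts_polar 𝒬 M hMmts.2 u x huM hx]
        have h1 : x + (1 : F) • ((0 : F) • v - QuadraticMap.polar (⇑𝒬) v x • u)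
            = x - QuadraticMap.polar (⇑𝒬) v x • u := by module
        rw [h1]
        exact M.sub_mem hx (M.smul_mem _ huM)
      have hmap : M.map (Matrix.mulVecLin
          ((s : Matrix.GeneralLinearGroup κ F) : Matrix κ κ F)) = M := by
        apply Submodule.eq_of_le_of_finrank_eq
        · rintro _ ⟨x, hx, rfl⟩
          have h1 := hsM x hx
          rw [isoActF_apply] at h1
          exact h1
        · rw [(mts_map 𝒬 _ (mulVecLin_inj _) (mulVecLin_isom ⇑𝒬 s) M hMmts).1, hMmts.1]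
      refine ⟨(s : Matrix.GeneralLinearGroup κ F),
        ⟨stab_of_map_eq M _ hmap, hmemΩ s hsΩ⟩, ?_⟩
      rintro ⟨hsW, -⟩
      have h1 : isoActF ⇑𝒬 s w ∈ W := by
        rw [isoActF_apply]
        exact (hsW w).1 hwW
      rw [siegel_actK 𝒬 s u v 1 hs, huw, hvw] at h1
      apply huW
      have h2 : u = w - (w + (1 : F) • ((0 : F) • v - (1 : F) • u)) := by module
      rw [h2]
      exact W.sub_mem hwW h1
  · rw [SetLike.lt_iff_le_and_exists]
    refine ⟨inf_le_right, ?_⟩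
    have hind2 : ∀ a : F, v - a • u ≠ 0 := by
      intro a h0
      rw [sub_eq_zero] at h0
      rw [h0, QuadraticMap.polar_smul_right, ts_polar 𝒬 M hMmts.2 w u hwM huM, smul_zero] at hwv
      exact zero_ne_one hwv
    have hu0 : u ≠ 0 := by
      rintro rfl
      exact huW W.zero_mem
    obtain ⟨q, hq, hvq, huq⟩ := exists_sing_dual 𝒬 hnd v u hu hvu hind2 hu0
    obtain ⟨s, hs⟩ := siegelEl_existsK 𝒬 v q hv hq hvq 1
    have hsΩ := siegel_mem_omega 𝒬 hnd h v q hv hq hvq 1 s hs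
    refine ⟨(s : Matrix.GeneralLinearGroup κ F), hmemΩ s hsΩ, ?_⟩
    rintro ⟨hsM, -⟩
    have h1 : isoActF ⇑𝒬 s u ∈ M := by
      rw [isoActF_apply]
      exact (hsM u).1 huM
    have hqu : QuadraticMap.polar (⇑𝒬) q u = 1 := by
      rw [QuadraticMap.polar_comm]
      exact huq
    rw [siegel_actK 𝒬 s v q 1 hs, hvu, hqu] at h1
    apply hvM
    have h2 : v = u - (u + (1 : F) • ((0 : F) • q - (1 : F) • v)) := by module
    rw [h2]
    exact M.sub_mem huM h1

end GQ

end Cfsg.Agent.Helper5
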