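import Mathlib
import Cfsg.Agent.Helper5.Frame3
import Cfsg.Agent.Helper5.GenQuad
import Cfsg.Agent.Helper5.Dickson2

/-!
# Frames in orthogonal decompositions, odd characteristic

If one member of an isometric orthogonal decomposition contains a vector `a` of norm `ε` such
that every vector of norm `ε` of that member is `a`, `-a` or orthogonal to `a`, then the
stabiliser of the decomposition in the commutator subgroup is not maximal (five members at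
least, odd characteristic).  Instances: planes over the fields with three and five elements.
-/

set_option autoImplicit false

namespace Cfsg.Agent.Helper5

open scoped Matrix

section Frame2

variable {F : Type*} [Field F] {κ : Type} [Fintype κ] [DecidableEq κ]

/-- The vectors of norm `ε` lying in some member of the family `D`. -/
def fq_blockNorm (Q : QuadraticForm F (κ → F)) {t : ℕ} (D : Fin t → Submodule F (κ → F))
    (ε : F) : Set (κ → F) :=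
  {v | ∃ i, v ∈ D i ∧ Q v = ε}

theorem fq_mem_blockNorm (Q : QuadraticForm F (κ → F)) {t : ℕ}
    (D : Fin t → Submodule F (κ → F)) (ε : F) (v : κ → F) :
    v ∈ fq_blockNorm Q D ε ↔ ∃ i, v ∈ D i ∧ Q v = ε := Iff.rfl

theorem fq_between {G : Type*} [Group G] (A Ω' S : Subgroup G) (hA : A ⊓ Ω' ≤ S)
    (k : G) (hkΩ : k ∈ Ω') (hkS : k ∈ S) (hkA : k ∉ A) (ω : G) (hωΩ : ω ∈ Ω') (hωS : ω ∉ S) :
    ∃ K : Subgroup G, A ⊓ Ω' < K ∧ K < Ω' := by
  refine ⟨Ω' ⊓ S, ?_, ?_⟩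
  · rw [SetLike.lt_iff_le_and_exists]
    exact ⟨le_inf inf_le_right hA, k, Subgroup.mem_inf.2 ⟨hkΩ, hkS⟩,
      fun h => hkA (Subgroup.mem_inf.1 h).1⟩
  · rw [SetLike.lt_iff_le_and_exists]
    exact ⟨inf_le_left, ω, hωΩ, fun h => hωS (Subgroup.mem_inf.1 h).2⟩

theorem fq_stabD_le [Finite F] (Q : QuadraticForm F (κ → F)) {t : ℕ}
    (D : Fin t → Submodule F (κ → F)) (ε : F) :
    Cfsg.Geo.decompositionStabilizer D ⊓ Cfsg.Geo.omegaGL (⇑Q)
      ≤ fr3_stabSet (fq_blockNorm Q D ε) := by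
  intro g hg
  obtain ⟨hgS, hgΩ⟩ := Subgroup.mem_inf.1 hg
  obtain ⟨g', -, hg'⟩ := Subgroup.mem_map.1 hgΩ
  have hg'' : (g' : Matrix.GeneralLinearGroup κ F) = g := hg'
  obtain ⟨σ, hσ⟩ : ∃ σ : Equiv.Perm (Fin t), ∀ i,
      (D i).map (Matrix.toLin' (g : Matrix κ κ F)) = D (σ i) := hgS
  apply fr3_stabSet_of_maps
  intro v hv
  obtain ⟨i, hvi, hvq⟩ := (fq_mem_blockNorm Q D ε v).1 hv
  refine (fq_mem_blockNorm Q D ε _).2 ⟨σ i, ?_, ?_⟩
  · rw [← hσ i]
    exact Submodule.mem_map.2 ⟨v, hvi, Matrix.toLin'_apply _ _⟩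
  · rw [← hg'', ← isoActF_apply, isoActF_isom (⇑Q) g' v]
    exact hvq

theorem fq_stabD_map (Q : QuadraticForm F (κ → F)) {t : ℕ} (D : Fin t → Submodule F (κ → F))
    (k : ↥(Cfsg.isometryGroup F ⇑Q))
    (hk : (k : Matrix.GeneralLinearGroup κ F) ∈ Cfsg.Geo.decompositionStabilizer D) :
    ∃ σ : Equiv.Perm (Fin t), ∀ j, ∀ x ∈ D j, isoActF ⇑Q k x ∈ D (σ j) := by
  obtain ⟨σ, hσ⟩ : ∃ σ : Equiv.Perm (Fin t), ∀ i, (D i).map (Matrix.toLin'
      ((k : Matrix.GeneralLinearGroup κ F) : Matrix κ κ F)) = D (σ i) := hk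
  refine ⟨σ, fun j x hx => ?_⟩
  rw [← hσ j]
  exact Submodule.mem_map.2 ⟨x, hx, by rw [isoActF_apply]; exact Matrix.toLin'_apply _ _⟩

theorem fq_stab_of_act [Finite F] (Q : QuadraticForm F (κ → F)) (S : Set (κ → F))
    (k : ↥(Cfsg.isometryGroup F ⇑Q)) (h : ∀ v ∈ S, isoActF ⇑Q k v ∈ S) :
    (k : Matrix.GeneralLinearGroup κ F) ∈ fr3_stabSet S := by
  apply fr3_stabSet_of_maps
  intro v hv
  rw [← isoActF_apply]
  exact h v hv

theorem fq_not_stab (Q : QuadraticForm F (κ → F)) (S : Set (κ → F))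
    (k : ↥(Cfsg.isometryGroup F ⇑Q)) (x : κ → F) (hx : x ∈ S) (hkx : isoActF ⇑Q k x ∉ S) :
    (k : Matrix.GeneralLinearGroup κ F) ∉ fr3_stabSet S := by
  intro h
  have h1 := ((fr3_stabSet_mem S _).1 h x).2 hx
  rw [← isoActF_apply] at h1
  exact hkx h1

theorem fq_omega (Q : QuadraticForm F (κ → F)) (k : ↥(Cfsg.isometryGroup F ⇑Q))
    (h : k ∈ commutator ↥(Cfsg.isometryGroup F ⇑Q)) :
    (k : Matrix.GeneralLinearGroup κ F) ∈ Cfsg.Geo.omegaGL (⇑Q) :=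
  Subgroup.mem_map_of_mem (Cfsg.isometryGroup F ⇑Q).subtype h

theorem fq_mul_act (Q : QuadraticForm F (κ → F)) (g h : ↥(Cfsg.isometryGroup F ⇑Q))
    (x : κ → F) : isoActF ⇑Q (g * h) x = isoActF ⇑Q g (isoActF ⇑Q h x) := by
  rw [map_mul, LinearEquiv.mul_apply]

theorem fq_add4 (Q : QuadraticForm F (κ → F)) (u₁ u₂ u₃ u₄ : κ → F)
    (h₁₂ : QuadraticMap.polar (⇑Q) u₁ u₂ = 0) (h₁₃ : QuadraticMap.polar (⇑Q) u₁ u₃ = 0)
    (h₁₄ : QuadraticMap.polar (⇑Q) u₁ u₄ = 0) (h₂₃ : QuadraticMap.polar (⇑Q) u₂ u₃ = 0)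
    (h₂₄ : QuadraticMap.polar (⇑Q) u₂ u₄ = 0) (h₃₄ : QuadraticMap.polar (⇑Q) u₃ u₄ = 0) :
    Q (u₁ + u₂ + u₃ + u₄) = Q u₁ + Q u₂ + Q u₃ + Q u₄ := by
  rw [kit_add, kit_add, kit_add, QuadraticMap.polar_add_left, QuadraticMap.polar_add_left,
    QuadraticMap.polar_add_left, h₁₂, h₁₃, h₂₃, h₁₄, h₂₄, h₃₄]
  ring

theorem fq_polar_add4 (Q : QuadraticForm F (κ → F)) (u₁ u₂ u₃ u₄ x : κ → F) :
    QuadraticMap.polar (⇑Q) (u₁ + u₂ + u₃ + u₄) x
      = QuadraticMap.polar (⇑Q) u₁ x + QuadraticMap.polar (⇑Q) u₂ x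
        + QuadraticMap.polar (⇑Q) u₃ x + QuadraticMap.polar (⇑Q) u₄ x := by
  rw [QuadraticMap.polar_add_left, QuadraticMap.polar_add_left, QuadraticMap.polar_add_left]

set_option maxHeartbeats 2000000 in
theorem fq_odd_not_max [Fintype F] (h2 : (2 : F) ≠ 0) (Q : QuadraticForm F (κ → F))
    (hQ : (QuadraticMap.polarBilin Q).Nondegenerate) (i₀ i₁ : κ) (hi : i₀ ≠ i₁)
    {t : ℕ} (ht : 5 ≤ t) (k : ℕ) (D : Fin t → Submodule F (κ → F))
    (hD : Cfsg.Geo.IsOrthogonalMDecomposition (⇑Q) k D) (ε : F) (hε : ε ≠ 0) (j₀ : Fin t)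
    (a : κ → F) (ha : a ∈ D j₀) (hqa : Q a = ε)
    (htri : ∀ v ∈ D j₀, Q v = ε → v = a ∨ v = -a ∨ QuadraticMap.polar (⇑Q) a v = 0)
    (x : κ → F) (hx : x ∈ D j₀) (hx0 : x ≠ 0) (hax : QuadraticMap.polar (⇑Q) a x = 0) :
    ∃ K : Subgroup (Matrix.GeneralLinearGroup κ F),
      Cfsg.Geo.decompositionStabilizer D ⊓ Cfsg.Geo.omegaGL (⇑Q) < K ∧
        K < Cfsg.Geo.omegaGL (⇑Q) := by
  have h2ε : 2 * ε ≠ 0 := mul_ne_zero h2 hε
  have horth : ∀ i j, i ≠ j → ∀ u ∈ D i, ∀ v ∈ D j, QuadraticMap.polar (⇑Q) u v = 0 :=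
    fun i j hij => hD.decomp.orthogonal i j hij
  have hall : ∀ i, ∃ b : κ → F, b ∈ D i ∧ Q b = ε ∧
      (∀ v ∈ D i, Q v = ε → v = b ∨ v = -b ∨ QuadraticMap.polar (⇑Q) b v = 0) ∧
      ∃ y ∈ D i, y ≠ 0 ∧ QuadraticMap.polar (⇑Q) b y = 0 := by
    intro i
    obtain ⟨φ, hφ⟩ := hD.isometric j₀ i
    have hφpol : ∀ u w : ↥(D j₀),
        QuadraticMap.polar (⇑Q) ((φ u : ↥(D i)) : κ → F) ((φ w : ↥(D i)) : κ → F)
          = QuadraticMap.polar (⇑Q) (u : κ → F) (w : κ → F) := by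
      intro u w
      rw [kit_polar_def, kit_polar_def, hφ u, hφ w, ← Submodule.coe_add, ← map_add φ u w,
        hφ (u + w), Submodule.coe_add]
    refine ⟨((φ ⟨a, ha⟩ : ↥(D i)) : κ → F), (φ ⟨a, ha⟩).2, (hφ ⟨a, ha⟩).trans hqa, ?_,
      ((φ ⟨x, hx⟩ : ↥(D i)) : κ → F), (φ ⟨x, hx⟩).2, ?_, ?_⟩
    · intro v hv hqv
      obtain ⟨v', hv'⟩ : ∃ v' : ↥(D j₀), φ v' = ⟨v, hv⟩ :=
        ⟨φ.symm ⟨v, hv⟩, φ.apply_symm_apply _⟩
      have hv'' : ((φ v' : ↥(D i)) : κ → F) = v := congrArg Subtype.val hv'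
      have hqv' : Q (v' : κ → F) = ε := by
        rw [← hφ v', hv'']
        exact hqv
      rcases htri v' v'.2 hqv' with h | h | h
      · left
        have h' : v' = ⟨a, ha⟩ := Subtype.ext h
        rw [← hv'', h']
      · right; left
        have h' : v' = -⟨a, ha⟩ := Subtype.ext h
        rw [← hv'', h']
        exact congrArg Subtype.val (map_neg φ ⟨a, ha⟩)
      · right; right
        rw [← hv'', hφpol]
        exact h
    · intro h0
      have h1 : φ ⟨x, hx⟩ = 0 := Subtype.ext h0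
      have h2' : (⟨x, hx⟩ : ↥(D j₀)) = 0 := (LinearEquiv.map_eq_zero_iff φ).1 h1
      exact hx0 (congrArg Subtype.val h2')
    · rw [hφpol]
      exact hax
  choose b hbD hbq hbtri y hyD hy0 hby using hall
  obtain ⟨j₁, hj₁⟩ : ∃ j : Fin t, j.1 = 0 := ⟨⟨0, by omega⟩, rfl⟩
  obtain ⟨j₂, hj₂⟩ : ∃ j : Fin t, j.1 = 1 := ⟨⟨1, by omega⟩, rfl⟩
  obtain ⟨j₃, hj₃⟩ : ∃ j : Fin t, j.1 = 2 := ⟨⟨2, by omega⟩, rfl⟩
  obtain ⟨j₄, hj₄⟩ : ∃ j : Fin t, j.1 = 3 := ⟨⟨3, by omega⟩, rfl⟩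
  obtain ⟨j₅, hj₅⟩ : ∃ j : Fin t, j.1 = 4 := ⟨⟨4, by omega⟩, rfl⟩
  have hne : ∀ p q : Fin t, (p : ℕ) ≠ q → p ≠ q := fun p q h h' => h (by rw [h'])
  have n12 : j₁ ≠ j₂ := hne _ _ (by omega)
  have n13 : j₁ ≠ j₃ := hne _ _ (by omega)
  have n14 : j₁ ≠ j₄ := hne _ _ (by omega)
  have n15 : j₁ ≠ j₅ := hne _ _ (by omega)
  have n23 : j₂ ≠ j₃ := hne _ _ (by omega)
  have n24 : j₂ ≠ j₄ := hne _ _ (by omega)
  have n25 : j₂ ≠ j₅ := hne _ _ (by omega)
  have n34 : j₃ ≠ j₄ := hne _ _ (by omega)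
  have n35 : j₃ ≠ j₅ := hne _ _ (by omega)
  have n45 : j₄ ≠ j₅ := hne _ _ (by omega)
  have hbb : ∀ i j, i ≠ j → QuadraticMap.polar (⇑Q) (b i) (b j) = 0 :=
    fun i j h => horth i j h _ (hbD i) _ (hbD j)
  have hbs : ∀ i, QuadraticMap.polar (⇑Q) (b i) (b i) = 2 * ε := fun i => by
    rw [kit_polar_self, hbq]
  have nw₁ : Q (b j₁ - b j₂) = 2 * ε :=
    fr3_swap_norm Q _ _ ε (hbq j₁) (hbq j₂) (hbb j₁ j₂ n12)
  have nw₂ : Q (b j₃ - b j₄) = 2 * ε :=
    fr3_swap_norm Q _ _ ε (hbq j₃) (hbq j₄) (hbb j₃ j₄ n34)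
  have hw₁ : Q (b j₁ - b j₂) ≠ 0 := by rw [nw₁]; exact h2ε
  have hw₂ : Q (b j₃ - b j₄) ≠ 0 := by rw [nw₂]; exact h2ε
  obtain ⟨r₁, hr₁⟩ : ∃ r : ↥(Cfsg.isometryGroup F ⇑Q), r = reflEl Q (b j₁ - b j₂) hw₁ :=
    ⟨_, rfl⟩
  obtain ⟨r₂, hr₂⟩ : ∃ r : ↥(Cfsg.isometryGroup F ⇑Q), r = reflEl Q (b j₃ - b j₄) hw₂ :=
    ⟨_, rfl⟩
  have a₁e : isoActF ⇑Q r₁ (b j₁) = b j₂ := by
    rw [hr₁]
    exact fr3_swap_left h2 Q _ _ ε hε (hbq j₁) (hbq j₂) (hbb j₁ j₂ n12) hw₁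
  have a₁f : isoActF ⇑Q r₁ (b j₂) = b j₁ := by
    rw [hr₁]
    exact fr3_swap_right h2 Q _ _ ε hε (hbq j₁) (hbq j₂) (hbb j₁ j₂ n12) hw₁
  have a₁x : ∀ z, QuadraticMap.polar (⇑Q) (b j₁) z = 0 →
      QuadraticMap.polar (⇑Q) (b j₂) z = 0 → isoActF ⇑Q r₁ z = z := by
    intro z h h'
    rw [hr₁]
    exact fr3_swap_fix Q _ _ z hw₁ h h'
  have a₂e : isoActF ⇑Q r₂ (b j₃) = b j₄ := by
    rw [hr₂]
    exact fr3_swap_left h2 Q _ _ ε hε (hbq j₃) (hbq j₄) (hbb j₃ j₄ n34) hw₂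
  have a₂f : isoActF ⇑Q r₂ (b j₄) = b j₃ := by
    rw [hr₂]
    exact fr3_swap_right h2 Q _ _ ε hε (hbq j₃) (hbq j₄) (hbb j₃ j₄ n34) hw₂
  have a₂x : ∀ z, QuadraticMap.polar (⇑Q) (b j₃) z = 0 →
      QuadraticMap.polar (⇑Q) (b j₄) z = 0 → isoActF ⇑Q r₂ z = z := by
    intro z h h'
    rw [hr₂]
    exact fr3_swap_fix Q _ _ z hw₂ h h'
  have hkΩ : r₁ * r₂ ∈ commutator ↥(Cfsg.isometryGroup F ⇑Q) := by
    rw [hr₁, hr₂]
    exact fr3_pair_omega h2 i₀ i₁ hi Q hQ _ _ hw₁ hw₂ (nw₁.trans nw₂.symm)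
  have hk : ∀ z, isoActF ⇑Q (r₁ * r₂) z = isoActF ⇑Q r₁ (isoActF ⇑Q r₂ z) :=
    fun z => fq_mul_act Q r₁ r₂ z
  have k1 : isoActF ⇑Q (r₁ * r₂) (b j₁) = b j₂ := by
    rw [hk, a₂x (b j₁) (hbb j₃ j₁ n13.symm) (hbb j₄ j₁ n14.symm), a₁e]
  have k2 : isoActF ⇑Q (r₁ * r₂) (b j₂) = b j₁ := by
    rw [hk, a₂x (b j₂) (hbb j₃ j₂ n23.symm) (hbb j₄ j₂ n24.symm), a₁f]
  have k3 : isoActF ⇑Q (r₁ * r₂) (b j₃) = b j₄ := by
    rw [hk, a₂e, a₁x (b j₄) (hbb j₁ j₄ n14) (hbb j₂ j₄ n24)]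
  have k4 : isoActF ⇑Q (r₁ * r₂) (b j₄) = b j₃ := by
    rw [hk, a₂f, a₁x (b j₃) (hbb j₁ j₃ n13) (hbb j₂ j₃ n23)]
  have kx : ∀ z, QuadraticMap.polar (⇑Q) (b j₁) z = 0 →
      QuadraticMap.polar (⇑Q) (b j₂) z = 0 → QuadraticMap.polar (⇑Q) (b j₃) z = 0 →
      QuadraticMap.polar (⇑Q) (b j₄) z = 0 → isoActF ⇑Q (r₁ * r₂) z = z := by
    intro z g1 g2 g3 g4
    rw [hk, a₂x z g3 g4, a₁x z g1 g2]
  have hN : ∀ i, b i ∈ fq_blockNorm Q D ε := fun i =>
    (fq_mem_blockNorm Q D ε _).2 ⟨i, hbD i, hbq i⟩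
  have hN' : ∀ i, -b i ∈ fq_blockNorm Q D ε := fun i =>
    (fq_mem_blockNorm Q D ε _).2 ⟨i, (D i).neg_mem (hbD i), by
      rw [QuadraticMap.map_neg]; exact hbq i⟩
  have hkN : ((r₁ * r₂ : ↥(Cfsg.isometryGroup F ⇑Q)) : Matrix.GeneralLinearGroup κ F)
      ∈ fr3_stabSet (fq_blockNorm Q D ε) := by
    apply fq_stab_of_act Q
    intro v hv
    obtain ⟨i, hvi, hvq⟩ := (fq_mem_blockNorm Q D ε v).1 hv
    by_cases c1 : i = j₁
    · rw [c1] at hvi
      rcases hbtri j₁ v hvi hvq with h | h | h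
      · rw [h, k1]; exact hN j₂
      · rw [h, map_neg, k1]; exact hN' j₂
      · rw [kx v h (horth j₂ j₁ n12.symm _ (hbD j₂) v hvi)
          (horth j₃ j₁ n13.symm _ (hbD j₃) v hvi) (horth j₄ j₁ n14.symm _ (hbD j₄) v hvi)]
        exact hv
    · by_cases c2 : i = j₂
      · rw [c2] at hvi
        rcases hbtri j₂ v hvi hvq with h | h | h
        · rw [h, k2]; exact hN j₁
        · rw [h, map_neg, k2]; exact hN' j₁
        · rw [kx v (horth j₁ j₂ n12 _ (hbD j₁) v hvi) h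
            (horth j₃ j₂ n23.symm _ (hbD j₃) v hvi) (horth j₄ j₂ n24.symm _ (hbD j₄) v hvi)]
          exact hv
      · by_cases c3 : i = j₃
        · rw [c3] at hvi
          rcases hbtri j₃ v hvi hvq with h | h | h
          · rw [h, k3]; exact hN j₄
          · rw [h, map_neg, k3]; exact hN' j₄
          · rw [kx v (horth j₁ j₃ n13 _ (hbD j₁) v hvi) (horth j₂ j₃ n23 _ (hbD j₂) v hvi) h
              (horth j₄ j₃ n34.symm _ (hbD j₄) v hvi)]
            exact hv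
        · by_cases c4 : i = j₄
          · rw [c4] at hvi
            rcases hbtri j₄ v hvi hvq with h | h | h
            · rw [h, k4]; exact hN j₃
            · rw [h, map_neg, k4]; exact hN' j₃
            · rw [kx v (horth j₁ j₄ n14 _ (hbD j₁) v hvi) (horth j₂ j₄ n24 _ (hbD j₂) v hvi)
                (horth j₃ j₄ n34 _ (hbD j₃) v hvi) h]
              exact hv
          · rw [kx v (horth j₁ i (Ne.symm c1) _ (hbD j₁) v hvi)
              (horth j₂ i (Ne.symm c2) _ (hbD j₂) v hvi)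
              (horth j₃ i (Ne.symm c3) _ (hbD j₃) v hvi)
              (horth j₄ i (Ne.symm c4) _ (hbD j₄) v hvi)]
            exact hv
  have hkS : ((r₁ * r₂ : ↥(Cfsg.isometryGroup F ⇑Q)) : Matrix.GeneralLinearGroup κ F)
      ∉ Cfsg.Geo.decompositionStabilizer D := by
    intro hmem
    obtain ⟨σ, hmap⟩ := fq_stabD_map Q D (r₁ * r₂) hmem
    have m1 : b j₂ ∈ D (σ j₁) := by
      have h := hmap j₁ (b j₁) (hbD j₁)
      rw [k1] at h
      exact h
    have m2 : y j₁ ∈ D (σ j₁) := by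
      have h := hmap j₁ (y j₁) (hyD j₁)
      rw [kx (y j₁) (hby j₁) (horth j₂ j₁ n12.symm _ (hbD j₂) _ (hyD j₁))
        (horth j₃ j₁ n13.symm _ (hbD j₃) _ (hyD j₁))
        (horth j₄ j₁ n14.symm _ (hbD j₄) _ (hyD j₁))] at h
      exact h
    have hσ : σ j₁ = j₂ := by
      by_contra hne'
      have h0 := horth (σ j₁) j₂ hne' _ m1 _ (hbD j₂)
      rw [hbs] at h0
      exact h2ε h0
    rw [hσ] at m2
    obtain ⟨-, z, hz, hzne⟩ := hD.decomp.nondegenerate j₁ (y j₁) (hyD j₁) (hy0 j₁)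
    exact hzne (horth j₂ j₁ n12.symm _ m2 z hz)
  have h4ε : 4 * ε ≠ 0 := by
    have h4 : (4 : F) = 2 * 2 := by norm_num
    rw [h4]
    exact mul_ne_zero (mul_ne_zero h2 h2) hε
  have qc : Q (b j₁ + b j₂ + b j₃ + b j₄) = 4 * ε := by
    rw [fq_add4 Q _ _ _ _ (hbb j₁ j₂ n12) (hbb j₁ j₃ n13) (hbb j₁ j₄ n14) (hbb j₂ j₃ n23)
      (hbb j₂ j₄ n24) (hbb j₃ j₄ n34), hbq, hbq, hbq, hbq]
    ring
  have qd : Q (b j₂ + b j₃ + b j₄ + b j₅) = 4 * ε := by
    rw [fq_add4 Q _ _ _ _ (hbb j₂ j₃ n23) (hbb j₂ j₄ n24) (hbb j₂ j₅ n25) (hbb j₃ j₄ n34)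
      (hbb j₃ j₅ n35) (hbb j₄ j₅ n45), hbq, hbq, hbq, hbq]
    ring
  have hc : Q (b j₁ + b j₂ + b j₃ + b j₄) ≠ 0 := by rw [qc]; exact h4ε
  have hd : Q (b j₂ + b j₃ + b j₄ + b j₅) ≠ 0 := by rw [qd]; exact h4ε
  have hωΩ : reflEl Q _ hc * reflEl Q _ hd ∈ commutator ↥(Cfsg.isometryGroup F ⇑Q) :=
    fr3_pair_omega h2 i₀ i₁ hi Q hQ _ _ hc hd (qc.trans qd.symm)
  have hpc1 : QuadraticMap.polar (⇑Q) (b j₁ + b j₂ + b j₃ + b j₄) (b j₁) = 2 * ε := by
    rw [fq_polar_add4, hbs, hbb j₂ j₁ n12.symm, hbb j₃ j₁ n13.symm, hbb j₄ j₁ n14.symm,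
      add_zero, add_zero, add_zero]
  have hpc2 : QuadraticMap.polar (⇑Q) (b j₁ + b j₂ + b j₃ + b j₄) (b j₂) = 2 * ε := by
    rw [fq_polar_add4, hbs, hbb j₁ j₂ n12, hbb j₃ j₂ n23.symm, hbb j₄ j₂ n24.symm,
      zero_add, add_zero, add_zero]
  have hpd1 : QuadraticMap.polar (⇑Q) (b j₂ + b j₃ + b j₄ + b j₅) (b j₁) = 0 := by
    rw [fq_polar_add4, hbb j₂ j₁ n12.symm, hbb j₃ j₁ n13.symm, hbb j₄ j₁ n14.symm,
      hbb j₅ j₁ n15.symm, add_zero, add_zero, add_zero]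
  have hhalf : (2⁻¹ : F) * (2 * ε) = ε := by
    rw [← mul_assoc, inv_mul_cancel₀ h2, one_mul]
  have hcoef : (4 * ε)⁻¹ * (2 * ε) = 2⁻¹ := by
    have h4 : (4 : F) * ε = 2 * (2 * ε) := by ring
    rw [h4, mul_inv, mul_assoc, inv_mul_cancel₀ h2ε, mul_one]
  have hωe : isoActF ⇑Q (reflEl Q _ hc * reflEl Q _ hd) (b j₁)
      = b j₁ - (2⁻¹ : F) • (b j₁ + b j₂ + b j₃ + b j₄) := by
    rw [fq_mul_act, fr3_refl_fix Q _ hd (b j₁) hpd1, actsRefl_reflEl Q _ hc (b j₁), qc, hpc1,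
      hcoef]
  have hu1 : QuadraticMap.polar (⇑Q) (b j₁ - (2⁻¹ : F) • (b j₁ + b j₂ + b j₃ + b j₄)) (b j₁)
      = ε := by
    rw [QuadraticMap.polar_sub_left, QuadraticMap.polar_smul_left, hpc1, hbs, smul_eq_mul,
      hhalf]
    ring
  have hu2 : QuadraticMap.polar (⇑Q) (b j₁ - (2⁻¹ : F) • (b j₁ + b j₂ + b j₃ + b j₄)) (b j₂)
      = -ε := by
    rw [QuadraticMap.polar_sub_left, QuadraticMap.polar_smul_left, hpc2, hbb j₁ j₂ n12,
      smul_eq_mul, hhalf, zero_sub]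
  refine fq_between _ _ (fr3_stabSet (fq_blockNorm Q D ε)) (fq_stabD_le Q D ε)
    ((r₁ * r₂ : ↥(Cfsg.isometryGroup F ⇑Q)) : Matrix.GeneralLinearGroup κ F)
    (fq_omega Q _ hkΩ) hkN hkS
    ((reflEl Q _ hc * reflEl Q _ hd : ↥(Cfsg.isometryGroup F ⇑Q)) :
      Matrix.GeneralLinearGroup κ F) (fq_omega Q _ hωΩ) ?_
  apply fq_not_stab Q _ _ (b j₁) (hN j₁)
  rw [hωe]
  intro h1
  obtain ⟨i, hui, -⟩ := (fq_mem_blockNorm Q D ε _).1 h1
  by_cases c1 : i = j₁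
  · rw [c1] at hui
    have h0 := horth j₁ j₂ n12 _ hui _ (hbD j₂)
    rw [hu2] at h0
    exact hε (neg_eq_zero.1 h0)
  · have h0 := horth i j₁ c1 _ hui _ (hbD j₁)
    rw [hu1] at h0
    exact hε h0

theorem fq_restrict (Q : QuadraticForm F (κ → F)) (W : Submodule F (κ → F))
    (hW : Cfsg.Geo.IsNondegenerateOn (QuadraticMap.polar (⇑Q)) W) :
    ((QuadraticMap.polarBilin Q).domRestrict₁₂ W W).IsSymm ∧
      ((QuadraticMap.polarBilin Q).domRestrict₁₂ W W).Nondegenerate := by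
  have hS : ((QuadraticMap.polarBilin Q).domRestrict₁₂ W W).IsSymm :=
    ⟨fun x y => by
      simp only [LinearMap.domRestrict₁₂_apply, QuadraticMap.polarBilin_apply_apply,
        RingHom.id_apply]
      exact QuadraticMap.polar_comm _ _ _⟩
  have hB : ((QuadraticMap.polarBilin Q).domRestrict₁₂ W W).Nondegenerate := by
    constructor
    · intro x hx
      by_contra hne
      have hne' : (x : κ → F) ≠ 0 := fun h => hne (Subtype.ext h)
      obtain ⟨-, y, hy, hyne⟩ := hW x x.2 hne'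
      apply hyne
      have h := hx ⟨y, hy⟩
      rw [LinearMap.domRestrict₁₂_apply, QuadraticMap.polarBilin_apply_apply] at h
      exact h
    · intro y hy
      by_contra hne
      have hne' : (y : κ → F) ≠ 0 := fun h => hne (Subtype.ext h)
      obtain ⟨⟨x, hx, hxne⟩, -⟩ := hW y y.2 hne'
      apply hxne
      have h := hy ⟨x, hx⟩
      rw [LinearMap.domRestrict₁₂_apply, QuadraticMap.polarBilin_apply_apply] at h
      exact h
  exact ⟨hS, hB⟩

theorem fq_span2 (W : Submodule F (κ → F)) (hdim : Module.finrank F W = 2)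
    (u0 u1 : κ → F) (hu0 : u0 ∈ W) (hu1 : u1 ∈ W) (hind : LinearIndependent F ![u0, u1]) :
    ∀ v ∈ W, ∃ x y : F, v = x • u0 + y • u1 := by
  have hspan : Submodule.span F (Set.range ![u0, u1]) = W := by
    apply Submodule.eq_of_le_of_finrank_eq
    · rw [Submodule.span_le]
      rintro _ ⟨i, rfl⟩
      fin_cases i
      · exact hu0
      · exact hu1
    · rw [finrank_span_eq_card hind, hdim, Fintype.card_fin]
  intro y hy
  rw [← hspan, Submodule.mem_span_range_iff_exists_fun] at hy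
  obtain ⟨c, hc⟩ := hy
  rw [Fin.sum_univ_two] at hc
  exact ⟨c 0, c 1, hc.symm⟩

theorem fq_23_diag [Fintype F] (hq : Fintype.card F = 3) (Q : QuadraticForm F (κ → F))
    (W : Submodule F (κ → F)) (hdim : Module.finrank F W = 2) (u0 u1 : κ → F)
    (hu0 : u0 ∈ W) (hu1 : u1 ∈ W) (h01 : QuadraticMap.polar (⇑Q) u0 u1 = 0)
    (h00 : QuadraticMap.polar (⇑Q) u0 u0 = 1)
    (h11 : QuadraticMap.polar (⇑Q) u1 u1 = 1 ∨ QuadraticMap.polar (⇑Q) u1 u1 = -1) :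
    ∃ a ∈ W, Q a = 1 ∧
      (∀ v ∈ W, Q v = 1 → v = a ∨ v = -a ∨ QuadraticMap.polar (⇑Q) a v = 0) ∧
      ∃ x ∈ W, x ≠ 0 ∧ QuadraticMap.polar (⇑Q) a x = 0 := by
  have h3 := fr3_three hq
  have h10 : QuadraticMap.polar (⇑Q) u1 u0 = 0 := by
    rw [QuadraticMap.polar_comm]; exact h01
  have hQv : ∀ (x : κ → F) (c : F), QuadraticMap.polar (⇑Q) x x = c → Q x = -c := by
    intro x c h
    rw [kit_polar_self] at h
    linear_combination 2 * h - Q x * h3 + c * h3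
  have hQ0 : Q u0 = -1 := hQv u0 1 h00
  have hn00 : QuadraticMap.polar (⇑Q) u0 u0 ≠ 0 := by
    rw [h00]; exact one_ne_zero
  have hn11 : QuadraticMap.polar (⇑Q) u1 u1 ≠ 0 := by
    rcases h11 with h | h
    · rw [h]; exact one_ne_zero
    · rw [h]; exact neg_ne_zero.2 one_ne_zero
  have hspan : ∀ v ∈ W, ∃ x y : F, v = x • u0 + y • u1 :=
    fq_span2 W hdim u0 u1 hu0 hu1 (indep_of_dual Q u0 u1 u0 u1 hn00 h10 hn11)
  have hform : ∀ x y : F, Q (x • u0 + y • u1) = x * x * Q u0 + y * y * Q u1 := by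
    intro x y
    rw [kit_add]
    simp only [QuadraticMap.map_smul, QuadraticMap.polar_smul_left,
      QuadraticMap.polar_smul_right, smul_eq_mul, h01]
    ring
  rcases h11 with h11 | h11
  · have hQ1 : Q u1 = -1 := hQv u1 1 h11
    have hpol : ∀ x y : F, QuadraticMap.polar (⇑Q) (u0 + u1) (x • u0 + y • u1) = x + y := by
      intro x y
      rw [QuadraticMap.polar_add_left, QuadraticMap.polar_add_right,
        QuadraticMap.polar_add_right]
      simp only [QuadraticMap.polar_smul_right, smul_eq_mul, h00, h11, h01, h10]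
      ring
    refine ⟨u0 + u1, W.add_mem hu0 hu1, ?_, ?_, u0 - u1, W.sub_mem hu0 hu1, ?_, ?_⟩
    · rw [kit_add, hQ0, hQ1, h01]
      linear_combination (-1 : F) * h3
    · intro v hv hqv
      obtain ⟨x, y, rfl⟩ := hspan v hv
      rw [hform, hQ0, hQ1] at hqv
      rw [hpol]
      rcases fr3_tri hq x with rfl | rfl | rfl <;> rcases fr3_tri hq y with rfl | rfl | rfl <;>
        first
          | (exfalso; exact (one_ne_zero : (1 : F) ≠ 0) (by linear_combination -hqv))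
          | (exfalso; exact (one_ne_zero : (1 : F) ≠ 0) (by linear_combination hqv))
          | (exfalso; exact (one_ne_zero : (1 : F) ≠ 0) (by linear_combination hqv + h3))
          | (exfalso; exact (one_ne_zero : (1 : F) ≠ 0) (by linear_combination -hqv - h3))
          | (exfalso; exact (one_ne_zero : (1 : F) ≠ 0) (by linear_combination -hqv + h3))
          | (exfalso; exact (one_ne_zero : (1 : F) ≠ 0) (by linear_combination hqv - h3))
          | (left; module)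
          | (right; left; module)
          | (right; right; ring1)
    · intro h0
      have hq' : Q (u0 - u1) = 1 := by
        rw [kit_sub, hQ0, hQ1, h01]
        linear_combination (-1 : F) * h3
      rw [h0, QuadraticMap.map_zero] at hq'
      exact one_ne_zero hq'.symm
    · rw [QuadraticMap.polar_add_left, QuadraticMap.polar_sub_right,
        QuadraticMap.polar_sub_right, h00, h11, h01, h10]
      ring
  · have hQ1 : Q u1 = 1 := by rw [hQv u1 (-1) h11, neg_neg]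
    have hpol : ∀ x y : F, QuadraticMap.polar (⇑Q) u1 (x • u0 + y • u1) = -y := by
      intro x y
      rw [QuadraticMap.polar_add_right]
      simp only [QuadraticMap.polar_smul_right, smul_eq_mul, h11, h10]
      ring
    refine ⟨u1, hu1, hQ1, ?_, u0, hu0, ?_, h10⟩
    · intro v hv hqv
      obtain ⟨x, y, rfl⟩ := hspan v hv
      rw [hform, hQ0, hQ1] at hqv
      rw [hpol]
      rcases fr3_tri hq x with rfl | rfl | rfl <;> rcases fr3_tri hq y with rfl | rfl | rfl <;>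
        first
          | (exfalso; exact (one_ne_zero : (1 : F) ≠ 0) (by linear_combination -hqv))
          | (exfalso; exact (one_ne_zero : (1 : F) ≠ 0) (by linear_combination hqv))
          | (exfalso; exact (one_ne_zero : (1 : F) ≠ 0) (by linear_combination hqv + h3))
          | (exfalso; exact (one_ne_zero : (1 : F) ≠ 0) (by linear_combination -hqv - h3))
          | (exfalso; exact (one_ne_zero : (1 : F) ≠ 0) (by linear_combination -hqv + h3))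
          | (exfalso; exact (one_ne_zero : (1 : F) ≠ 0) (by linear_combination hqv - h3))
          | (left; module)
          | (right; left; module)
          | (right; right; ring1)
    · intro h0
      rw [h0, QuadraticMap.map_zero] at hQ0
      exact one_ne_zero (neg_eq_zero.1 hQ0.symm)

theorem fq_23_block [Fintype F] (hq : Fintype.card F = 3) (Q : QuadraticForm F (κ → F))
    (W : Submodule F (κ → F)) (hdim : Module.finrank F W = 2)
    (hW : Cfsg.Geo.IsNondegenerateOn (QuadraticMap.polar (⇑Q)) W) :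
    ∃ a ∈ W, Q a = 1 ∧
      (∀ v ∈ W, Q v = 1 → v = a ∨ v = -a ∨ QuadraticMap.polar (⇑Q) a v = 0) ∧
      ∃ x ∈ W, x ≠ 0 ∧ QuadraticMap.polar (⇑Q) a x = 0 := by
  obtain ⟨hS, hB⟩ := fq_restrict Q W hW
  obtain ⟨b, hb1, hb2, hb3⟩ := Cfsg.Agent.Helper6.symm_exists_orthogonal_family (fr3_two hq)
    (-1) (fr3_nonsq hq) 1 W _ hS hB hdim
  simp only [LinearMap.domRestrict₁₂_apply, QuadraticMap.polarBilin_apply_apply]
    at hb1 hb2 hb3
  exact fq_23_diag hq Q W hdim _ _ (b 0).2 (b (Fin.last 1)).2 (hb1 0 (Fin.last 1) (by decide))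
    (hb2 0 (by decide)) hb3

theorem fq_five [Fintype F] (hq : Fintype.card F = 5) : (5 : F) = 0 := by
  have h := Nat.cast_card_eq_zero F
  rw [hq] at h
  exact_mod_cast h

theorem fq_5_cases [Fintype F] (hq : Fintype.card F = 5) (x : F) :
    x = 0 ∨ x = 1 ∨ x = -1 ∨ x = 2 ∨ x = -2 := by
  have h := FiniteField.pow_card x
  rw [hq] at h
  have h5 := fq_five hq
  have h3 : x * (x - 1) * (x + 1) * (x - 2) * (x + 2) = 0 := by
    linear_combination h + (x - x ^ 3) * h5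
  rcases mul_eq_zero.1 h3 with h4 | h4
  · rcases mul_eq_zero.1 h4 with h6 | h6
    · rcases mul_eq_zero.1 h6 with h7 | h7
      · rcases mul_eq_zero.1 h7 with h8 | h8
        · exact Or.inl h8
        · exact Or.inr (Or.inl (sub_eq_zero.1 h8))
      · exact Or.inr (Or.inr (Or.inl (eq_neg_of_add_eq_zero_left h7)))
    · exact Or.inr (Or.inr (Or.inr (Or.inl (sub_eq_zero.1 h6))))
  · exact Or.inr (Or.inr (Or.inr (Or.inr (eq_neg_of_add_eq_zero_left h4))))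

theorem fq_25_block [Fintype F] (hq : Fintype.card F = 5) (Q : QuadraticForm F (κ → F))
    (W : Submodule F (κ → F)) (hdim : Module.finrank F W = 2)
    (hW : Cfsg.Geo.IsNondegenerateOn (QuadraticMap.polar (⇑Q)) W)
    (hplus : Cfsg.Geo.IsPlusTypeOn (⇑Q) W) :
    ∃ a ∈ W, Q a = 1 ∧
      (∀ v ∈ W, Q v = 1 → v = a ∨ v = -a ∨ QuadraticMap.polar (⇑Q) a v = 0) ∧
      ∃ x ∈ W, x ≠ 0 ∧ QuadraticMap.polar (⇑Q) a x = 0 := by
  have h5 := fq_five hq
  obtain ⟨e, f, heW, hfW, hspan, he, hf, hef⟩ := plus_plane_basis Q W hdim hW hplus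
  have hee : QuadraticMap.polar (⇑Q) e e = 0 := by rw [kit_polar_self, he, mul_zero]
  have hff : QuadraticMap.polar (⇑Q) f f = 0 := by rw [kit_polar_self, hf, mul_zero]
  have hfe : QuadraticMap.polar (⇑Q) f e = 1 := by rw [QuadraticMap.polar_comm]; exact hef
  have hform : ∀ x y : F, Q (x • e + y • f) = x * y := by
    intro x y
    rw [kit_add]
    simp only [QuadraticMap.map_smul, QuadraticMap.polar_smul_left,
      QuadraticMap.polar_smul_right, smul_eq_mul, he, hf, hef]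
    ring
  have hpol : ∀ x y : F, QuadraticMap.polar (⇑Q) (e + f) (x • e + y • f) = x + y := by
    intro x y
    rw [QuadraticMap.polar_add_left, QuadraticMap.polar_add_right,
      QuadraticMap.polar_add_right]
    simp only [QuadraticMap.polar_smul_right, smul_eq_mul, hee, hff, hef, hfe]
    ring
  refine ⟨e + f, W.add_mem heW hfW, ?_, ?_, e - f, W.sub_mem heW hfW, ?_, ?_⟩
  · rw [kit_add, he, hf, hef]
    ring
  · intro v hv hqv
    obtain ⟨x, y, rfl⟩ := hspan v hv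
    rw [hform] at hqv
    rw [hpol]
    rcases fq_5_cases hq x with rfl | rfl | rfl | rfl | rfl
    · exfalso
      exact (one_ne_zero : (1 : F) ≠ 0) (by linear_combination -hqv)
    · have hy : y = 1 := by linear_combination hqv
      left
      rw [hy]
      module
    · have hy : y = -1 := by linear_combination -hqv
      right; left
      rw [hy]
      module
    · right; right
      linear_combination 3 * hqv + (1 - y) * h5
    · right; right
      linear_combination (-3) * hqv + (-1 - y) * h5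
  · intro h0
    have hq' : Q (e - f) = -1 := by
      rw [kit_sub, he, hf, hef]
      ring
    rw [h0, QuadraticMap.map_zero] at hq'
    exact one_ne_zero (neg_eq_zero.1 hq'.symm)
  · rw [QuadraticMap.polar_add_left, QuadraticMap.polar_sub_right,
      QuadraticMap.polar_sub_right, hee, hff, hef, hfe]
    ring

end Frame2

end Cfsg.Agent.Helper5
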