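import Mathlib
import Cfsg.Agent.Helper5.Frame2

/-!
# Decompositions into hyperbolic planes over the fields with two and four elements

The stabiliser in the commutator subgroup of an orthogonal decomposition into planes of plus
type is not maximal over the fields with two and four elements: it preserves the set of
vectors of norm one of the planes (two elements), respectively the dual of that set (four
elements).
-/

set_option autoImplicit false

namespace Cfsg.Agent.Helper5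

open scoped Matrix

section Frame2c

variable {F : Type*} [Field F] {κ : Type} [Fintype κ] [DecidableEq κ]

theorem fq_finrank_le {t : ℕ} (k : ℕ) (D : Fin t → Submodule F (κ → F))
    (hk : ∀ i, Module.finrank F (D i) = k) (htop : iSup D = ⊤) : Fintype.card κ ≤ t * k := by
  classical
  have key : ∀ s : Finset (Fin t), Module.finrank F ↥(⨆ i ∈ s, D i) ≤ s.card * k := by
    intro s
    induction s using Finset.induction_on with
    | empty =>
      have h0 : (⨆ i ∈ (∅ : Finset (Fin t)), D i) = ⊥ := by simp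
      rw [h0, finrank_bot]
      exact Nat.zero_le _
    | insert a s has ih =>
      rw [Finset.iSup_insert, Finset.card_insert_of_notMem has]
      calc Module.finrank F ↥(D a ⊔ ⨆ i ∈ s, D i)
          ≤ Module.finrank F ↥(D a) + Module.finrank F ↥(⨆ i ∈ s, D i) :=
            Submodule.finrank_add_le_finrank_add_finrank _ _
        _ ≤ k + s.card * k := by
            rw [hk a]
            exact Nat.add_le_add_left ih k
        _ = (s.card + 1) * k := by ring
  have h := key Finset.univ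
  have h1 : (⨆ i ∈ (Finset.univ : Finset (Fin t)), D i) = ⊤ := by
    rw [← htop]
    simp
  rw [h1, finrank_top, Module.finrank_fintype_fun_eq_card, Finset.card_univ,
    Fintype.card_fin] at h
  exact h

theorem fc_two_of_card2 [Fintype F] (hq : Fintype.card F = 2) : (2 : F) = 0 := by
  have h := Nat.cast_card_eq_zero F
  rw [hq] at h
  exact_mod_cast h

theorem fc_two_of_card4 [Fintype F] (hq : Fintype.card F = 4) : (2 : F) = 0 := by
  have h := Nat.cast_card_eq_zero F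
  rw [hq] at h
  have h4 : (4 : F) = 0 := by exact_mod_cast h
  have h22 : (2 : F) * 2 = 0 := by linear_combination h4
  exact mul_self_eq_zero.1 h22

theorem fc_dbl (h2 : (2 : F) = 0) (v : κ → F) : v + v = 0 := by
  rw [← two_smul F v, h2, zero_smul]

theorem fc_sub (h2 : (2 : F) = 0) (x y : κ → F) : x - y = x + y := by
  rw [sub_eq_iff_eq_add, add_assoc, fc_dbl h2, add_zero]

theorem fc_refl (h2 : (2 : F) = 0) (Q : QuadraticForm F (κ → F)) (w : κ → F) (hw : Q w ≠ 0)
    (x : κ → F) :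
    isoActF ⇑Q (reflEl Q w hw) x = x + ((Q w)⁻¹ * QuadraticMap.polar (⇑Q) w x) • w := by
  rw [actsRefl_reflEl Q w hw x]
  exact fc_sub h2 _ _

theorem fc_F2_add (h2 : (2 : F) = 0) {c d : F} (hc : c = 0 ∨ c = 1) (hd : d = 0 ∨ d = 1) :
    c + d = 0 ∨ c + d = 1 := by
  rcases hc with rfl | rfl <;> rcases hd with rfl | rfl
  · left; rw [add_zero]
  · right; rw [zero_add]
  · right; rw [add_zero]
  · left; linear_combination h2

theorem fc_F2_mul {c d : F} (hc : c = 0 ∨ c = 1) (hd : d = 0 ∨ d = 1) :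
    c * d = 0 ∨ c * d = 1 := by
  rcases hc with rfl | rfl
  · left; rw [zero_mul]
  · rw [one_mul]; exact hd

/-- The vectors whose polar products with all members of `N` lie in the prime field. -/
def fc_dual (Q : QuadraticForm F (κ → F)) (N : Set (κ → F)) : Set (κ → F) :=
  {x | ∀ v ∈ N, QuadraticMap.polar (⇑Q) x v = 0 ∨ QuadraticMap.polar (⇑Q) x v = 1}

theorem fc_mem_dual (Q : QuadraticForm F (κ → F)) (N : Set (κ → F)) (x : κ → F) :
    x ∈ fc_dual Q N ↔
      ∀ v ∈ N, QuadraticMap.polar (⇑Q) x v = 0 ∨ QuadraticMap.polar (⇑Q) x v = 1 := Iff.rfl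

theorem fc_dual_add (h2 : (2 : F) = 0) (Q : QuadraticForm F (κ → F)) (N : Set (κ → F))
    {x y : κ → F} (hx : x ∈ fc_dual Q N) (hy : y ∈ fc_dual Q N) : x + y ∈ fc_dual Q N := by
  refine (fc_mem_dual Q N _).2 (fun v hv => ?_)
  rw [QuadraticMap.polar_add_left]
  exact fc_F2_add h2 ((fc_mem_dual Q N x).1 hx v hv) ((fc_mem_dual Q N y).1 hy v hv)

theorem fc_dual_smul (Q : QuadraticForm F (κ → F)) (N : Set (κ → F)) {c : F}
    (hc : c = 0 ∨ c = 1) {x : κ → F} (hx : x ∈ fc_dual Q N) : c • x ∈ fc_dual Q N := by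
  rcases hc with rfl | rfl
  · rw [zero_smul]
    refine (fc_mem_dual Q N _).2 (fun v _ => Or.inl ?_)
    exact QuadraticMap.polar_zero_left _ _
  · rw [one_smul]
    exact hx

theorem fc_dual_refl (h2 : (2 : F) = 0) (Q : QuadraticForm F (κ → F)) (N : Set (κ → F))
    (w : κ → F) (hw : Q w ≠ 0) (hw1 : Q w = 1) (hwM : w ∈ fc_dual Q N)
    (hwd : ∀ x ∈ fc_dual Q N,
      QuadraticMap.polar (⇑Q) w x = 0 ∨ QuadraticMap.polar (⇑Q) w x = 1) :
    ∀ x ∈ fc_dual Q N, isoActF ⇑Q (reflEl Q w hw) x ∈ fc_dual Q N := by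
  intro x hx
  rw [fc_refl h2 Q w hw x, hw1, inv_one, one_mul]
  exact fc_dual_add h2 Q N hx (fc_dual_smul Q N (hwd x hx) hwM)

theorem fc_stab_dual [Finite F] (Q : QuadraticForm F (κ → F)) (N : Set (κ → F))
    (g : ↥(Cfsg.isometryGroup F ⇑Q))
    (hg : (g : Matrix.GeneralLinearGroup κ F) ∈ fr3_stabSet N) :
    (g : Matrix.GeneralLinearGroup κ F) ∈ fr3_stabSet (fc_dual Q N) := by
  apply fq_stab_of_act Q
  intro x hx
  refine (fc_mem_dual Q N _).2 (fun v hv => ?_)
  have hv' : isoActF ⇑Q g (isoActF ⇑Q g⁻¹ v) = v := by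
    rw [← fq_mul_act, mul_inv_cancel, map_one]
    rfl
  have hvN : isoActF ⇑Q g⁻¹ v ∈ N := by
    have h := ((fr3_stabSet_mem N _).1 hg (isoActF ⇑Q g⁻¹ v)).1
    rw [← isoActF_apply, hv'] at h
    exact h hv
  rw [← hv', isoActF_polar]
  exact (fc_mem_dual Q N x).1 hx _ hvN

theorem fc_exists_zeta [Fintype F] (hq : Fintype.card F = 4) : ∃ ζ : F, ζ ≠ 0 ∧ ζ ≠ 1 := by
  obtain ⟨a', b', c', hab, hac, hbc⟩ :=
    Fintype.two_lt_card_iff.1 (by rw [hq]; norm_num : 2 < Fintype.card F)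
  by_cases ha : a' = 0 ∨ a' = 1
  · by_cases hb : b' = 0 ∨ b' = 1
    · refine ⟨c', ?_, ?_⟩
      · intro hc0
        rcases ha with ha | ha
        · exact hac (ha.trans hc0.symm)
        · rcases hb with hb | hb
          · exact hbc (hb.trans hc0.symm)
          · exact hab (ha.trans hb.symm)
      · intro hc1
        rcases ha with ha | ha
        · rcases hb with hb | hb
          · exact hab (ha.trans hb.symm)
          · exact hbc (hb.trans hc1.symm)
        · exact hac (ha.trans hc1.symm)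
    · exact ⟨b', fun h => hb (Or.inl h), fun h => hb (Or.inr h)⟩
  · exact ⟨a', fun h => ha (Or.inl h), fun h => ha (Or.inr h)⟩

theorem fc_F4 [Fintype F] (hq : Fintype.card F = 4) (u w : F) (huw : u * w = 1) :
    u + w = 0 ∨ u + w = 1 := by
  have h2 := fc_two_of_card4 hq
  have h4 := FiniteField.pow_card u
  rw [hq] at h4
  have hu0 : u ≠ 0 := by
    intro h0
    rw [h0, zero_mul] at huw
    exact zero_ne_one huw
  have hu3 : u ^ 3 = 1 := by
    have h : u * u ^ 3 = u * 1 := by linear_combination h4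
    exact mul_left_cancel₀ hu0 h
  have hw : w = u ^ 2 := by linear_combination (u ^ 2) * huw - w * hu3
  have hs : (u + w) * (u + w - 1) = 0 := by
    rw [hw]
    linear_combination (u ^ 3) * h2 + h4
  rcases mul_eq_zero.1 hs with h | h
  · exact Or.inl h
  · exact Or.inr (sub_eq_zero.1 h)

theorem fc_2_cases [Fintype F] (hq : Fintype.card F = 2) (x : F) : x = 0 ∨ x = 1 := by
  have h := FiniteField.pow_card x
  rw [hq] at h
  have h3 : x * (x - 1) = 0 := by linear_combination h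
  rcases mul_eq_zero.1 h3 with h4 | h4
  · exact Or.inl h4
  · exact Or.inr (sub_eq_zero.1 h4)

set_option maxHeartbeats 4000000 in
theorem fc_plane_not_max [Fintype F] (hq : Fintype.card F = 2 ∨ Fintype.card F = 4)
    (Q : QuadraticForm F (κ → F)) (hQ : (QuadraticMap.polarBilin Q).Nondegenerate)
    (hκ : Fintype.card κ ≠ 4) {t : ℕ} (ht : 4 ≤ t) (D : Fin t → Submodule F (κ → F))
    (hD : Cfsg.Geo.IsOrthogonalMDecomposition (⇑Q) 2 D)
    (hpl : ∀ i, Cfsg.Geo.IsPlusTypeOn (⇑Q) (D i)) :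
    ∃ K : Subgroup (Matrix.GeneralLinearGroup κ F),
      Cfsg.Geo.decompositionStabilizer D ⊓ Cfsg.Geo.omegaGL (⇑Q) < K ∧
        K < Cfsg.Geo.omegaGL (⇑Q) := by
  have h2 : (2 : F) = 0 := by
    rcases hq with hq | hq
    · exact fc_two_of_card2 hq
    · exact fc_two_of_card4 hq
  have hc : Fintype.card F ≠ 2 ∨ Fintype.card κ ≠ 4 := Or.inr hκ
  have horth : ∀ i j, i ≠ j → ∀ u ∈ D i, ∀ v ∈ D j, QuadraticMap.polar (⇑Q) u v = 0 :=
    fun i j hij => hD.decomp.orthogonal i j hij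
  have hdim : ∀ i, Module.finrank F (D i) = 2 := hD.decomp.decomp.finrank_eq
  have hbasis : ∀ i, ∃ e f : κ → F, e ∈ D i ∧ f ∈ D i ∧
      (∀ x ∈ D i, ∃ a b : F, x = a • e + b • f) ∧ Q e = 0 ∧ Q f = 0 ∧
      QuadraticMap.polar (⇑Q) e f = 1 :=
    fun i => plus_plane_basis Q (D i) (hdim i) (hD.decomp.nondegenerate i) (hpl i)
  choose e f heD hfD hspan he hf hef using hbasis
  have hee : ∀ i, QuadraticMap.polar (⇑Q) (e i) (e i) = 0 := fun i => by
    rw [kit_polar_self, he, mul_zero]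
  have hff : ∀ i, QuadraticMap.polar (⇑Q) (f i) (f i) = 0 := fun i => by
    rw [kit_polar_self, hf, mul_zero]
  have hfe : ∀ i, QuadraticMap.polar (⇑Q) (f i) (e i) = 1 := fun i => by
    rw [QuadraticMap.polar_comm]; exact hef i
  have hform : ∀ i, ∀ x y : F, Q (x • e i + y • f i) = x * y := by
    intro i x y
    rw [kit_add]
    simp only [QuadraticMap.map_smul, QuadraticMap.polar_smul_left,
      QuadraticMap.polar_smul_right, smul_eq_mul, he, hf, hef]
    ring
  obtain ⟨a, ha⟩ : ∃ a : Fin t → κ → F, ∀ i, a i = e i + f i :=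
    ⟨fun i => e i + f i, fun i => rfl⟩
  have haD : ∀ i, a i ∈ D i := fun i => by
    rw [ha]; exact (D i).add_mem (heD i) (hfD i)
  have hqa : ∀ i, Q (a i) = 1 := fun i => by
    rw [ha, kit_add, he, hf, hef]; ring
  have haa : ∀ i j, QuadraticMap.polar (⇑Q) (a i) (a j) = 0 := by
    intro i j
    by_cases hij : i = j
    · rw [hij, kit_polar_self, hqa, mul_one]
      exact h2
    · exact horth i j hij _ (haD i) _ (haD j)
  have hae : ∀ i, QuadraticMap.polar (⇑Q) (a i) (e i) = 1 := fun i => by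
    rw [ha, QuadraticMap.polar_add_left, hee, hfe, zero_add]
  have hea : ∀ i, QuadraticMap.polar (⇑Q) (e i) (a i) = 1 := fun i => by
    rw [QuadraticMap.polar_comm]; exact hae i
  have hae' : ∀ i j, i ≠ j → QuadraticMap.polar (⇑Q) (a i) (e j) = 0 :=
    fun i j hij => horth i j hij _ (haD i) _ (heD j)
  have hea' : ∀ i j, i ≠ j → QuadraticMap.polar (⇑Q) (e i) (a j) = 0 :=
    fun i j hij => horth i j hij _ (heD i) _ (haD j)
  have hee' : ∀ i j, i ≠ j → QuadraticMap.polar (⇑Q) (e i) (e j) = 0 :=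
    fun i j hij => horth i j hij _ (heD i) _ (heD j)
  have haN : ∀ i, a i ∈ fq_blockNorm Q D 1 := fun i =>
    (fq_mem_blockNorm Q D 1 _).2 ⟨i, haD i, hqa i⟩
  obtain ⟨j₁, hj₁⟩ : ∃ j : Fin t, j.1 = 0 := ⟨⟨0, by omega⟩, rfl⟩
  obtain ⟨j₂, hj₂⟩ : ∃ j : Fin t, j.1 = 1 := ⟨⟨1, by omega⟩, rfl⟩
  obtain ⟨j₃, hj₃⟩ : ∃ j : Fin t, j.1 = 2 := ⟨⟨2, by omega⟩, rfl⟩
  obtain ⟨j₄, hj₄⟩ : ∃ j : Fin t, j.1 = 3 := ⟨⟨3, by omega⟩, rfl⟩
  have hne : ∀ p q : Fin t, (p : ℕ) ≠ q → p ≠ q := fun p q h h' => h (by rw [h'])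
  have n12 : j₁ ≠ j₂ := hne _ _ (by omega)
  have n13 : j₁ ≠ j₃ := hne _ _ (by omega)
  have n14 : j₁ ≠ j₄ := hne _ _ (by omega)
  have n23 : j₂ ≠ j₃ := hne _ _ (by omega)
  have qc : Q (a j₁ + a j₂ + a j₃) = 1 := by
    rw [kit_add, kit_add, QuadraticMap.polar_add_left, hqa, hqa, hqa, haa, haa, haa]
    linear_combination h2
  have hcne : Q (a j₁ + a j₂ + a j₃) ≠ 0 := by rw [qc]; exact one_ne_zero
  have ha4ne : Q (a j₄) ≠ 0 := by rw [hqa]; exact one_ne_zero
  have hkΩ : reflEl Q _ hcne * reflEl Q _ ha4ne ∈ commutator ↥(Cfsg.isometryGroup F ⇑Q) :=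
    refl_pair_comm2 h2 Q hQ hc _ _ hcne ha4ne _ _ (actsRefl_reflEl Q _ hcne)
      (actsRefl_reflEl Q _ ha4ne)
  have rc : ∀ z, isoActF ⇑Q (reflEl Q _ hcne) z
      = z + QuadraticMap.polar (⇑Q) (a j₁ + a j₂ + a j₃) z • (a j₁ + a j₂ + a j₃) := fun z => by
    rw [fc_refl h2 Q _ hcne z, qc, inv_one, one_mul]
  have r4 : ∀ z, isoActF ⇑Q (reflEl Q _ ha4ne) z
      = z + QuadraticMap.polar (⇑Q) (a j₄) z • a j₄ := fun z => by
    rw [fc_refl h2 Q _ ha4ne z, hqa, inv_one, one_mul]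
  have hpc : ∀ z, QuadraticMap.polar (⇑Q) (a j₁ + a j₂ + a j₃) z
      = QuadraticMap.polar (⇑Q) (a j₁) z + QuadraticMap.polar (⇑Q) (a j₂) z
        + QuadraticMap.polar (⇑Q) (a j₃) z := fun z => by
    rw [QuadraticMap.polar_add_left, QuadraticMap.polar_add_left]
  have hkact : ∀ z, isoActF ⇑Q (reflEl Q _ hcne * reflEl Q _ ha4ne) z
      = isoActF ⇑Q (reflEl Q _ hcne) (isoActF ⇑Q (reflEl Q _ ha4ne) z) :=
    fun z => fq_mul_act Q _ _ z
  have kfix : ∀ z, QuadraticMap.polar (⇑Q) (a j₄) z = 0 →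
      QuadraticMap.polar (⇑Q) (a j₁ + a j₂ + a j₃) z = 0 →
      isoActF ⇑Q (reflEl Q _ hcne * reflEl Q _ ha4ne) z = z := by
    intro z h4 hcz
    rw [hkact, r4, h4, zero_smul, add_zero, rc, hcz, zero_smul, add_zero]
  have kai : ∀ i, isoActF ⇑Q (reflEl Q _ hcne * reflEl Q _ ha4ne) (a i) = a i := fun i =>
    kfix (a i) (haa j₄ i) (by rw [hpc, haa, haa, haa, add_zero, add_zero])
  have ke1 : isoActF ⇑Q (reflEl Q _ hcne * reflEl Q _ ha4ne) (e j₁)
      = e j₁ + (a j₁ + a j₂ + a j₃) := by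
    rw [hkact, r4, hae' j₄ j₁ n14.symm, zero_smul, add_zero, rc, hpc, hae j₁,
      hae' j₂ j₁ n12.symm, hae' j₃ j₁ n13.symm, add_zero, add_zero, one_smul]
  have hkS : ((reflEl Q _ hcne * reflEl Q _ ha4ne : ↥(Cfsg.isometryGroup F ⇑Q)) :
      Matrix.GeneralLinearGroup κ F) ∉ Cfsg.Geo.decompositionStabilizer D := by
    intro hmem
    obtain ⟨σ, hmap⟩ := fq_stabD_map Q D _ hmem
    have m1 : a j₁ ∈ D (σ j₁) := by
      have h := hmap j₁ (a j₁) (haD j₁)
      rw [kai] at h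
      exact h
    have hσ : σ j₁ = j₁ := by
      by_contra hne'
      have h0 := horth (σ j₁) j₁ hne' _ m1 _ (heD j₁)
      rw [hae] at h0
      exact one_ne_zero h0
    have m2 : e j₁ + (a j₁ + a j₂ + a j₃) ∈ D (σ j₁) := by
      have h := hmap j₁ (e j₁) (heD j₁)
      rw [ke1] at h
      exact h
    rw [hσ] at m2
    have h0 := horth j₁ j₂ n12 _ m2 _ (heD j₂)
    rw [QuadraticMap.polar_add_left, hpc, hee' j₁ j₂ n12, hae' j₁ j₂ n12, hae j₂,
      hae' j₃ j₂ n23.symm, zero_add, zero_add, add_zero] at h0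
    exact one_ne_zero h0
  have hω : ∀ ζ : F, ζ ≠ 0 → ∃ ω : ↥(Cfsg.isometryGroup F ⇑Q),
      ω ∈ commutator ↥(Cfsg.isometryGroup F ⇑Q) ∧ ∃ u : κ → F, isoActF ⇑Q ω (a j₁) = u ∧
        QuadraticMap.polar (⇑Q) u (e j₁) = 1 ∧ QuadraticMap.polar (⇑Q) u (e j₂) = ζ⁻¹ ∧
        QuadraticMap.polar (⇑Q) u (a j₁) = (ζ * ζ)⁻¹ := by
    intro ζ hζ
    have qw : Q (e j₁ + ζ • a j₂) = ζ * ζ := by
      rw [kit_add, he, QuadraticMap.map_smul, hqa, QuadraticMap.polar_smul_right,
        hea' j₁ j₂ n12]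
      simp only [smul_eq_mul, mul_one, mul_zero, zero_add, add_zero]
    have hwne : Q (e j₁ + ζ • a j₂) ≠ 0 := by rw [qw]; exact mul_ne_zero hζ hζ
    have ha3ne : Q (a j₃) ≠ 0 := by rw [hqa]; exact one_ne_zero
    have hpw : QuadraticMap.polar (⇑Q) (e j₁ + ζ • a j₂) (a j₁) = 1 := by
      rw [QuadraticMap.polar_add_left, QuadraticMap.polar_smul_left, hea, haa, smul_zero,
        add_zero]
    refine ⟨reflEl Q _ hwne * reflEl Q _ ha3ne,
      refl_pair_comm2 h2 Q hQ hc _ _ hwne ha3ne _ _ (actsRefl_reflEl Q _ hwne)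
        (actsRefl_reflEl Q _ ha3ne),
      a j₁ + (ζ * ζ)⁻¹ • (e j₁ + ζ • a j₂), ?_, ?_, ?_, ?_⟩
    · rw [fq_mul_act, fc_refl h2 Q _ ha3ne (a j₁), haa j₃ j₁, mul_zero, zero_smul, add_zero,
        fc_refl h2 Q _ hwne (a j₁), qw, hpw, mul_one]
    · rw [QuadraticMap.polar_add_left, QuadraticMap.polar_smul_left,
        QuadraticMap.polar_add_left, QuadraticMap.polar_smul_left, hae j₁, hee j₁,
        hae' j₂ j₁ n12.symm]
      simp only [smul_eq_mul, mul_zero, add_zero]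
    · rw [QuadraticMap.polar_add_left, QuadraticMap.polar_smul_left,
        QuadraticMap.polar_add_left, QuadraticMap.polar_smul_left, hae' j₁ j₂ n12,
        hee' j₁ j₂ n12, hae j₂]
      simp only [smul_eq_mul, mul_one, zero_add]
      rw [mul_inv, mul_assoc, inv_mul_cancel₀ hζ, mul_one]
    · rw [QuadraticMap.polar_add_left, QuadraticMap.polar_smul_left,
        QuadraticMap.polar_add_left, QuadraticMap.polar_smul_left, haa j₁ j₁, hea j₁,
        haa j₂ j₁]
      simp only [smul_eq_mul, mul_zero, add_zero, zero_add, mul_one]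
  rcases hq with hq | hq
  · have hblock : ∀ i, ∀ v ∈ D i, Q v = 1 → v = a i := by
      intro i v hv hqv
      obtain ⟨x, y, rfl⟩ := hspan i v hv
      rw [hform] at hqv
      rw [ha]
      rcases fc_2_cases hq x with rfl | rfl
      · exfalso
        rw [zero_mul] at hqv
        exact zero_ne_one hqv
      · rw [one_mul] at hqv
        rw [hqv, one_smul, one_smul]
    have hkN : ((reflEl Q _ hcne * reflEl Q _ ha4ne : ↥(Cfsg.isometryGroup F ⇑Q)) :
        Matrix.GeneralLinearGroup κ F) ∈ fr3_stabSet (fq_blockNorm Q D 1) := by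
      apply fq_stab_of_act Q
      intro v hv
      obtain ⟨i, hvi, hvq⟩ := (fq_mem_blockNorm Q D 1 v).1 hv
      rw [hblock i v hvi hvq, kai]
      exact haN i
    obtain ⟨ω, hωΩ, u, hωu, hu1, hu2, -⟩ := hω 1 one_ne_zero
    refine fq_between _ _ (fr3_stabSet (fq_blockNorm Q D 1)) (fq_stabD_le Q D 1) _
      (fq_omega Q _ hkΩ) hkN hkS (ω : Matrix.GeneralLinearGroup κ F) (fq_omega Q _ hωΩ) ?_
    apply fq_not_stab Q _ _ (a j₁) (haN j₁)
    rw [hωu]
    intro h1
    obtain ⟨i, hui, -⟩ := (fq_mem_blockNorm Q D 1 _).1 h1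
    by_cases c1 : i = j₁
    · rw [c1] at hui
      have h0 := horth j₁ j₂ n12 _ hui _ (heD j₂)
      rw [hu2, inv_one] at h0
      exact one_ne_zero h0
    · have h0 := horth i j₁ c1 _ hui _ (heD j₁)
      rw [hu1] at h0
      exact one_ne_zero h0
  · have hNM : ∀ v ∈ fq_blockNorm Q D 1, v ∈ fc_dual Q (fq_blockNorm Q D 1) := by
      intro v hv
      refine (fc_mem_dual Q _ v).2 (fun v' hv' => ?_)
      obtain ⟨i, hvi, hvq⟩ := (fq_mem_blockNorm Q D 1 v).1 hv
      obtain ⟨i', hvi', hvq'⟩ := (fq_mem_blockNorm Q D 1 v').1 hv'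
      by_cases hii : i = i'
      · rw [← hii] at hvi'
        obtain ⟨x, y, rfl⟩ := hspan i v hvi
        obtain ⟨x', y', rfl⟩ := hspan i v' hvi'
        rw [hform] at hvq hvq'
        have hpol : QuadraticMap.polar (⇑Q) (x • e i + y • f i) (x' • e i + y' • f i)
            = x * y' + y * x' := by
          rw [QuadraticMap.polar_add_left, QuadraticMap.polar_add_right,
            QuadraticMap.polar_add_right]
          simp only [QuadraticMap.polar_smul_left, QuadraticMap.polar_smul_right, smul_eq_mul,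
            hee, hff, hef, hfe]
          ring
        rw [hpol]
        exact fc_F4 hq (x * y') (y * x') (by linear_combination (x' * y') * hvq + hvq')
      · left
        exact horth i i' hii v hvi v' hvi'
    have haM : ∀ i, a i ∈ fc_dual Q (fq_blockNorm Q D 1) := fun i => hNM _ (haN i)
    have hpz : ∀ i, ∀ z ∈ fc_dual Q (fq_blockNorm Q D 1),
        QuadraticMap.polar (⇑Q) (a i) z = 0 ∨ QuadraticMap.polar (⇑Q) (a i) z = 1 := by
      intro i z hz
      rw [QuadraticMap.polar_comm]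
      exact (fc_mem_dual Q _ z).1 hz _ (haN i)
    have hkM : ((reflEl Q _ hcne * reflEl Q _ ha4ne : ↥(Cfsg.isometryGroup F ⇑Q)) :
        Matrix.GeneralLinearGroup κ F) ∈ fr3_stabSet (fc_dual Q (fq_blockNorm Q D 1)) := by
      apply fq_stab_of_act Q
      intro z hz
      rw [hkact]
      have h4M := fc_dual_refl h2 Q _ (a j₄) ha4ne (hqa j₄) (haM j₄) (hpz j₄) z hz
      exact fc_dual_refl h2 Q _ _ hcne qc
        (fc_dual_add h2 Q _ (fc_dual_add h2 Q _ (haM j₁) (haM j₂)) (haM j₃))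
        (fun z' hz' => by
          rw [hpc]
          exact fc_F2_add h2 (fc_F2_add h2 (hpz j₁ z' hz') (hpz j₂ z' hz')) (hpz j₃ z' hz'))
        _ h4M
    obtain ⟨ζ, hζ0, hζ1⟩ := fc_exists_zeta hq
    obtain ⟨ω, hωΩ, u, hωu, -, -, hu3⟩ := hω ζ hζ0
    refine fq_between _ _ (fr3_stabSet (fc_dual Q (fq_blockNorm Q D 1))) ?_ _
      (fq_omega Q _ hkΩ) hkM hkS (ω : Matrix.GeneralLinearGroup κ F) (fq_omega Q _ hωΩ) ?_
    · intro g hg
      have hgN := fq_stabD_le Q D 1 hg
      obtain ⟨g', -, hg'⟩ := Subgroup.mem_map.1 (Subgroup.mem_inf.1 hg).2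
      have hg'' : (g' : Matrix.GeneralLinearGroup κ F) = g := hg'
      rw [← hg''] at hgN ⊢
      exact fc_stab_dual Q _ g' hgN
    · apply fq_not_stab Q _ _ (a j₁) (haM j₁)
      rw [hωu]
      intro h1
      have h3 := (fc_mem_dual Q _ u).1 h1 (a j₁) (haN j₁)
      rw [hu3] at h3
      rcases h3 with h3 | h3
      · exact (inv_ne_zero (mul_ne_zero hζ0 hζ0)) h3
      · have h5 : ζ * ζ = 1 := inv_eq_one.1 h3
        have h6 : (ζ - 1) * (ζ - 1) = 0 := by linear_combination h5 + (1 - ζ) * h2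
        exact hζ1 (sub_eq_zero.1 (mul_self_eq_zero.1 h6))

end Frame2c

end Cfsg.Agent.Helper5
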