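import Mathlib
import Cfsg.Agent.Helper5.Dickson2
import Cfsg.Agent.Helper5.PlusDickson
import Cfsg.Agent.Helper6.Quad

/-!
Tools for involutions of orthogonal groups in characteristic two: conjugating inside `Ω` using a
transvection centralising the involution, and the parity of `dim (U ∩ gU)` for maximal totally
singular subspaces.
-/

set_option autoImplicit false

open scoped Matrix

namespace Cfsg.Agent.Helper5

section Inv2

variable {F : Type*} [Field F] {κ : Type} [Fintype κ] [DecidableEq κ]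

theorem mulVecLin_sub_one (A : Matrix κ κ F) :
    Matrix.mulVecLin (A - 1) = Matrix.mulVecLin A - LinearMap.id := by
  apply LinearMap.ext
  intro v
  rw [Matrix.mulVecLin_apply, Matrix.sub_mulVec, Matrix.one_mulVec, LinearMap.sub_apply,
    Matrix.mulVecLin_apply, LinearMap.id_apply]

theorem range_conj (A B G Gi : Matrix κ κ F) (h1 : B * G = G * A) (h2 : G * Gi = 1) :
    LinearMap.range (Matrix.toLin' (B - 1))
      = (LinearMap.range (Matrix.toLin' (A - 1))).map (Matrix.mulVecLin G) := by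
  have key : (B - 1) * G = G * (A - 1) := by
    rw [Matrix.sub_mul, Matrix.mul_sub, h1, Matrix.one_mul, Matrix.mul_one]
  ext y
  rw [Submodule.mem_map, LinearMap.mem_range]
  constructor
  · rintro ⟨x, rfl⟩
    refine ⟨Matrix.toLin' (A - 1) (Gi *ᵥ x), LinearMap.mem_range.2 ⟨_, rfl⟩, ?_⟩
    rw [Matrix.mulVecLin_apply, Matrix.toLin'_apply, Matrix.toLin'_apply]
    calc G *ᵥ ((A - 1) *ᵥ (Gi *ᵥ x)) = (G * (A - 1)) *ᵥ (Gi *ᵥ x) := Matrix.mulVec_mulVec _ _ _
      _ = ((B - 1) * G) *ᵥ (Gi *ᵥ x) := by rw [key]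
      _ = (B - 1) *ᵥ (G *ᵥ (Gi *ᵥ x)) := (Matrix.mulVec_mulVec _ _ _).symm
      _ = (B - 1) *ᵥ ((G * Gi) *ᵥ x) := by rw [Matrix.mulVec_mulVec _ G Gi]
      _ = (B - 1) *ᵥ x := by rw [h2, Matrix.one_mulVec]
  · rintro ⟨u, hu, rfl⟩
    obtain ⟨x, rfl⟩ := LinearMap.mem_range.1 hu
    refine ⟨G *ᵥ x, ?_⟩
    rw [Matrix.mulVecLin_apply, Matrix.toLin'_apply, Matrix.toLin'_apply]
    calc (B - 1) *ᵥ (G *ᵥ x) = ((B - 1) * G) *ᵥ x := Matrix.mulVec_mulVec _ _ _
      _ = (G * (A - 1)) *ᵥ x := by rw [key]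
      _ = G *ᵥ ((A - 1) *ᵥ x) := (Matrix.mulVec_mulVec _ _ _).symm

/-- If the involution `t` fixes a non-singular vector, a conjugating isometry can be taken in
`Ω` (characteristic two). -/
theorem omega_conj_of_fixed [Fintype F] (h2 : (2 : F) = 0) (Q : QuadraticForm F (κ → F))
    (hQ : (QuadraticMap.polarBilin Q).Nondegenerate)
    (h : Fintype.card F ≠ 2 ∨ Fintype.card κ ≠ 4) (t s g : ↥(Cfsg.isometryGroup F ⇑Q))
    (hg : g * t * g⁻¹ = s) (w : κ → F) (hw : Q w ≠ 0)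
    (hfix : Matrix.mulVec ((t : Matrix.GeneralLinearGroup κ F) : Matrix κ κ F) w = w) :
    ∃ g' ∈ commutator ↥(Cfsg.isometryGroup F ⇑Q), g' * t * g'⁻¹ = s := by
  by_cases hgΩ : g ∈ commutator ↥(Cfsg.isometryGroup F ⇑Q)
  · exact ⟨g, hgΩ, hg⟩
  have hdg : dick2 h2 Q hQ g = -1 := by
    rcases Int.units_eq_one_or (dick2 h2 Q hQ g) with h5 | h5
    · exact absurd ((omega2_iff h2 Q hQ h g).2 h5) hgΩ
    · exact h5
  obtain ⟨τ, hτ⟩ : ∃ τ : ↥(Cfsg.isometryGroup F ⇑Q), τ = reflEl Q w hw := ⟨_, rfl⟩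
  have hτact : ActsRefl Q τ w := by
    rw [hτ]
    exact actsRefl_reflEl Q w hw
  have hdτ : dick2 h2 Q hQ τ = -1 := dick2_refl h2 Q hQ τ w hw hτact
  have hTQ : ∀ v, Q (isoActF ⇑Q t v) = Q v := by
    intro v
    rw [isoActF_apply]
    exact (Cfsg.Agent.Helper6.isometry_mem_iff (⇑Q) _).1 t.2 v
  have hw' : isoActF ⇑Q t w = w := by
    rw [isoActF_apply]
    exact hfix
  have hp : ∀ x, QuadraticMap.polar (⇑Q) w (isoActF ⇑Q t x) = QuadraticMap.polar (⇑Q) w x := by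
    intro x
    unfold QuadraticMap.polar
    have e1 : w + isoActF ⇑Q t x = isoActF ⇑Q t (w + x) := by rw [map_add, hw']
    rw [e1, hTQ, hTQ]
  have hcomm : t * τ = τ * t := by
    apply isoActF_injective ⇑Q
    apply LinearEquiv.ext
    intro x
    rw [map_mul, map_mul, LinearEquiv.mul_apply, LinearEquiv.mul_apply, hτact x, hτact,
      map_sub, map_smul, hw', hp x]
  refine ⟨g * τ, ?_, ?_⟩
  · apply (omega2_iff h2 Q hQ h _).2
    rw [map_mul, hdg, hdτ] <;> decide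
  · have e : g * τ * t * (g * τ)⁻¹ = g * (τ * t * τ⁻¹) * g⁻¹ := by group
    rw [e, ← hcomm, mul_inv_cancel_right, hg]

end Inv2

section Par

variable {F : Type*} [Field F]

/-- The parity of `dim (U ∩ fU)` does not depend on the maximal totally singular subspace `U`. -/
theorem mts_parity_map {V : Type*} [AddCommGroup V] [Module F V] [FiniteDimensional F V] {m : ℕ}
    (Q : QuadraticForm F V)
    (hV : Module.finrank F V = 2 * m) (hQ : (QuadraticMap.polarBilin Q).Nondegenerate)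
    (E U : Submodule F V) (hE : IsMTS Q m E) (hU : IsMTS Q m U) (f : V →ₗ[F] V)
    (hf : Function.Injective f) (hfQ : ∀ v, Q (f v) = Q v) :
    Module.finrank F ↥(U ⊓ U.map f) % 2 = Module.finrank F ↥(E ⊓ E.map f) % 2 := by
  have h1 := mts_triangle Q hV hQ E U (U.map f) hE hU (mts_map Q f hf hfQ U hU)
  have h2 := mts_triangle Q hV hQ E (E.map f) (U.map f) hE (mts_map Q f hf hfQ E hE)
    (mts_map Q f hf hfQ U hU)
  rw [finrank_map_inf f hf E U] at h2
  omega

/-- In characteristic two the Dickson-type character is `-1` outside `Ω`. -/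
theorem plusD_of_not_omega [Fintype F] {m : ℕ} (h2 : (2 : F) = 0)
    (𝒬 : QuadraticForm F (Fin m ⊕ Fin m → F))
    (h𝒬 : ∀ v, 𝒬 v = Cfsg.quadFormPlus m F v) (hnd : (QuadraticMap.polarBilin 𝒬).Nondegenerate)
    (h : Fintype.card F ≠ 2 ∨ Fintype.card (Fin m ⊕ Fin m) ≠ 4)
    (g : ↥(Cfsg.isometryGroup F ⇑𝒬))
    (hg : g ∉ commutator ↥(Cfsg.isometryGroup F ⇑𝒬)) : plusD 𝒬 h𝒬 hnd g = -1 := by
  rcases omega2_cases h2 𝒬 hnd h g with h5 | ⟨s, w, hw, hs, h5⟩
  · exact absurd h5 hg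
  · have h6 := plusD_comm 𝒬 h𝒬 hnd _ h5
    rw [map_mul, plusD_refl 𝒬 h𝒬 hnd s w hw hs] at h6
    rcases Int.units_eq_one_or (plusD 𝒬 h𝒬 hnd g) with h7 | h7
    · rw [h7] at h6
      exact absurd h6 (by decide)
    · exact h7

end Par

end Cfsg.Agent.Helper5
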