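import Mathlib
import Cfsg.Agent.Helper5.Dickson2

/-!
In characteristic two an isometry lies in the commutator subgroup of the isometry group exactly
when `g - 1` has even rank.
-/

set_option autoImplicit false

namespace Cfsg.Agent.Helper5

section

variable {F : Type*} [Field F] [Fintype F] {κ : Type} [Fintype κ] [DecidableEq κ]

theorem omega2_rank_iff (h2 : (2 : F) = 0) (Q : QuadraticForm F (κ → F))
    (hQ : (QuadraticMap.polarBilin Q).Nondegenerate)
    (h : Fintype.card F ≠ 2 ∨ Fintype.card κ ≠ 4) (t : ↥(Cfsg.isometryGroup F ⇑Q)) :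
    t ∈ commutator ↥(Cfsg.isometryGroup F ⇑Q) ↔
      Even (((t : Matrix.GeneralLinearGroup κ F) : Matrix κ κ F) - 1).rank := by
  rw [omega2_iff h2 Q hQ h, dick2_apply]
  have hrk : (((t : Matrix.GeneralLinearGroup κ F) : Matrix κ κ F) - 1).rank
      = Fintype.card κ - Module.finrank F ↥(LinearMap.ker (Matrix.mulVecLin
        ((t : Matrix.GeneralLinearGroup κ F) : Matrix κ κ F) - LinearMap.id)) := by
    have h1 := LinearMap.finrank_range_add_finrank_ker
      (Matrix.mulVecLin (((t : Matrix.GeneralLinearGroup κ F) : Matrix κ κ F) - 1))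
    rw [Module.finrank_fintype_fun_eq_card] at h1
    have h3 : Matrix.mulVecLin (((t : Matrix.GeneralLinearGroup κ F) : Matrix κ κ F) - 1)
        = Matrix.mulVecLin ((t : Matrix.GeneralLinearGroup κ F) : Matrix κ κ F)
          - LinearMap.id := by
      apply LinearMap.ext
      intro x
      rw [Matrix.mulVecLin_apply, LinearMap.sub_apply, Matrix.mulVecLin_apply,
        LinearMap.id_apply, Matrix.sub_mulVec, Matrix.one_mulVec]
    rw [h3] at h1
    rw [Matrix.rank, h3]
    omega
  rw [hrk]
  exact neg_one_pow_eq_one_iff_even (by decide)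

end

end Cfsg.Agent.Helper5
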