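import Mathlib

/-!
Sylow 2-subgroups of an extension of degree two of the special linear group over the field with
two elements meet pairwise non-trivially.  The special linear group has a single double coset of
its upper triangular subgroup `U` consisting of elements `g` with `U ∩ g U g⁻¹ = 1`; an element
of a Sylow 2-subgroup outside the normal subgroup permutes these elements, and this produces a
common element of two Sylow 2-subgroups.
-/

set_option autoImplicit false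

namespace Cfsg.Agent.Helper5

open scoped Pointwise

local notation "SLt[" n "]" => Matrix.SpecialLinearGroup (Fin n) (ZMod 2)
local notation "Mt[" n "]" => Matrix (Fin n) (Fin n) (ZMod 2)

section Abstract

theorem sm2_inv_mem {G : Type*} [Group G] [Finite G] (P : G → Prop) (h1 : P 1)
    (hmul : ∀ a b, P a → P b → P (a * b)) (x : G) (hx : P x) : P x⁻¹ := by
  have hpow : ∀ k : ℕ, P (x ^ k) := by
    intro k
    induction k with
    | zero => rw [pow_zero]; exact h1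
    | succ k ih => rw [pow_succ]; exact hmul _ _ ih hx
  have hinv : x⁻¹ = x ^ (orderOf x - 1) := by
    apply inv_eq_of_mul_eq_one_right
    rw [← pow_succ', Nat.sub_add_cancel (orderOf_pos x), pow_orderOf_eq_one]
  rw [hinv]
  exact hpow _

/-- The group-theoretic core: uniqueness of the double coset of elements moving `H ⊓ N` off
itself forces two Sylow 2-subgroups to meet. -/
theorem sm2_core {G : Type*} [Group G] [Finite G] (N : Subgroup G) [hN : N.Normal]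
    (hidx : N.index = 2) (H : Sylow 2 G) (x : G)
    (hB : ∀ g g' : G, g ∈ N → g' ∈ N →
      (∀ u : G, u ∈ (H : Subgroup G) → u ∈ N → g * u * g⁻¹ ∈ (H : Subgroup G) → u = 1) →
      (∀ u : G, u ∈ (H : Subgroup G) → u ∈ N → g' * u * g'⁻¹ ∈ (H : Subgroup G) → u = 1) →
      ∃ u₁ u₂ : G, u₁ ∈ (H : Subgroup G) ∧ u₁ ∈ N ∧ u₂ ∈ (H : Subgroup G) ∧ u₂ ∈ N ∧
        g' = u₁ * g * u₂) :
    (H : Subgroup G) ⊓ MulAut.conj x • (H : Subgroup G) ≠ ⊥ := by
  intro hbot
  have htriv : ∀ s h : G, s ∈ (H : Subgroup G) → h ∈ (H : Subgroup G) → x * h * x⁻¹ = s →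
      s = 1 := by
    intro s h hs hh hsx
    have hmem : s ∈ (H : Subgroup G) ⊓ MulAut.conj x • (H : Subgroup G) := by
      refine Subgroup.mem_inf.2 ⟨hs, ?_⟩
      rw [Subgroup.mem_smul_pointwise_iff_exists]
      refine ⟨h, hh, ?_⟩
      rw [MulAut.smul_def, MulAut.conj_apply]
      exact hsx
    rw [hbot] at hmem
    exact Subgroup.mem_bot.1 hmem
  obtain ⟨t, htH, htN⟩ : ∃ t : G, t ∈ (H : Subgroup G) ∧ t ∉ N := by
    by_contra hcon
    have hle : (H : Subgroup G) ≤ N := by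
      intro y hy
      by_contra hyN
      exact hcon ⟨y, hy, hyN⟩
    have h1 := Subgroup.index_dvd_of_le hle
    rw [hidx] at h1
    exact H.not_dvd_index h1
  obtain ⟨g, hgN, hc⟩ : ∃ g : G, g ∈ N ∧ x⁻¹ * g ∈ (H : Subgroup G) := by
    by_cases hx : x ∈ N
    · refine ⟨x, hx, ?_⟩
      rw [inv_mul_cancel]
      exact one_mem _
    · refine ⟨x * t⁻¹, ?_, ?_⟩
      · rw [Subgroup.mul_mem_iff_of_index_two hidx]
        exact ⟨fun h => absurd h hx, fun h => absurd (inv_mem_iff.1 h) htN⟩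
      · rw [inv_mul_cancel_left]
        exact inv_mem htH
  have hcond : ∀ u : G, u ∈ (H : Subgroup G) → u ∈ N → g * u * g⁻¹ ∈ (H : Subgroup G) →
      u = 1 := by
    intro u huH _ hgu
    have h1 := htriv (g * u * g⁻¹) ((x⁻¹ * g) * u * (x⁻¹ * g)⁻¹) hgu
      (mul_mem (mul_mem hc huH) (inv_mem hc)) (by group)
    calc u = g⁻¹ * (g * u * g⁻¹) * g := by group
      _ = 1 := by rw [h1]; group
  have hcond' : ∀ u : G, u ∈ (H : Subgroup G) → u ∈ N →
      (t * g * t⁻¹) * u * (t * g * t⁻¹)⁻¹ ∈ (H : Subgroup G) → u = 1 := by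
    intro u huH huN hgu
    have h2 : g * (t⁻¹ * u * t) * g⁻¹ = t⁻¹ * ((t * g * t⁻¹) * u * (t * g * t⁻¹)⁻¹) * t := by
      group
    have h3 : g * (t⁻¹ * u * t) * g⁻¹ ∈ (H : Subgroup G) := by
      rw [h2]
      exact mul_mem (mul_mem (inv_mem htH) hgu) htH
    have h4 : t⁻¹ * u * t ∈ N := by
      have h5 := hN.conj_mem u huN t⁻¹
      rw [inv_inv] at h5
      exact h5
    have h1 := hcond (t⁻¹ * u * t) (mul_mem (mul_mem (inv_mem htH) huH) htH) h4 h3
    calc u = t * (t⁻¹ * u * t) * t⁻¹ := by group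
      _ = 1 := by rw [h1]; group
  obtain ⟨u₁, u₂, hu₁H, hu₁N, hu₂H, _, heq⟩ :=
    hB g (t * g * t⁻¹) hgN (hN.conj_mem g hgN t) hcond hcond'
  have hs : u₁⁻¹ * t = 1 := by
    refine htriv (u₁⁻¹ * t) ((x⁻¹ * g) * (u₂ * t) * (x⁻¹ * g)⁻¹) (mul_mem (inv_mem hu₁H) htH)
      (mul_mem (mul_mem hc (mul_mem hu₂H htH)) (inv_mem hc)) ?_
    calc x * ((x⁻¹ * g) * (u₂ * t) * (x⁻¹ * g)⁻¹) * x⁻¹
        = u₁⁻¹ * (u₁ * g * u₂) * t * g⁻¹ := by group
      _ = u₁⁻¹ * (t * g * t⁻¹) * t * g⁻¹ := by rw [heq]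
      _ = u₁⁻¹ * t := by group
  apply htN
  have ht : t = u₁ := by
    calc t = u₁ * (u₁⁻¹ * t) := by group
      _ = u₁ := by rw [hs, mul_one]
  rw [ht]
  exact hu₁N

end Abstract

section Mat

theorem sm2_z2 (x : ZMod 2) : x = 0 ∨ x = 1 := by
  revert x
  decide

theorem sm2_add_self (x : ZMod 2) : x + x = 0 := by
  revert x
  decide

/-- The matrix `1 + v e_cᵀ`. -/
def sm2_xcol {n : ℕ} (v : Fin n → ZMod 2) (c : Fin n) : Mt[n] :=
  fun i j => (if i = j then 1 else 0) + (if j = c then v i else 0)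

/-- The matrix `1 + e_r ρᵀ`. -/
def sm2_xrow {n : ℕ} (r : Fin n) (ρ : Fin n → ZMod 2) : Mt[n] :=
  fun i j => (if i = j then 1 else 0) + (if i = r then ρ j else 0)

theorem sm2_xcol_apply {n : ℕ} (v : Fin n → ZMod 2) (c i j : Fin n) :
    sm2_xcol v c i j = (if i = j then 1 else 0) + (if j = c then v i else 0) := rfl

theorem sm2_xrow_apply {n : ℕ} (r : Fin n) (ρ : Fin n → ZMod 2) (i j : Fin n) :
    sm2_xrow r ρ i j = (if i = j then 1 else 0) + (if i = r then ρ j else 0) := rfl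

theorem sm2_xcol_mul {n : ℕ} (v : Fin n → ZMod 2) (c : Fin n) (h : Mt[n]) (i j : Fin n) :
    (sm2_xcol v c * h) i j = h i j + v i * h c j := by
  have hterm : ∀ l : Fin n, sm2_xcol v c i l * h l j
      = (if i = l then h l j else 0) + (if l = c then v i * h l j else 0) := by
    intro l
    rw [sm2_xcol_apply, add_mul]
    by_cases h1 : i = l
    · by_cases h2 : l = c
      · rw [if_pos h1, if_pos h2, if_pos h1, if_pos h2, one_mul]
      · rw [if_pos h1, if_neg h2, if_pos h1, if_neg h2, one_mul, zero_mul]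
    · by_cases h2 : l = c
      · rw [if_neg h1, if_pos h2, if_neg h1, if_pos h2, zero_mul]
      · rw [if_neg h1, if_neg h2, if_neg h1, if_neg h2, zero_mul]
  rw [Matrix.mul_apply, Finset.sum_congr rfl (fun l _ => hterm l), Finset.sum_add_distrib,
    Finset.sum_ite_eq, Finset.sum_ite_eq']
  simp only [Finset.mem_univ, if_true]

theorem sm2_mul_xrow {n : ℕ} (h : Mt[n]) (r : Fin n) (ρ : Fin n → ZMod 2) (i j : Fin n) :
    (h * sm2_xrow r ρ) i j = h i j + h i r * ρ j := by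
  have hterm : ∀ l : Fin n, h i l * sm2_xrow r ρ l j
      = (if l = j then h i l else 0) + (if l = r then h i l * ρ j else 0) := by
    intro l
    rw [sm2_xrow_apply, mul_add]
    by_cases h1 : l = j
    · by_cases h2 : l = r
      · rw [if_pos h1, if_pos h2, if_pos h1, if_pos h2, mul_one]
      · rw [if_pos h1, if_neg h2, if_pos h1, if_neg h2, mul_one, mul_zero]
    · by_cases h2 : l = r
      · rw [if_neg h1, if_pos h2, if_neg h1, if_pos h2, mul_zero]
      · rw [if_neg h1, if_neg h2, if_neg h1, if_neg h2, mul_zero]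
  rw [Matrix.mul_apply, Finset.sum_congr rfl (fun l _ => hterm l), Finset.sum_add_distrib,
    Finset.sum_ite_eq', Finset.sum_ite_eq']
  simp only [Finset.mem_univ, if_true]

theorem sm2_det_up {n : ℕ} (M : Mt[n]) (hup : ∀ i j : Fin n, j < i → M i j = 0)
    (hd : ∀ i : Fin n, M i i = 1) : M.det = 1 := by
  have hM : M.IsUpperTriangular := by
    intro i j hij
    exact hup i j hij
  rw [Matrix.det_of_isUpperTriangular hM]
  exact Finset.prod_eq_one (fun i _ => hd i)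

theorem sm2_xcol_up {n : ℕ} (v : Fin n → ZMod 2) (c : Fin n) (hv : ∀ i, c ≤ i → v i = 0)
    (i j : Fin n) (hij : j < i) : sm2_xcol v c i j = 0 := by
  rw [sm2_xcol_apply, if_neg hij.ne']
  by_cases hjc : j = c
  · rw [if_pos hjc, hv i ((le_of_eq hjc.symm).trans hij.le), add_zero]
  · rw [if_neg hjc, add_zero]

theorem sm2_xcol_diag {n : ℕ} (v : Fin n → ZMod 2) (c : Fin n) (hv : ∀ i, c ≤ i → v i = 0)
    (i : Fin n) : sm2_xcol v c i i = 1 := by
  rw [sm2_xcol_apply, if_pos rfl]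
  by_cases hic : i = c
  · rw [if_pos hic, hv i (le_of_eq hic.symm), add_zero]
  · rw [if_neg hic, add_zero]

theorem sm2_xrow_up {n : ℕ} (r : Fin n) (ρ : Fin n → ZMod 2) (hρ : ∀ j, j ≤ r → ρ j = 0)
    (i j : Fin n) (hij : j < i) : sm2_xrow r ρ i j = 0 := by
  rw [sm2_xrow_apply, if_neg hij.ne']
  by_cases hir : i = r
  · rw [if_pos hir, hρ j (hij.le.trans (le_of_eq hir)), add_zero]
  · rw [if_neg hir, add_zero]

theorem sm2_xrow_diag {n : ℕ} (r : Fin n) (ρ : Fin n → ZMod 2) (hρ : ∀ j, j ≤ r → ρ j = 0)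
    (i : Fin n) : sm2_xrow r ρ i i = 1 := by
  rw [sm2_xrow_apply, if_pos rfl]
  by_cases hir : i = r
  · rw [if_pos hir, hρ i (le_of_eq hir), add_zero]
  · rw [if_neg hir, add_zero]

/-- Upper triangular elements. -/
def sm2_up (n : ℕ) (g : SLt[n]) : Prop :=
  ∀ i j : Fin n, j < i → (g : Mt[n]) i j = 0

theorem sm2_up_one (n : ℕ) : sm2_up n 1 := by
  intro i j hij
  rw [Matrix.SpecialLinearGroup.coe_one]
  exact Matrix.one_apply_ne hij.ne'

theorem sm2_up_mul {n : ℕ} {a b : SLt[n]} (ha : sm2_up n a) (hb : sm2_up n b) :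
    sm2_up n (a * b) := by
  intro i j hij
  rw [Matrix.SpecialLinearGroup.coe_mul, Matrix.mul_apply]
  apply Finset.sum_eq_zero
  intro l _
  by_cases hl : l < i
  · rw [ha i l hl, zero_mul]
  · rw [hb l j (lt_of_lt_of_le hij (not_lt.1 hl)), mul_zero]

/-- The subgroup of upper triangular elements. -/
noncomputable def sm2_U (n : ℕ) : Subgroup SLt[n] where
  carrier := {g | sm2_up n g}
  mul_mem' := fun ha hb => sm2_up_mul ha hb
  one_mem' := sm2_up_one n
  inv_mem' := fun {x} hx =>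
    sm2_inv_mem (sm2_up n) (sm2_up_one n) (fun _ _ ha hb => sm2_up_mul ha hb) x hx

theorem sm2_mem_U (n : ℕ) (g : SLt[n]) : g ∈ sm2_U n ↔ sm2_up n g := Iff.rfl

noncomputable def sm2_cS {n : ℕ} (v : Fin n → ZMod 2) (c : Fin n) (hv : ∀ i, c ≤ i → v i = 0) :
    SLt[n] :=
  ⟨sm2_xcol v c, sm2_det_up _ (sm2_xcol_up v c hv) (sm2_xcol_diag v c hv)⟩

theorem sm2_cS_coe {n : ℕ} (v : Fin n → ZMod 2) (c : Fin n) (hv : ∀ i, c ≤ i → v i = 0) :
    ((sm2_cS v c hv : SLt[n]) : Mt[n]) = sm2_xcol v c := rfl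

theorem sm2_cS_mem {n : ℕ} (v : Fin n → ZMod 2) (c : Fin n) (hv : ∀ i, c ≤ i → v i = 0) :
    sm2_cS v c hv ∈ sm2_U n :=
  (sm2_mem_U n _).2 (fun i j hij => sm2_xcol_up v c hv i j hij)

noncomputable def sm2_rS {n : ℕ} (r : Fin n) (ρ : Fin n → ZMod 2) (hρ : ∀ j, j ≤ r → ρ j = 0) :
    SLt[n] :=
  ⟨sm2_xrow r ρ, sm2_det_up _ (sm2_xrow_up r ρ hρ) (sm2_xrow_diag r ρ hρ)⟩

theorem sm2_rS_coe {n : ℕ} (r : Fin n) (ρ : Fin n → ZMod 2) (hρ : ∀ j, j ≤ r → ρ j = 0) :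
    ((sm2_rS r ρ hρ : SLt[n]) : Mt[n]) = sm2_xrow r ρ := rfl

theorem sm2_rS_mem {n : ℕ} (r : Fin n) (ρ : Fin n → ZMod 2) (hρ : ∀ j, j ≤ r → ρ j = 0) :
    sm2_rS r ρ hρ ∈ sm2_U n :=
  (sm2_mem_U n _).2 (fun i j hij => sm2_xrow_up r ρ hρ i j hij)

/-- If an entry of `h` vanishes together with the entries below it and to its left, then `U`
meets its conjugate under `h` non-trivially. -/
theorem sm2_witness {n : ℕ} (h : SLt[n]) (i₀ j₀ : Fin n)
    (ha : ∀ i, i₀ ≤ i → (h : Mt[n]) i j₀ = 0) (hb : ∀ j, j ≤ j₀ → (h : Mt[n]) i₀ j = 0) :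
    ∃ a ∈ sm2_U n, ∃ b ∈ sm2_U n, a ≠ 1 ∧ a * h = h * b := by
  refine ⟨sm2_cS (fun i => (h : Mt[n]) i j₀) i₀ ha, sm2_cS_mem _ _ _,
    sm2_rS j₀ (fun j => (h : Mt[n]) i₀ j) hb, sm2_rS_mem _ _ _, ?_, ?_⟩
  · intro h1
    obtain ⟨i, hi⟩ : ∃ i, (h : Mt[n]) i j₀ ≠ 0 := by
      by_contra hcon
      have hz : ∀ i, (h : Mt[n]) i j₀ = 0 := fun i => by_contra (fun hne => hcon ⟨i, hne⟩)
      have hdet := Matrix.det_eq_zero_of_column_eq_zero j₀ hz
      rw [h.2] at hdet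
      exact one_ne_zero hdet
    have hne : i ≠ i₀ := fun hii => hi (by rw [hii]; exact ha i₀ le_rfl)
    have h3 : sm2_xcol (fun i => (h : Mt[n]) i j₀) i₀ i i₀ = (h : Mt[n]) i j₀ := by
      rw [sm2_xcol_apply, if_neg hne, if_pos rfl, zero_add]
    have h4 : sm2_xcol (fun i => (h : Mt[n]) i j₀) i₀ i i₀ = (1 : Mt[n]) i i₀ :=
      congrArg (fun x : SLt[n] => (x : Mt[n]) i i₀) h1
    rw [h3, Matrix.one_apply_ne hne] at h4
    exact hi h4
  · apply Subtype.ext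
    ext i j
    rw [Matrix.SpecialLinearGroup.coe_mul, Matrix.SpecialLinearGroup.coe_mul, sm2_cS_coe,
      sm2_rS_coe, sm2_xcol_mul, sm2_mul_xrow]

/-- `U` meets its conjugate under `g` trivially. -/
def sm2_D (n : ℕ) (g : SLt[n]) : Prop :=
  ∀ a ∈ sm2_U n, ∀ b ∈ sm2_U n, a * g = g * b → a = 1

theorem sm2_D_mul {n : ℕ} {g : SLt[n]} (hg : sm2_D n g) {u₁ u₂ : SLt[n]} (h₁ : u₁ ∈ sm2_U n)
    (h₂ : u₂ ∈ sm2_U n) : sm2_D n (u₁ * g * u₂) := by
  intro a ha b hb hab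
  have key : (u₁⁻¹ * a * u₁) * g = g * (u₂ * b * u₂⁻¹) := by
    calc (u₁⁻¹ * a * u₁) * g = u₁⁻¹ * (a * (u₁ * g * u₂)) * u₂⁻¹ := by group
      _ = u₁⁻¹ * ((u₁ * g * u₂) * b) * u₂⁻¹ := by rw [hab]
      _ = g * (u₂ * b * u₂⁻¹) := by group
  have h1 := hg _ (mul_mem (mul_mem (inv_mem h₁) ha) h₁) _
    (mul_mem (mul_mem h₂ hb) (inv_mem h₂)) key
  calc a = u₁ * (u₁⁻¹ * a * u₁) * u₁⁻¹ := by group
    _ = 1 := by rw [h1]; group

set_option maxHeartbeats 4000000 in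
/-- Reduction of an element with `U ∩ g U g⁻¹ = 1` to the anti-diagonal matrix. -/
theorem sm2_reduce {n : ℕ} (g : SLt[n]) (hg : sm2_D n g) (k : ℕ) (hk : k ≤ n) :
    ∃ u₁ ∈ sm2_U n, ∃ u₂ ∈ sm2_U n, ∀ i j : Fin n, (n ≤ i.val + k ∨ j.val < k) →
      ((u₁ * g * u₂ : SLt[n]) : Mt[n]) i j = if i.val + j.val + 1 = n then 1 else 0 := by
  induction k with
  | zero =>
    refine ⟨1, one_mem _, 1, one_mem _, ?_⟩
    intro i j hij
    exfalso
    have hi := i.isLt
    rcases hij with h | h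
    · omega
    · omega
  | succ k ih =>
    obtain ⟨u₁, h₁, u₂, h₂, hP'⟩ := ih (by omega)
    obtain ⟨h, hh⟩ : ∃ h : SLt[n], h = u₁ * g * u₂ := ⟨_, rfl⟩
    have hD : sm2_D n h := by
      rw [hh]
      exact sm2_D_mul hg h₁ h₂
    have hP : ∀ i j : Fin n, (n ≤ i.val + k ∨ j.val < k) →
        (h : Mt[n]) i j = if i.val + j.val + 1 = n then 1 else 0 := by
      rw [hh]
      exact hP'
    obtain ⟨i₀, hi₀⟩ : ∃ i₀ : Fin n, i₀.val = n - 1 - k := ⟨⟨n - 1 - k, by omega⟩, rfl⟩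
    obtain ⟨j₀, hj₀⟩ : ∃ j₀ : Fin n, j₀.val = k := ⟨⟨k, by omega⟩, rfl⟩
    have F1 : ∀ i : Fin n, i₀ < i → (h : Mt[n]) i j₀ = 0 := by
      intro i hi
      have h1 := Fin.lt_def.1 hi
      have h2 := i.isLt
      rw [hP i j₀ (Or.inl (by omega))]
      exact if_neg (by omega)
    have F2 : ∀ j : Fin n, j < j₀ → (h : Mt[n]) i₀ j = 0 := by
      intro j hj
      have h1 := Fin.lt_def.1 hj
      rw [hP i₀ j (Or.inr (by omega))]
      exact if_neg (by omega)
    have F3 : (h : Mt[n]) i₀ j₀ = 1 := by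
      by_contra hne
      have h0 : (h : Mt[n]) i₀ j₀ = 0 := (sm2_z2 _).resolve_right hne
      obtain ⟨a, ha, b, hb, ha1, hab⟩ := sm2_witness h i₀ j₀
        (fun i hi => by
          rcases lt_or_eq_of_le hi with h' | h'
          · exact F1 i h'
          · rw [← h']
            exact h0)
        (fun j hj => by
          rcases lt_or_eq_of_le hj with h' | h'
          · exact F2 j h'
          · rw [h']
            exact h0)
      exact ha1 (hD a ha b hb hab)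
    obtain ⟨v, hv_lt, hv_ge⟩ : ∃ v : Fin n → ZMod 2,
        (∀ i, i < i₀ → v i = (h : Mt[n]) i j₀) ∧ (∀ i, i₀ ≤ i → v i = 0) :=
      ⟨fun i => if i < i₀ then (h : Mt[n]) i j₀ else 0,
        fun i hi => if_pos hi, fun i hi => if_neg (not_lt.2 hi)⟩
    obtain ⟨ρ, hρ_gt, hρ_le⟩ : ∃ ρ : Fin n → ZMod 2,
        (∀ j, j₀ < j → ρ j = (h : Mt[n]) i₀ j) ∧ (∀ j, j ≤ j₀ → ρ j = 0) :=
      ⟨fun j => if j₀ < j then (h : Mt[n]) i₀ j else 0,
        fun j hj => if_pos hj, fun j hj => if_neg (not_lt.2 hj)⟩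
    have hE : ∀ i j : Fin n,
        ((sm2_cS v i₀ hv_ge * h * sm2_rS j₀ ρ hρ_le : SLt[n]) : Mt[n]) i j
        = (h : Mt[n]) i j + v i * (h : Mt[n]) i₀ j
          + ((h : Mt[n]) i j₀ + v i * (h : Mt[n]) i₀ j₀) * ρ j := by
      intro i j
      rw [Matrix.SpecialLinearGroup.coe_mul, Matrix.SpecialLinearGroup.coe_mul, sm2_rS_coe,
        sm2_cS_coe, sm2_mul_xrow, sm2_xcol_mul, sm2_xcol_mul]
    have e1 : sm2_cS v i₀ hv_ge * u₁ * g * (u₂ * sm2_rS j₀ ρ hρ_le)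
        = sm2_cS v i₀ hv_ge * h * sm2_rS j₀ ρ hρ_le := by
      rw [hh]
      simp only [mul_assoc]
    refine ⟨sm2_cS v i₀ hv_ge * u₁, mul_mem (sm2_cS_mem _ _ _) h₁, u₂ * sm2_rS j₀ ρ hρ_le,
      mul_mem h₂ (sm2_rS_mem _ _ _), ?_⟩
    intro i j hij
    rw [e1, hE]
    have hin := i.isLt
    have hjn := j.isLt
    rcases lt_trichotomy i i₀ with hlt | heq | hgt
    · have hlt' := Fin.lt_def.1 hlt
      have hj : j ≤ j₀ := by
        rw [Fin.le_def]
        rcases hij with h' | h'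
        · omega
        · omega
      rw [hv_lt i hlt, hρ_le j hj, mul_zero, add_zero]
      rcases lt_or_eq_of_le hj with hjl | hje
      · have hjl' := Fin.lt_def.1 hjl
        rw [F2 j hjl, mul_zero, add_zero]
        exact hP i j (Or.inr (by omega))
      · rw [hje, F3, mul_one, sm2_add_self]
        exact (if_neg (by omega)).symm
    · rw [heq, hv_ge i₀ le_rfl, zero_mul, zero_mul, add_zero, add_zero, F3, one_mul]
      rcases lt_trichotomy j j₀ with hjl | hje | hjg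
      · have hjl' := Fin.lt_def.1 hjl
        rw [hρ_le j hjl.le, add_zero, F2 j hjl]
        exact (if_neg (by omega)).symm
      · rw [hje, hρ_le j₀ le_rfl, add_zero, F3]
        exact (if_pos (by omega)).symm
      · have hjg' := Fin.lt_def.1 hjg
        rw [hρ_gt j hjg, sm2_add_self]
        exact (if_neg (by omega)).symm
    · have hgt' := Fin.lt_def.1 hgt
      rw [hv_ge i hgt.le, zero_mul, zero_mul, add_zero, add_zero, F1 i hgt, zero_mul, add_zero]
      exact hP i j (Or.inl (by omega))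

/-- The elements with `U ∩ g U g⁻¹ = 1` form a single double coset of `U`. -/
theorem sm2_double {n : ℕ} (g g' : SLt[n]) (hg : sm2_D n g) (hg' : sm2_D n g') :
    ∃ u₁ ∈ sm2_U n, ∃ u₂ ∈ sm2_U n, g' = u₁ * g * u₂ := by
  obtain ⟨a₁, ha₁, a₂, ha₂, hA⟩ := sm2_reduce g hg n le_rfl
  obtain ⟨b₁, hb₁, b₂, hb₂, hB⟩ := sm2_reduce g' hg' n le_rfl
  have heq : a₁ * g * a₂ = b₁ * g' * b₂ := by
    apply Subtype.ext
    ext i j
    rw [hA i j (Or.inl (by omega)), hB i j (Or.inl (by omega))]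
  refine ⟨b₁⁻¹ * a₁, mul_mem (inv_mem hb₁) ha₁, a₂ * b₂⁻¹, mul_mem ha₂ (inv_mem hb₂), ?_⟩
  calc g' = b₁⁻¹ * (b₁ * g' * b₂) * b₂⁻¹ := by group
    _ = b₁⁻¹ * (a₁ * g * a₂) * b₂⁻¹ := by rw [heq]
    _ = b₁⁻¹ * a₁ * g * (a₂ * b₂⁻¹) := by group

theorem sm2_diag {n : ℕ} (g : SLt[n]) (hg : sm2_up n g) (i : Fin n) : (g : Mt[n]) i i = 1 := by
  rcases sm2_z2 ((g : Mt[n]) i i) with h0 | h1
  · exfalso
    have hM : (g : Mt[n]).IsUpperTriangular := by
      intro a b hab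
      exact hg a b hab
    have hdet := Matrix.det_of_isUpperTriangular hM
    rw [g.2, Finset.prod_eq_zero (f := fun a : Fin n => (g : Mt[n]) a a) (Finset.mem_univ i) h0]
      at hdet
    exact one_ne_zero hdet
  · exact h1

theorem sm2_pow_zero {n : ℕ} (M : Mt[n]) (hM : ∀ i j : Fin n, j ≤ i → M i j = 0) (k : ℕ) :
    ∀ i j : Fin n, j.val < i.val + k → (M ^ k) i j = 0 := by
  induction k with
  | zero =>
    intro i j hij
    rw [pow_zero]
    exact Matrix.one_apply_ne (fun h => by rw [h] at hij; omega)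
  | succ k ih =>
    intro i j hij
    rw [pow_succ, Matrix.mul_apply]
    apply Finset.sum_eq_zero
    intro l _
    by_cases hl : l.val < i.val + k
    · rw [ih i l hl, zero_mul]
    · rw [hM l j (Fin.le_def.2 (by omega)), mul_zero]

theorem sm2_sq_add {n : ℕ} (M : Mt[n]) (k : ℕ) : (1 + M) ^ 2 ^ k = 1 + M ^ 2 ^ k := by
  induction k with
  | zero => rw [pow_zero, pow_one, pow_one]
  | succ k ih =>
    have e : 2 ^ (k + 1) = 2 ^ k * 2 := pow_succ 2 k
    rw [e, pow_mul, pow_mul, ih]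
    obtain ⟨X, hX⟩ : ∃ X : Mt[n], X = M ^ 2 ^ k := ⟨_, rfl⟩
    rw [← hX]
    have h2 : X + X = 0 := by
      ext i j
      exact sm2_add_self _
    have key : (1 + X) * (1 + X) = 1 + (X + X) + X * X := by
      simp only [add_mul, mul_add, one_mul, mul_one]
      abel
    rw [pow_two, pow_two, key, h2, add_zero]

theorem sm2_up_pow {n : ℕ} (g : SLt[n]) (hg : sm2_up n g) : g ^ 2 ^ n = 1 := by
  obtain ⟨M, hM⟩ : ∃ M : Mt[n], M = (g : Mt[n]) - 1 := ⟨_, rfl⟩
  have hg1 : (g : Mt[n]) = 1 + M := by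
    rw [hM]
    abel
  have hM0 : ∀ i j : Fin n, j ≤ i → M i j = 0 := by
    intro i j hij
    rw [hM, Matrix.sub_apply]
    rcases lt_or_eq_of_le hij with h | h
    · rw [hg i j h, Matrix.one_apply_ne h.ne', sub_zero]
    · rw [h, sm2_diag g hg i, Matrix.one_apply_eq, sub_self]
  have hMn : M ^ 2 ^ n = 0 := by
    have h1 : M ^ n = 0 := by
      ext i j
      exact sm2_pow_zero M hM0 n i j (by have := j.isLt; omega)
    have h2 : n ≤ 2 ^ n := Nat.lt_two_pow_self.le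
    rw [← Nat.sub_add_cancel h2, pow_add, h1, mul_zero]
  apply Subtype.ext
  rw [Matrix.SpecialLinearGroup.coe_pow, Matrix.SpecialLinearGroup.coe_one, hg1, sm2_sq_add, hMn,
    add_zero]

theorem sm2_U_pgroup (n : ℕ) : IsPGroup 2 ↥(sm2_U n) := by
  intro u
  refine ⟨n, Subtype.ext ?_⟩
  rw [Subgroup.coe_pow, Subgroup.coe_one]
  exact sm2_up_pow u.1 u.2

theorem sm2_blk_inv {n : ℕ} (j₀ : Fin n) (x : SLt[n])
    (hx : ∀ i j : Fin n, j ≤ j₀ → j₀ < i → (x : Mt[n]) i j = 0) :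
    ∀ i j : Fin n, j ≤ j₀ → j₀ < i → ((x⁻¹ : SLt[n]) : Mt[n]) i j = 0 := by
  refine sm2_inv_mem (fun y : SLt[n] =>
    ∀ i j : Fin n, j ≤ j₀ → j₀ < i → (y : Mt[n]) i j = 0) ?_ ?_ x hx
  · intro i j hj hi
    rw [Matrix.SpecialLinearGroup.coe_one]
    exact Matrix.one_apply_ne (lt_of_le_of_lt hj hi).ne'
  · intro a b ha hb i j hj hi
    rw [Matrix.SpecialLinearGroup.coe_mul, Matrix.mul_apply]
    apply Finset.sum_eq_zero
    intro l _
    by_cases hl : l ≤ j₀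
    · rw [ha i l hl hi, zero_mul]
    · rw [hb l j hj (not_le.1 hl), mul_zero]

set_option maxHeartbeats 4000000 in
/-- The upper triangular subgroup is self-normalising. -/
theorem sm2_normalizer {n : ℕ} (g : SLt[n])
    (hg : g ∈ Subgroup.normalizer (sm2_U n : Set SLt[n])) : g ∈ sm2_U n := by
  rw [sm2_mem_U]
  intro i₀ j₀ hij
  by_contra hne
  have hgg : (g : Mt[n]) * ((g⁻¹ : SLt[n]) : Mt[n]) = 1 := by
    rw [← Matrix.SpecialLinearGroup.coe_mul, mul_inv_cancel, Matrix.SpecialLinearGroup.coe_one]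
  have key : ∀ b j : Fin n, j ≤ j₀ → j₀ < b → ((g⁻¹ : SLt[n]) : Mt[n]) b j = 0 := by
    intro b j hj hb
    have hρ : ∀ l : Fin n, l ≤ j₀ →
        (fun l : Fin n => if l = b then (1 : ZMod 2) else 0) l = 0 := by
      intro l hl
      show (if l = b then (1 : ZMod 2) else 0) = 0
      exact if_neg (lt_of_le_of_lt hl hb).ne
    have hX := (Subgroup.mem_normalizer_iff.1 hg
      (sm2_rS j₀ (fun l : Fin n => if l = b then (1 : ZMod 2) else 0) hρ)).1 (sm2_rS_mem _ _ _)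
    have h1 := (sm2_mem_U n _).1 hX i₀ j (lt_of_le_of_lt hj hij)
    have hterm : ∀ l : Fin n,
        ((g : Mt[n]) * sm2_xrow j₀ (fun l : Fin n => if l = b then (1 : ZMod 2) else 0)) i₀ l
          * ((g⁻¹ : SLt[n]) : Mt[n]) l j
        = (g : Mt[n]) i₀ l * ((g⁻¹ : SLt[n]) : Mt[n]) l j
          + (if l = b then (g : Mt[n]) i₀ j₀ * ((g⁻¹ : SLt[n]) : Mt[n]) l j else 0) := by
      intro l
      rw [sm2_mul_xrow, add_mul]
      by_cases hl : l = b
      · rw [if_pos hl, if_pos hl, mul_one]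
      · rw [if_neg hl, if_neg hl, mul_zero, zero_mul]
    have hsum0 : ∑ l : Fin n, (g : Mt[n]) i₀ l * ((g⁻¹ : SLt[n]) : Mt[n]) l j = 0 := by
      have h2 := congrFun (congrFun hgg i₀) j
      rw [Matrix.mul_apply, Matrix.one_apply_ne (lt_of_le_of_lt hj hij).ne'] at h2
      exact h2
    rw [Matrix.SpecialLinearGroup.coe_mul, Matrix.SpecialLinearGroup.coe_mul, sm2_rS_coe,
      Matrix.mul_apply, Finset.sum_congr rfl (fun l _ => hterm l), Finset.sum_add_distrib,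
      Finset.sum_ite_eq', hsum0, zero_add, if_pos (Finset.mem_univ b)] at h1
    exact (mul_eq_zero.1 h1).resolve_left hne
  have hinv := sm2_blk_inv j₀ g⁻¹ (fun i j hj hi => key i j hj hi)
  rw [inv_inv] at hinv
  exact hne (hinv i₀ j₀ le_rfl hij)

theorem sm2_U_card (n : ℕ) :
    Nat.card ↥(sm2_U n) = 2 ^ (Nat.card SLt[n]).factorization 2 := by
  obtain ⟨m, hm⟩ := IsPGroup.iff_card.1 (sm2_U_pgroup n)
  have hnorm : Subgroup.normalizer (sm2_U n : Set SLt[n]) = sm2_U n :=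
    le_antisymm (fun g hg => sm2_normalizer g hg) Subgroup.le_normalizer
  have hmod := Sylow.card_normalizer_modEq_card (p := 2) hm
  rw [hnorm, hm] at hmod
  have hdvd : 2 ^ m ∣ Nat.card SLt[n] := by
    rw [← hm]
    exact Subgroup.card_subgroup_dvd_card (sm2_U n)
  have hS0 : Nat.card SLt[n] ≠ 0 := Nat.card_pos.ne'
  have hpos : 0 < 2 ^ m := by positivity
  have hnd : ¬ 2 ^ (m + 1) ∣ Nat.card SLt[n] := by
    intro hd
    have h0 := (Nat.modEq_zero_iff_dvd).2 hd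
    have h1 := (Nat.modEq_zero_iff_dvd).1 (hmod.trans h0)
    have h3 := Nat.le_of_dvd hpos h1
    rw [pow_succ] at h3
    omega
  have hle := (Nat.Prime.pow_dvd_iff_le_factorization Nat.prime_two hS0).1 hdvd
  have hnle : ¬ m + 1 ≤ (Nat.card SLt[n]).factorization 2 :=
    fun h => hnd ((Nat.Prime.pow_dvd_iff_le_factorization Nat.prime_two hS0).2 h)
  rw [hm]
  congr 1
  omega

end Mat

section Transfer

set_option maxHeartbeats 4000000 in
theorem sm2_transfer {G : Type*} [Group G] [Finite G] {n : ℕ} (N : Subgroup G) [N.Normal]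
    (e : ↥N ≃* SLt[n]) (hidx : N.index = 2) (H : Sylow 2 G)
    (g g' : G) (hg : g ∈ N) (hg' : g' ∈ N)
    (hc : ∀ u : G, u ∈ (H : Subgroup G) → u ∈ N → g * u * g⁻¹ ∈ (H : Subgroup G) → u = 1)
    (hc' : ∀ u : G, u ∈ (H : Subgroup G) → u ∈ N → g' * u * g'⁻¹ ∈ (H : Subgroup G) → u = 1) :
    ∃ u₁ u₂ : G, u₁ ∈ (H : Subgroup G) ∧ u₁ ∈ N ∧ u₂ ∈ (H : Subgroup G) ∧ u₂ ∈ N ∧
      g' = u₁ * g * u₂ := by
  have hGN : Nat.card ↥N * 2 = Nat.card G := by
    rw [← hidx]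
    exact Subgroup.card_mul_index N
  have hN0 : Nat.card ↥N ≠ 0 := Nat.card_pos.ne'
  have hfac : (Nat.card G).factorization 2 = (Nat.card ↥N).factorization 2 + 1 := by
    rw [← hGN, Nat.factorization_mul hN0 (two_ne_zero : (2 : ℕ) ≠ 0), Finsupp.add_apply,
      Nat.Prime.factorization_self Nat.prime_two]
  have hH : Nat.card ↥(H : Subgroup G) = 2 ^ ((Nat.card ↥N).factorization 2 + 1) := by
    rw [← hfac]
    exact H.card_eq_multiplicity
  have hUp : IsPGroup 2 ↥((H : Subgroup G).subgroupOf N) := H.isPGroup'.comap_subtype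
  obtain ⟨j, hj⟩ := IsPGroup.iff_card.1 hUp
  have hjle : j ≤ (Nat.card ↥N).factorization 2 := by
    have hd : 2 ^ j ∣ Nat.card ↥N := by
      rw [← hj]
      exact Subgroup.card_subgroup_dvd_card _
    exact (Nat.Prime.pow_dvd_iff_le_factorization Nat.prime_two hN0).1 hd
  have hrel : (N.subgroupOf (H : Subgroup G)).index ∣ 2 := by
    have h1 := Subgroup.relIndex_dvd_index_of_normal N (H : Subgroup G)
    rw [hidx] at h1
    exact h1
  have hcard1 := Subgroup.card_mul_index (N.subgroupOf (H : Subgroup G))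
  have hcongr : Nat.card ↥(N.subgroupOf (H : Subgroup G))
      = Nat.card ↥((H : Subgroup G).subgroupOf N) :=
    Nat.card_congr
      { toFun := fun y => ⟨⟨y.1.1, y.2⟩, y.1.2⟩
        invFun := fun z => ⟨⟨z.1.1, z.2⟩, z.1.2⟩
        left_inv := fun _ => rfl
        right_inv := fun _ => rfl }
  have hjeq : j = (Nat.card ↥N).factorization 2 := by
    rw [hcongr, hj, hH] at hcard1
    rcases (Nat.dvd_prime Nat.prime_two).1 hrel with h1 | h1
    · rw [h1, mul_one] at hcard1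
      have h2 := Nat.pow_right_injective (le_refl 2) hcard1
      omega
    · rw [h1, pow_succ] at hcard1
      exact Nat.pow_right_injective (le_refl 2)
        (Nat.eq_of_mul_eq_mul_right (by norm_num) hcard1)
  have hUcard : Nat.card ↥((H : Subgroup G).subgroupOf N)
      = 2 ^ (Nat.card ↥N).factorization 2 := by
    rw [hj, hjeq]
  obtain ⟨V, hV⟩ : ∃ V : Subgroup SLt[n],
      ∀ y, y ∈ V ↔ ((e.symm y : ↥N) : G) ∈ (H : Subgroup G) :=
    ⟨((H : Subgroup G).subgroupOf N).comap e.symm.toMonoidHom, fun y => Iff.rfl⟩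
  have hVcard : Nat.card ↥V = 2 ^ (Nat.card SLt[n]).factorization 2 := by
    have h1 : Nat.card ↥V = Nat.card ↥((H : Subgroup G).subgroupOf N) :=
      Nat.card_congr
        { toFun := fun y => ⟨e.symm y.1, (hV y.1).1 y.2⟩
          invFun := fun z => ⟨e z.1, (hV (e z.1)).2 (by
            rw [e.symm_apply_apply]
            exact z.2)⟩
          left_inv := fun y => Subtype.ext (e.apply_symm_apply y.1)
          right_inv := fun z => Subtype.ext (e.symm_apply_apply z.1) }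
    rw [h1, hUcard, Nat.card_congr e.toEquiv]
  obtain ⟨P₁, hP₁⟩ : ∃ P : Sylow 2 SLt[n], (P : Subgroup SLt[n]) = V :=
    ⟨Sylow.ofCard V hVcard, Sylow.coe_ofCard V hVcard⟩
  obtain ⟨P₂, hP₂⟩ : ∃ P : Sylow 2 SLt[n], (P : Subgroup SLt[n]) = sm2_U n :=
    ⟨Sylow.ofCard (sm2_U n) (sm2_U_card n), Sylow.coe_ofCard _ _⟩
  obtain ⟨a, ha⟩ := MulAction.exists_smul_eq SLt[n] P₁ P₂
  have ha' : MulAut.conj a • V = sm2_U n := by
    rw [← hP₁, ← hP₂, ← ha, Sylow.coe_subgroup_smul]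
  have hconj : ∀ y : SLt[n], y ∈ sm2_U n ↔ ∃ v ∈ V, a * v * a⁻¹ = y := by
    intro y
    rw [← ha', Subgroup.mem_smul_pointwise_iff_exists]
    constructor
    · rintro ⟨v, hv, hvy⟩
      refine ⟨v, hv, ?_⟩
      rw [← hvy, MulAut.smul_def, MulAut.conj_apply]
    · rintro ⟨v, hv, hvy⟩
      refine ⟨v, hv, ?_⟩
      rw [MulAut.smul_def, MulAut.conj_apply]
      exact hvy
  have hDof : ∀ (γ : G) (hγ : γ ∈ N),
      (∀ u : G, u ∈ (H : Subgroup G) → u ∈ N → γ * u * γ⁻¹ ∈ (H : Subgroup G) → u = 1) →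
      sm2_D n (a * e ⟨γ, hγ⟩ * a⁻¹) := by
    intro γ hγ hcγ p hp q hq hpq
    obtain ⟨vp, hvp, rfl⟩ := (hconj p).1 hp
    obtain ⟨vq, hvq, rfl⟩ := (hconj q).1 hq
    have h1 : vp * e ⟨γ, hγ⟩ = e ⟨γ, hγ⟩ * vq := by
      calc vp * e ⟨γ, hγ⟩ = a⁻¹ * (a * vp * a⁻¹ * (a * e ⟨γ, hγ⟩ * a⁻¹)) * a := by group
        _ = a⁻¹ * (a * e ⟨γ, hγ⟩ * a⁻¹ * (a * vq * a⁻¹)) * a := by rw [hpq]
        _ = e ⟨γ, hγ⟩ * vq := by group
    have h2 : e.symm vp * ⟨γ, hγ⟩ = ⟨γ, hγ⟩ * e.symm vq := by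
      have h := congrArg e.symm h1
      rw [map_mul, map_mul, e.symm_apply_apply] at h
      exact h
    have h3 : ((e.symm vp : ↥N) : G) * γ = γ * ((e.symm vq : ↥N) : G) :=
      congrArg Subtype.val h2
    have h4 : ((e.symm vq : ↥N) : G) = 1 := by
      apply hcγ _ ((hV vq).1 hvq) (e.symm vq).2
      have h5 : γ * ((e.symm vq : ↥N) : G) * γ⁻¹ = ((e.symm vp : ↥N) : G) := by
        rw [← h3]
        group
      rw [h5]
      exact (hV vp).1 hvp
    have h6 : ((e.symm vp : ↥N) : G) = 1 := by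
      have h7 : ((e.symm vp : ↥N) : G) = γ * ((e.symm vq : ↥N) : G) * γ⁻¹ := by
        rw [← h3]
        group
      rw [h7, h4]
      group
    have h8 : vp = 1 := by
      have h9 : e.symm vp = 1 := Subtype.ext h6
      have h10 := congrArg e h9
      rw [e.apply_symm_apply, map_one] at h10
      exact h10
    rw [h8]
    group
  obtain ⟨p₁, hp₁, p₂, hp₂, hγ⟩ := sm2_double _ _ (hDof g hg hc) (hDof g' hg' hc')
  obtain ⟨v₁, hv₁, rfl⟩ := (hconj p₁).1 hp₁
  obtain ⟨v₂, hv₂, rfl⟩ := (hconj p₂).1 hp₂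
  have h1 : e ⟨g', hg'⟩ = v₁ * e ⟨g, hg⟩ * v₂ := by
    calc e ⟨g', hg'⟩ = a⁻¹ * (a * e ⟨g', hg'⟩ * a⁻¹) * a := by group
      _ = a⁻¹ * (a * v₁ * a⁻¹ * (a * e ⟨g, hg⟩ * a⁻¹) * (a * v₂ * a⁻¹)) * a := by rw [hγ]
      _ = v₁ * e ⟨g, hg⟩ * v₂ := by group
  have h2 : (⟨g', hg'⟩ : ↥N) = e.symm v₁ * ⟨g, hg⟩ * e.symm v₂ := by
    have h := congrArg e.symm h1
    rw [e.symm_apply_apply, map_mul, map_mul, e.symm_apply_apply] at h
    exact h
  exact ⟨_, _, (hV v₁).1 hv₁, (e.symm v₁).2, (hV v₂).1 hv₂, (e.symm v₂).2,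
    congrArg Subtype.val h2⟩

theorem sm2_main {G : Type*} [Group G] [Finite G] {n : ℕ} (N : Subgroup G) [N.Normal]
    (e : ↥N ≃* SLt[n]) (hidx : N.index = 2) (H : Sylow 2 G) (x : G) :
    (H : Subgroup G) ⊓ MulAut.conj x • (H : Subgroup G) ≠ ⊥ :=
  sm2_core N hidx H x
    (fun g g' hg hg' hc hc' => sm2_transfer N e hidx H g g' hg hg' hc hc')

end Transfer

end Cfsg.Agent.Helper5
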