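import Mathlib
import Cfsg.Agent.Helper5.Frame2c
import Cfsg.Agent.Helper15.ORoot5

/-!
Any two Sylow 2-subgroups of the isometry group of the hyperbolic quadratic form over the field
with two elements meet non-trivially: the pointwise stabiliser data of a totally singular
subspace of corank one is a 2-group, and for two such subspaces there is a non-trivial isometry
whose displacement is orthogonal to both.
-/

set_option autoImplicit false

namespace Cfsg.Agent.Helper5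

open scoped Pointwise

section SM

variable {F : Type*} [Field F]

/-- The polar form of the hyperbolic form against a coordinate vector. -/
theorem sm_polar_single (n : ℕ) (i : Fin n) (z : Fin n ⊕ Fin n → F) :
    QuadraticMap.polar (Cfsg.quadFormPlus n F) (Pi.single (Sum.inl i) 1) z = z (Sum.inr i) := by
  have h1 : ∀ j : Fin n, (Pi.single (Sum.inl i) (1 : F) : Fin n ⊕ Fin n → F) (Sum.inr j) = 0 :=
    fun j => Pi.single_eq_of_ne Sum.inr_ne_inl _
  have h3 : ∀ j : Fin n, (Pi.single (Sum.inl i) (1 : F) : Fin n ⊕ Fin n → F) (Sum.inl j)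
      = if j = i then 1 else 0 := by
    intro j
    by_cases hji : j = i
    · subst hji
      rw [Pi.single_eq_same, if_pos rfl]
    · rw [Pi.single_eq_of_ne (fun h => hji (Sum.inl.inj h)), if_neg hji]
  have hA : Cfsg.quadFormPlus n F (Pi.single (Sum.inl i) 1) = 0 := by
    unfold Cfsg.quadFormPlus
    exact Finset.sum_eq_zero (fun j _ => by rw [h1 j, mul_zero])
  have hB : Cfsg.quadFormPlus n F (Pi.single (Sum.inl i) 1 + z)
      = z (Sum.inr i) + Cfsg.quadFormPlus n F z := by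
    unfold Cfsg.quadFormPlus
    simp only [Pi.add_apply, h1, h3, zero_add, add_mul, Finset.sum_add_distrib, ite_mul, one_mul,
      zero_mul, Finset.sum_ite_eq', Finset.mem_univ, if_true]
  unfold QuadraticMap.polar
  rw [hB, hA, sub_zero, add_sub_cancel_right]

/-- The hyperbolic form on vectors whose `inr` coordinates vanish off the last index. -/
theorem sm_Q_perp (k : ℕ) (y : Fin (k + 1) ⊕ Fin (k + 1) → F)
    (hy : ∀ j : Fin k, y (Sum.inr j.castSucc) = 0) :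
    Cfsg.quadFormPlus (k + 1) F y = y (Sum.inl (Fin.last k)) * y (Sum.inr (Fin.last k)) := by
  have h0 : ∑ j : Fin k, y (Sum.inl j.castSucc) * y (Sum.inr j.castSucc) = 0 :=
    Finset.sum_eq_zero (fun j _ => by rw [hy j, mul_zero])
  unfold Cfsg.quadFormPlus
  rw [Fin.sum_univ_castSucc, h0, zero_add]

theorem sm_polar_zero (k : ℕ) (z w : Fin (k + 1) ⊕ Fin (k + 1) → F)
    (hz : ∀ j : Fin (k + 1), z (Sum.inr j) = 0) (hz' : z (Sum.inl (Fin.last k)) = 0)
    (hw : ∀ j : Fin k, w (Sum.inr j.castSucc) = 0) :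
    QuadraticMap.polar (Cfsg.quadFormPlus (k + 1) F) z w = 0 := by
  have h1 : Cfsg.quadFormPlus (k + 1) F z = 0 := by
    rw [sm_Q_perp k z (fun j => hz _), hz', zero_mul]
  have h3 : Cfsg.quadFormPlus (k + 1) F (z + w) = Cfsg.quadFormPlus (k + 1) F w := by
    rw [sm_Q_perp k (z + w) (fun j => by rw [Pi.add_apply, hz, hw, add_zero]),
      sm_Q_perp k w hw]
    simp only [Pi.add_apply, hz', hz, zero_add]
  unfold QuadraticMap.polar
  rw [h3, h1, sub_zero, sub_self]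

/-- The two-by-two matrices over the field with two elements preserving `xy` are involutions. -/
theorem sm_F2_mat [Fintype F] (hF : Fintype.card F = 2) (a b c d : F) (hab : a * b = 0)
    (hcd : c * d = 0) (hef : (a + c) * (b + d) = 1) (α β : F) :
    (α * a + β * c) * a + (α * b + β * d) * c = α ∧
      (α * a + β * c) * b + (α * b + β * d) * d = β := by
  rcases fc_2_cases hF a with rfl | rfl <;> rcases fc_2_cases hF b with rfl | rfl <;>
    rcases fc_2_cases hF c with rfl | rfl <;> rcases fc_2_cases hF d with rfl | rfl <;>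
    (first
      | exact absurd (by linear_combination hab : (1 : F) = 0) one_ne_zero
      | exact absurd (by linear_combination hcd : (1 : F) = 0) one_ne_zero
      | exact absurd (by linear_combination -hef : (1 : F) = 0) one_ne_zero
      | exact ⟨by ring1, by ring1⟩)

set_option maxHeartbeats 4000000 in
/-- A linear isometry of the hyperbolic space over the field with two elements whose
displacements have vanishing `inr` coordinates off the last index has order dividing four. -/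
theorem sm_lin4 [Fintype F] (hF : Fintype.card F = 2) (k : ℕ)
    (𝒬 : QuadraticForm F (Fin (k + 1) ⊕ Fin (k + 1) → F))
    (h𝒬 : ∀ v, 𝒬 v = Cfsg.quadFormPlus (k + 1) F v)
    (T : (Fin (k + 1) ⊕ Fin (k + 1) → F) ≃ₗ[F] (Fin (k + 1) ⊕ Fin (k + 1) → F))
    (hTq : ∀ v, 𝒬 (T v) = 𝒬 v)
    (hi : ∀ (x : Fin (k + 1) ⊕ Fin (k + 1) → F) (j : Fin k),
      (T x - x) (Sum.inr j.castSucc) = 0)
    (x : Fin (k + 1) ⊕ Fin (k + 1) → F) : T (T (T (T x))) = x := by
  have h2 : (2 : F) = 0 := fc_two_of_card2 hF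
  have hQf : ⇑𝒬 = Cfsg.quadFormPlus (k + 1) F := funext h𝒬
  have hnd : ∀ z : Fin (k + 1) ⊕ Fin (k + 1) → F,
      (∀ y, QuadraticMap.polar (⇑𝒬) y z = 0) → z = 0 :=
    fun z hz => Cfsg.Agent.Helper15.quadFormPlus_nondeg F (k + 1) 𝒬 h𝒬 z hz
  have hTp : ∀ u v : Fin (k + 1) ⊕ Fin (k + 1) → F,
      QuadraticMap.polar (⇑𝒬) (T u) (T v) = QuadraticMap.polar (⇑𝒬) u v := by
    intro u v
    rw [kit_polar_def, kit_polar_def, ← map_add T u v, hTq, hTq, hTq]
  have hfixE : ∀ y : Fin (k + 1) ⊕ Fin (k + 1) → F,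
      (∀ w : Fin (k + 1) ⊕ Fin (k + 1) → F, (∀ j : Fin k, w (Sum.inr j.castSucc) = 0) →
        QuadraticMap.polar (⇑𝒬) y w = 0) → T y = y := by
    intro y hy
    have h0 : T y - y = 0 := by
      apply hnd
      intro v
      obtain ⟨u, rfl⟩ := T.surjective v
      have h1 := hy (T u - u) (hi u)
      rw [QuadraticMap.polar_comm, QuadraticMap.polar_sub_left] at h1
      rw [QuadraticMap.polar_sub_right, hTp]
      linear_combination -h1
    exact sub_eq_zero.1 h0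
  have hfix : ∀ z : Fin (k + 1) ⊕ Fin (k + 1) → F, (∀ j : Fin (k + 1), z (Sum.inr j) = 0) →
      z (Sum.inl (Fin.last k)) = 0 → T z = z := by
    intro z hz hz'
    apply hfixE
    intro w hw
    exact (congrArg (fun q => QuadraticMap.polar q z w) hQf).trans
      (sm_polar_zero k z w hz hz' hw)
  obtain ⟨e, he⟩ : ∃ e : Fin (k + 1) ⊕ Fin (k + 1) → F,
      e = Pi.single (Sum.inl (Fin.last k)) 1 := ⟨_, rfl⟩
  obtain ⟨f, hf⟩ : ∃ f : Fin (k + 1) ⊕ Fin (k + 1) → F,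
      f = Pi.single (Sum.inr (Fin.last k)) 1 := ⟨_, rfl⟩
  have he_r : ∀ j : Fin (k + 1), e (Sum.inr j) = 0 := by
    intro j
    rw [he]
    exact Pi.single_eq_of_ne Sum.inr_ne_inl _
  have he_l : e (Sum.inl (Fin.last k)) = 1 := by
    rw [he]
    exact Pi.single_eq_same _ _
  have hf_il : ∀ j : Fin (k + 1), f (Sum.inl j) = 0 := by
    intro j
    rw [hf]
    exact Pi.single_eq_of_ne Sum.inl_ne_inr _
  have hf_c : ∀ j : Fin k, f (Sum.inr j.castSucc) = 0 := by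
    intro j
    rw [hf]
    exact Pi.single_eq_of_ne (fun h => (Fin.castSucc_lt_last j).ne (Sum.inr.inj h)) _
  have hf_l : f (Sum.inr (Fin.last k)) = 1 := by
    rw [hf]
    exact Pi.single_eq_same _ _
  obtain ⟨a, ha⟩ : ∃ a : F, a = T e (Sum.inl (Fin.last k)) := ⟨_, rfl⟩
  obtain ⟨b, hb⟩ : ∃ b : F, b = T e (Sum.inr (Fin.last k)) := ⟨_, rfl⟩
  obtain ⟨c, hc⟩ : ∃ c : F, c = T f (Sum.inl (Fin.last k)) := ⟨_, rfl⟩
  obtain ⟨d, hd⟩ : ∃ d : F, d = T f (Sum.inr (Fin.last k)) := ⟨_, rfl⟩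
  have hform : ∀ w : Fin (k + 1) ⊕ Fin (k + 1) → F,
      (∀ j : Fin k, w (Sum.inr j.castSucc) = 0) →
      T w = w - w (Sum.inl (Fin.last k)) • e - w (Sum.inr (Fin.last k)) • f
        + w (Sum.inl (Fin.last k)) • T e + w (Sum.inr (Fin.last k)) • T f := by
    intro w hw
    have hz : T (w - w (Sum.inl (Fin.last k)) • e - w (Sum.inr (Fin.last k)) • f)
        = w - w (Sum.inl (Fin.last k)) • e - w (Sum.inr (Fin.last k)) • f := by
      apply hfix
      · intro j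
        rcases Fin.eq_castSucc_or_eq_last j with ⟨j', rfl⟩ | rfl
        · simp only [Pi.sub_apply, Pi.smul_apply, smul_eq_mul, he_r, hf_c, hw j', mul_zero,
            sub_zero]
        · simp only [Pi.sub_apply, Pi.smul_apply, smul_eq_mul, he_r, hf_l, mul_zero, mul_one,
            sub_zero, sub_self]
      · simp only [Pi.sub_apply, Pi.smul_apply, smul_eq_mul, he_l, hf_il, mul_one, mul_zero,
          sub_self]
    rw [map_sub, map_sub, map_smul, map_smul] at hz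
    rw [sub_eq_iff_eq_add, sub_eq_iff_eq_add] at hz
    rw [hz]
    abel
  have hcL : ∀ w : Fin (k + 1) ⊕ Fin (k + 1) → F,
      (∀ j : Fin k, w (Sum.inr j.castSucc) = 0) →
      T w (Sum.inl (Fin.last k))
        = w (Sum.inl (Fin.last k)) * a + w (Sum.inr (Fin.last k)) * c := by
    intro w hw
    have h := congrFun (hform w hw) (Sum.inl (Fin.last k))
    simp only [Pi.add_apply, Pi.sub_apply, Pi.smul_apply, smul_eq_mul, he_l, hf_il, mul_one,
      mul_zero, sub_self, zero_add] at h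
    rw [ha, hc]
    linear_combination h
  have hcR : ∀ w : Fin (k + 1) ⊕ Fin (k + 1) → F,
      (∀ j : Fin k, w (Sum.inr j.castSucc) = 0) →
      T w (Sum.inr (Fin.last k))
        = w (Sum.inl (Fin.last k)) * b + w (Sum.inr (Fin.last k)) * d := by
    intro w hw
    have h := congrFun (hform w hw) (Sum.inr (Fin.last k))
    simp only [Pi.add_apply, Pi.sub_apply, Pi.smul_apply, smul_eq_mul, he_r, hf_l, mul_one,
      mul_zero, sub_zero, sub_self, zero_add] at h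
    rw [hb, hd]
    linear_combination h
  have hTperp : ∀ w : Fin (k + 1) ⊕ Fin (k + 1) → F,
      (∀ j : Fin k, w (Sum.inr j.castSucc) = 0) →
      ∀ j : Fin k, T w (Sum.inr j.castSucc) = 0 := by
    intro w hw j
    have h := hi w j
    rw [Pi.sub_apply, hw j, sub_zero] at h
    exact h
  have hQ2 : ∀ w : Fin (k + 1) ⊕ Fin (k + 1) → F,
      (∀ j : Fin k, w (Sum.inr j.castSucc) = 0) →
      𝒬 w = w (Sum.inl (Fin.last k)) * w (Sum.inr (Fin.last k)) := by
    intro w hw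
    rw [h𝒬]
    exact sm_Q_perp k w hw
  have hinv : ∀ w : Fin (k + 1) ⊕ Fin (k + 1) → F,
      (∀ j : Fin k, w (Sum.inr j.castSucc) = 0) →
      (w (Sum.inl (Fin.last k)) * a + w (Sum.inr (Fin.last k)) * c)
        * (w (Sum.inl (Fin.last k)) * b + w (Sum.inr (Fin.last k)) * d)
        = w (Sum.inl (Fin.last k)) * w (Sum.inr (Fin.last k)) := by
    intro w hw
    have h1 := hTq w
    rw [hQ2 (T w) (hTperp w hw), hQ2 w hw, hcL w hw, hcR w hw] at h1
    exact h1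
  have hab : a * b = 0 := by
    have h := hinv e (fun j => he_r _)
    rw [he_l, he_r] at h
    linear_combination h
  have hcd : c * d = 0 := by
    have h := hinv f hf_c
    rw [hf_il, hf_l] at h
    linear_combination h
  have hef : (a + c) * (b + d) = 1 := by
    have h := hinv (e + f) (fun j => by rw [Pi.add_apply, he_r, hf_c, add_zero])
    simp only [Pi.add_apply, he_l, he_r, hf_il, hf_l] at h
    linear_combination h
  have hTT : ∀ w : Fin (k + 1) ⊕ Fin (k + 1) → F,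
      (∀ j : Fin k, w (Sum.inr j.castSucc) = 0) →
      T (T w) (Sum.inl (Fin.last k)) = w (Sum.inl (Fin.last k)) ∧
        T (T w) (Sum.inr (Fin.last k)) = w (Sum.inr (Fin.last k)) := by
    intro w hw
    rw [hcL (T w) (hTperp w hw), hcR (T w) (hTperp w hw), hcL w hw, hcR w hw]
    exact sm_F2_mat hF a b c d hab hcd hef _ _
  have hz : ∀ w : Fin (k + 1) ⊕ Fin (k + 1) → F,
      (∀ j : Fin k, w (Sum.inr j.castSucc) = 0) → T (T (T w) - w) = T (T w) - w := by
    intro w hw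
    obtain ⟨h1, h3⟩ := hTT w hw
    apply hfix
    · intro j
      rcases Fin.eq_castSucc_or_eq_last j with ⟨j', rfl⟩ | rfl
      · rw [Pi.sub_apply, hTperp (T w) (hTperp w hw) j', hw j', sub_zero]
      · rw [Pi.sub_apply, h3, sub_self]
    · rw [Pi.sub_apply, h1, sub_self]
  have h := hz (T x - x) (hi x)
  simp only [map_sub] at h
  have h4 : T (T (T (T x))) = T (T (T x)) - T (T x) - (T x - x) + (T (T x) - T x)
      + T (T (T x)) := by
    rw [← h]
    abel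
  have h5 : T (T (T x)) - T (T x) - (T x - x) + (T (T x) - T x) + T (T (T x))
      = x + (2 : F) • T (T (T x)) - (2 : F) • T x := by
    module
  rw [h4, h5, h2, zero_smul, zero_smul, add_zero, sub_zero]

end SM

section Grp

variable {F : Type*} [Field F] {κ : Type} [Fintype κ] [DecidableEq κ]

theorem sm_one_act (𝒬 : QuadraticForm F (κ → F)) (y : κ → F) : isoActF ⇑𝒬 1 y = y := by
  rw [map_one]
  rfl

theorem sm_conj (𝒬 : QuadraticForm F (κ → F)) (a g : ↥(Cfsg.isometryGroup F ⇑𝒬))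
    (p y : κ → F)
    (h : QuadraticMap.polar (⇑𝒬) (isoActF ⇑𝒬 a p)
      (isoActF ⇑𝒬 g (isoActF ⇑𝒬 a y) - isoActF ⇑𝒬 a y) = 0) :
    QuadraticMap.polar (⇑𝒬) p (isoActF ⇑𝒬 (a⁻¹ * g * a) y - y) = 0 := by
  rw [← isoActF_polar 𝒬 a, map_sub, fq_mul_act, fq_mul_act, ← fq_mul_act 𝒬 a a⁻¹,
    mul_inv_cancel, sm_one_act]
  exact h

set_option maxHeartbeats 4000000 in
/-- In characteristic two, for a family of vectors of corank at least two there is a non-trivial
isometry all of whose displacements are orthogonal to the family. -/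
theorem sm_exists (h2 : (2 : F) = 0) (𝒬 : QuadraticForm F (κ → F))
    (hnd : ∀ z, (∀ y, QuadraticMap.polar (⇑𝒬) y z = 0) → z = 0)
    {ι : Type} [Fintype ι] (U : ι → κ → F) (hcard : Fintype.card ι + 2 ≤ Fintype.card κ) :
    ∃ g : ↥(Cfsg.isometryGroup F ⇑𝒬), g ≠ 1 ∧
      ∀ (y : κ → F) (s : ι), QuadraticMap.polar (⇑𝒬) (U s) (isoActF ⇑𝒬 g y - y) = 0 := by
  obtain ⟨K, hK⟩ : ∃ K : Submodule F (κ → F), K = LinearMap.ker
      (LinearMap.pi (fun s => QuadraticMap.polarBilin 𝒬 (U s)) : (κ → F) →ₗ[F] (ι → F)) :=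
    ⟨_, rfl⟩
  have hKmem : ∀ v, v ∈ K ↔ ∀ s, QuadraticMap.polar (⇑𝒬) (U s) v = 0 := by
    intro v
    rw [hK, LinearMap.mem_ker]
    constructor
    · intro h s
      exact congrFun h s
    · intro h
      funext s
      exact h s
  have hKdim : 2 ≤ Module.finrank F K := by
    have h1 := LinearMap.finrank_range_add_finrank_ker
      (LinearMap.pi (fun s => QuadraticMap.polarBilin 𝒬 (U s)) : (κ → F) →ₗ[F] (ι → F))
    have h3 := Submodule.finrank_le (LinearMap.range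
      (LinearMap.pi (fun s => QuadraticMap.polarBilin 𝒬 (U s)) : (κ → F) →ₗ[F] (ι → F)))
    rw [Module.finrank_fintype_fun_eq_card] at h1
    rw [Module.finrank_fintype_fun_eq_card] at h3
    rw [hK]
    omega
  have hKbot : K ≠ ⊥ := by
    intro h0
    rw [h0, finrank_bot] at hKdim
    omega
  obtain ⟨u₀, hu₀K, hu₀0⟩ := Submodule.exists_mem_ne_zero_of_ne_bot hKbot
  obtain ⟨w₀, hw₀K, hw₀⟩ : ∃ w₀ ∈ K, w₀ ∉ Submodule.span F {u₀} := by
    by_contra hcon
    have hle : K ≤ Submodule.span F {u₀} := by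
      intro z hz
      by_contra hz'
      exact hcon ⟨z, hz, hz'⟩
    have h1 := Submodule.finrank_mono hle
    rw [finrank_span_singleton hu₀0] at h1
    omega
  by_cases hA : ∃ v ∈ K, 𝒬 v ≠ 0
  · obtain ⟨v, hvK, hv⟩ := hA
    have hv0 : v ≠ 0 := fun h => hv (by rw [h, QuadraticMap.map_zero])
    refine ⟨reflEl 𝒬 v hv, ?_, ?_⟩
    · intro h1
      obtain ⟨y, hy⟩ : ∃ y, QuadraticMap.polar (⇑𝒬) y v ≠ 0 := by
        by_contra hcon
        exact hv0 (hnd v (fun y => by_contra (fun h => hcon ⟨y, h⟩)))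
      have h3 := fc_refl h2 𝒬 v hv y
      rw [h1, sm_one_act] at h3
      have h5 : ((𝒬 v)⁻¹ * QuadraticMap.polar (⇑𝒬) v y) • v = 0 := by
        have h6 : y + ((𝒬 v)⁻¹ * QuadraticMap.polar (⇑𝒬) v y) • v = y + 0 := by
          rw [add_zero]
          exact h3.symm
        exact add_left_cancel h6
      rcases smul_eq_zero.1 h5 with h7 | h7
      · rcases mul_eq_zero.1 h7 with h8 | h8
        · exact hv (inv_eq_zero.1 h8)
        · exact hy (by rw [QuadraticMap.polar_comm]; exact h8)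
      · exact hv0 h7
    · intro y s
      rw [fc_refl h2 𝒬 v hv y, add_sub_cancel_left, QuadraticMap.polar_smul_right,
        (hKmem v).1 hvK s, smul_zero]
  · have hB : ∀ v ∈ K, 𝒬 v = 0 := by
      intro v hv
      by_contra h
      exact hA ⟨v, hv, h⟩
    have hQu : 𝒬 u₀ = 0 := hB u₀ hu₀K
    have hQw : 𝒬 w₀ = 0 := hB w₀ hw₀K
    have huu : QuadraticMap.polar (⇑𝒬) u₀ u₀ = 0 := by rw [kit_polar_self, hQu, mul_zero]
    have hww : QuadraticMap.polar (⇑𝒬) w₀ w₀ = 0 := by rw [kit_polar_self, hQw, mul_zero]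
    have huw : QuadraticMap.polar (⇑𝒬) u₀ w₀ = 0 := by
      rw [kit_polar_def, hB _ (K.add_mem hu₀K hw₀K), hQu, hQw, sub_zero, sub_zero]
    have hwu : QuadraticMap.polar (⇑𝒬) w₀ u₀ = 0 := by
      rw [QuadraticMap.polar_comm]
      exact huw
    obtain ⟨τ, hτ⟩ : ∃ τ : (κ → F) →ₗ[F] (κ → F), ∀ y, τ y = y
        + QuadraticMap.polar (⇑𝒬) u₀ y • w₀ + QuadraticMap.polar (⇑𝒬) w₀ y • u₀ :=
      ⟨LinearMap.id + (QuadraticMap.polarBilin 𝒬 u₀).smulRight w₀
        + (QuadraticMap.polarBilin 𝒬 w₀).smulRight u₀, fun y => rfl⟩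
    have e1 : ∀ y, QuadraticMap.polar (⇑𝒬) u₀ (τ y) = QuadraticMap.polar (⇑𝒬) u₀ y := by
      intro y
      rw [hτ]
      simp only [QuadraticMap.polar_add_right, QuadraticMap.polar_smul_right, huu, huw,
        smul_zero, add_zero]
    have e2 : ∀ y, QuadraticMap.polar (⇑𝒬) w₀ (τ y) = QuadraticMap.polar (⇑𝒬) w₀ y := by
      intro y
      rw [hτ]
      simp only [QuadraticMap.polar_add_right, QuadraticMap.polar_smul_right, hww, hwu,
        smul_zero, add_zero]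
    have hττ : ∀ y, τ (τ y) = y := by
      intro y
      have key : ∀ α β : F, y + α • w₀ + β • u₀ + α • w₀ + β • u₀
          = y + (2 * α) • w₀ + (2 * β) • u₀ := by
        intro α β
        module
      rw [hτ (τ y), e1, e2, hτ y, key, h2, zero_mul, zero_mul, zero_smul, zero_smul, add_zero,
        add_zero]
    have hτQ : ∀ y, 𝒬 (τ y) = 𝒬 y := by
      intro y
      have q1 : ∀ α : F, 𝒬 (α • w₀) = 0 := fun α => by
        rw [QuadraticMap.map_smul, hQw, smul_zero]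
      have q2 : ∀ β : F, 𝒬 (β • u₀) = 0 := fun β => by
        rw [QuadraticMap.map_smul, hQu, smul_zero]
      have p1 : ∀ α : F, QuadraticMap.polar (⇑𝒬) y (α • w₀)
          = α * QuadraticMap.polar (⇑𝒬) w₀ y := fun α => by
        rw [QuadraticMap.polar_smul_right, smul_eq_mul, QuadraticMap.polar_comm]
      have p2 : ∀ α β : F, QuadraticMap.polar (⇑𝒬) (y + α • w₀) (β • u₀)
          = β * QuadraticMap.polar (⇑𝒬) u₀ y := fun α β => by
        rw [QuadraticMap.polar_smul_right, QuadraticMap.polar_add_left,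
          QuadraticMap.polar_smul_left, hwu, smul_zero, add_zero, smul_eq_mul,
          QuadraticMap.polar_comm]
      rw [hτ, kit_add, kit_add, q1, q2, p1, p2]
      linear_combination
        (QuadraticMap.polar (⇑𝒬) u₀ y * QuadraticMap.polar (⇑𝒬) w₀ y) * h2
    obtain ⟨A, hA'⟩ := isoActF_surj ⇑𝒬
      (LinearEquiv.ofLinearMap τ τ (LinearMap.ext hττ) (LinearMap.ext hττ)) (fun y => hτQ y)
    have hAy : ∀ y, isoActF ⇑𝒬 A y = τ y := by
      intro y
      rw [hA']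
      rfl
    refine ⟨A, ?_, ?_⟩
    · intro h1
      obtain ⟨y, hy⟩ : ∃ y, QuadraticMap.polar (⇑𝒬) y u₀ ≠ 0 := by
        by_contra hcon
        exact hu₀0 (hnd u₀ (fun y => by_contra (fun h => hcon ⟨y, h⟩)))
      have hy' : QuadraticMap.polar (⇑𝒬) u₀ y ≠ 0 := by
        rw [QuadraticMap.polar_comm]
        exact hy
      have h3 := hAy y
      rw [h1, sm_one_act, hτ] at h3
      have h4 : QuadraticMap.polar (⇑𝒬) u₀ y • w₀ + QuadraticMap.polar (⇑𝒬) w₀ y • u₀ = 0 := by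
        have h5 : y + (QuadraticMap.polar (⇑𝒬) u₀ y • w₀ + QuadraticMap.polar (⇑𝒬) w₀ y • u₀)
            = y + 0 := by
          rw [add_zero, ← add_assoc]
          exact h3.symm
        exact add_left_cancel h5
      have h6 : QuadraticMap.polar (⇑𝒬) u₀ y • w₀ = -(QuadraticMap.polar (⇑𝒬) w₀ y • u₀) :=
        eq_neg_of_add_eq_zero_left h4
      have h7 : w₀
          = (-((QuadraticMap.polar (⇑𝒬) u₀ y)⁻¹ * QuadraticMap.polar (⇑𝒬) w₀ y)) • u₀ := by
        calc w₀ = (QuadraticMap.polar (⇑𝒬) u₀ y)⁻¹ • (QuadraticMap.polar (⇑𝒬) u₀ y • w₀) := by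
              rw [smul_smul, inv_mul_cancel₀ hy', one_smul]
          _ = (-((QuadraticMap.polar (⇑𝒬) u₀ y)⁻¹ * QuadraticMap.polar (⇑𝒬) w₀ y)) • u₀ := by
              rw [h6, smul_neg, smul_smul, neg_smul]
      exact hw₀ (Submodule.mem_span_singleton.2 ⟨_, h7.symm⟩)
    · intro y s
      rw [hAy, hτ, add_assoc, add_sub_cancel_left, QuadraticMap.polar_add_right,
        QuadraticMap.polar_smul_right, QuadraticMap.polar_smul_right, (hKmem w₀).1 hw₀K s,
        (hKmem u₀).1 hu₀K s, smul_zero, smul_zero, add_zero]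

end Grp

section Main

variable {F : Type*} [Field F]

/-- Isometries whose displacements are orthogonal to the first `k` coordinate vectors. -/
def sm_pred (k : ℕ) (𝒬 : QuadraticForm F (Fin (k + 1) ⊕ Fin (k + 1) → F))
    (g : ↥(Cfsg.isometryGroup F ⇑𝒬)) : Prop :=
  ∀ (y : Fin (k + 1) ⊕ Fin (k + 1) → F) (j : Fin k),
    QuadraticMap.polar (⇑𝒬) (Pi.single (Sum.inl j.castSucc) 1) (isoActF ⇑𝒬 g y - y) = 0

theorem sm_pred_mul (k : ℕ) (𝒬 : QuadraticForm F (Fin (k + 1) ⊕ Fin (k + 1) → F))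
    {a b : ↥(Cfsg.isometryGroup F ⇑𝒬)} (ha : sm_pred k 𝒬 a) (hb : sm_pred k 𝒬 b) :
    sm_pred k 𝒬 (a * b) := by
  intro y j
  have h1 := ha (isoActF ⇑𝒬 b y) j
  have h3 := hb y j
  have h4 : isoActF ⇑𝒬 (a * b) y - y
      = (isoActF ⇑𝒬 a (isoActF ⇑𝒬 b y) - isoActF ⇑𝒬 b y) + (isoActF ⇑𝒬 b y - y) := by
    rw [fq_mul_act]
    abel
  rw [h4, QuadraticMap.polar_add_right, h1, h3, add_zero]

theorem sm_pred_one (k : ℕ) (𝒬 : QuadraticForm F (Fin (k + 1) ⊕ Fin (k + 1) → F)) :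
    sm_pred k 𝒬 1 := by
  intro y j
  rw [sm_one_act, sub_self, QuadraticMap.polar_zero_right]

theorem sm_pred_inv (k : ℕ) (𝒬 : QuadraticForm F (Fin (k + 1) ⊕ Fin (k + 1) → F))
    {a : ↥(Cfsg.isometryGroup F ⇑𝒬)} (ha : sm_pred k 𝒬 a) : sm_pred k 𝒬 a⁻¹ := by
  intro y j
  have h1 := ha (isoActF ⇑𝒬 a⁻¹ y) j
  rw [← fq_mul_act, mul_inv_cancel, sm_one_act] at h1
  rw [← neg_sub, QuadraticMap.polar_neg_right, h1, neg_zero]

/-- The subgroup cut out by `sm_pred`. -/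
noncomputable def sm_sub (k : ℕ) (𝒬 : QuadraticForm F (Fin (k + 1) ⊕ Fin (k + 1) → F)) :
    Subgroup ↥(Cfsg.isometryGroup F ⇑𝒬) where
  carrier := {g | sm_pred k 𝒬 g}
  mul_mem' := fun ha hb => sm_pred_mul k 𝒬 ha hb
  one_mem' := sm_pred_one k 𝒬
  inv_mem' := fun ha => sm_pred_inv k 𝒬 ha

theorem sm_mem_sub (k : ℕ) (𝒬 : QuadraticForm F (Fin (k + 1) ⊕ Fin (k + 1) → F))
    (g : ↥(Cfsg.isometryGroup F ⇑𝒬)) : g ∈ sm_sub k 𝒬 ↔ sm_pred k 𝒬 g := Iff.rfl

theorem sm_mem_conj (k : ℕ) (𝒬 : QuadraticForm F (Fin (k + 1) ⊕ Fin (k + 1) → F))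
    (a g : ↥(Cfsg.isometryGroup F ⇑𝒬))
    (h : ∀ (y : Fin (k + 1) ⊕ Fin (k + 1) → F) (j : Fin k),
      QuadraticMap.polar (⇑𝒬) (isoActF ⇑𝒬 a (Pi.single (Sum.inl j.castSucc) 1))
        (isoActF ⇑𝒬 g y - y) = 0) :
    a⁻¹ * g * a ∈ sm_sub k 𝒬 :=
  (sm_mem_sub k 𝒬 _).2 (fun y j => sm_conj 𝒬 a g _ y (h (isoActF ⇑𝒬 a y) j))

theorem sm_pow_four [Fintype F] (hF : Fintype.card F = 2) (k : ℕ)
    (𝒬 : QuadraticForm F (Fin (k + 1) ⊕ Fin (k + 1) → F))
    (h𝒬 : ∀ v, 𝒬 v = Cfsg.quadFormPlus (k + 1) F v)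
    (g : ↥(Cfsg.isometryGroup F ⇑𝒬)) (hg : sm_pred k 𝒬 g) : g ^ 4 = 1 := by
  have hQf : ⇑𝒬 = Cfsg.quadFormPlus (k + 1) F := funext h𝒬
  have hpol : ∀ (i : Fin (k + 1)) (z : Fin (k + 1) ⊕ Fin (k + 1) → F),
      QuadraticMap.polar (⇑𝒬) (Pi.single (Sum.inl i) 1) z = z (Sum.inr i) := fun i z =>
    (congrArg (fun q => QuadraticMap.polar q (Pi.single (Sum.inl i) 1) z) hQf).trans
      (sm_polar_single (k + 1) i z)
  have h4 := sm_lin4 hF k 𝒬 h𝒬 (isoActF ⇑𝒬 g) (isoActF_isom ⇑𝒬 g)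
    (fun y j => (hpol j.castSucc (isoActF ⇑𝒬 g y - y)).symm.trans (hg y j))
  have h5 : g * g * g * g = 1 := by
    apply isoActF_injective ⇑𝒬
    apply LinearEquiv.ext
    intro y
    rw [fq_mul_act, fq_mul_act, fq_mul_act, sm_one_act]
    exact h4 y
  have h6 : g ^ 4 = g * g * g * g := by
    rw [pow_succ, pow_succ, pow_succ, pow_one]
  rw [h6]
  exact h5

theorem sm_main [Fintype F] (hF : Fintype.card F = 2) (k : ℕ)
    (𝒬 : QuadraticForm F (Fin (k + 1) ⊕ Fin (k + 1) → F))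
    (h𝒬 : ∀ v, 𝒬 v = Cfsg.quadFormPlus (k + 1) F v)
    (H : Sylow 2 ↥(Cfsg.isometryGroup F ⇑𝒬)) (x : ↥(Cfsg.isometryGroup F ⇑𝒬)) :
    (H : Subgroup ↥(Cfsg.isometryGroup F ⇑𝒬)) ⊓ MulAut.conj x • (H : Subgroup _) ≠ ⊥ := by
  have h2 : (2 : F) = 0 := fc_two_of_card2 hF
  have hnd : ∀ z : Fin (k + 1) ⊕ Fin (k + 1) → F,
      (∀ y, QuadraticMap.polar (⇑𝒬) y z = 0) → z = 0 :=
    fun z hz => Cfsg.Agent.Helper15.quadFormPlus_nondeg F (k + 1) 𝒬 h𝒬 z hz
  have hNp : IsPGroup 2 ↥(sm_sub k 𝒬) := by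
    intro g
    refine ⟨2, Subtype.ext ?_⟩
    have h4 := sm_pow_four hF k 𝒬 h𝒬 g.1 ((sm_mem_sub k 𝒬 g.1).1 g.2)
    rw [Subgroup.coe_pow, Subgroup.coe_one]
    exact h4
  obtain ⟨P, hNP⟩ := hNp.exists_le_sylow
  obtain ⟨g₁, hg₁⟩ := MulAction.exists_smul_eq ↥(Cfsg.isometryGroup F ⇑𝒬) P H
  have hH : (H : Subgroup ↥(Cfsg.isometryGroup F ⇑𝒬))
      = MulAut.conj g₁ • (P : Subgroup ↥(Cfsg.isometryGroup F ⇑𝒬)) := by
    rw [← hg₁, Sylow.coe_subgroup_smul]
  obtain ⟨g, hg1, hgU⟩ := sm_exists h2 𝒬 hnd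
    (Sum.elim (fun j : Fin k => isoActF ⇑𝒬 g₁ (Pi.single (Sum.inl j.castSucc) 1))
      (fun j : Fin k => isoActF ⇑𝒬 (x * g₁) (Pi.single (Sum.inl j.castSucc) 1)))
    (by simp only [Fintype.card_sum, Fintype.card_fin]; omega)
  have hm1 : g₁⁻¹ * g * g₁ ∈ sm_sub k 𝒬 :=
    sm_mem_conj k 𝒬 g₁ g (fun y j => hgU y (Sum.inl j))
  have hm2 : (x * g₁)⁻¹ * g * (x * g₁) ∈ sm_sub k 𝒬 :=
    sm_mem_conj k 𝒬 (x * g₁) g (fun y j => hgU y (Sum.inr j))
  have hgH : g ∈ (H : Subgroup ↥(Cfsg.isometryGroup F ⇑𝒬)) := by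
    rw [hH, Subgroup.mem_smul_pointwise_iff_exists]
    refine ⟨g₁⁻¹ * g * g₁, hNP hm1, ?_⟩
    rw [MulAut.smul_def, MulAut.conj_apply]
    group
  have hgH' : g ∈ MulAut.conj x • (H : Subgroup ↥(Cfsg.isometryGroup F ⇑𝒬)) := by
    rw [Subgroup.mem_smul_pointwise_iff_exists]
    refine ⟨x⁻¹ * g * x, ?_, ?_⟩
    · rw [hH, Subgroup.mem_smul_pointwise_iff_exists]
      refine ⟨(x * g₁)⁻¹ * g * (x * g₁), hNP hm2, ?_⟩
      rw [MulAut.smul_def, MulAut.conj_apply]
      group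
    · rw [MulAut.smul_def, MulAut.conj_apply]
      group
  intro hbot
  have hg' : g ∈ (⊥ : Subgroup ↥(Cfsg.isometryGroup F ⇑𝒬)) := by
    rw [← hbot]
    exact Subgroup.mem_inf.2 ⟨hgH, hgH'⟩
  exact hg1 (Subgroup.mem_bot.1 hg')

theorem sm_final [Fintype F] (hF : Fintype.card F = 2) (k : ℕ)
    (𝒬 : QuadraticForm F (Fin (k + 1) ⊕ Fin (k + 1) → F))
    (Qf : (Fin (k + 1) ⊕ Fin (k + 1) → F) → F) (hQf : Qf = ⇑𝒬)
    (h𝒬 : ∀ v, 𝒬 v = Cfsg.quadFormPlus (k + 1) F v)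
    (H : Sylow 2 ↥(Cfsg.isometryGroup F Qf)) (x : ↥(Cfsg.isometryGroup F Qf)) :
    (H : Subgroup ↥(Cfsg.isometryGroup F Qf)) ⊓ MulAut.conj x • (H : Subgroup _) ≠ ⊥ := by
  subst hQf
  exact sm_main hF k 𝒬 h𝒬 H x

end Main

end Cfsg.Agent.Helper5
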